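import Mathlib

set_option autoImplicit false
set_option linter.all false

namespace H56.BmL

open Subgroup

variable {A : Type*} [CommGroup A] [Finite A]

/-- the averaging decomposition for a coprime action on an abelian group -/
theorem decomp (K : Subgroup (MulAut A)) (hcop : (Nat.card K).Coprime (Nat.card A))
    {W : Subgroup A} (hW : ∀ k ∈ K, ∀ a, k a * a⁻¹ ∈ W) (a : A) :
    ∃ w ∈ W, ∃ c, (∀ k ∈ K, k c = c) ∧ a = w * c := by
  classical
  haveI := Fintype.ofFinite K
  set n := Nat.card K with hn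
  -- invert n
  obtain ⟨m, hm⟩ : ∃ m : ℕ, (a ^ n) ^ m = a := by
    have h1 : (orderOf a).Coprime n := (Nat.Coprime.coprime_dvd_left (orderOf_dvd_natCard a) hcop.symm)
    obtain ⟨m, hm⟩ := exists_pow_eq_self_of_coprime (n := n) h1.symm
    exact ⟨m, hm⟩
  let N : A := ∏ k : K, (k : MulAut A) a
  have hNfix : ∀ k ∈ K, k N = N := by
    intro k hk
    show k (∏ x : K, (x : MulAut A) a) = _
    rw [map_prod]
    refine Fintype.prod_equiv (Equiv.mulLeft (⟨k, hk⟩ : K)) _ _ (fun x => ?_)
    rfl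
  have hcard : Fintype.card K = n := by rw [hn, Nat.card_eq_fintype_card]
  have hNW : a ^ n * N⁻¹ ∈ W := by
    have e1 : (a ^ n * N⁻¹)⁻¹ = ∏ k : K, ((k : MulAut A) a * a⁻¹) := by
      rw [Finset.prod_mul_distrib, Finset.prod_const, Finset.card_univ, hcard, mul_inv_rev, inv_inv,
        inv_pow]
    have h2 : (a ^ n * N⁻¹)⁻¹ ∈ W := by
      rw [e1]
      exact Subgroup.prod_mem _ (fun k _ => hW k k.2 a)
    have := W.inv_mem h2
    rwa [inv_inv] at this
  refine ⟨(a ^ n * N⁻¹) ^ m, W.pow_mem hNW m, N ^ m, fun k hk => ?_, ?_⟩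
  · rw [map_pow, hNfix k hk]
  · rw [← mul_pow, inv_mul_cancel_right, hm]

structure Dt (E : Subgroup (MulAut A)) (W : Subgroup A) : Prop where
  comm : ∀ e ∈ E, ∀ a, e a * a⁻¹ ∈ W
  fpf : ∀ e ∈ E, e ≠ 1 → ∀ w ∈ W, e w = w → w = 1
  irr : ∀ U : Subgroup A, U ≤ W → (∀ e ∈ E, ∀ u ∈ U, e u ∈ U) → U = ⊥ ∨ U = W
  ne : ∃ e ∈ E, e ≠ 1
  sq : ∀ f ∈ E, f ≠ 1 → f * f = 1 → ∃ h ∈ E, h * h = f

theorem Dt.inv {E : Subgroup (MulAut A)} {W : Subgroup A} (h : Dt E W) {e : MulAut A} (he : e ∈ E)
    {w : A} (hw : w ∈ W) : e w ∈ W := by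
  have := W.mul_mem (h.comm e he w) hw
  rwa [inv_mul_cancel_right] at this

theorem Dt.conj {E : Subgroup (MulAut A)} {W : Subgroup A} (h : Dt E W) (g : MulAut A) :
    Dt (E.map (MulAut.conj g).toMonoidHom) (W.map g.toMonoidHom) := by
  have hmem : ∀ x, x ∈ E.map (MulAut.conj g).toMonoidHom ↔ ∃ e ∈ E, g * e * g⁻¹ = x := by
    intro x; rfl
  have happ : ∀ e a, (g * e * g⁻¹) (g a) = g (e a) := by
    intro e a
    rw [MulAut.mul_apply, MulAut.mul_apply, MulAut.inv_apply_self]
  refine ⟨?_, ?_, ?_, ?_, ?_⟩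
  · intro x hx a
    obtain ⟨e, he, rfl⟩ := (hmem x).1 hx
    obtain ⟨b, rfl⟩ := g.surjective a
    rw [happ]
    refine ⟨e b * b⁻¹, h.comm e he b, ?_⟩
    show g (e b * b⁻¹) = _
    rw [map_mul, map_inv]
  · rintro x hx hx1 _ ⟨w, hw, rfl⟩ hxw
    obtain ⟨e, he, rfl⟩ := (hmem x).1 hx
    have h1 : (g * e * g⁻¹) (g w) = g w := hxw
    rw [happ] at h1
    have he1 : e ≠ 1 := by
      rintro rfl
      apply hx1; group
    have h2 := h.fpf e he he1 w hw (g.injective h1)
    show g w = 1
    rw [h2, map_one]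
  · intro U hU hinv
    rcases h.irr (U.comap g.toMonoidHom) (by
      intro u hu
      obtain ⟨w, hw, hwu⟩ := hU hu
      have : w = u := g.injective hwu
      rw [← this]; exact hw) (by
      intro e he u hu
      show g (e u) ∈ U
      rw [← happ]
      exact hinv _ ((hmem _).2 ⟨e, he, rfl⟩) _ hu) with h1 | h1
    · left
      rw [eq_bot_iff]
      intro u hu
      obtain ⟨v, rfl⟩ := g.surjective u
      have : v ∈ U.comap g.toMonoidHom := hu
      rw [h1, mem_bot] at this
      rw [this, map_one]; exact one_mem _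
    · right
      rw [← h1]
      ext u
      constructor
      · intro hu
        obtain ⟨v, rfl⟩ := g.surjective u
        exact ⟨v, hu, rfl⟩
      · rintro ⟨v, hv, rfl⟩
        exact hv
  · obtain ⟨e, he, he1⟩ := h.ne
    refine ⟨g * e * g⁻¹, (hmem _).2 ⟨e, he, rfl⟩, fun e1 => he1 ?_⟩
    have : e = g⁻¹ * (g * e * g⁻¹) * g := by group
    rw [this, e1]; group
  · intro x hx hx1 hxx
    obtain ⟨e, he, rfl⟩ := (hmem x).1 hx
    have he1 : e ≠ 1 := by
      rintro rfl
      apply hx1; group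
    have hee : e * e = 1 := by
      have : e * e = g⁻¹ * ((g * e * g⁻¹) * (g * e * g⁻¹)) * g := by group
      rw [this, hxx]; group
    obtain ⟨k, hk, hkk⟩ := h.sq e he he1 hee
    refine ⟨g * k * g⁻¹, (hmem _).2 ⟨k, hk, rfl⟩, ?_⟩
    rw [← hkk]; group

/-- if `W` is `F`-invariant -/
theorem s1 {E F : Subgroup (MulAut A)} {W Y : Subgroup A} (hF : Dt F Y)
    (hc : Nat.card W = Nat.card Y) (hinv : ∀ f ∈ F, ∀ w ∈ W, f w ∈ W) :
    W = Y ∨ ∀ f ∈ F, ∀ w ∈ W, f w = w := by
  rcases hF.irr (Y ⊓ W) inf_le_left (fun f hf u hu => ⟨hF.inv hf hu.1, hinv f hf u hu.2⟩) with h | h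
  · right
    intro f hf w hw
    have h1 : f w * w⁻¹ ∈ Y ⊓ W := ⟨hF.comm f hf w, W.mul_mem (hinv f hf w hw) (W.inv_mem hw)⟩
    rw [h, mem_bot] at h1
    exact mul_inv_eq_one.1 h1
  · left
    have h1 : Y ≤ W := by rw [← h]; exact inf_le_right
    exact (Subgroup.eq_of_le_of_card_ge h1 hc.le).symm

theorem inv_sup {E F : Subgroup (MulAut A)} {W : Subgroup A} (h1 : ∀ e ∈ E, ∀ w ∈ W, e w ∈ W)
    (h2 : ∀ e ∈ F, ∀ w ∈ W, e w ∈ W) : ∀ g ∈ E ⊔ F, ∀ w ∈ W, g w ∈ W := by
  let St : Subgroup (MulAut A) :=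
    { carrier := {g | (∀ w ∈ W, g w ∈ W) ∧ (∀ w ∈ W, g⁻¹ w ∈ W)}
      one_mem' := ⟨fun w hw => hw, fun w hw => by rw [inv_one]; exact hw⟩
      mul_mem' := by
        rintro x y ⟨hx, hx'⟩ ⟨hy, hy'⟩
        refine ⟨fun w hw => hx _ (hy w hw), fun w hw => ?_⟩
        rw [mul_inv_rev]
        exact hy' _ (hx' w hw)
      inv_mem' := by
        rintro x ⟨hx, hx'⟩
        refine ⟨hx', fun w hw => ?_⟩
        rw [inv_inv]; exact hx w hw }
  have hE : E ≤ St := fun e he => ⟨h1 e he, h1 _ (E.inv_mem he)⟩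
  have hF : F ≤ St := fun e he => ⟨h2 e he, h2 _ (F.inv_mem he)⟩
  intro g hg
  exact (sup_le hE hF hg).1

theorem lin {r : ℕ} [hr : Fact r.Prime] (n : ℕ) : ∀ P : Subgroup (MulAut A), Nat.card P = n →
    IsPGroup r P → (Nat.card P).Coprime (Nat.card A) → ∀ (E F : Subgroup (MulAut A))
    (W Y : Subgroup A), E ≤ P → F ≤ P → Dt E W → Dt F Y → Nat.card W = Nat.card Y →
    (W = Y ∨ ((∀ f ∈ F, ∀ w ∈ W, f w = w) ∧ (∀ e ∈ E, ∀ w ∈ Y, e w = w))) := by
  induction n using Nat.strong_induction_on with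
  | _ n ih =>
  intro P hn hP hcop E F W Y hEP hFP hE hF hc
  have hsub : ∀ P' : Subgroup (MulAut A), P' < P → ∀ (E F : Subgroup (MulAut A))
    (W Y : Subgroup A), E ≤ P' → F ≤ P' → Dt E W → Dt F Y → Nat.card W = Nat.card Y →
    (W = Y ∨ ((∀ f ∈ F, ∀ w ∈ W, f w = w) ∧ (∀ e ∈ E, ∀ w ∈ Y, e w = w))) := by
    intro P' hP' 
    refine ih _ ?_ P' rfl (hP.to_le hP'.le) (Nat.Coprime.coprime_dvd_left (card_dvd_of_le hP'.le) hcop)
    rw [← hn]
    exact lt_of_le_of_ne (Nat.le_of_dvd Nat.card_pos (card_dvd_of_le hP'.le))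
      (fun h => hP'.ne (eq_of_le_of_card_ge hP'.le h.ge))
  by_cases hEF : E ⊔ F = P
  swap
  · exact hsub _ (lt_of_le_of_ne (sup_le hEP hFP) hEF) E F W Y le_sup_left le_sup_right hE hF hc
  by_cases hinvF : ∀ f ∈ F, ∀ w ∈ W, f w ∈ W
  · -- W is P-invariant
    rcases s1 (E := E) hF hc hinvF with h | h
    · exact Or.inl h
    · right
      refine ⟨h, ?_⟩
      have hWP : ∀ g ∈ P, ∀ w ∈ W, g w ∈ W := by
        intro g hg
        rw [← hEF] at hg
        exact inv_sup (fun x hx w hw => hE.inv hx hw) hinvF g hg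
      let K : Subgroup (MulAut A) :=
        { carrier := {g | g ∈ P ∧ ∀ a, g a * a⁻¹ ∈ W}
          one_mem' := ⟨P.one_mem, fun a => by
            show a * a⁻¹ ∈ W
            rw [mul_inv_cancel]; exact W.one_mem⟩
          mul_mem' := by
            rintro x y ⟨hx, hx'⟩ ⟨hy, hy'⟩
            refine ⟨P.mul_mem hx hy, fun a => ?_⟩
            have : (x * y) a * a⁻¹ = (x (y a) * (y a)⁻¹) * (y a * a⁻¹) := by
              rw [MulAut.mul_apply]; group
            rw [this]
            exact W.mul_mem (hx' _) (hy' _)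
          inv_mem' := by
            rintro x ⟨hx, hx'⟩
            refine ⟨P.inv_mem hx, fun a => ?_⟩
            have h1 := hx' (x⁻¹ a)
            rw [MulAut.apply_inv_self] at h1
            have h2 := W.inv_mem h1
            have : (a * (x⁻¹ a)⁻¹)⁻¹ = x⁻¹ a * a⁻¹ := by group
            rwa [this] at h2 }
      have hKP : K ≤ P := fun g hg => hg.1
      have hEK : E ≤ K := fun e he => ⟨hEP he, hE.comm e he⟩
      have hKn : ∀ g ∈ P, ∀ k ∈ K, g⁻¹ * k * g ∈ K := by
        rintro g hg k ⟨hk, hk'⟩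
        refine ⟨P.mul_mem (P.mul_mem (P.inv_mem hg) hk) hg, fun a => ?_⟩
        have h1 := hWP _ (P.inv_mem hg) _ (hk' (g a))
        rw [map_mul, map_inv, MulAut.inv_apply_self] at h1
        exact h1
      have hdec := decomp K (Nat.Coprime.coprime_dvd_left (card_dvd_of_le hKP) hcop)
        (W := W) (fun k hk a => hk.2 a)
      -- the fixed points of K
      let C : Subgroup A :=
        { carrier := {a | ∀ k ∈ K, k a = a}
          mul_mem' := by
            intro a b ha hb k hk
            rw [map_mul, ha k hk, hb k hk]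
          one_mem' := by intro k hk; exact map_one k
          inv_mem' := by
            intro a ha k hk
            rw [map_inv, ha k hk] }
      have hCP : ∀ g ∈ P, ∀ c ∈ C, g c ∈ C := by
        intro g hg c hcC k hk
        have h1 := hcC _ (hKn g hg k hk)
        have h2 : g ((g⁻¹ * k * g) c) = k (g c) := by
          rw [MulAut.mul_apply, MulAut.mul_apply, MulAut.apply_inv_self]
        rw [← h2, h1]
      rcases hF.irr (Y ⊓ C) inf_le_left
        (fun f hf u hu => ⟨hF.inv hf hu.1, hCP f (hFP hf) u hu.2⟩) with h1 | h1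
      · exfalso
        obtain ⟨f, hf, hf1⟩ := hF.ne
        apply hf1
        -- f acts trivially on Y hence Y = 1
        have hY1 : ∀ y ∈ Y, y = 1 := by
          intro y hy
          obtain ⟨w, hw, c, hcc, rfl⟩ := hdec y
          have h2 : f (w * c) * (w * c)⁻¹ = f c * c⁻¹ := by
            rw [map_mul, h f hf w hw]
            rw [mul_inv_rev, mul_comm w, mul_assoc, mul_comm c⁻¹, ← mul_assoc w, mul_inv_cancel, one_mul]
          have h3 : f (w * c) * (w * c)⁻¹ ∈ Y ⊓ C := by
            refine ⟨hF.comm f hf _, ?_⟩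
            rw [h2]
            exact C.mul_mem (hCP f (hFP hf) c hcc) (C.inv_mem hcc)
          rw [h1, mem_bot] at h3
          exact hF.fpf f hf hf1 _ hy (mul_inv_eq_one.1 h3)
        ext a
        have h4 := hY1 _ (hF.comm f hf a)
        exact mul_inv_eq_one.1 h4
      · intro e he w hw
        have : w ∈ Y ⊓ C := by rw [h1]; exact hw
        exact this.2 e (hEK he)
  · -- W is moved
    exfalso
    have hEP' : E < P := by
      refine lt_of_le_of_ne hEP ?_
      rintro rfl
      apply hinvF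
      exact fun f hf w hw => hE.inv (hFP hf) hw
    -- a proper normal subgroup containing E
    have hM : ∀ g ∈ P, E ⊔ E.map (MulAut.conj g).toMonoidHom < P := by
      intro g hg
      have hnil : Group.IsNilpotent P := hP.isNilpotent
      have hne : E.subgroupOf P ≠ ⊤ := by
        intro h
        rw [subgroupOf_eq_top] at h
        exact absurd h (not_le_of_gt hEP')
      obtain ⟨M, hM, hEM⟩ := (eq_top_or_exists_le_coatom (E.subgroupOf P)).resolve_left hne
      have hMn : M.Normal := NormalizerCondition.normal_of_coatom M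
        (Group.normalizerCondition_of_isNilpotent) hM
      have hle : E ⊔ E.map (MulAut.conj g).toMonoidHom ≤ M.map P.subtype := by
        refine sup_le ?_ ?_
        · intro e he
          exact ⟨⟨e, hEP he⟩, hEM (by rw [mem_subgroupOf]; exact he), rfl⟩
        · rintro _ ⟨e, he, rfl⟩
          have h1 := hMn.conj_mem ⟨e, hEP he⟩ (hEM (by rw [mem_subgroupOf]; exact he)) ⟨g, hg⟩
          exact ⟨_, h1, rfl⟩
      refine lt_of_le_of_lt hle ?_
      refine lt_of_le_of_ne (map_subtype_le _) ?_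
      intro h
      apply hM.1
      rw [eq_top_iff]
      rintro ⟨x, hx⟩ _
      have h2 : x ∈ M.map P.subtype := by rw [h]; exact hx
      obtain ⟨y, hy, rfl⟩ := h2
      exact hy
    have hcg : ∀ g ∈ P, W.map g.toMonoidHom ≠ W →
        (∀ e ∈ E, ∀ w ∈ W.map g.toMonoidHom, e w = w) := by
      intro g hg hne
      rcases hsub _ (hM g hg) E _ W _ le_sup_left le_sup_right hE (hE.conj g)
        (card_map_of_injective g.injective).symm with h | h
      · exact absurd h.symm hne
      · exact h.2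
    obtain ⟨e₀, he₀, he₀1⟩ := hE.ne
    have hWpos : ∃ w ∈ W, w ≠ 1 := by
      by_contra hcon
      push Not at hcon
      apply he₀1
      ext a
      exact mul_inv_eq_one.1 (hcon _ (hE.comm e₀ he₀ a))
    have hYpos : ∃ y ∈ Y, y ≠ 1 := by
      obtain ⟨f₀, hf₀, hf₀1⟩ := hF.ne
      by_contra hcon
      push Not at hcon
      apply hf₀1
      ext a
      exact mul_inv_eq_one.1 (hcon _ (hF.comm f₀ hf₀ a))
    have hkey : ∀ f ∈ F, W.map f.toMonoidHom ≠ W → f * f = 1 := by
      intro f hf hne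
      have htr := hcg f (hFP hf) hne
      have hmemf : ∀ w ∈ W, f w ∈ W.map f.toMonoidHom := fun w hw => ⟨w, hw, rfl⟩
      have hdis : ∀ a, a ∈ W → a ∈ W.map f.toMonoidHom → a = 1 := fun a ha ha' =>
        hE.fpf e₀ he₀ he₀1 a ha (htr e₀ he₀ a ha')
      -- Y consists of the f w w⁻¹
      have hYs : ∀ y ∈ Y, ∃ w ∈ W, y = f w * w⁻¹ := by
        let φ : W → Y := fun w => ⟨f w * (w : A)⁻¹, hF.comm f hf w⟩
        have hφ : Function.Injective φ := by
          intro a b hab
          have h1 : f a * (a : A)⁻¹ = f b * (b : A)⁻¹ := congrArg Subtype.val hab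
          have h2 : f ((a : A) * (b : A)⁻¹) = (a : A) * (b : A)⁻¹ := by
            rw [map_mul, map_inv]
            calc f (a : A) * (f (b : A))⁻¹ = (f a * (a : A)⁻¹) * a * (f (b : A))⁻¹ := by group
              _ = (f b * (b : A)⁻¹) * a * (f (b : A))⁻¹ := by rw [h1]
              _ = (a : A) * (b : A)⁻¹ := by
                rw [mul_comm (f (b : A)) (b : A)⁻¹, mul_assoc, mul_assoc, mul_comm (f (b : A)),
                  mul_assoc, inv_mul_cancel, mul_one, mul_comm]
          have h3 : (a : A) * (b : A)⁻¹ ∈ W := W.mul_mem a.2 (W.inv_mem b.2)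
          have h4 : (a : A) * (b : A)⁻¹ ∈ W.map f.toMonoidHom := by
            have := hmemf _ h3
            rwa [h2] at this
          exact Subtype.ext (mul_inv_eq_one.1 (hdis _ h3 h4))
        have hbij : Function.Bijective φ :=
          (Nat.bijective_iff_injective_and_card φ).2 ⟨hφ, hc⟩
        intro y hy
        obtain ⟨w, hw⟩ := hbij.2 ⟨y, hy⟩
        exact ⟨w, w.2, (congrArg Subtype.val hw).symm⟩
      -- for w ∈ W : f (f w) = u⁻¹ * f (w * u)
      have hff : ∀ w ∈ W, ∃ u ∈ W, f (f w) = u⁻¹ * f (w * u) := by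
        intro w hw
        have h1 : f (f w * w⁻¹) ∈ Y := hF.inv hf (hF.comm f hf w)
        obtain ⟨u, hu, h2⟩ := hYs _ h1
        refine ⟨u, hu, ?_⟩
        rw [map_mul, map_inv] at h2
        calc f (f w) = (f (f w) * (f w)⁻¹) * f w := by group
          _ = (f u * u⁻¹) * f w := by rw [h2]
          _ = u⁻¹ * f (w * u) := by
            rw [map_mul, mul_comm (f u) u⁻¹, mul_assoc, mul_comm (f u)]
      have hf2W : W.map (f * f).toMonoidHom = W := by
        by_contra hne2
        have htr2 := hcg (f * f) (P.mul_mem (hFP hf) (hFP hf)) hne2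
        obtain ⟨w, hw, hw1⟩ := hWpos
        obtain ⟨u, hu, h1⟩ := hff w hw
        have h2 : e₀ (f (f w)) = f (f w) := htr2 e₀ he₀ _ ⟨w, hw, rfl⟩
        rw [h1, map_mul, htr e₀ he₀ _ (hmemf _ (W.mul_mem hw hu))] at h2
        have h3 : e₀ u⁻¹ = u⁻¹ := mul_right_cancel h2
        have h4 : u⁻¹ = 1 := hE.fpf e₀ he₀ he₀1 _ (W.inv_mem hu) h3
        have h5 : u = 1 := inv_eq_one.1 h4
        rw [h5, inv_one, one_mul, mul_one] at h1
        have h6 : f w = w := f.injective h1
        exact hw1 (hdis w hw (by rw [← h6]; exact hmemf w hw))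
      have hf2 : ∀ w ∈ W, f (f w) = w := by
        intro w hw
        obtain ⟨u, hu, h1⟩ := hff w hw
        have h2 : f (f w) ∈ W := by
          have : (f * f) w ∈ W.map (f * f).toMonoidHom := ⟨w, hw, rfl⟩
          rw [hf2W] at this
          exact this
        have h3 : u * f (f w) = f (w * u) := by rw [h1]; group
        have h4 : f (w * u) = 1 := hdis _ (by rw [← h3]; exact W.mul_mem hu h2)
          (hmemf _ (W.mul_mem hw hu))
        have h5 : w * u = 1 := by
          have := f.injective (h4.trans (map_one f).symm)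
          exact this
        rw [h4] at h3
        have h6 : f (f w) = u⁻¹ := eq_inv_of_mul_eq_one_right h3
        rw [h6, eq_inv_of_mul_eq_one_left h5]
      by_contra hcon
      obtain ⟨y, hy, hy1⟩ := hYpos
      apply hy1
      refine hF.fpf (f * f) (F.mul_mem hf hf) hcon y hy ?_
      obtain ⟨w, hw, rfl⟩ := hYs y hy
      rw [MulAut.mul_apply, map_mul, map_mul, map_inv, map_inv, hf2 w hw]
    -- an element of F moving W
    have hmove : ∃ f ∈ F, W.map f.toMonoidHom ≠ W := by
      by_contra hcon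
      push Not at hcon
      apply hinvF
      intro f hf w hw
      rw [← hcon f hf]
      exact ⟨w, hw, rfl⟩
    obtain ⟨f, hf, hne⟩ := hmove
    have hf1 : f ≠ 1 := by
      rintro rfl
      apply hne
      ext x
      constructor
      · rintro ⟨w, hw, rfl⟩; exact hw
      · intro hx; exact ⟨x, hx, rfl⟩
    obtain ⟨h, hh, hhh⟩ := hF.sq f hf hf1 (hkey f hf hne)
    by_cases hhW : W.map h.toMonoidHom = W
    · apply hne
      rw [← hhh]
      have h1 : ∀ w ∈ W, h w ∈ W := by
        intro w hw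
        have : h w ∈ W.map h.toMonoidHom := ⟨w, hw, rfl⟩
        rwa [hhW] at this
      symm
      apply (Subgroup.eq_of_le_of_card_ge _ _).symm
      · rintro _ ⟨w, hw, rfl⟩
        exact h1 _ (h1 w hw)
      · rw [card_map_of_injective (h * h).injective]
    · have := hkey h hh hhW
      rw [this] at hhh
      exact hf1 hhh.symm

end H56.BmL
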