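import Mathlib
import Cfsg.Agent.Lib.H56.BmL

set_option autoImplicit false
set_option linter.all false

namespace H56.BmL

open Subgroup

variable {A : Type*} [CommGroup A] [Finite A]

structure Sd (E : Subgroup (MulAut A)) (W : Subgroup A) : Prop where
  comm : ∀ e ∈ E, ∀ a, e a * a⁻¹ ∈ W
  fpf : ∀ e ∈ E, e ≠ 1 → ∀ w ∈ W, e w = w → w = 1
  irr : ∀ U : Subgroup A, U ≤ W → (∀ e ∈ E, ∀ u ∈ U, e u ∈ U) → U = ⊥ ∨ U = W
  kind : (Nat.card W = 4 ∧ Nat.card E = 3) ∨ (Nat.card W = 9 ∧ Nat.card E = 8 ∧ ∀ e ∈ E, e ^ 4 = 1)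

variable {E F : Subgroup (MulAut A)} {W Y : Subgroup A}

theorem Sd.inv (h : Sd E W) {e : MulAut A} (he : e ∈ E) {w : A} (hw : w ∈ W) : e w ∈ W := by
  have := W.mul_mem (h.comm e he w) hw
  rwa [inv_mul_cancel_right] at this

theorem Sd.card (h : Sd E W) : Nat.card W = Nat.card E + 1 := by
  rcases h.kind with ⟨h1, h2⟩ | ⟨h1, h2, -⟩ <;> omega

/-- regularity -/
theorem Sd.reg (h : Sd E W) {w w' : A} (hw : w ∈ W) (hw' : w' ∈ W) (hw1 : w ≠ 1) (hw1' : w' ≠ 1) :
    ∃ e ∈ E, e w = w' := by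
  classical
  haveI := Fintype.ofFinite A
  let ψ : E → {x : W // x ≠ 1} := fun e => ⟨⟨(e : MulAut A) w, h.inv e.2 hw⟩, fun hc => hw1 (by
    have h1 : (e : MulAut A) w = 1 := congrArg Subtype.val hc
    exact (e : MulAut A).injective (h1.trans (map_one _).symm))⟩
  have hinj : Function.Injective ψ := by
    intro e f hef
    have h1 : (e : MulAut A) w = (f : MulAut A) w :=
      congrArg (fun x : {x : W // x ≠ 1} => ((x : W) : A)) hef
    by_contra hne
    have h2 : ((f : MulAut A)⁻¹ * e) w = w := by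
      rw [MulAut.mul_apply, h1, MulAut.inv_apply_self]
    have h3 : (f : MulAut A)⁻¹ * e ≠ 1 := by
      intro h4
      apply hne
      apply Subtype.ext
      exact (inv_mul_eq_one.1 h4).symm
    exact hw1 (h.fpf _ (E.mul_mem (E.inv_mem f.2) e.2) h3 w hw h2)
  have hcard : Nat.card E = Nat.card {x : W // x ≠ 1} := by
    have h1 : Nat.card {x : W // x ≠ 1} = Nat.card W - 1 := by
      rw [Nat.card_eq_fintype_card, Nat.card_eq_fintype_card, Fintype.card_subtype_compl,
        Fintype.card_subtype_eq]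
    rw [h1, h.card]; rfl
  have hbij := (Nat.bijective_iff_injective_and_card ψ).2 ⟨hinj, hcard⟩
  obtain ⟨e, he⟩ := hbij.2 ⟨⟨w', hw'⟩, fun hc => hw1' (congrArg Subtype.val hc)⟩
  exact ⟨e, e.2, congrArg (fun x : {x : W // x ≠ 1} => ((x : W) : A)) he⟩

/-- involutions invert -/
theorem Sd.invol (h : Sd E W) {e : MulAut A} (he : e ∈ E) (h1 : e ≠ 1) (h2 : e * e = 1) {w : A}
    (hw : w ∈ W) : e w = w⁻¹ := by
  have h3 : e (w * e w) = w * e w := by
    rw [map_mul, ← MulAut.mul_apply, h2, MulAut.one_apply, mul_comm]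
  have h4 := h.fpf e he h1 _ (W.mul_mem hw (h.inv he hw)) h3
  exact eq_inv_of_mul_eq_one_right h4

/-- agree at one element -/
theorem Sd.eq_of (h : Sd E W) {e f : MulAut A} (he : e ∈ E) (hf : f ∈ E) {w : A}
    (hw : w ∈ W) (hw1 : w ≠ 1) (hef : e w = f w) : e = f := by
  by_contra hne
  have h2 : ((f : MulAut A)⁻¹ * e) w = w := by
    rw [MulAut.mul_apply, hef, MulAut.inv_apply_self]
  have h3 : (f : MulAut A)⁻¹ * e ≠ 1 := by
    intro h4
    apply hne
    exact (inv_mul_eq_one.1 h4).symm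
  exact hw1 (h.fpf _ (E.mul_mem (E.inv_mem hf) he) h3 w hw h2)

theorem card_ge3 {H : Subgroup A} {w u : A} (hw : w ∈ H) (hu : u ∈ H) (h1 : w ≠ 1) (h2 : u ≠ 1)
    (h3 : u ≠ w) : 3 ≤ Nat.card H := by
  classical
  haveI := Fintype.ofFinite A
  have hc : ({1, ⟨w, hw⟩, ⟨u, hu⟩} : Finset H).card = 3 := by
    rw [Finset.card_insert_of_notMem, Finset.card_insert_of_notMem, Finset.card_singleton]
    · rw [Finset.mem_singleton]
      exact fun h => h3 (congrArg Subtype.val h).symm
    · rw [Finset.mem_insert, Finset.mem_singleton]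
      rintro (h | h)
      · exact h1 (congrArg Subtype.val h).symm
      · exact h2 (congrArg Subtype.val h).symm
  rw [Nat.card_eq_fintype_card, ← hc]
  exact Finset.card_le_univ _

theorem card_ge4 {H : Subgroup A} {w v u : A} (hw : w ∈ H) (hv : v ∈ H) (hu : u ∈ H) (h1 : w ≠ 1)
    (h2 : u ≠ 1) (h3 : u ≠ w) (h4 : v ≠ 1) (h5 : u ≠ v) (h6 : v ≠ w) : 4 ≤ Nat.card H := by
  classical
  haveI := Fintype.ofFinite A
  have hc : ({1, ⟨w, hw⟩, ⟨u, hu⟩, ⟨v, hv⟩} : Finset H).card = 4 := by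
    rw [Finset.card_insert_of_notMem, Finset.card_insert_of_notMem, Finset.card_insert_of_notMem,
      Finset.card_singleton]
    · rw [Finset.mem_singleton]
      exact fun h => h5 (congrArg Subtype.val h)
    · rw [Finset.mem_insert, Finset.mem_singleton]
      rintro (h | h)
      · exact h3 (congrArg Subtype.val h).symm
      · exact h6 (congrArg Subtype.val h).symm
    · rw [Finset.mem_insert, Finset.mem_insert, Finset.mem_singleton]
      rintro (h | h | h)
      · exact h1 (congrArg Subtype.val h).symm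
      · exact h2 (congrArg Subtype.val h).symm
      · exact h4 (congrArg Subtype.val h).symm
  rw [Nat.card_eq_fintype_card, ← hc]
  exact Finset.card_le_univ _

theorem ne_inv9 (hW : Nat.card W = 9) {w : A} (hw : w ∈ W) (hw1 : w ≠ 1) : w⁻¹ ≠ w := by
  intro h
  apply hw1
  have h1 : (⟨w, hw⟩ : W) ^ 9 = 1 := by rw [← hW]; exact pow_card_eq_one'
  have h2 : w ^ 9 = 1 := congrArg Subtype.val h1
  have h3 : w * w = 1 := by
    nth_rw 1 [← h]
    exact inv_mul_cancel w
  have h4 : w ^ 9 = (w * w) * (w * w) * (w * w) * (w * w) * w := by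
    simp only [pow_succ, pow_zero, one_mul, mul_assoc]
  rw [h2, h3] at h4
  simpa using h4.symm

/-- a common element -/
theorem Sd.agree (hE : Sd E W) (hF : Sd F W) {e f : MulAut A} (he : e ∈ E) (hf : f ∈ F) {w : A}
    (hw : w ∈ W) (hw1 : w ≠ 1) (hef : e w = f w) : ∀ x ∈ W, e x = f x := by
  by_cases he1 : e = 1
  · have hf1 : f = 1 := by
      by_contra hf1
      apply hw1
      apply hF.fpf f hf hf1 w hw
      rw [← hef, he1]; rfl
    intro x _
    rw [he1, hf1]
  have hf1 : f ≠ 1 := by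
    intro hf1
    apply hw1
    apply hE.fpf e he he1 w hw
    rw [hef, hf1]; rfl
  let H : Subgroup A :=
    { carrier := {x | x ∈ W ∧ e x = f x}
      one_mem' := ⟨W.one_mem, by rw [map_one, map_one]⟩
      mul_mem' := by
        rintro x y ⟨hx, hx'⟩ ⟨hy, hy'⟩
        exact ⟨W.mul_mem hx hy, by rw [map_mul, map_mul, hx', hy']⟩
      inv_mem' := by
        rintro x ⟨hx, hx'⟩
        exact ⟨W.inv_mem hx, by rw [map_inv, map_inv, hx']⟩ }
  have hHW : H ≤ W := fun x hx => hx.1
  suffices hH : W ≤ H from fun x hx => (hH hx).2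
  have hwH : w ∈ H := ⟨hw, hef⟩
  set u := e w with hu
  have huW : u ∈ W := hE.inv he hw
  have hu1 : u ≠ 1 := by
    intro h
    apply hw1
    exact e.injective (h.trans (map_one _).symm)
  have huw : u ≠ w := fun h => hw1 (hE.fpf e he he1 w hw h)
  rcases hE.kind with ⟨h1, h2⟩ | ⟨h1, h2, h3⟩
  · rcases hF.kind with ⟨-, h4⟩ | ⟨h4, -⟩
    swap
    · omega
    have key : ∀ {K : Subgroup (MulAut A)}, Sd K W → Nat.card K = 3 → ∀ k ∈ K, k ≠ 1 →
        k (k w) = (w * k w)⁻¹ := by
      intro K hK hc k hk hk1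
      have h5 : (⟨k, hk⟩ : K) ^ 3 = 1 := by rw [← hc]; exact pow_card_eq_one'
      have h6 : k ^ 3 = 1 := congrArg Subtype.val h5
      have h7 : k * (k * k) = 1 := by
        rw [← h6]
        simp only [pow_succ, pow_zero, one_mul, mul_assoc]
      have h8 : k (w * k w * k (k w)) = w * k w * k (k w) := by
        rw [map_mul, map_mul]
        have h9 : k (k (k w)) = w := by
          have : (k * (k * k)) w = w := by rw [h7]; rfl
          exact this
        rw [h9, mul_comm, ← mul_assoc]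
      have h10 := hK.fpf k hk hk1 _ (W.mul_mem (W.mul_mem hw (hK.inv hk hw))
        (hK.inv hk (hK.inv hk hw))) h8
      exact eq_inv_of_mul_eq_one_right h10
    have huH : u ∈ H := by
      refine ⟨huW, ?_⟩
      have h5 := key hE h2 e he he1
      have h6 := key hF h4 f hf hf1
      rw [← hef] at h6
      rw [← hu] at h5
      rw [h5, h6]
    have h5 := card_ge3 hwH huH hw1 hu1 huw
    have h6 : Nat.card H ∣ 4 := by rw [← h1]; exact card_dvd_of_le hHW
    have h7 : Nat.card H = 4 := by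
      have := Nat.le_of_dvd (by norm_num) h6
      interval_cases hh : Nat.card H
      · omega
      · rfl
    exact (Subgroup.eq_of_le_of_card_ge hHW (by rw [h1, h7])).ge
  · rcases hF.kind with ⟨h4, -⟩ | ⟨-, h4, h5⟩
    · omega
    by_cases huw' : u = w⁻¹
    · have key : ∀ {K : Subgroup (MulAut A)}, Sd K W → ∀ k ∈ K, k ≠ 1 → k w = w⁻¹ →
        ∀ x ∈ W, k x = x⁻¹ := by
        intro K hK k hk hk1 hkw x hx
        refine hK.invol hk hk1 ?_ hx
        by_contra hcon
        apply hw1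
        refine hK.fpf _ (K.mul_mem hk hk) hcon w hw ?_
        rw [MulAut.mul_apply, hkw, map_inv, hkw, inv_inv]
      intro x hx
      refine ⟨hx, ?_⟩
      rw [key hE e he he1 huw' x hx, key hF f hf hf1 (by rw [← hef]; exact huw') x hx]
    · have key : ∀ {K : Subgroup (MulAut A)}, Sd K W → (∀ k ∈ K, k ^ 4 = 1) → ∀ k ∈ K, k ≠ 1 →
        k w = u → k u = w⁻¹ := by
        intro K hK hx k hk hk1 hkw
        have h6 : k * k ≠ 1 := by
          intro h6
          apply huw'
          rw [← hkw]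
          exact hK.invol hk hk1 h6 hw
        have h7 : (k * k) * (k * k) = 1 := by
          rw [← hx k hk]
          simp only [pow_succ, pow_zero, one_mul, mul_assoc]
        have h8 := hK.invol (K.mul_mem hk hk) h6 h7 hw
        rw [MulAut.mul_apply, hkw] at h8
        exact h8
      have huH : u ∈ H := by
        refine ⟨huW, ?_⟩
        rw [key hE h3 e he he1 rfl, key hF h5 f hf hf1 hef.symm]
      have h6 := card_ge4 hwH (H.inv_mem hwH) huH hw1 hu1 huw (by rwa [ne_eq, inv_eq_one]) huw'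
        (ne_inv9 h1 hw hw1)
      have h7 : Nat.card H ∣ 9 := by rw [← h1]; exact card_dvd_of_le hHW
      have h8 : Nat.card H = 9 := by
        have := Nat.le_of_dvd (by norm_num) h7
        interval_cases hh : Nat.card H <;> omega
      exact (Subgroup.eq_of_le_of_card_ge hHW (by rw [h1, h8])).ge

theorem Sd.nontriv (h : Sd E W) : ∃ w ∈ W, w ≠ 1 := by
  by_contra hcon
  push Not at hcon
  have h1 : W = ⊥ := by rw [eq_bot_iff]; exact fun w hw => hcon w hw
  rcases h.kind with ⟨h2, -⟩ | ⟨h2, -⟩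
  · rw [h1, Subgroup.card_bot] at h2; omega
  · rw [h1, Subgroup.card_bot] at h2; omega

theorem Sd.toDt (h : Sd E W) : Dt E W := by
  refine ⟨h.comm, h.fpf, h.irr, ?_, ?_⟩
  · by_contra hcon
    push Not at hcon
    have h1 : E = ⊥ := by rw [eq_bot_iff]; exact fun w hw => hcon w hw
    rcases h.kind with ⟨-, h2⟩ | ⟨-, h2, -⟩
    · rw [h1, Subgroup.card_bot] at h2; omega
    · rw [h1, Subgroup.card_bot] at h2; omega
  · intro f hf hf1 hff
    obtain ⟨w, hw, hw1⟩ := h.nontriv
    rcases h.kind with ⟨h1, h2⟩ | ⟨h1, h2, h3⟩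
    · exfalso
      have h5 : (⟨f, hf⟩ : E) ^ 3 = 1 := by rw [← h2]; exact pow_card_eq_one'
      have h6 : f ^ 3 = 1 := congrArg Subtype.val h5
      apply hf1
      rw [← h6, pow_succ, pow_two, hff, one_mul]
    · -- choose `u` outside of `⟨w⟩`
      obtain ⟨u, hu, hu1, huw, huw'⟩ : ∃ u ∈ W, u ≠ 1 ∧ u ≠ w ∧ u ≠ w⁻¹ := by
        by_contra hcon
        push Not at hcon
        classical
        haveI := Fintype.ofFinite A
        have hsub : (Finset.univ : Finset W) ⊆ {1, ⟨w, hw⟩, ⟨w⁻¹, W.inv_mem hw⟩} := by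
          intro x _
          rw [Finset.mem_insert, Finset.mem_insert, Finset.mem_singleton]
          by_cases h4 : (x : A) = 1
          · exact Or.inl (Subtype.ext h4)
          by_cases h5 : (x : A) = w
          · exact Or.inr (Or.inl (Subtype.ext h5))
          · exact Or.inr (Or.inr (Subtype.ext (hcon x x.2 h4 h5)))
        have h4 := Finset.card_le_card hsub
        rw [Finset.card_univ, ← Nat.card_eq_fintype_card, h1] at h4
        have h5 := (Finset.card_le_three (a := (1 : W)) (b := ⟨w, hw⟩) (c := ⟨w⁻¹, W.inv_mem hw⟩))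
        omega
      obtain ⟨k, hk, hkw⟩ := h.reg hw hu hw1 hu1
      have hk1 : k ≠ 1 := by
        rintro rfl
        exact huw hkw.symm
      have h6 : k * k ≠ 1 := by
        intro h6
        apply huw'
        rw [← hkw]
        exact h.invol hk hk1 h6 hw
      have h7 : (k * k) * (k * k) = 1 := by
        rw [← h3 k hk]
        simp only [pow_succ, pow_zero, one_mul, mul_assoc]
      refine ⟨k, hk, ?_⟩
      refine h.eq_of (E.mul_mem hk hk) hf hw hw1 ?_
      rw [h.invol (E.mul_mem hk hk) h6 h7 hw, h.invol hf hf1 hff hw]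

/-- the two subgroups coincide -/
theorem Sd.le (hE : Sd E W) (hF : Sd F W) (P : Subgroup (MulAut A))
    (hcop : (Nat.card P).Coprime (Nat.card A)) (hEP : E ≤ P) (hFP : F ≤ P) : F ≤ E := by
  obtain ⟨w, hw, hw1⟩ := hE.nontriv
  intro f hf
  have hfw1 : f w ≠ 1 := by
    intro h
    apply hw1
    exact f.injective (h.trans (map_one _).symm)
  obtain ⟨e, he, hew⟩ := hE.reg hw (hF.inv hf hw) hw1 hfw1
  have hag := hE.agree hF he hf hw hw1 hew
  let K : Subgroup (MulAut A) :=
    { carrier := {g | g ∈ P ∧ (∀ w ∈ W, g w ∈ W) ∧ ∀ a, g a * a⁻¹ ∈ W}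
      one_mem' := ⟨P.one_mem, fun w hw => hw, fun a => by
        show a * a⁻¹ ∈ W
        rw [mul_inv_cancel]; exact W.one_mem⟩
      mul_mem' := by
        rintro x y ⟨hx, hx2, hx'⟩ ⟨hy, hy2, hy'⟩
        refine ⟨P.mul_mem hx hy, fun w hw => hx2 _ (hy2 w hw), fun a => ?_⟩
        have : (x * y) a * a⁻¹ = (x (y a) * (y a)⁻¹) * (y a * a⁻¹) := by
          rw [MulAut.mul_apply]; group
        rw [this]
        exact W.mul_mem (hx' _) (hy' _)
      inv_mem' := by
        rintro x ⟨hx, hx2, hx'⟩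
        have h0 : ∀ a, x⁻¹ a * a⁻¹ ∈ W := by
          intro a
          have h1 := hx' (x⁻¹ a)
          rw [MulAut.apply_inv_self] at h1
          have h2 := W.inv_mem h1
          have : (a * (x⁻¹ a)⁻¹)⁻¹ = x⁻¹ a * a⁻¹ := by group
          rwa [this] at h2
        refine ⟨P.inv_mem hx, fun w hw => ?_, h0⟩
        have := W.mul_mem (h0 w) hw
        rwa [inv_mul_cancel_right] at this }
  have hKP : K ≤ P := fun g hg => hg.1
  have heK : e ∈ K := ⟨hEP he, fun w hw => hE.inv he hw, hE.comm e he⟩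
  have hfK : f ∈ K := ⟨hFP hf, fun w hw => hF.inv hf hw, hF.comm f hf⟩
  have hdec := decomp K (Nat.Coprime.coprime_dvd_left (card_dvd_of_le hKP) hcop)
    (W := W) (fun k hk a => hk.2.2 a)
  have : f = e := by
    ext a
    obtain ⟨x, hx, c, hc, rfl⟩ := hdec a
    rw [map_mul, map_mul, hc f hfK, hc e heK, hag x hx]
  rw [this]; exact he

theorem full {r : ℕ} [hr : Fact r.Prime] (P : Subgroup (MulAut A))
    (hP : IsPGroup r P) (hcop : (Nat.card P).Coprime (Nat.card A))
    (hEP : E ≤ P) (hFP : F ≤ P) (hE : Sd E W) (hF : Sd F Y) (hc : Nat.card W = Nat.card Y) :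
    E = F ∨ ((∀ f ∈ F, ∀ w ∈ W, f w = w) ∧ (∀ e ∈ E, ∀ w ∈ Y, e w = w)) := by
  rcases lin (Nat.card P) P rfl hP hcop E F W Y hEP hFP hE.toDt hF.toDt hc with h | h
  · subst h
    exact Or.inl (le_antisymm (hF.le hE P hcop hFP hEP) (hE.le hF P hcop hEP hFP))
  · exact Or.inr h

end H56.BmL
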