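import Mathlib
import Cfsg.Agent.Lib.H56.BmL2

set_option autoImplicit false
set_option linter.all false

namespace H56.BmL

open Subgroup

structure Sg {A : Type*} [Group A] (E : Subgroup (MulAut A)) (W : Subgroup A) : Prop where
  comm : ∀ e ∈ E, ∀ a, e a * a⁻¹ ∈ W
  fpf : ∀ e ∈ E, e ≠ 1 → ∀ w ∈ W, e w = w → w = 1
  irr : ∀ U : Subgroup A, U ≤ W → (∀ e ∈ E, ∀ u ∈ U, e u ∈ U) → U = ⊥ ∨ U = W
  kind : (Nat.card W = 4 ∧ Nat.card E = 3) ∨ (Nat.card W = 9 ∧ Nat.card E = 8 ∧ ∀ e ∈ E, e ^ 4 = 1)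

theorem fullG {A : Type*} [gA : Group A] [Finite A] (hcm : ∀ a b : A, a * b = b * a)
    {E F : Subgroup (MulAut A)} {W Y : Subgroup A}
    {r : ℕ} [hr : Fact r.Prime] (P : Subgroup (MulAut A))
    (hP : IsPGroup r P) (hcop : (Nat.card P).Coprime (Nat.card A))
    (hEP : E ≤ P) (hFP : F ≤ P) (hE : Sg E W) (hF : Sg F Y) (hc : Nat.card W = Nat.card Y) :
    E = F ∨ ((∀ f ∈ F, ∀ w ∈ W, f w = w) ∧ (∀ e ∈ E, ∀ w ∈ Y, e w = w)) := by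
  letI : CommGroup A := { gA with mul_comm := hcm }
  exact full (A := A) P hP hcop hEP hFP ⟨hE.comm, hE.fpf, hE.irr, hE.kind⟩
    ⟨hF.comm, hF.fpf, hF.irr, hF.kind⟩ hc

end H56.BmL
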