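import Mathlib

/-! cyclic groups: small lemmas -/

set_option autoImplicit false

namespace H56.Cyc

open Subgroup

theorem mem_zpowers_of_dvd {C : Type*} [Group C] [Finite C] [IsCyclic C] {x y : C}
    (h : orderOf x ∣ orderOf y) : x ∈ zpowers y := by
  classical
  haveI : Fintype C := Fintype.ofFinite C
  have h1 : (Finset.univ.filter (fun z : C => z ^ orderOf y = 1)).card ≤ orderOf y :=
    IsCyclic.card_pow_eq_one_le (orderOf_pos y)
  have h2 : ((zpowers y : Subgroup C) : Set C).toFinset ⊆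
      (Finset.univ.filter (fun z : C => z ^ orderOf y = 1)) := by
    intro z hz
    rw [Set.mem_toFinset] at hz
    obtain ⟨k, rfl⟩ := hz
    rw [Finset.mem_filter]
    refine ⟨Finset.mem_univ _, ?_⟩
    change (y ^ k) ^ orderOf y = 1
    rw [← zpow_natCast, ← zpow_mul, mul_comm, zpow_mul, zpow_natCast, pow_orderOf_eq_one, one_zpow]
  have h3 : ((zpowers y : Subgroup C) : Set C).toFinset.card = orderOf y := by
    rw [← Nat.card_zpowers, ← Nat.card_eq_card_toFinset]; rfl
  have h4 := Finset.eq_of_subset_of_card_le h2 (by rw [h3]; exact h1)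
  have h5 : x ∈ (Finset.univ.filter (fun z : C => z ^ orderOf y = 1)) := by
    rw [Finset.mem_filter]
    exact ⟨Finset.mem_univ _, orderOf_dvd_iff_pow_eq_one.mp h⟩
  rw [← h4, Set.mem_toFinset] at h5
  exact h5

theorem mem_zpowers_of_dvd_of_le {G : Type*} [Group G] [Finite G] {A : Subgroup G} (hA : IsCyclic A)
    {x y : G} (hx : x ∈ A) (hy : y ∈ A) (h : orderOf x ∣ orderOf y) : x ∈ zpowers y := by
  have h1 : (⟨x, hx⟩ : A) ∈ zpowers (⟨y, hy⟩ : A) := by
    apply mem_zpowers_of_dvd
    rwa [← Subgroup.orderOf_coe, ← Subgroup.orderOf_coe]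
  obtain ⟨k, hk⟩ := h1
  exact ⟨k, by simpa [Subtype.ext_iff] using hk⟩

end H56.Cyc
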