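import Mathlib
import Cfsg.Agent.Lib.H59.AltSixCent
import Cfsg.Agent.Lib.H59.Klein1
import Cfsg.Agent.Lib.H6.SmallIsoD
import Cfsg.Agent.Lib.H40.AutAlt
import Cfsg.Agent.Lib.H98.DicksonIdent
import Cfsg.Agent.Lib.H2.NPC
import Cfsg.Agent.Lib.H38.Basic
import Cfsg.Agent.Lib.H1.Cores
import Cfsg.Prelude.Def_CaseTheorems

/-! Groups with an involution whose centralizer is dihedral of order eight. -/

set_option autoImplicit false

namespace H56.D8Cent

open Cfsg Subgroup H59.BSW

variable {G : Type*} [Group G] [Finite G]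

/-- the first alternative -/
theorem first_of_npc {z : G} {C : Subgroup G} (hC2 : IsPGroup 2 C) (hCi : ¬ 2 ∣ C.index)
    (h : HasNormalPComplement 2 G) : C ⊔ oddCore G = ⊤ := by
  haveI : Fact (Nat.Prime 2) := ⟨Nat.prime_two⟩
  obtain ⟨S, hS⟩ := H38.Basic.isSyl_top_iff.1 (show H38.Basic.IsSyl 2 C ⊤ from ⟨le_top, hC2, by rwa [relIndex_top_right]⟩)
  have h1 := H2.NPC.isComplement'_residual_of_hasNPC h S
  have h2 := (H2.NPC.iff_not_dvd_card_residual (p := 2)).1 h
  have h3 : pResidual 2 G ≤ oddCore G :=
    H1.Cores.le_pPrimeCore inferInstance ((Nat.Prime.coprime_iff_not_dvd Nat.prime_two).2 h2).symm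
  have h4 := h1.sup_eq_top
  rw [eq_top_iff, ← h4, hS]
  exact sup_le (h3.trans le_sup_right) le_sup_left

/-- normal complements and subgroups of index two -/
theorem npc_of_index_two {H : Subgroup G} (hH : H.index = 2) (h : HasNormalPComplement 2 H) :
    HasNormalPComplement 2 G := by
  haveI : Fact (Nat.Prime 2) := ⟨Nat.prime_two⟩
  haveI : H.Normal := normal_of_index_eq_two hH
  rw [H2.NPC.iff_not_dvd_card_residual] at h ⊢
  have h1 : pResidual 2 G ≤ (pResidual 2 H).map H.subtype := by
    rw [pResidual, closure_le]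
    intro g hg
    have hodd : (orderOf g).Coprime 2 := hg
    have hgH : g ∈ H := by
      have h2 : (QuotientGroup.mk g : G ⧸ H) = 1 := by
        have h3 : (QuotientGroup.mk g : G ⧸ H) ^ 2 = 1 := by
          have : Nat.card (G ⧸ H) = 2 := by rw [← index_eq_card, hH]
          rw [← this]; exact pow_card_eq_one'
        have h4 : (QuotientGroup.mk g : G ⧸ H) ^ orderOf g = 1 := by
          rw [← QuotientGroup.mk_pow, pow_orderOf_eq_one]; rfl
        have h5 : orderOf (QuotientGroup.mk g : G ⧸ H) ∣ 1 := by
          rw [← hodd.gcd_eq_one]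
          exact Nat.dvd_gcd (orderOf_dvd_of_pow_eq_one h4) (orderOf_dvd_of_pow_eq_one h3)
        exact orderOf_eq_one_iff.1 (Nat.dvd_one.1 h5)
      exact (QuotientGroup.eq_one_iff g).1 h2
    refine ⟨⟨g, hgH⟩, subset_closure ?_, rfl⟩
    show (orderOf (⟨g, hgH⟩ : H)).Coprime 2
    rw [orderOf_mk]; exact hodd
  intro hd
  apply h
  have h2 := hd.trans (card_dvd_of_le h1)
  rwa [card_map_of_injective H.subtype_injective] at h2

/-- the situation -/
structure Setup (z k s : G) : Prop where
  hz : orderOf z = 2
  hk : k * k = z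
  hs : orderOf s = 2
  hsk : s * k * s⁻¹ = k⁻¹
  hsK : s ∉ zpowers k
  hcard : Nat.card (centralizer ({z} : Set G)) = 8
  huniq : ∀ x ∈ centralizer ({z} : Set G), orderOf x = 2 → (∀ c ∈ centralizer ({z} : Set G), c * x = x * c) → x = z

theorem setup_of {z : G} (hz : orderOf z = 2) (e : ↥(centralizer ({z} : Set G)) ≃* DihedralGroup 4) :
    ∃ k s : G, Setup z k s := by
  set C := centralizer ({z} : Set G) with hC
  set k' : C := e.symm (DihedralGroup.r 1) with hk'
  set s' : C := e.symm (DihedralGroup.sr 0) with hs'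
  have hk4 : orderOf k' = 4 := by
    rw [hk', MulEquiv.orderOf_eq, DihedralGroup.orderOf_r_one]
  have hs2 : orderOf s' = 2 := by
    rw [hs', MulEquiv.orderOf_eq, DihedralGroup.orderOf_sr]
  have hsk : s' * k' * s'⁻¹ = k'⁻¹ := by
    apply e.injective
    rw [map_mul, map_mul, map_inv, map_inv, hk', hs', MulEquiv.apply_symm_apply, MulEquiv.apply_symm_apply]
    decide
  have hsK : s' ∉ zpowers k' := by
    intro h
    obtain ⟨i, hi⟩ := mem_zpowers_iff.1 h
    have h1 := congrArg e hi
    rw [map_zpow, hk', hs', MulEquiv.apply_symm_apply, MulEquiv.apply_symm_apply] at h1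
    have h2 : ∀ j : ℤ, (DihedralGroup.r (1 : ZMod 4)) ^ j = DihedralGroup.r (j : ZMod 4) := by
      intro j
      simp [DihedralGroup.r_zpow]
    rw [h2] at h1
    cases h1
  have hcard : Nat.card C = 8 := by
    rw [Nat.card_congr e.toEquiv, DihedralGroup.nat_card]
  have huniq : ∀ x : C, (∀ c, c * x = x * c) → orderOf x = 2 → x = k' * k' := fun x hx hx2 =>
    H59.AltSixCent.central_unique hs2 hk4 hsk hsK hcard hx hx2
  have hzC : z ∈ C := mem_centralizer_singleton_iff.2 rfl
  have hzk : (⟨z, hzC⟩ : C) = k' * k' := huniq _ (fun c => Subtype.ext (mem_centralizer_singleton_iff.1 c.2)) (by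
    rw [orderOf_mk, hz])
  refine ⟨k', s', hz, ?_, ?_, ?_, ?_, hcard, ?_⟩
  · exact (congrArg Subtype.val hzk).symm
  · rw [Subgroup.orderOf_coe, hs2]
  · exact congrArg Subtype.val hsk
  · intro h
    apply hsK
    obtain ⟨i, hi⟩ := mem_zpowers_iff.1 h
    exact mem_zpowers_iff.2 ⟨i, Subtype.ext hi⟩
  · intro x hx hx2 hxc
    have h1 := huniq ⟨x, hx⟩ (fun c => Subtype.ext (hxc c c.2)) (by rw [orderOf_mk, hx2])
    rw [← hzk] at h1
    exact congrArg Subtype.val h1

namespace Setup

variable {z k s : G} (h : Setup z k s)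
include h

theorem isPGroup : IsPGroup 2 (centralizer ({z} : Set G)) := IsPGroup.of_card (n := 3) (by rw [h.hcard]; norm_num)

theorem z_mem : z ∈ centralizer ({z} : Set G) := mem_centralizer_singleton_iff.2 rfl

theorem normalizer_le : normalizer ((centralizer ({z} : Set G) : Subgroup G) : Set G) ≤ centralizer ({z} : Set G) := by
  intro g hg
  have h1 : g * z * g⁻¹ ∈ centralizer ({z} : Set G) := (mem_normalizer_iff.1 hg z).1 h.z_mem
  have h2 : g * z * g⁻¹ = z := by
    apply h.huniq _ h1
    · rw [← h.hz]; exact (MulAut.conj g).orderOf_eq z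
    · intro c hc
      have h3 : g⁻¹ * c * g ∈ centralizer ({z} : Set G) := by
        have := (mem_normalizer_iff.1 (inv_mem hg) c).1 hc
        rwa [inv_inv] at this
      have h4 : (g⁻¹ * c * g) * z = z * (g⁻¹ * c * g) := mem_centralizer_singleton_iff.1 h3
      calc c * (g * z * g⁻¹) = g * ((g⁻¹ * c * g) * z) * g⁻¹ := by group
        _ = g * (z * (g⁻¹ * c * g)) * g⁻¹ := by rw [h4]
        _ = g * z * g⁻¹ * c := by group
  rw [mem_centralizer_singleton_iff]
  exact mul_inv_eq_iff_eq_mul.1 h2

theorem not_dvd_index : ¬ 2 ∣ (centralizer ({z} : Set G)).index := by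
  haveI : Fact (Nat.Prime 2) := ⟨Nat.prime_two⟩
  obtain ⟨S, hS⟩ := h.isPGroup.exists_le_sylow
  rcases hS.eq_or_lt with h1 | h1
  · rw [h1]; exact S.not_dvd_index
  · exfalso
    have h2 := H38.Basic.lt_inf_normalizer S.2 h1
    obtain ⟨g, hg, hg'⟩ := SetLike.exists_of_lt h2
    exact hg' (h.normalizer_le (mem_inf.1 hg).2)

theorem k_mem : k ∈ centralizer ({z} : Set G) := by
  rw [mem_centralizer_singleton_iff, ← h.hk, mul_assoc]

end Setup

theorem a5_not_comm : ¬ ∀ a b : alternatingGroup (Fin 5), a * b = b * a := by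
  intro h7
  have ha : Equiv.swap 0 1 * Equiv.swap 1 2 ∈ alternatingGroup (Fin 5) := by
    rw [Equiv.Perm.mem_alternatingGroup]; decide
  have hb : Equiv.swap 0 1 * Equiv.swap 2 3 ∈ alternatingGroup (Fin 5) := by
    rw [Equiv.Perm.mem_alternatingGroup]; decide
  have h8 := congrArg Subtype.val (h7 ⟨_, ha⟩ ⟨_, hb⟩)
  have h9 : ¬ (Equiv.swap 0 1 * Equiv.swap 1 2 : Equiv.Perm (Fin 5)) * (Equiv.swap 0 1 * Equiv.swap 2 3) =
    (Equiv.swap 0 1 * Equiv.swap 2 3) * (Equiv.swap 0 1 * Equiv.swap 1 2) := by decide
  exact h9 h8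

/-- existence of a subgroup of index two -/
theorem case_index_two {z k s : G} (h : Setup z k s) {H : Subgroup G} (hH : H.index = 2) :
    centralizer ({z} : Set G) ⊔ oddCore G = ⊤ ∨ Nonempty (G ≃* Equiv.Perm (Fin 4)) ∨ Nonempty (G ≃* Equiv.Perm (Fin 5)) := by
  classical
  haveI : Fact (Nat.Prime 2) := ⟨Nat.prime_two⟩
  set C := centralizer ({z} : Set G) with hC
  haveI hHn : H.Normal := normal_of_index_eq_two hH
  by_cases hnpc : HasNormalPComplement 2 G
  · exact Or.inl (first_of_npc (z := z) h.isPGroup h.not_dvd_index hnpc)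
  have hnpcH : ¬ HasNormalPComplement 2 H := fun h1 => hnpc (npc_of_index_two hH h1)
  have hmul : ∀ {a b : G}, a * b ∈ H ↔ (a ∈ H ↔ b ∈ H) := fun {a b} => mul_mem_iff_of_index_two hH
  have hzH : z ∈ H := by rw [← h.hk, hmul]
  have hz1 : z ≠ 1 := by
    intro h1; have := h.hz; rw [h1, orderOf_one] at this; omega
  -- `C ≰ H`
  have hCH : ¬ C ≤ H := by
    intro hle
    apply h.not_dvd_index
    rw [← relIndex_mul_index hle, hH]
    exact dvd_mul_left 2 _
  obtain ⟨c₀, hc₀, hc₀H⟩ := SetLike.not_le_iff_exists.1 hCH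
  set V := C ⊓ H with hV
  have hVrel : H.relIndex C = 2 := by
    have h1 : H.relIndex C ∣ H.index := relIndex_dvd_index_of_normal H C
    rw [hH] at h1
    rcases (Nat.dvd_prime Nat.prime_two).1 h1 with h2 | h2
    · exact absurd (relIndex_eq_one.1 h2) hCH
    · exact h2
  have hV4 : Nat.card V = 4 := by
    have h1 := (H.subgroupOf C).card_mul_index
    have h2 : (H.subgroupOf C).index = 2 := hVrel
    have h3 : Nat.card (H.subgroupOf C) = Nat.card V := by
      have h4 : (H.subgroupOf C).map C.subtype = V := by rw [subgroupOf_map_subtype, hV, inf_comm]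
      rw [← h4, card_map_of_injective C.subtype_injective]
    have h5 : Nat.card C = 8 := h.hcard
    rw [h2, h3, h5] at h1
    omega
  -- `V` as centralizer in `H`
  set zH : H := ⟨z, hzH⟩ with hzHdef
  set VH := centralizer ({zH} : Set H) with hVH
  have hVHV : VH.map H.subtype = V := by
    ext x
    constructor
    · rintro ⟨y, hy, rfl⟩
      refine mem_inf.2 ⟨?_, y.2⟩
      rw [hC, mem_centralizer_singleton_iff]
      exact congrArg Subtype.val (mem_centralizer_singleton_iff.1 hy)
    · intro hx
      obtain ⟨hx1, hx2⟩ := mem_inf.1 hx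
      refine ⟨⟨x, hx2⟩, ?_, rfl⟩
      show (⟨x, hx2⟩ : H) ∈ VH
      rw [hVH, mem_centralizer_singleton_iff]
      exact Subtype.ext (mem_centralizer_singleton_iff.1 hx1)
  have hVH4 : Nat.card VH = 4 := by
    rw [← hV4, ← hVHV, card_map_of_injective H.subtype_injective]
  have hzH2 : orderOf zH = 2 := by rw [hzHdef, orderOf_mk, h.hz]
  -- order of `H`
  have hHi : ¬ 2 ∣ VH.index := by
    intro hd
    apply h.not_dvd_index
    have h1 : Nat.card G = 8 * C.index := by rw [← C.card_mul_index, h.hcard]
    have h2 : Nat.card G = 2 * (4 * VH.index) := by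
      rw [← H.card_mul_index, hH, ← VH.card_mul_index, hVH4]; ring
    have h3 : C.index = VH.index := by omega
    rw [h3]; exact hd
  have hVHp : IsPGroup 2 VH := IsPGroup.of_card (n := 2) (by rw [hVH4]; norm_num)
  obtain ⟨S, hS⟩ := H38.Basic.isSyl_top_iff.1 (show H38.Basic.IsSyl 2 VH ⊤ from ⟨le_top, hVHp, by rwa [relIndex_top_right]⟩)
  by_cases hexp : ∀ c ∈ VH, c ^ 2 = 1
  swap
  · -- cyclic Sylow subgroup
    exfalso
    push Not at hexp
    obtain ⟨c, hc, hc2⟩ := hexp
    apply hnpcH
    have hcyc : IsCyclic VH := by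
      have h1 : orderOf c = 4 := by
        have h2 : orderOf (⟨c, hc⟩ : VH) ∣ 4 := by rw [← hVH4]; exact orderOf_dvd_natCard _
        rw [orderOf_mk] at h2
        have h3 : ¬ orderOf c ∣ 2 := fun h4 => hc2 (orderOf_dvd_iff_pow_eq_one.1 h4)
        have h4 : orderOf c ≤ 4 := Nat.le_of_dvd (by norm_num) h2
        interval_cases h5 : orderOf c <;> simp_all
      exact isCyclic_of_orderOf_eq_card (⟨c, hc⟩ : VH) (by rw [orderOf_mk, h1, hVH4])
    have hcS : IsCyclic S := by rw [← hS] at hcyc; exact hcyc
    have hmin : (Nat.card H).minFac = 2 := by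
      rw [Nat.minFac_eq_two_iff]
      have : 4 ∣ Nat.card H := by rw [← hVH4]; exact card_subgroup_dvd_card _
      omega
    exact ⟨S, _, inferInstance, hcS.isComplement' hmin⟩
  have hexpV : ∀ v ∈ V, v * v = 1 := by
    intro v hv
    rw [← hVHV] at hv
    obtain ⟨w, hw, rfl⟩ := hv
    have := hexp w hw
    rw [← sq, ← map_pow, this, map_one]
  have hVcomm : ∀ a ∈ V, ∀ b ∈ V, a * b = b * a := by
    intro a ha b hb
    have ha' := hexpV a ha
    have hb' := hexpV b hb
    have hab := hexpV (a * b) (mul_mem ha hb)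
    have h1 : a⁻¹ = a := inv_eq_of_mul_eq_one_left ha'
    have h2 : b⁻¹ = b := inv_eq_of_mul_eq_one_left hb'
    have h3 : (a * b)⁻¹ = a * b := inv_eq_of_mul_eq_one_left hab
    rw [mul_inv_rev, h1, h2] at h3
    exact h3.symm
  have hzV : z ∈ V := mem_inf.2 ⟨h.z_mem, hzH⟩
  -- another element of `V`
  obtain ⟨v₀, hv₀, hv₀1, hv₀z⟩ : ∃ v ∈ V, v ≠ 1 ∧ v ≠ z := by
    by_contra hcon
    push Not at hcon
    have h1 : (V : Set G) ⊆ {1, z} := by
      intro v hv
      by_cases hv1 : v = 1
      · left; exact hv1
      · right; exact hcon v hv hv1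
    have h2 := Set.ncard_le_ncard h1
    have h3 : (V : Set G).ncard = 4 := by rw [← hV4]; rfl
    have h4 : ({1, z} : Set G).ncard ≤ 2 := Set.ncard_insert_le _ _ |>.trans (by simp)
    omega
  -- `C_G(V) = V`
  have hCV : ∀ g : G, (∀ v ∈ V, g * v = v * g) → g ∈ V := by
    intro g hg
    have hgC : g ∈ C := mem_centralizer_singleton_iff.2 (hg z hzV)
    by_contra hgV
    have hgH : g ∉ H := fun h1 => hgV (mem_inf.2 ⟨hgC, h1⟩)
    apply hv₀z
    have hvC : v₀ ∈ C := (mem_inf.1 hv₀).1
    apply h.huniq v₀ hvC
    · apply orderOf_eq_prime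
      · rw [sq]; exact hexpV v₀ hv₀
      · exact hv₀1
    · intro c hc
      by_cases hcH : c ∈ H
      · exact hVcomm c (mem_inf.2 ⟨hc, hcH⟩) v₀ hv₀
      · have h1 : g⁻¹ * c ∈ H := by
          rw [hmul]
          have : g⁻¹ ∉ H := fun h2 => hgH (by simpa using inv_mem h2)
          tauto
        have h2 : g⁻¹ * c ∈ V := mem_inf.2 ⟨mul_mem (inv_mem hgC) hc, h1⟩
        have h3 : c = g * (g⁻¹ * c) := by group
        have h4 := hVcomm _ h2 v₀ hv₀
        calc c * v₀ = g * ((g⁻¹ * c) * v₀) := by rw [h3]; group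
          _ = g * (v₀ * (g⁻¹ * c)) := by rw [h4]
          _ = (g * v₀) * (g⁻¹ * c) := by group
          _ = (v₀ * g) * (g⁻¹ * c) := by rw [hg v₀ hv₀]
          _ = v₀ * c := by group
  by_cases hne : ∀ E : Subgroup H, E.Normal → Cfsg.IsElementaryAbelian 2 E → Nat.card ↥E ≠ 2 ∧ Nat.card ↥E ≠ 4
  · -- `H ≃ A₅`
    right; right
    obtain ⟨e⟩ := H59.Klein1.main zH hzH2 hVH4 hexp hnpcH hne
    haveI : IsSimpleGroup H := e.isSimpleGroup
    have hker : (MulAut.conjNormal : G →* MulAut H).ker = ⊥ := by
      rw [eq_bot_iff]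
      intro g hg
      rw [MonoidHom.mem_ker] at hg
      have h1 : ∀ x ∈ H, g * x = x * g := by
        intro x hx
        have h2 := congrArg (fun f : MulAut H => ((f ⟨x, hx⟩ : H) : G)) hg
        simp only [MulAut.conjNormal_apply, MulAut.one_apply] at h2
        exact mul_inv_eq_iff_eq_mul.1 h2
      have h2 : g ∈ V := hCV g fun v hv => h1 v (mem_inf.1 hv).2
      have h3 : (⟨g, (mem_inf.1 h2).2⟩ : H) ∈ center H := by
        rw [mem_center_iff]
        intro x
        exact Subtype.ext (h1 x x.2).symm
      have h4 : center H = ⊥ := by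
        rcases (inferInstance : (center H).Normal).eq_bot_or_eq_top with h5 | h5
        · exact h5
        · exfalso
          have h6 : ∀ a b : H, a * b = b * a := fun a b => by
            have : b ∈ center H := by rw [h5]; trivial
            exact mem_center_iff.1 this a
          have h7 : ∀ a b : alternatingGroup (Fin 5), a * b = b * a := by
            intro a b
            rw [← e.apply_symm_apply a, ← e.apply_symm_apply b, ← map_mul, h6, map_mul]
          exact a5_not_comm h7
      rw [h4, mem_bot] at h3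
      exact mem_bot.2 (congrArg Subtype.val h3)
    have hinj : Function.Injective (MulAut.conjNormal : G →* MulAut H) := (MonoidHom.ker_eq_bot_iff _).1 hker
    have hbij5 : Function.Bijective (MulAut.conjNormal : Equiv.Perm (Fin 5) →* MulAut (alternatingGroup (Fin 5))) :=
      ⟨H40.AutAlt.injective_conjNormal (by simp), H40.AutAlt.surjective_conjNormal (by simp) (by simp)⟩
    let e5 := MulEquiv.ofBijective (MulAut.conjNormal : Equiv.Perm (Fin 5) →* MulAut (alternatingGroup (Fin 5))) hbij5
    let ψ : G →* Equiv.Perm (Fin 5) := (e5.symm.toMonoidHom.comp (MulAut.congr e).toMonoidHom).comp MulAut.conjNormal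
    have hψ : Function.Injective ψ := (e5.symm.injective.comp (MulAut.congr e).injective).comp hinj
    have hcG : Nat.card G = 120 := by
      rw [← H.card_mul_index, hH, Nat.card_congr e.toEquiv, Nat.card_eq_fintype_card, card_alternatingGroup]
      simp [Nat.factorial]
    have hcP : Nat.card (Equiv.Perm (Fin 5)) = 120 := by
      rw [Nat.card_eq_fintype_card, Fintype.card_perm, Fintype.card_fin]; rfl
    exact ⟨MulEquiv.ofBijective ψ ((Nat.bijective_iff_injective_and_card _).2 ⟨hψ, by rw [hcG, hcP]⟩)⟩
  push Not at hne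
  obtain ⟨E, hEn, hE, hEc⟩ := hne
  -- `E ≤ VH`
  have hEp : IsPGroup 2 E := by
    intro x
    exact ⟨1, Subtype.ext (by simpa using hE.2 x x.2)⟩
  have hEV : E ≤ VH := by
    rw [← hS]
    exact hEp.le_sylow_of_normal S
  have key : H ≤ C → C ⊔ oddCore G = ⊤ := by
    intro hle
    have h1 : C = ⊤ := by
      rw [← index_eq_one]
      have h2 : C.index ∣ 2 := by rw [← hH]; exact index_dvd_of_le hle
      rcases (Nat.dvd_prime Nat.prime_two).1 h2 with h3 | h3
      · exact h3
      · exfalso; apply h.not_dvd_index; rw [← hC, h3]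
    rw [h1, top_sup_eq]
  by_cases hE2 : Nat.card E = 2
  · -- a central involution of `H`
    left
    apply key
    obtain ⟨e, he, he1, he2⟩ : ∃ e ∈ E, e ≠ 1 ∧ ∀ x ∈ E, x = 1 ∨ x = e := by
      obtain ⟨a, ha⟩ := Nat.card_eq_two_iff' (1 : E) |>.1 hE2
      refine ⟨a, a.2, fun h1 => ha.1 (Subtype.ext h1), fun x hx => ?_⟩
      by_cases hx1 : x = 1
      · left; exact hx1
      · right
        exact congrArg Subtype.val (ha.2 ⟨x, hx⟩ (fun h1 => hx1 (congrArg Subtype.val h1)))
    have hec : ∀ x : H, x * e * x⁻¹ = e := by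
      intro x
      rcases he2 _ (hEn.conj_mem e he x) with h1 | h1
      · exfalso; apply he1
        have : e = x⁻¹ * (x * e * x⁻¹) * x := by group
        rw [this, h1]; group
      · exact h1
    -- central involutions of `H`
    have hcen : ∀ g : G, ∀ y ∈ H, y * (g * (e : G) * g⁻¹) = (g * (e : G) * g⁻¹) * y := by
      intro g y hy
      have h1 : g⁻¹ * y * g ∈ H := by
        have := hHn.conj_mem y hy g⁻¹
        rwa [inv_inv] at this
      have h2 := congrArg Subtype.val (hec ⟨_, h1⟩)
      have h3 : (g⁻¹ * y * g) * (e : G) * (g⁻¹ * y * g)⁻¹ = e := h2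
      have h4 : (g⁻¹ * y * g) * (e : G) = e * (g⁻¹ * y * g) := mul_inv_eq_iff_eq_mul.1 h3
      calc y * (g * (e : G) * g⁻¹) = g * ((g⁻¹ * y * g) * (e : G)) * g⁻¹ := by group
        _ = g * (e * (g⁻¹ * y * g)) * g⁻¹ := by rw [h4]
        _ = (g * (e : G) * g⁻¹) * y := by group
    have heV : ∀ g : G, g * (e : G) * g⁻¹ ∈ V := by
      intro g
      refine mem_inf.2 ⟨?_, hHn.conj_mem _ e.2 g⟩
      rw [hC, mem_centralizer_singleton_iff]
      exact (hcen g z hzH).symm
    have he1' : (e : G) ≠ 1 := fun h1 => he1 (Subtype.ext h1)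
    have hee : (e : G) * e = 1 := by
      have := hexpV (1 * (e : G) * 1⁻¹) (heV 1)
      simpa using this
    by_cases hez : (e : G) = z
    · intro y hy
      rw [hC, mem_centralizer_singleton_iff, ← hez]
      have := hcen 1 y hy
      simpa using this
    · -- otherwise `e` is central in `C`
      by_cases hall : ∀ c ∈ C, c * (e : G) * c⁻¹ = e
      · exfalso
        apply hez
        have heC : (e : G) ∈ C := by
          have := (mem_inf.1 (heV 1)).1
          simpa using this
        apply h.huniq _ heC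
        · apply orderOf_eq_prime
          · rw [sq]; exact hee
          · exact he1'
        · exact fun c hc => mul_inv_eq_iff_eq_mul.1 (hall c hc)
      · push Not at hall
        obtain ⟨c, hc, hce⟩ := hall
        set e' := c * (e : G) * c⁻¹ with he'
        have he'V : e' ∈ V := heV c
        have heV' : (e : G) ∈ V := by simpa using heV 1
        have he'1 : e' ≠ 1 := by
          intro h1
          apply he1'
          have : (e : G) = c⁻¹ * e' * c := by rw [he']; group
          rw [this, h1]; group
        have he'z : e' ≠ z := by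
          intro h1
          apply hez
          have h2 : (e : G) = c⁻¹ * e' * c := by rw [he']; group
          have h3 : c * z = z * c := mem_centralizer_singleton_iff.1 hc
          rw [h2, h1, mul_assoc, ← h3]; group
        -- `e e' = z`
        have hprod : (e : G) * e' = z := by
          by_contra hne
          -- five distinct elements `1, z, e, e', e e'`
          have h5 : ({1, z, (e : G), e', (e : G) * e'} : Finset G).card = 5 := by
            have hee'1 : (e : G) * e' ≠ 1 := by
              intro h1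
              apply hce
              have : e' = (e : G)⁻¹ := (inv_eq_of_mul_eq_one_right h1).symm
              rw [this, inv_eq_of_mul_eq_one_left hee]
            have hx1 : (e : G) * e' ≠ e := fun h1 => he'1 (mul_eq_left.1 h1)
            have hx2 : (e : G) * e' ≠ e' := fun h1 => he1' (mul_eq_right.1 h1)
            rw [Finset.card_insert_of_notMem, Finset.card_insert_of_notMem, Finset.card_insert_of_notMem,
              Finset.card_insert_of_notMem, Finset.card_singleton]
            · simp only [Finset.mem_singleton]; exact fun h1 => hx2 h1.symm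
            · simp only [Finset.mem_insert, Finset.mem_singleton, not_or]
              exact ⟨fun h1 => hce h1.symm, fun h1 => hx1 h1.symm⟩
            · simp only [Finset.mem_insert, Finset.mem_singleton, not_or]
              exact ⟨fun h1 => hez h1.symm, fun h1 => he'z h1.symm, fun h1 => hne h1.symm⟩
            · simp only [Finset.mem_insert, Finset.mem_singleton, not_or]
              exact ⟨fun h1 => hz1 h1.symm, fun h1 => he1' h1.symm, fun h1 => he'1 h1.symm, fun h1 => hee'1 h1.symm⟩
          have h6 : ((({1, z, (e : G), e', (e : G) * e'} : Finset G) : Set G)) ⊆ (V : Set G) := by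
            intro x hx
            simp only [Finset.coe_insert, Finset.coe_singleton, Set.mem_insert_iff, Set.mem_singleton_iff] at hx
            rcases hx with rfl | rfl | rfl | rfl | rfl
            · exact one_mem V
            · exact hzV
            · exact heV'
            · exact he'V
            · exact mul_mem heV' he'V
          have h7 := Set.ncard_le_ncard h6
          rw [Set.ncard_coe_finset, h5] at h7
          have h8 : (V : Set G).ncard = 4 := by rw [← hV4]; rfl
          omega
        intro y hy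
        rw [hC, mem_centralizer_singleton_iff, ← hprod]
        have h1 : y * (e : G) = e * y := by simpa using hcen 1 y hy
        have h2 : y * e' = e' * y := hcen c y hy
        calc y * ((e : G) * e') = (y * e) * e' := by group
          _ = (e * y) * e' := by rw [h1]
          _ = e * (y * e') := by group
          _ = e * (e' * y) := by rw [h2]
          _ = (e * e') * y := by group
  · -- `V` normal
    have hE4 : Nat.card E = 4 := by
      by_contra h4
      exact h4 (hEc hE2)
    have hEV' : E = VH := Subgroup.eq_of_le_of_card_ge hEV (by rw [hVH4, hE4])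
    have hVn : V.Normal := by
      constructor
      intro v hv g
      -- `g v g⁻¹` is a `2`-element of `H`, hence in the normal Sylow subgroup
      have hv' := (mem_inf.1 hv).2
      have h1 : g * v * g⁻¹ ∈ H := hHn.conj_mem v hv' g
      have h2 : IsPGroup 2 (zpowers (⟨g * v * g⁻¹, h1⟩ : H)) := by
        rintro ⟨y, hy⟩
        obtain ⟨i, rfl⟩ := mem_zpowers_iff.1 hy
        refine ⟨1, Subtype.ext (Subtype.ext ?_)⟩
        show ((g * v * g⁻¹) ^ i) ^ (2 ^ 1) = 1
        rw [pow_one, ← zpow_natCast, ← zpow_mul, mul_comm, zpow_mul, zpow_natCast]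
        have h3 : (g * v * g⁻¹) ^ 2 = 1 := by
          rw [conj_pow, sq, hexpV v hv]; group
        rw [h3, one_zpow]
      obtain ⟨T, hT⟩ := h2.exists_le_sylow
      have hEn' : (S : Subgroup H).Normal := by rw [hS, ← hEV']; exact hEn
      have h3 : (T : Subgroup H) = S := by
        haveI := hEn'
        have := Sylow.unique_of_normal S hEn'
        rw [Subsingleton.elim T S]
      have h4 : (⟨g * v * g⁻¹, h1⟩ : H) ∈ VH := by
        rw [← hS, ← h3]; exact hT (mem_zpowers _)
      rw [← hVHV]
      exact ⟨_, h4, rfl⟩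
    -- the index of `C` is one or three
    have hidx : C.index ≤ 3 := by
      have h1 : C.index = Nat.card (MulAction.orbit (ConjAct G) z) := by
        have h2 := MulAction.index_stabilizer (ConjAct G) z
        rw [ConjAct.stabilizer_eq_centralizer] at h2
        rw [← Nat.card_coe_set_eq] at h2
        rw [← h2]
        rfl
      rw [h1, Nat.card_coe_set_eq]
      have h3 : MulAction.orbit (ConjAct G) z ⊆ (V : Set G) \ {1} := by
        rintro _ ⟨g, rfl⟩
        refine ⟨?_, ?_⟩
        · exact hVn.conj_mem z hzV (ConjAct.ofConjAct g)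
        · intro h4
          apply hz1
          have h5 : ConjAct.ofConjAct g * z * (ConjAct.ofConjAct g)⁻¹ = 1 := h4
          have : z = (ConjAct.ofConjAct g)⁻¹ * (ConjAct.ofConjAct g * z * (ConjAct.ofConjAct g)⁻¹) * ConjAct.ofConjAct g := by group
          rw [this, h5]; group
      refine (Set.ncard_le_ncard h3).trans ?_
      rw [Set.ncard_diff_singleton_of_mem (one_mem V)]
      have h8 : (V : Set G).ncard = 4 := by rw [← hV4]; rfl
      omega
    have hpos : 0 < C.index := Nat.pos_of_ne_zero C.index_ne_zero_of_finite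
    have hodd := h.not_dvd_index
    rw [← hC] at hodd
    have h13 : C.index = 1 ∨ C.index = 3 := by omega
    rcases h13 with h1 | h3
    · left
      rw [index_eq_one.1 h1, top_sup_eq]
    · right; left
      have h24 : Nat.card G = 24 := by rw [← C.card_mul_index, h.hcard, h3]
      apply H98.DicksonIdent.S4_of h24
      intro N hN
      constructor
      · intro hN2
        -- central involution
        obtain ⟨a, ha⟩ := Nat.card_eq_two_iff' (1 : N) |>.1 hN2
        have ha1 : (a : G) ≠ 1 := fun h1 => ha.1 (Subtype.ext h1)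
        have hcen : ∀ g : G, g * (a : G) * g⁻¹ = a := by
          intro g
          have h1 : g * (a : G) * g⁻¹ ∈ N := hN.conj_mem _ a.2 g
          have h2 : (⟨_, h1⟩ : N) ≠ 1 := by
            intro h3
            apply ha1
            have h4 : g * (a : G) * g⁻¹ = 1 := congrArg Subtype.val h3
            have : (a : G) = g⁻¹ * (g * (a : G) * g⁻¹) * g := by group
            rw [this, h4]; group
          exact congrArg Subtype.val (ha.2 _ h2)
        have haC : (a : G) ∈ C := by
          rw [hC, mem_centralizer_singleton_iff]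
          exact (mul_inv_eq_iff_eq_mul.1 (hcen z)).symm
        have ha2 : orderOf (a : G) = 2 := by
          apply orderOf_eq_prime
          · have : a ^ 2 = 1 := by rw [← hN2]; exact pow_card_eq_one'
            exact congrArg Subtype.val this
          · exact ha1
        have haz := h.huniq a haC ha2 (fun c _ => mul_inv_eq_iff_eq_mul.1 (hcen c))
        have : C = ⊤ := by
          rw [eq_top_iff]
          intro g _
          rw [hC, mem_centralizer_singleton_iff, ← haz]
          exact mul_inv_eq_iff_eq_mul.1 (hcen g)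
        rw [this, index_top] at h3
        omega
      · intro hN3
        have hdisj : N ⊓ V = ⊥ := by
          apply inf_eq_bot_of_coprime
          rw [hN3, hV4]; norm_num
        have h1 : N ≤ C := by
          intro n hn
          have h2 : n * z * n⁻¹ * z⁻¹ ∈ N ⊓ V := by
            refine mem_inf.2 ⟨?_, mul_mem (hVn.conj_mem z hzV n) (inv_mem hzV)⟩
            have : n * z * n⁻¹ * z⁻¹ = n * (z * n⁻¹ * z⁻¹) := by group
            rw [this]
            exact mul_mem hn (hN.conj_mem _ (inv_mem hn) z)
          rw [hdisj, mem_bot] at h2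
          rw [hC, mem_centralizer_singleton_iff]
          have h4 : n * z * n⁻¹ = z := mul_inv_eq_one.1 h2
          exact mul_inv_eq_iff_eq_mul.1 h4
        have h2 := card_dvd_of_le h1
        rw [hN3, h.hcard] at h2
        omega

theorem sl3_of_psl {F : Type} [Field F] [Fintype F] (hF : Fintype.card F = 7)
    (h : Nonempty (G ≃* Matrix.ProjectiveSpecialLinearGroup (Fin 2) F)) :
    Nonempty (G ≃* Matrix.SpecialLinearGroup (Fin 3) (ZMod 2)) := by
  obtain ⟨e⟩ := h
  obtain ⟨e2⟩ := H6.SmallIsoD.psl2_seven (K := ZMod 2) hF (by simp)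
  have h1 : Subgroup.center (Matrix.SpecialLinearGroup (Fin 3) (ZMod 2)) = ⊥ := H6.SmallIsoD.center_trivial
  exact ⟨(e.trans e2).trans ((QuotientGroup.quotientMulEquivOfEq h1).trans QuotientGroup.quotientBot)⟩

theorem main (z : G) (hz : orderOf z = 2)
    (hC : Nonempty (↥(Subgroup.centralizer ({z} : Set G)) ≃* DihedralGroup 4)) :
    Subgroup.centralizer ({z} : Set G) ⊔ Cfsg.oddCore G = ⊤ ∨ Nonempty (G ≃* Equiv.Perm (Fin 4)) ∨ Nonempty (G ≃* Equiv.Perm (Fin 5)) ∨
      Nonempty (G ≃* Matrix.SpecialLinearGroup (Fin 3) (ZMod 2)) ∨ Nonempty (G ≃* ↥(alternatingGroup (Fin 6))) := by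
  obtain ⟨e⟩ := hC
  obtain ⟨k, s, h⟩ := setup_of hz e
  by_cases hG : ∀ H : Subgroup G, H.index ≠ 2
  · obtain ⟨hD, hK⟩ := H59.D8.data_of_D8 hG hz h.hk h.hs h.hsk h.hsK h.hcard
    have hsimple := H59.D8.simple_of_data hD hK
    rcases H59.D8.card_of_D8 hG hz h.hk h.hs h.hsk h.hsK h.hcard with hc | hc
    · have : Fact (Nat.Prime 7) := ⟨by norm_num⟩
      right; right; right; left
      exact sl3_of_psl (F := ZMod 7) (ZMod.card 7) (H21.PSLSeven.psl_seven hc (ZMod.card 7))
    · right; right; right; right
      exact H59.D8.alt6_of_data hD hK hc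
  · push Not at hG
    obtain ⟨H, hH⟩ := hG
    rcases case_index_two h hH with h1 | h1 | h1
    · exact Or.inl h1
    · exact Or.inr (Or.inl h1)
    · exact Or.inr (Or.inr (Or.inl h1))

end H56.D8Cent
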