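import Mathlib
import Cfsg.Prelude.Def_PLocal
import Cfsg.Agent.Lib.H14.PBasic
import Cfsg.Agent.Lib.H55.SylowBasic
import Cfsg.Agent.Lib.H56.Basic
import Cfsg.Agent.Lib.H56.ProdCard

/-! Thompson's replacement theorem for abelian subgroups of maximal order -/

set_option autoImplicit false

namespace H56.Replace

open Subgroup H56.Basic H56.ProdCard

variable {P : Type*} [Group P]

theorem comm_of {A : Subgroup P} (hA : IsMulCommutative A) {a b : P} (ha : a ∈ A) (hb : b ∈ A) :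
    a * b = b * a := by
  haveI := hA
  exact setLike_mul_comm (s := A) ha hb

theorem isMulCommutative_of {A : Subgroup P} (h : ∀ a ∈ A, ∀ b ∈ A, a * b = b * a) :
    IsMulCommutative A :=
  ⟨⟨fun a b => Subtype.ext (h a a.2 b b.2)⟩⟩

theorem isMulCommutative_le {A B : Subgroup P} (hB : IsMulCommutative B) (h : A ≤ B) :
    IsMulCommutative A :=
  isMulCommutative_of fun _ ha _ hb => comm_of hB (h ha) (h hb)

/-- the join of commuting abelian subgroups is abelian -/
theorem isMulCommutative_sup {A B : Subgroup P} (hA : IsMulCommutative A) (hB : IsMulCommutative B)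
    (h : ∀ a ∈ A, ∀ b ∈ B, a * b = b * a) : IsMulCommutative (A ⊔ B : Subgroup P) := by
  have e : Subgroup.closure ((A : Set P) ∪ (B : Set P)) = A ⊔ B := by
    rw [Subgroup.closure_union, closure_eq, closure_eq]
  rw [← e]
  apply Subgroup.isMulCommutative_closure
  rintro x (hx | hx) y (hy | hy)
  · exact comm_of hA hx hy
  · exact h x hx y hy
  · exact (h y hy x hx).symm
  · exact comm_of hB hx hy

/-- if `A` normalizes the subgroup `B` and `N < B` in a `p`-group, there is `x ∈ B ∖ N` with `[x,A] ≤ N`,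
provided `A` normalizes `N` and `A ∩ B ≤ N`. -/
theorem exists_step [Finite P] {p : ℕ} [Fact p.Prime] (hP : IsPGroup p P) {A B N : Subgroup P}
    (hAB : A ≤ normalizer (B : Set P)) (hAN : A ≤ normalizer (N : Set P)) (hinf : A ⊓ B ≤ N)
    (hNB : N < B) : ∃ x ∈ B, x ∉ N ∧ ∀ a ∈ A, x * a * x⁻¹ * a⁻¹ ∈ N := by
  have hle : N ⊔ A ≤ B ⊔ A := sup_le_sup_right hNB.le A
  have hlt : N ⊔ A < B ⊔ A := by
    refine lt_of_le_of_ne hle fun h => hNB.not_ge ?_
    intro b hb
    have h1 : b ∈ N ⊔ A := by rw [h]; exact mem_sup_left hb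
    rw [mem_sup_of_le_normalizer hAN] at h1
    obtain ⟨n, hn, a, ha, rfl⟩ := h1
    have h2 : a ∈ B := by
      have := B.mul_mem (B.inv_mem (hNB.le hn)) hb
      simpa using this
    exact N.mul_mem hn (hinf ⟨ha, h2⟩)
  obtain ⟨y, hy, hyn, hyN⟩ := H55.SylowBasic.exists_mem_normalizer_notMem _ _
    (hP.to_subgroup (B ⊔ A)) hlt
  rw [mem_sup_of_le_normalizer hAB] at hy
  obtain ⟨b, hb, a, ha, rfl⟩ := hy
  refine ⟨b, hb, ?_, ?_⟩
  · intro h
    exact hyn (mul_mem (mem_sup_left h) (mem_sup_right ha))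
  · have hbN : b ∈ normalizer ((N ⊔ A : Subgroup P) : Set P) := by
      have : b = (b * a) * a⁻¹ := by group
      rw [this]
      exact mul_mem hyN (inv_mem (le_normalizer (mem_sup_right ha)))
    intro c hc
    have h1 : b * c * b⁻¹ ∈ N ⊔ A := (mem_normalizer_iff.mp hbN c).mp (mem_sup_right hc)
    have h2 : b * c * b⁻¹ * c⁻¹ ∈ N ⊔ A := mul_mem h1 (mem_sup_right (A.inv_mem hc))
    have h3 : b * c * b⁻¹ * c⁻¹ ∈ B := by
      have h4 : c * b⁻¹ * c⁻¹ ∈ B := (mem_normalizer_iff.mp (hAB hc) _).mp (B.inv_mem hb)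
      have : b * c * b⁻¹ * c⁻¹ = b * (c * b⁻¹ * c⁻¹) := by group
      rw [this]; exact B.mul_mem hb h4
    rw [mem_sup_of_le_normalizer hAN] at h2
    obtain ⟨n, hn, d, hd, hnd⟩ := h2
    have h5 : d ∈ B := by
      have h6 : d = n⁻¹ * (b * c * b⁻¹ * c⁻¹) := by rw [hnd]; group
      rw [h6]; exact B.mul_mem (B.inv_mem (hNB.le hn)) h3
    rw [hnd]
    exact N.mul_mem hn (hinf ⟨hd, h5⟩)

section core
variable [Finite P] {A B : Subgroup P}

/-- `[x,A]` -/
def com (A : Subgroup P) (x : P) : Subgroup P := closure {y | ∃ a ∈ A, y = x * a * x⁻¹ * a⁻¹}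

theorem com_mem {x a : P} (ha : a ∈ A) : x * a * x⁻¹ * a⁻¹ ∈ com A x :=
  subset_closure ⟨a, ha, rfl⟩

/-- key computation -/
theorem key_comm (hA : IsMulCommutative A) (hB : IsMulCommutative B)
    (hAB : A ≤ normalizer (B : Set P)) {x : P} (hx : x ∈ B) {c : P} (hc : c ∈ A)
    (hcc : ∀ a ∈ A, a * (x * c * x⁻¹ * c⁻¹) = (x * c * x⁻¹ * c⁻¹) * a) :
    c ∈ centralizer (com A x : Set P) := by
  unfold com
  rw [centralizer_closure, mem_centralizer_iff]
  rintro _ ⟨a, ha, rfl⟩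
  have hcomm : ∀ d ∈ A, x * d * x⁻¹ * d⁻¹ ∈ B := by
    intro d hd
    have h4 : d * x⁻¹ * d⁻¹ ∈ B := (mem_normalizer_iff.mp (hAB hd) _).mp (B.inv_mem hx)
    have : x * d * x⁻¹ * d⁻¹ = x * (d * x⁻¹ * d⁻¹) := by group
    rw [this]; exact B.mul_mem hx h4
  set f := x * c * x⁻¹ * c⁻¹ with hf
  -- c x c⁻¹ = f⁻¹ x
  have h1 : c * x * c⁻¹ = f⁻¹ * x := by
    have : x * c * x⁻¹ * c⁻¹ = x * (c * x * c⁻¹)⁻¹ := by group
    rw [hf, this]; group
  have hac : a * c = c * a := comm_of hA ha hc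
  have hfa : f * a = a * f := (hcc a ha).symm
  have hfB : f * (x * a * x⁻¹ * a⁻¹) = (x * a * x⁻¹ * a⁻¹) * f := comm_of hB (hcomm c hc) (hcomm a ha)
  have hca : c * a * c⁻¹ = a := by rw [← hac]; group
  have hfa' : f * a⁻¹ = a⁻¹ * f := by
    have : a⁻¹ * (f * a) * a⁻¹ = a⁻¹ * (a * f) * a⁻¹ := by rw [hfa]
    have h3 : a⁻¹ * (f * a) * a⁻¹ = a⁻¹ * f := by group
    have h4 : a⁻¹ * (a * f) * a⁻¹ = f * a⁻¹ := by group
    rw [← h3, ← h4, this]
  have h2 : c * (x * a * x⁻¹ * a⁻¹) * c⁻¹ = x * a * x⁻¹ * a⁻¹ := by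
    calc c * (x * a * x⁻¹ * a⁻¹) * c⁻¹
        = (c * x * c⁻¹) * (c * a * c⁻¹) * (c * x * c⁻¹)⁻¹ * (c * a * c⁻¹)⁻¹ := by group
      _ = (f⁻¹ * x) * a * (f⁻¹ * x)⁻¹ * a⁻¹ := by rw [h1, hca]
      _ = f⁻¹ * x * a * x⁻¹ * (f * a⁻¹) := by group
      _ = f⁻¹ * x * a * x⁻¹ * (a⁻¹ * f) := by rw [hfa']
      _ = f⁻¹ * ((x * a * x⁻¹ * a⁻¹) * f) := by group
      _ = f⁻¹ * (f * (x * a * x⁻¹ * a⁻¹)) := by rw [hfB]
      _ = x * a * x⁻¹ * a⁻¹ := by group
  calc (x * a * x⁻¹ * a⁻¹) * c = (c * (x * a * x⁻¹ * a⁻¹) * c⁻¹) * c := by rw [h2]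
    _ = c * (x * a * x⁻¹ * a⁻¹) := by group

theorem com_le (hAB : A ≤ normalizer (B : Set P)) {x : P} (hx : x ∈ B) : com A x ≤ B := by
  unfold com
  rw [closure_le]
  rintro _ ⟨d, hd, rfl⟩
  have h4 : d * x⁻¹ * d⁻¹ ∈ B := (mem_normalizer_iff.mp (hAB hd) _).mp (B.inv_mem hx)
  have : x * d * x⁻¹ * d⁻¹ = x * (d * x⁻¹ * d⁻¹) := by group
  rw [this]; exact B.mul_mem hx h4

theorem relIndex_le (hA : IsMulCommutative A) (hB : IsMulCommutative B)
    (hAB : A ≤ normalizer (B : Set P)) {x : P} (hx : x ∈ B) :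
    (centralizer (com A x : Set P)).relIndex A ≤ A.relIndex (com A x) := by
  let F : A ⧸ (centralizer (com A x : Set P)).subgroupOf A → (com A x) ⧸ A.subgroupOf (com A x) :=
    fun q => QuotientGroup.mk (⟨x * q.out * x⁻¹ * (q.out : P)⁻¹, com_mem q.out.2⟩ : com A x)
  have hF : Function.Injective F := by
    intro q r hqr
    have h1 := (QuotientGroup.eq (s := A.subgroupOf (com A x))).mp hqr
    rw [mem_subgroupOf] at h1
    have h2 : (x * q.out * x⁻¹ * (q.out : P)⁻¹)⁻¹ * (x * r.out * x⁻¹ * (r.out : P)⁻¹) ∈ A := h1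
    set a : P := (q.out : P) with ha
    set b : P := (r.out : P) with hb
    have haA : a ∈ A := q.out.2
    have hbA : b ∈ A := r.out.2
    have h3 : a⁻¹ * b ∈ centralizer (com A x : Set P) := by
      apply key_comm hA hB hAB hx (A.mul_mem (A.inv_mem haA) hbA)
      have h4 : x * (a⁻¹ * b) * x⁻¹ * (a⁻¹ * b)⁻¹ ∈ A := by
        have h5 : a⁻¹ * ((x * a * x⁻¹ * a⁻¹)⁻¹ * (x * b * x⁻¹ * b⁻¹)) * a ∈ A :=
          A.mul_mem (A.mul_mem (A.inv_mem haA) h2) haA
        have h6 : x * (a⁻¹ * b) * x⁻¹ * (a⁻¹ * b)⁻¹ =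
            a⁻¹ * ((x * a * x⁻¹ * a⁻¹)⁻¹ * (x * b * x⁻¹ * b⁻¹)) * a := by
          have h7 : (a⁻¹ * b)⁻¹ = b⁻¹ * a := by group
          have h8 : a⁻¹ * ((x * a * x⁻¹ * a⁻¹)⁻¹ * (x * b * x⁻¹ * b⁻¹)) * a =
            x * a⁻¹ * b * x⁻¹ * b⁻¹ * a := by group
          rw [h8, h7]; group
        rw [h6]; exact h5
      intro d hd
      exact comm_of hA hd h4
    have h4 : (QuotientGroup.mk q.out : A ⧸ (centralizer (com A x : Set P)).subgroupOf A) =
        QuotientGroup.mk r.out := by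
      rw [QuotientGroup.eq]
      exact h3
    have h5 : (QuotientGroup.mk q.out : A ⧸ (centralizer (com A x : Set P)).subgroupOf A) = q :=
      Quotient.out_eq q
    have h6 : (QuotientGroup.mk r.out : A ⧸ (centralizer (com A x : Set P)).subgroupOf A) = r :=
      Quotient.out_eq r
    rw [← h5, h4, h6]
  exact Nat.card_le_card_of_injective F hF

theorem replacement {p : ℕ} [Fact p.Prime] (hP : IsPGroup p P) (hA : A ∈ Cfsg.maxAbelianSubgroups P)
    (hB : IsMulCommutative B) (hAB : A ≤ normalizer (B : Set P)) (hn : ¬ B ≤ normalizer (A : Set P)) :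
    ∃ M : Subgroup P, M ≤ B ∧ (M ⊔ (A ⊓ centralizer (M : Set P))) ∈ Cfsg.maxAbelianSubgroups P ∧
      A ⊓ B < (M ⊔ (A ⊓ centralizer (M : Set P))) ⊓ B ∧
      M ⊔ (A ⊓ centralizer (M : Set P)) ≤ normalizer (A : Set P) := by
  have hNB : B ⊓ normalizer (A : Set P) < B := by
    refine lt_of_le_of_ne inf_le_left fun h => hn ?_
    rw [← h]; exact inf_le_right
  have hAN : A ≤ normalizer ((B ⊓ normalizer (A : Set P) : Subgroup P) : Set P) := by
    intro a ha
    apply mem_normalizer_of_forall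
    rintro x ⟨hx, hx2⟩
    exact ⟨(mem_normalizer_iff.mp (hAB ha) x).mp hx,
      Subgroup.mul_mem _ (Subgroup.mul_mem _ (le_normalizer ha) hx2)
        (Subgroup.inv_mem _ (le_normalizer ha))⟩
  obtain ⟨x, hxB, hxN, hx⟩ := exists_step hP hAB hAN (le_inf inf_le_right (inf_le_left.trans le_normalizer)) hNB
  have hMB : com A x ≤ B := com_le hAB hxB
  have hMN : com A x ≤ normalizer (A : Set P) := by
    unfold com
    rw [closure_le]
    rintro _ ⟨d, hd, rfl⟩
    exact (hx d hd).2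
  have hMab := isMulCommutative_le hB hMB
  refine ⟨com A x, hMB, ?_, ?_, ?_⟩
  · have hab : IsMulCommutative (com A x ⊔ (A ⊓ centralizer (com A x : Set P)) : Subgroup P) := by
      apply isMulCommutative_sup hMab (isMulCommutative_le hA.1 inf_le_left)
      intro a ha b hb
      exact mem_centralizer_iff.mp hb.2 a ha
    refine ⟨hab, fun D hD => (hA.2 D hD).trans ?_⟩
    -- cardinality
    set M := com A x with hM
    set C : Subgroup P := A ⊓ centralizer (M : Set P) with hC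
    have h1 := relIndex_le hA.1 hB hAB hxB
    rw [← hM] at h1
    have h2 := card_inf_mul_relIndex (centralizer (M : Set P)) A
    have h3 := card_inf_mul_relIndex A M
    have h4 := card_mul_card_le M C
    have h5 : Nat.card (M ⊓ C : Subgroup P) ≤ Nat.card (A ⊓ M : Subgroup P) :=
      Subgroup.card_le_of_le (le_inf (inf_le_right.trans inf_le_left) inf_le_left)
    rw [inf_comm, ← hC] at h2
    have h6 : Nat.card A * Nat.card (A ⊓ M : Subgroup P) ≤ Nat.card C * Nat.card M := by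
      rw [← h2, ← h3]
      calc Nat.card C * (centralizer (M : Set P)).relIndex A * Nat.card (A ⊓ M : Subgroup P)
          ≤ Nat.card C * A.relIndex M * Nat.card (A ⊓ M : Subgroup P) :=
            Nat.mul_le_mul_right _ (Nat.mul_le_mul_left _ h1)
        _ = _ := by ring
    have h7 : Nat.card A * Nat.card (A ⊓ M : Subgroup P) ≤
        Nat.card (M ⊔ C : Subgroup P) * Nat.card (A ⊓ M : Subgroup P) := by
      calc _ ≤ Nat.card C * Nat.card M := h6
        _ = Nat.card M * Nat.card C := mul_comm _ _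
        _ ≤ _ := h4
        _ ≤ _ := Nat.mul_le_mul_left _ h5
    exact Nat.le_of_mul_le_mul_right h7 Nat.card_pos
  · have hle : A ⊓ B ≤ (com A x ⊔ (A ⊓ centralizer (com A x : Set P))) ⊓ B := by
      refine le_inf ((le_inf inf_le_left ?_).trans le_sup_right) inf_le_right
      intro b hb
      rw [mem_centralizer_iff]
      intro m hm
      exact comm_of hB (hMB hm) hb.2
    refine lt_of_le_of_ne hle fun h => hxN ⟨hxB, ?_⟩
    have h1 : com A x ≤ A := by
      have : com A x ≤ (com A x ⊔ (A ⊓ centralizer (com A x : Set P))) ⊓ B := le_inf le_sup_left hMB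
      rw [← h] at this
      exact this.trans inf_le_left
    apply mem_normalizer_of_forall
    intro a ha
    have := A.mul_mem (h1 (com_mem (x := x) ha)) ha
    simpa using this
  · exact sup_le hMN (inf_le_left.trans le_normalizer)

end core

end H56.Replace
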