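import Mathlib
import Cfsg.Prelude.Def_PLocal
import Cfsg.Prelude.Def_DStar
import Cfsg.Agent.Lib.H28.Cj
import Cfsg.Agent.Lib.H56.Replace

/-! The subgroup `D*` of Glauberman and Solomon, in an ambient group -/

set_option autoImplicit false

namespace H56.DStar

open Subgroup H56.Basic H56.Replace H28.Cj
open scoped commutatorElement

variable {G : Type*} [Group G]

/-- nilpotency class at most two -/
def ClassTwo (L : Subgroup G) : Prop := ⁅⁅L, L⁆, L⁆ = ⊥

theorem classTwo_mono {K L : Subgroup G} (h : K ≤ L) (hL : ClassTwo L) : ClassTwo K := by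
  unfold ClassTwo at *
  rw [eq_bot_iff, ← hL]
  exact commutator_mono (commutator_mono h h) h

theorem classTwo_of_gens {s : Set G}
    (h : ∀ x ∈ s, ∀ y ∈ s, ⁅x, y⁆ ∈ centralizer (Subgroup.closure s : Set G)) : ClassTwo (Subgroup.closure s) := by
  have h1 : ∀ x ∈ s, ∀ y ∈ Subgroup.closure s, ⁅x, y⁆ ∈ centralizer (Subgroup.closure s : Set G) := by
    intro x hx y hy
    induction hy using Subgroup.closure_induction with
    | mem y hy => exact h x hx y hy
    | one => rw [commutatorElement_one_right]; exact one_mem _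
    | mul y z hy hz ihy ihz =>
      have e : ⁅x, y * z⁆ = ⁅x, y⁆ * (y * ⁅x, z⁆ * y⁻¹) := by simp only [commutatorElement_def]; group
      have e2 : y * ⁅x, z⁆ * y⁻¹ = ⁅x, z⁆ := by rw [mem_centralizer_iff.mp ihz y hy]; group
      rw [e, e2]; exact Subgroup.mul_mem _ ihy ihz
    | inv y hy ihy =>
      have e : ⁅x, y⁻¹⁆ = y⁻¹ * ⁅x, y⁆⁻¹ * y := by simp only [commutatorElement_def]; group
      have e2 : y⁻¹ * ⁅x, y⁆⁻¹ * y = ⁅x, y⁆⁻¹ := by
        rw [mem_centralizer_iff.mp (Subgroup.inv_mem _ ihy) y⁻¹ (Subgroup.inv_mem _ hy)]; group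
      rw [e, e2]; exact Subgroup.inv_mem _ ihy
  have h2 : ∀ x ∈ Subgroup.closure s, ∀ y ∈ Subgroup.closure s, ⁅x, y⁆ ∈ centralizer (Subgroup.closure s : Set G) := by
    intro x hx y hy
    induction hx using Subgroup.closure_induction with
    | mem x hx => exact h1 x hx y hy
    | one => rw [commutatorElement_one_left]; exact one_mem _
    | mul x z hx hz ihx ihz =>
      have e : ⁅x * z, y⁆ = (x * ⁅z, y⁆ * x⁻¹) * ⁅x, y⁆ := by simp only [commutatorElement_def]; group
      have e2 : x * ⁅z, y⁆ * x⁻¹ = ⁅z, y⁆ := by rw [mem_centralizer_iff.mp ihz x hx]; group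
      rw [e, e2]; exact Subgroup.mul_mem _ ihz ihx
    | inv x hx ihx =>
      have e : ⁅x⁻¹, y⁆ = x⁻¹ * ⁅x, y⁆⁻¹ * x := by simp only [commutatorElement_def]; group
      have e2 : x⁻¹ * ⁅x, y⁆⁻¹ * x = ⁅x, y⁆⁻¹ := by
        rw [mem_centralizer_iff.mp (Subgroup.inv_mem _ ihx) x⁻¹ (Subgroup.inv_mem _ hx)]; group
      rw [e, e2]; exact Subgroup.inv_mem _ ihx
  unfold ClassTwo
  rw [commutator_eq_bot_iff_le_centralizer, commutator_le]
  exact h2

/-- the family, relative to a subgroup `T` -/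
def Fam (T A : Subgroup G) : Prop :=
  A ≤ T ∧ IsMulCommutative A ∧ ∀ x ∈ T, ClassTwo (A ⊔ zpowers x) → ∀ a ∈ A, a * x = x * a

theorem Fam.restrict {T T' A : Subgroup G} (h : Fam T' A) (hAT : A ≤ T) (hTT' : T ≤ T') : Fam T A :=
  ⟨hAT, h.2.1, fun x hx => h.2.2 x (hTT' hx)⟩

theorem classTwo_cj {g : G} {L : Subgroup G} : ClassTwo (cj g L) ↔ ClassTwo L := by
  unfold ClassTwo
  rw [← cj_commutator, ← cj_commutator, cj_eq_bot]

theorem cj_zpowers (g x : G) : cj g (zpowers x) = zpowers (g * x * g⁻¹) := by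
  unfold cj
  rw [MonoidHom.map_zpowers]; rfl

theorem isMulCommutative_cj {g : G} {A : Subgroup G} (h : IsMulCommutative A) :
    IsMulCommutative (cj g A) := by
  apply isMulCommutative_of
  rintro _ ⟨a, ha, rfl⟩ _ ⟨b, hb, rfl⟩
  rw [← map_mul, ← map_mul, comm_of h ha hb]

theorem Fam.cj {T A : Subgroup G} (h : Fam T A) (g : G) : Fam (cj g T) (cj g A) := by
  refine ⟨cj_le_cj.mpr h.1, isMulCommutative_cj h.2.1, ?_⟩
  rintro _ ⟨x, hx, rfl⟩ hcl _ ⟨a, ha, rfl⟩
  have h1 : H28.Cj.cj g A ⊔ zpowers ((MulAut.conj g).toMonoidHom x) = H28.Cj.cj g (A ⊔ zpowers x) := by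
    rw [cj_sup, cj_zpowers]; rfl
  rw [h1, classTwo_cj] at hcl
  have := h.2.2 x hx hcl a ha
  rw [← map_mul, ← map_mul, this]

/-- `D*(T)` -/
def D (T : Subgroup G) : Subgroup G := sSup {A | Fam T A}

theorem D_le (T : Subgroup G) : D T ≤ T := sSup_le fun _ hA => hA.1

theorem le_D {T A : Subgroup G} (h : Fam T A) : A ≤ D T := le_sSup h

theorem cj_D (g : G) (T : Subgroup G) : H28.Cj.cj g (D T) = D (H28.Cj.cj g T) := by
  apply le_antisymm
  · rw [cj_le_iff]
    apply sSup_le
    intro A hA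
    rw [le_cj_iff, inv_inv]
    exact le_D (hA.cj g)
  · apply sSup_le
    intro A hA
    rw [le_cj_iff]
    apply le_D
    have := Fam.cj hA g⁻¹
    rwa [cj_inv_cj] at this

theorem normalizer_le_normalizer_D (T : Subgroup G) :
    normalizer (T : Set G) ≤ normalizer (D T : Set G) := by
  intro g hg
  rw [mem_normalizer_iff_cj] at hg ⊢
  rw [cj_D, hg]

/-- Claim: a member of the family centralizes every abelian subgroup which it normalizes. -/
theorem Fam.le_centralizer [Finite G] {p : ℕ} [Fact p.Prime] {T A B : Subgroup G} (hT : IsPGroup p T)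
    (h : Fam T A) (hB : IsMulCommutative B) (hBT : B ≤ T) (hAB : A ≤ normalizer (B : Set G)) :
    A ≤ centralizer (B : Set G) := by
  -- move to the group T
  by_contra hcon
  have hNB : B ⊓ centralizer (A : Set G) < B := by
    refine lt_of_le_of_ne inf_le_left fun h1 => hcon ?_
    rw [Subgroup.le_centralizer_iff, ← h1]
    exact inf_le_right
  obtain ⟨x, hxB, hxN, hx⟩ : ∃ x ∈ B, x ∉ B ⊓ centralizer (A : Set G) ∧
      ∀ a ∈ A, x * a * x⁻¹ * a⁻¹ ∈ B ⊓ centralizer (A : Set G) := by
    have hlt : (B ⊓ centralizer (A : Set G)).subgroupOf T < B.subgroupOf T := by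
      refine lt_of_le_of_ne (Subgroup.comap_mono inf_le_left) fun h1 => ?_
      have h2 := congrArg (fun K : Subgroup T => K.map T.subtype) h1
      simp only [subgroupOf_map_subtype, inf_eq_left.mpr hBT,
        inf_eq_left.mpr ((inf_le_left : B ⊓ centralizer (A : Set G) ≤ B).trans hBT)] at h2
      exact hNB.ne h2
    obtain ⟨y, hy1, hy2, hy3⟩ := exists_step (P := T) hT (A := A.subgroupOf T) (B := B.subgroupOf T)
      (N := (B ⊓ centralizer (A : Set G)).subgroupOf T) (by
        rintro ⟨a, haT⟩ ha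
        rw [mem_normalizer_iff]
        rintro ⟨b, hb⟩
        exact mem_normalizer_iff.mp (hAB ha) b) (by
        rintro ⟨a, haT⟩ ha
        rw [mem_normalizer_iff]
        rintro ⟨b, hb⟩
        have haA : a ∈ A := ha
        constructor
        · rintro ⟨h1, h2⟩
          refine ⟨(mem_normalizer_iff.mp (hAB haA) b).mp h1, ?_⟩
          have h3 : a * b = b * a := mem_centralizer_iff.mp h2 a haA
          change a * b * a⁻¹ ∈ centralizer (A : Set G)
          rw [h3, mul_inv_cancel_right]; exact h2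
        · rintro ⟨h1, h2⟩
          refine ⟨(mem_normalizer_iff.mp (hAB haA) b).mpr h1, ?_⟩
          have h2' : a * b * a⁻¹ ∈ centralizer (A : Set G) := h2
          have h3 : a * (a * b * a⁻¹) = (a * b * a⁻¹) * a := mem_centralizer_iff.mp h2' a haA
          have h4 : a * b * a⁻¹ = b := by
            have h5 : a⁻¹ * (a * (a * b * a⁻¹)) = a * b * a⁻¹ := by group
            have h6 : a⁻¹ * ((a * b * a⁻¹) * a) = b := by group
            rw [← h5, h3, h6]
          change b ∈ centralizer (A : Set G)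
          rw [← h4]; exact h2') (by
        rintro ⟨a, haT⟩ ⟨ha, hb⟩
        refine ⟨hb, ?_⟩
        exact mem_centralizer_iff.mpr fun c hc => comm_of h.2.1 hc ha) hlt
    exact ⟨y, hy1, hy2, fun a ha => hy3 ⟨a, h.1 ha⟩ ha⟩
  apply hxN
  refine ⟨hxB, mem_centralizer_iff.mpr ?_⟩
  apply h.2.2 x (hBT hxB)
  have hcl : A ⊔ zpowers x = Subgroup.closure ((A : Set G) ∪ {x}) := by
    rw [Subgroup.closure_union, closure_eq, zpowers_eq_closure]
  rw [hcl]
  have hcen : B ⊓ centralizer (A : Set G) ≤ centralizer (Subgroup.closure ((A : Set G) ∪ {x}) : Set G) := by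
    rintro y ⟨hyB, hyA⟩
    rw [centralizer_closure, mem_centralizer_iff]
    rintro z (hz | rfl)
    · exact mem_centralizer_iff.mp hyA z hz
    · exact comm_of hB hxB hyB
  apply classTwo_of_gens
  rintro y (hy | rfl) z (hz | rfl)
  · have : ⁅y, z⁆ = 1 := by
      rw [commutatorElement_eq_one_iff_mul_comm]; exact comm_of h.2.1 hy hz
    rw [this]; exact one_mem _
  · have : ⁅y, z⁆ = (z * y * z⁻¹ * y⁻¹)⁻¹ := by rw [commutatorElement_def]; group
    rw [this]; exact Subgroup.inv_mem _ (hcen (hx y hy))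
  · rw [commutatorElement_def]
    exact hcen (hx z hz)
  · rw [commutatorElement_self]; exact one_mem _

theorem D_comm_aux {T : Subgroup G}
    (h : ∀ A B : Subgroup G, Fam T A → Fam T B → B ≤ centralizer (A : Set G)) :
    IsMulCommutative (D T) := by
  have e : D T = Subgroup.closure (⋃ A : {A | Fam T A}, ((A : Subgroup G) : Set G)) := by
    unfold D
    rw [sSup_eq_iSup', Subgroup.iSup_eq_closure]
  rw [e]
  apply Subgroup.isMulCommutative_closure
  intro x hx y hy
  rw [Set.mem_iUnion] at hx hy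
  obtain ⟨⟨X, hX⟩, hxX⟩ := hx
  obtain ⟨⟨Y, hY⟩, hyY⟩ := hy
  exact mem_centralizer_iff.mp (h X Y hX hY hyY) x hxX

/-- the family commutes; hence `D*` is abelian -/
theorem fam_comm [Finite G] {p : ℕ} [Fact p.Prime] (n : ℕ) : ∀ T : Subgroup G, Nat.card T = n →
    IsPGroup p T → ∀ A B : Subgroup G, Fam T A → Fam T B → B ≤ centralizer (A : Set G) := by
  induction n using Nat.strong_induction_on with
  | _ n ih =>
    intro T hTn hT A B hA hB
    by_cases hAT : A = T
    · -- T abelian
      intro b hb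
      rw [mem_centralizer_iff]
      intro a ha
      exact comm_of hA.2.1 ha (by rw [hAT]; exact hB.1 hb)
    · obtain ⟨M, hM, hMmax⟩ := Set.Finite.exists_maximal (s := {M : Subgroup G | A ≤ M ∧ M < T})
        (Set.toFinite _) ⟨A, le_rfl, lt_of_le_of_ne hA.1 hAT⟩
      obtain ⟨hAM, hMT⟩ := hM
      have hTM : T ≤ normalizer (M : Set G) := by
        obtain ⟨x, hxT, hxM, hx⟩ := H55.SylowBasic.exists_mem_normalizer_notMem _ _ hT hMT
        have h1 : M ⊔ zpowers x = T := by
          by_contra hne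
          have h2 : M ⊔ zpowers x ≤ T := sup_le hMT.le (by rw [zpowers_le]; exact hxT)
          have h3 := hMmax (y := M ⊔ zpowers x) ⟨hAM.trans le_sup_left, lt_of_le_of_ne h2 hne⟩ le_sup_left
          exact hxM (h3 (mem_sup_right (mem_zpowers x)))
        rw [← h1]
        exact sup_le le_normalizer (by rw [zpowers_le]; exact hx)
      have hMp : IsPGroup p M := hT.to_le hMT.le
      have hlt : Nat.card M < n := by
        rw [← hTn]
        by_contra hge
        exact hMT.ne (eq_of_le_of_card_ge hMT.le (not_lt.mp hge))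
      have hDab : IsMulCommutative (D M) := D_comm_aux (ih (Nat.card M) hlt M rfl hMp)
      have h1 : B ≤ centralizer (D M : Set G) := by
        apply hB.le_centralizer hT hDab ((D_le M).trans hMT.le)
        exact (hB.1.trans hTM).trans (normalizer_le_normalizer_D M)
      refine h1.trans (centralizer_le ?_)
      exact le_D (hA.restrict hAM hMT.le)

theorem D_comm [Finite G] {p : ℕ} [Fact p.Prime] {T : Subgroup G} (hT : IsPGroup p T) :
    IsMulCommutative (D T) := D_comm_aux (fam_comm _ T rfl hT)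

theorem fam_D [Finite G] {p : ℕ} [Fact p.Prime] {T : Subgroup G} (hT : IsPGroup p T) : Fam T (D T) := by
  refine ⟨D_le T, D_comm hT, ?_⟩
  intro x hx hcl a ha
  have h1 : D T ≤ centralizer ({x} : Set G) := by
    apply sSup_le
    intro A hA a ha
    rw [mem_centralizer_singleton_iff]
    exact hA.2.2 x hx (classTwo_mono (sup_le_sup_right (le_D hA) _) hcl) a ha
  exact mem_centralizer_singleton_iff.mp (h1 ha)

theorem D_le_of_le [Finite G] {p : ℕ} [Fact p.Prime] {T T' : Subgroup G} (hT' : IsPGroup p T')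
    (hTT' : T ≤ T') (h : D T' ≤ T) : D T' ≤ D T := le_D ((fam_D hT').restrict h hTT')

/-! ### comparison with the frozen definitions -/

theorem mem_dStarFamily_iff {S : Type*} [Group S] {A : Subgroup S} :
    A ∈ Cfsg.dStarFamily S ↔ Fam ⊤ A := by
  constructor
  · intro h
    exact ⟨le_top, h.1, fun x _ hx a ha => h.2 x hx a ha⟩
  · intro h
    exact ⟨h.2.1, fun x hx a ha => h.2.2 x (mem_top x) hx a ha⟩

theorem dStar_eq {S : Type*} [Group S] : Cfsg.dStar S = D (⊤ : Subgroup S) := by
  unfold Cfsg.dStar D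
  congr 1
  ext A
  exact mem_dStarFamily_iff

theorem classTwo_map_subtype {T : Subgroup G} {L : Subgroup T} :
    ClassTwo (L.map T.subtype) ↔ ClassTwo L := by
  unfold ClassTwo
  rw [← Subgroup.map_commutator, ← Subgroup.map_commutator]
  rw [Subgroup.map_eq_bot_iff_of_injective _ T.subtype_injective]

theorem fam_map_subtype {T : Subgroup G} {A : Subgroup T} :
    Fam ⊤ A ↔ Fam T (A.map T.subtype) := by
  have key : ∀ x : T, (A.map T.subtype) ⊔ zpowers (x : G) = (A ⊔ zpowers x).map T.subtype := by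
    intro x
    rw [Subgroup.map_sup, MonoidHom.map_zpowers]; rfl
  constructor
  · rintro ⟨-, h1, h2⟩
    refine ⟨map_subtype_le _, ?_, ?_⟩
    · apply isMulCommutative_of
      rintro _ ⟨a, ha, rfl⟩ _ ⟨b, hb, rfl⟩
      rw [← map_mul, ← map_mul, comm_of h1 ha hb]
    · intro x hx hcl
      have h3 := key ⟨x, hx⟩
      rw [show ((⟨x, hx⟩ : T) : G) = x from rfl] at h3
      rw [h3, classTwo_map_subtype] at hcl
      rintro _ ⟨a, ha, rfl⟩
      exact congrArg Subtype.val (h2 ⟨x, hx⟩ (mem_top _) hcl a ha)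
  · rintro ⟨-, h1, h2⟩
    refine ⟨le_top, ?_, ?_⟩
    · apply isMulCommutative_of
      intro a ha b hb
      exact Subtype.ext (comm_of h1 ⟨a, ha, rfl⟩ ⟨b, hb, rfl⟩)
    · intro x _ hcl a ha
      apply Subtype.ext
      refine h2 x x.2 ?_ a ⟨a, ha, rfl⟩
      rw [key, classTwo_map_subtype]; exact hcl

theorem dStarOf_eq (T : Subgroup G) : Cfsg.dStarOf T = D T := by
  unfold Cfsg.dStarOf
  rw [dStar_eq]
  apply le_antisymm
  · unfold D
    rw [sSup_eq_iSup, Subgroup.map_iSup]
    refine iSup_le fun A => ?_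
    rw [Subgroup.map_iSup]
    refine iSup_le fun hA => le_sSup ?_
    exact fam_map_subtype.mp hA
  · apply sSup_le
    intro A hA
    have e : (A.subgroupOf T).map T.subtype = A := by
      rw [subgroupOf_map_subtype, inf_eq_left.mpr hA.1]
    rw [← e]
    apply Subgroup.map_mono
    apply le_D
    rw [fam_map_subtype, e]
    exact hA

end H56.DStar
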