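import Mathlib
import Cfsg.Agent.Lib.H1.Hall
import Cfsg.Prelude.Def_Solvable

/-! A solvable group of automorphisms of an elementary abelian group of order `16` (`81`) has no order divisible
by `35` (`65`). (helper56) -/

set_option autoImplicit false
set_option linter.unusedVariables false
set_option linter.style.haveILetI false

open Cfsg

namespace H56.EqOrd

section fix
variable {H A : Type*} [Group H] [AddCommGroup A] [DistribMulAction H A]

/-- the fixed points of a subgroup -/
def fix (A : Type*) [AddCommGroup A] [DistribMulAction H A] (M : Subgroup H) : AddSubgroup A where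
  carrier := {a | ∀ m ∈ M, m • a = a}
  zero_mem' := fun m _ => smul_zero m
  add_mem' := by
    intro a b ha hb m hm
    rw [smul_add, ha m hm, hb m hm]
  neg_mem' := by
    intro a ha m hm
    rw [smul_neg, ha m hm]

theorem mem_fix {M : Subgroup H} {a : A} : a ∈ fix A M ↔ ∀ m ∈ M, m • a = a := Iff.rfl

theorem card_fix_modEq {r : ℕ} [Fact r.Prime] [Finite A] (M : Subgroup H) (hM : IsPGroup r M) :
    Nat.card A ≡ Nat.card (fix A M) [MOD r] := by
  have h1 := hM.card_modEq_card_fixedPoints A
  have h2 : Nat.card (MulAction.fixedPoints M A) = Nat.card (fix A M) := by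
    apply Nat.card_congr
    refine Equiv.subtypeEquivRight ?_
    intro a
    rw [MulAction.mem_fixedPoints]
    constructor
    · intro h m hm
      exact h ⟨m, hm⟩
    · intro h m
      exact h m m.2
  rwa [h2] at h1

theorem card_fix_dvd (M : Subgroup H) : Nat.card (fix A M) ∣ Nat.card A := AddSubgroup.card_addSubgroup_dvd_card _

theorem eq_bot_of_card_fix [Finite A] [FaithfulSMul H A] (M : Subgroup H) (h : Nat.card (fix A M) = Nat.card A) :
    M = ⊥ := by
  have h1 : fix A M = ⊤ := AddSubgroup.eq_top_of_card_eq _ h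
  rw [eq_bot_iff]
  intro m hm
  rw [Subgroup.mem_bot]
  apply FaithfulSMul.eq_of_smul_eq_smul (α := A)
  intro a
  have h2 : a ∈ fix A M := by rw [h1]; trivial
  rw [mem_fix.1 h2 m hm, one_smul]

/-- an element of order `5` acts trivially on an invariant set of less than five elements -/
theorem fixes_of_small [Finite A] (B : AddSubgroup A) (hB : Nat.card B < 5) (y : H) (hy : y ^ 5 = 1)
    (hinv : ∀ b ∈ B, y • b ∈ B) {b : A} (hb : b ∈ B) : y • b = b := by
  have h5 : Function.minimalPeriod (y • ·) b ∣ 5 := by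
    apply Function.IsPeriodicPt.minimalPeriod_dvd
    show ((fun a : A => y • a)^[5]) b = b
    rw [smul_iterate]
    show (y ^ 5) • b = b
    rw [hy, one_smul]
  have hmem : ∀ k : ℕ, (y ^ k) • b ∈ B := by
    intro k
    induction k with
    | zero => rwa [pow_zero, one_smul]
    | succ k ih => rw [pow_succ', mul_smul]; exact hinv _ ih
  rcases (Nat.dvd_prime (by norm_num : Nat.Prime 5)).1 h5 with h | h
  · exact Function.minimalPeriod_eq_one_iff_isFixedPt.1 h
  · exfalso
    have hinj : Function.Injective (fun i : Fin 5 => (⟨(y ^ (i : ℕ)) • b, hmem i⟩ : B)) := by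
      intro i j hij
      simp only [Subtype.mk.injEq] at hij
      have h1 := Function.iterate_eq_iterate_iff_of_lt_minimalPeriod (f := (y • ·)) (x := b)
        (m := (i : ℕ)) (n := (j : ℕ)) (by rw [h]; exact i.2) (by rw [h]; exact j.2)
      rw [smul_iterate, smul_iterate] at h1
      exact Fin.ext (h1.1 hij)
    have h2 := Nat.card_le_card_of_injective _ hinj
    rw [Nat.card_fin] at h2
    omega

theorem prime_fives {q : ℕ} (hq : q = 2 ∨ q = 3) {d : ℕ} (hd : d ∣ q ^ 4) (h : q ^ 4 ≡ d [MOD 5]) :
    d = 1 ∨ d = q ^ 4 := by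
  rcases hq with rfl | rfl
  · have : d ≤ 16 := Nat.le_of_dvd (by norm_num) hd
    interval_cases d <;> revert hd h <;> decide
  · have : d ≤ 81 := Nat.le_of_dvd (by norm_num) hd
    interval_cases d <;> revert hd h <;> decide

theorem prime_r {q r : ℕ} (hq : (q = 2 ∧ r = 7) ∨ (q = 3 ∧ r = 13)) {d : ℕ} (hd : d ∣ q ^ 4) (h : q ^ 4 ≡ d [MOD r]) :
    d = q ∨ d = q ^ 4 := by
  rcases hq with ⟨rfl, rfl⟩ | ⟨rfl, rfl⟩
  · have : d ≤ 16 := Nat.le_of_dvd (by norm_num) hd
    interval_cases d <;> revert hd h <;> decide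
  · have : d ≤ 81 := Nat.le_of_dvd (by norm_num) hd
    interval_cases d <;> revert hd h <;> decide

theorem elem_five [Finite A] [Finite H] [FaithfulSMul H A] {q r : ℕ} [hr : Fact r.Prime]
    (hq : (q = 2 ∧ r = 7) ∨ (q = 3 ∧ r = 13)) (hA : Nat.card A = q ^ 4) (M : Subgroup H) (hM : IsPGroup r M)
    (hM1 : M ≠ ⊥) (y : H) (hy : y ^ 5 = 1) (hyM : ∀ m ∈ M, y⁻¹ * m * y ∈ M) : y = 1 := by
  haveI : Fact (Nat.Prime 5) := ⟨by norm_num⟩
  have h1 := card_fix_modEq (A := A) M hM
  rw [hA] at h1
  have h2 : Nat.card (fix A M) = q := by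
    rcases prime_r hq (hA ▸ card_fix_dvd (A := A) M) h1 with h | h
    · exact h
    · exact absurd (eq_bot_of_card_fix (A := A) M (by rw [h, hA])) hM1
  have hq5 : q < 5 := by rcases hq with ⟨rfl, _⟩ | ⟨rfl, _⟩ <;> norm_num
  have hq1 : 1 < q := by rcases hq with ⟨rfl, _⟩ | ⟨rfl, _⟩ <;> norm_num
  have hfy : ∀ b ∈ fix A M, y • b = b := fun b hb =>
    fixes_of_small (fix A M) (by rw [h2]; exact hq5) y hy (by
      intro b hb m hm
      have h3 := hb _ (hyM m hm)
      rw [mul_smul, mul_smul, inv_smul_eq_iff] at h3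
      exact h3) hb
  have hyp : IsPGroup 5 (Subgroup.zpowers y) := by
    rw [IsPGroup.iff_card]
    rcases (Nat.dvd_prime (by norm_num : Nat.Prime 5)).1 (orderOf_dvd_of_pow_eq_one hy) with h | h
    · exact ⟨0, by rw [Nat.card_zpowers, h, pow_zero]⟩
    · exact ⟨1, by rw [Nat.card_zpowers, h, pow_one]⟩
  have h3 : fix A M ≤ fix A (Subgroup.zpowers y) := by
    intro b hb m hm
    obtain ⟨k, rfl⟩ := Subgroup.mem_zpowers_iff.1 hm
    have h4 : y ∈ MulAction.stabilizer H b := hfy b hb
    exact zpow_mem h4 k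
  have h4 : Nat.card (fix A M) ≤ Nat.card (fix A (Subgroup.zpowers y)) := by
    exact Nat.card_le_card_of_injective _ (AddSubgroup.inclusion_injective h3)
  have h5 := card_fix_modEq (A := A) (Subgroup.zpowers y) hyp
  rw [hA] at h5
  have hq' : q = 2 ∨ q = 3 := by rcases hq with ⟨rfl, _⟩ | ⟨rfl, _⟩ <;> simp
  rcases prime_fives hq' (hA ▸ card_fix_dvd (A := A) (Subgroup.zpowers y)) h5 with h | h
  · omega
  · have h6 := eq_bot_of_card_fix (A := A) (Subgroup.zpowers y) (by rw [h, hA])
    exact Subgroup.zpowers_eq_bot.1 h6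

theorem no_solvable [Finite A] [Finite H] [FaithfulSMul H A] {q r : ℕ} [hr : Fact r.Prime]
    (hq : (q = 2 ∧ r = 7) ∨ (q = 3 ∧ r = 13)) (hA : Nat.card A = q ^ 4) (hs : Group.IsSolvable H)
    (hrH : r ∣ Nat.card H) (h5H : 5 ∣ Nat.card H) : False := by
  haveI h5f : Fact (Nat.Prime 5) := ⟨by norm_num⟩
  have hr5 : r ≠ 5 := by rcases hq with ⟨_, rfl⟩ | ⟨_, rfl⟩ <;> norm_num
  have hq' : q = 2 ∨ q = 3 := by rcases hq with ⟨rfl, _⟩ | ⟨rfl, _⟩ <;> simp
  have hcard0 : Nat.card H ≠ 0 := Nat.card_pos.ne'
  -- the Hall subgroup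
  obtain ⟨K, hK⟩ : ∃ K : Subgroup H, Nat.card K = ordProj[r] (Nat.card H) * ordProj[5] (Nat.card H) := by
    have hcop : (ordProj[r] (Nat.card H)).Coprime (ordProj[5] (Nat.card H)) :=
      Nat.Coprime.pow _ _ ((Nat.coprime_primes hr.out h5f.out).2 hr5)
    have hd : ordProj[r] (Nat.card H) * ordProj[5] (Nat.card H) ∣ Nat.card H :=
      hcop.mul_dvd_of_dvd_of_dvd (Nat.ordProj_dvd _ _) (Nat.ordProj_dvd _ _)
    obtain ⟨n, hn⟩ := hd
    refine H1.Hall.exists_card_eq hs _ n hn ?_
    have key : ∀ l : ℕ, l.Prime → (∃ c, Nat.card H = ordProj[l] (Nat.card H) * (c * n)) →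
        (ordProj[l] (Nat.card H)).Coprime n := by
      rintro l hl ⟨c, hc⟩
      apply Nat.Coprime.pow_left
      rw [hl.coprime_iff_not_dvd]
      rintro ⟨e, he⟩
      apply Nat.pow_succ_factorization_not_dvd hcard0 hl
      refine ⟨c * e, ?_⟩
      conv_lhs => rw [hc, he]
      rw [pow_succ]; ring
    apply Nat.Coprime.mul_left
    · exact key r hr.out ⟨ordProj[5] (Nat.card H), by conv_lhs => rw [hn]
                                                      ring⟩
    · exact key 5 h5f.out ⟨ordProj[r] (Nat.card H), by conv_lhs => rw [hn]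
                                                       ring⟩
  have hrK : r ∣ Nat.card K := by
    rw [hK]
    exact (dvd_pow_self r (hr.out.factorization_pos_of_dvd hcard0 hrH).ne').mul_right _
  have h5K : 5 ∣ Nat.card K := by
    rw [hK]
    exact (dvd_pow_self 5 (h5f.out.factorization_pos_of_dvd hcard0 h5H).ne').mul_left _
  have hprimes : ∀ l : ℕ, l.Prime → l ∣ Nat.card K → l = r ∨ l = 5 := by
    intro l hl hd
    rw [hK] at hd
    rcases hl.dvd_mul.1 hd with h | h
    · exact Or.inl ((Nat.prime_dvd_prime_iff_eq hl hr.out).1 (hl.dvd_of_dvd_pow h))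
    · exact Or.inr ((Nat.prime_dvd_prime_iff_eq hl h5f.out).1 (hl.dvd_of_dvd_pow h))
  haveI : Nontrivial K := by
    rw [← Finite.one_lt_card_iff_nontrivial]
    exact lt_of_lt_of_le (by norm_num) (Nat.le_of_dvd Nat.card_pos h5K)
  haveI := hs
  haveI : Group.IsSolvable K := inferInstance
  obtain ⟨y, hy⟩ := exists_prime_orderOf_dvd_card' 5 h5K
  obtain ⟨x, hx⟩ := exists_prime_orderOf_dvd_card' r hrK
  obtain ⟨l, hl, hl1⟩ := H1.Hall.exists_pCore_ne_bot (G := K) inferInstance
  haveI : Fact l.Prime := ⟨hl⟩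
  have hlp : IsPGroup l (pCore l K) := H1.Cores.isPGroup_pCore _
  have hlK : l ∣ Nat.card K := by
    obtain ⟨k, hk⟩ := IsPGroup.iff_card.1 hlp
    have hk0 : k ≠ 0 := by
      rintro rfl
      rw [pow_zero] at hk
      exact hl1 (Subgroup.card_eq_one.1 hk)
    have h1 : l ∣ Nat.card (pCore l K) := by rw [hk]; exact dvd_pow_self l hk0
    exact h1.trans (Subgroup.card_subgroup_dvd_card _)
  have hnorm : (pCore l K).Normal := inferInstance
  rcases hprimes l hl hlK with rfl | rfl
  · have h1 := elem_five (A := A) (H := K) hq hA (pCore l K) hlp hl1 y (hy ▸ pow_orderOf_eq_one y)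
      (fun m hm => by
        have := hnorm.conj_mem m hm y⁻¹
        rwa [inv_inv] at this)
    rw [h1, orderOf_one] at hy
    omega
  · -- the order of `O_5(K)`
    set M := pCore 5 K with hM
    obtain ⟨a, ha⟩ : ∃ a : A, a ≠ 0 := by
      haveI : Nontrivial A := by
        rw [← Finite.one_lt_card_iff_nontrivial, hA]
        rcases hq' with rfl | rfl <;> norm_num
      exact exists_ne 0
    have hsemi : ∀ m ∈ M, m • a = a → m = 1 := by
      intro m hm hma
      have h1 : IsPGroup 5 (Subgroup.zpowers m) := hlp.to_le (Subgroup.zpowers_le.2 hm)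
      have h2 := card_fix_modEq (A := A) (Subgroup.zpowers m) h1
      rw [hA] at h2
      rcases prime_fives hq' (hA ▸ card_fix_dvd (A := A) (Subgroup.zpowers m)) h2 with h | h
      · exfalso
        have h3 : a ∈ fix A (Subgroup.zpowers m) := by
          intro u hu
          have h4 : m ∈ MulAction.stabilizer K a := hma
          exact (Subgroup.zpowers_le.2 h4) hu
        rw [AddSubgroup.card_eq_one.1 h] at h3
        exact ha (AddSubgroup.mem_bot.1 h3)
      · exact Subgroup.zpowers_eq_bot.1 (eq_bot_of_card_fix (A := A) (Subgroup.zpowers m) (by rw [h, hA]))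
    have hcM : Nat.card M ≤ q ^ 4 := by
      rw [← hA]
      apply Nat.card_le_card_of_injective (fun m : M => (m : K) • a)
      intro m m' hmm
      have h1 : ((m : K)⁻¹ * (m' : K)) • a = a := by
        rw [mul_smul, ← show (m : K) • a = (m' : K) • a from hmm, inv_smul_smul]
      have h2 := hsemi _ (M.mul_mem (M.inv_mem m.2) m'.2) h1
      exact Subtype.ext (inv_mul_eq_one.1 h2)
    obtain ⟨k, hk⟩ := IsPGroup.iff_card.1 hlp
    have hk3 : k = 1 ∨ k = 2 := by
      have h81 : q ^ 4 ≤ 81 := by rcases hq' with rfl | rfl <;> norm_num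
      have h1 : 5 ^ k < 5 ^ 3 := by rw [← hk]; omega
      have h2 := (Nat.pow_lt_pow_iff_right (by norm_num : 1 < 5)).1 h1
      have h3 : k ≠ 0 := by
        rintro rfl
        rw [pow_zero] at hk
        exact hl1 (Subgroup.card_eq_one.1 hk)
      omega
    -- `x` centralizes `M`
    have hxM : ∀ m ∈ M, x * m = m * x := by
      let f : MulAut M := MulAut.conjNormal x
      have hfr : f ^ r = 1 := by
        have : MulAut.conjNormal (H := M) (x ^ r) = 1 := by rw [← hx, pow_orderOf_eq_one, map_one]
        rw [← map_pow]; exact this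
      have hpg : IsPGroup r (Subgroup.zpowers f) := by
        rw [IsPGroup.iff_card]
        rcases (Nat.dvd_prime hr.out).1 (orderOf_dvd_of_pow_eq_one hfr) with h | h
        · exact ⟨0, by rw [Nat.card_zpowers, h, pow_zero]⟩
        · exact ⟨1, by rw [Nat.card_zpowers, h, pow_one]⟩
      have h1 := hpg.card_modEq_card_fixedPoints M
      let C : Subgroup M :=
        { carrier := {m | f m = m}
          one_mem' := map_one f
          mul_mem' := by
            intro a b ha hb
            show f (a * b) = a * b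
            rw [map_mul, ha, hb]
          inv_mem' := by
            intro a ha
            show f a⁻¹ = a⁻¹
            rw [map_inv, ha] }
      have h2 : Nat.card (MulAction.fixedPoints (Subgroup.zpowers f) M) = Nat.card C := by
        apply Nat.card_congr
        refine Equiv.subtypeEquivRight ?_
        intro m
        rw [MulAction.mem_fixedPoints]
        constructor
        · intro h
          exact h ⟨f, Subgroup.mem_zpowers f⟩
        · intro h u
          have h4 : f ∈ MulAction.stabilizer (MulAut M) m := h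
          exact (Subgroup.zpowers_le.2 h4) u.2
      rw [h2] at h1
      have h3 : Nat.card C ∣ Nat.card M := Subgroup.card_subgroup_dvd_card _
      have h4 : Nat.card C = Nat.card M := by
        rw [hk] at h1 h3 ⊢
        generalize Nat.card C = d at h1 h3 ⊢
        have hd25 : d ≤ 25 := by
          have := Nat.le_of_dvd (by positivity) h3
          rcases hk3 with rfl | rfl <;> omega
        rcases hq with ⟨_, rfl⟩ | ⟨_, rfl⟩ <;> rcases hk3 with rfl | rfl <;> interval_cases d <;>
          revert h1 h3 <;> decide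
      have h5 : C = ⊤ := Subgroup.eq_top_of_card_eq _ h4
      intro m hm
      have h6 : (⟨m, hm⟩ : M) ∈ C := by rw [h5]; trivial
      have h7 : f ⟨m, hm⟩ = ⟨m, hm⟩ := h6
      have h8 := congrArg Subtype.val h7
      have h9 : x * m * x⁻¹ = m := h8
      exact mul_inv_eq_iff_eq_mul.1 h9
    obtain ⟨w, hw⟩ := exists_prime_orderOf_dvd_card' (G := M) 5 (by
      rw [hk]; rcases hk3 with rfl | rfl <;> norm_num)
    have hw' : orderOf (w : K) = 5 := by rw [Subgroup.orderOf_coe, hw]
    have hxp : IsPGroup r (Subgroup.zpowers x) := IsPGroup.of_card (n := 1) (by rw [Nat.card_zpowers, hx, pow_one])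
    have h1 := elem_five (A := A) (H := K) hq hA (Subgroup.zpowers x) hxp (by
        intro h
        rw [Subgroup.zpowers_eq_bot] at h
        rw [h, orderOf_one] at hx
        exact hr.out.one_lt.ne hx) (w : K) (hw' ▸ pow_orderOf_eq_one (w : K))
      (fun m hm => by
        obtain ⟨j, rfl⟩ := Subgroup.mem_zpowers_iff.1 hm
        have h10 : Commute x (w : K) := hxM _ w.2
        have h11 : (w : K)⁻¹ * x ^ j * (w : K) = x ^ j := by
          rw [mul_assoc, (h10.zpow_left j).eq, inv_mul_cancel_left]
        rw [h11]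
        exact hm)
    rw [h1, orderOf_one] at hw'
    omega

end fix

end H56.EqOrd
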