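import Mathlib
import Cfsg.Agent.S3360
import Cfsg.Agent.Lib.H85.PrimeSub2
import Cfsg.Agent.Lib.H17.LineCount
import Cfsg.Agent.Lib.H56.EqOrd1

/-! Solvable linear groups over a prime field transitive on lines and planes. (helper56) -/

set_option autoImplicit false
set_option linter.unusedVariables false
set_option linter.style.haveILetI false
set_option linter.unusedSectionVars false

open Module

namespace H56.EqOrd

section lin
variable {q : ℕ} [hq : Fact q.Prime] {A : Type*} [AddCommGroup A] [Module (ZMod q) A] [Finite A]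

theorem exists_plane (hn : 2 ≤ finrank (ZMod q) A) : ∃ U : Submodule (ZMod q) A, finrank (ZMod q) U = 2 := by
  obtain ⟨s, hs⟩ := exists_linearIndependent_of_le_finrank hn
  refine ⟨Submodule.span (ZMod q) (Set.range s), ?_⟩
  rw [finrank_span_eq_card hs, Fintype.card_fin]

theorem N2_mul_dvd (L : Subgroup (A ≃ₗ[ZMod q] A)) [Finite L]
    (hsc : ∀ c : (ZMod q)ˣ, ∃ g ∈ L, ∀ v, g v = (c : ZMod q) • v)
    (h2 : ∀ U W : Submodule (ZMod q) A, finrank (ZMod q) U = 2 → finrank (ZMod q) W = 2 →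
      ∃ g ∈ L, U.map (g : A →ₗ[ZMod q] A) = W)
    (hn : 2 ≤ finrank (ZMod q) A) :
    Nat.card {W : Submodule (ZMod q) A // finrank (ZMod q) W = 2} * (q - 1) ∣ Nat.card L := by
  obtain ⟨U0, hU0⟩ := exists_plane hn
  let S : Subgroup L :=
    { carrier := {g | U0.map ((g : A ≃ₗ[ZMod q] A) : A →ₗ[ZMod q] A) = U0}
      one_mem' := by
        show U0.map (LinearMap.id) = U0
        exact Submodule.map_id _
      mul_mem' := by
        intro a b ha hb
        show U0.map (((a : A ≃ₗ[ZMod q] A) : A →ₗ[ZMod q] A).comp ((b : A ≃ₗ[ZMod q] A) : A →ₗ[ZMod q] A)) = U0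
        rw [Submodule.map_comp]
        have h3 : U0.map ((b : A ≃ₗ[ZMod q] A) : A →ₗ[ZMod q] A) = U0 := hb
        rw [h3]; exact ha
      inv_mem' := by
        intro a ha
        show U0.map (((a : A ≃ₗ[ZMod q] A)⁻¹ : A ≃ₗ[ZMod q] A) : A →ₗ[ZMod q] A) = U0
        have h3 : U0.map ((a : A ≃ₗ[ZMod q] A) : A →ₗ[ZMod q] A) = U0 := ha
        conv_lhs => rw [← h3]
        rw [← Submodule.map_comp]
        have h4 : ((((a : A ≃ₗ[ZMod q] A)⁻¹ : A ≃ₗ[ZMod q] A) : A →ₗ[ZMod q] A).comp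
            ((a : A ≃ₗ[ZMod q] A) : A →ₗ[ZMod q] A)) = LinearMap.id := by
          ext v
          show ((a : A ≃ₗ[ZMod q] A)⁻¹ * (a : A ≃ₗ[ZMod q] A)) v = v
          rw [inv_mul_cancel]; rfl
        rw [h4]
        exact Submodule.map_id _ }
  have hmap : ∀ g : L, finrank (ZMod q) (U0.map ((g : A ≃ₗ[ZMod q] A) : A →ₗ[ZMod q] A)) = 2 := by
    intro g
    rw [← hU0]
    exact LinearEquiv.finrank_map_eq (g : A ≃ₗ[ZMod q] A) U0
  have hmul : ∀ g h : L, U0.map (((g * h : L) : A ≃ₗ[ZMod q] A) : A →ₗ[ZMod q] A) =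
      (U0.map ((h : A ≃ₗ[ZMod q] A) : A →ₗ[ZMod q] A)).map ((g : A ≃ₗ[ZMod q] A) : A →ₗ[ZMod q] A) := by
    intro g h
    rw [← Submodule.map_comp]
    rfl
  have h3 : Nat.card L = Nat.card {W : Submodule (ZMod q) A // finrank (ZMod q) W = 2} * Nat.card S := by
    refine H17.LineCount.card_fib (fun g : L => (⟨U0.map ((g : A ≃ₗ[ZMod q] A) : A →ₗ[ZMod q] A), hmap g⟩ :
      {W : Submodule (ZMod q) A // finrank (ZMod q) W = 2})) _ ?_
    rintro ⟨W, hW⟩
    obtain ⟨g0, hg0, hg1⟩ := h2 U0 W hU0 hW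
    refine Nat.card_congr ⟨fun g => ⟨(⟨g0, hg0⟩ : L)⁻¹ * g.1, ?_⟩, fun s => ⟨⟨g0, hg0⟩ * s.1, ?_⟩, ?_, ?_⟩
    · obtain ⟨g, hg⟩ := g
      have hg' : U0.map ((g : A ≃ₗ[ZMod q] A) : A →ₗ[ZMod q] A) = W := congrArg Subtype.val hg
      show U0.map ((((⟨g0, hg0⟩ : L)⁻¹ * g : L) : A ≃ₗ[ZMod q] A) : A →ₗ[ZMod q] A) = U0
      rw [hmul, hg']
      have h4 : (U0.map ((((⟨g0, hg0⟩ : L)⁻¹ * (⟨g0, hg0⟩ : L) : L) : A ≃ₗ[ZMod q] A) : A →ₗ[ZMod q] A)) = U0 := by
        rw [inv_mul_cancel]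
        show U0.map (LinearMap.id) = U0
        exact Submodule.map_id _
      rw [hmul] at h4
      have h5 : U0.map (((⟨g0, hg0⟩ : L) : A ≃ₗ[ZMod q] A) : A →ₗ[ZMod q] A) = W := hg1
      rw [h5] at h4
      exact h4
    · obtain ⟨s, hs⟩ := s
      have hs' : U0.map ((s : A ≃ₗ[ZMod q] A) : A →ₗ[ZMod q] A) = U0 := hs
      apply Subtype.ext
      show U0.map ((((⟨g0, hg0⟩ : L) * s : L) : A ≃ₗ[ZMod q] A) : A →ₗ[ZMod q] A) = W
      rw [hmul, hs']
      exact hg1
    · intro g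
      apply Subtype.ext
      exact mul_inv_cancel_left _ _
    · intro s
      apply Subtype.ext
      exact inv_mul_cancel_left _ _
  have hA0 : ∃ v : A, v ≠ 0 := by
    haveI : Nontrivial A := Module.nontrivial_of_finrank_pos (R := ZMod q) (by omega)
    exact exists_ne 0
  let Z : Subgroup L :=
    { carrier := {g | ∃ c : (ZMod q)ˣ, ∀ v, (g : A ≃ₗ[ZMod q] A) v = (c : ZMod q) • v}
      one_mem' := ⟨1, fun v => by simp⟩
      mul_mem' := by
        rintro a b ⟨c, hc⟩ ⟨d, hd⟩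
        refine ⟨c * d, fun v => ?_⟩
        show (a : A ≃ₗ[ZMod q] A) ((b : A ≃ₗ[ZMod q] A) v) = _
        rw [hd, hc, smul_smul, Units.val_mul]
      inv_mem' := by
        rintro a ⟨c, hc⟩
        refine ⟨c⁻¹, fun v => ?_⟩
        have h4 : (a : A ≃ₗ[ZMod q] A) (((a⁻¹ : L) : A ≃ₗ[ZMod q] A) v) = v := by
          show ((a : A ≃ₗ[ZMod q] A) * (a : A ≃ₗ[ZMod q] A)⁻¹) v = v
          rw [mul_inv_cancel]; rfl
        rw [hc] at h4
        conv_rhs => rw [← h4]
        rw [smul_smul, Units.inv_mul, one_smul] }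
  have hZS : Z ≤ S := by
    rintro g ⟨c, hc⟩
    show U0.map ((g : A ≃ₗ[ZMod q] A) : A →ₗ[ZMod q] A) = U0
    apply Submodule.eq_of_le_of_finrank_eq
    · rintro _ ⟨v, hv, rfl⟩
      show (g : A ≃ₗ[ZMod q] A) v ∈ U0
      rw [hc]
      exact U0.smul_mem _ hv
    · rw [hmap g, hU0]
  have hZ : Nat.card Z = q - 1 := by
    rw [← ZMod.card_units q, ← Nat.card_eq_fintype_card]
    symm
    choose f hf hf' using hsc
    refine Nat.card_congr (Equiv.ofBijective (fun c => (⟨⟨f c, hf c⟩, ⟨c, hf' c⟩⟩ : Z)) ⟨?_, ?_⟩)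
    · intro c d hcd
      obtain ⟨v, hv⟩ := hA0
      have h4 : f c = f d := congrArg (fun z : Z => ((z : L) : A ≃ₗ[ZMod q] A)) hcd
      have h5 : (c : ZMod q) • v = (d : ZMod q) • v := by rw [← hf' c v, ← hf' d v, h4]
      exact Units.ext (smul_left_injective _ hv h5)
    · rintro ⟨⟨g, hg⟩, c, hc⟩
      refine ⟨c, ?_⟩
      apply Subtype.ext
      apply Subtype.ext
      apply LinearEquiv.ext
      intro v
      show f c v = g v
      rw [hf' c v]
      exact (hc v).symm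
  rw [h3]
  apply Nat.mul_dvd_mul_left
  rw [← hZ]
  exact Subgroup.card_dvd_of_le hZS

/-- the number of planes -/
theorem card_N2 {n : ℕ} (hn : finrank (ZMod q) A = n) (h2 : 2 ≤ n) :
    Nat.card {W : Submodule (ZMod q) A // finrank (ZMod q) W = 2} * ((q - 1) * (q ^ 2 - 1)) =
      (q ^ (n - 1) - 1) * (q ^ n - 1) := by
  have h := H85.PrimeSub.card_sub_mul' (F := ZMod q) (V := A) (a := n) (b := 2) hn h2
  rw [ZMod.card] at h
  have h3 : ∏ e ∈ Finset.range 2, (q ^ (e + 1) - 1) = (q - 1) * (q ^ 2 - 1) := by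
    simp [Finset.prod_range_succ]
  have h4 : ∏ e ∈ Finset.Ico (n - 2) n, (q ^ (e + 1) - 1) = (q ^ (n - 1) - 1) * (q ^ n - 1) := by
    obtain ⟨m, rfl⟩ : ∃ m, n = m + 2 := ⟨n - 2, by omega⟩
    rw [show m + 2 - 2 = m by omega, Finset.prod_Ico_succ_top (by omega), Finset.prod_Ico_succ_top (by omega)]
    simp
  rw [h3, h4] at h
  exact h

theorem card_aut {n : ℕ} (hn : n ≠ 0) : Nat.card (GaloisField q n ≃+* GaloisField q n) = n := by
  have h1 : Nat.card (GaloisField q n ≃ₐ[ZMod q] GaloisField q n) = n := by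
    rw [IsGalois.card_aut_eq_finrank, GaloisField.finrank q hn]
  conv_rhs => rw [← h1]
  refine Nat.card_congr ⟨fun σ => AlgEquiv.ofRingEquiv (f := σ) (fun x => ?_), fun τ => τ.toRingEquiv, ?_, ?_⟩
  · have : (σ : GaloisField q n →+* GaloisField q n).comp (algebraMap (ZMod q) (GaloisField q n)) =
      algebraMap (ZMod q) (GaloisField q n) := Subsingleton.elim _ _
    exact congrArg (fun f : ZMod q →+* GaloisField q n => f x) this
  · intro σ; ext x; rfl
  · intro σ; ext x; rfl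

instance finite_aut {n : ℕ} : Finite (GaloisField q n ≃+* GaloisField q n) :=
  Finite.of_injective (fun σ => (σ : GaloisField q n → GaloisField q n)) DFunLike.coe_injective

/-- bound for the order of a semilinear group -/
theorem card_le {n : ℕ} (hn : n ≠ 0) (e : A ≃+ GaloisField q n) (L : Subgroup (A ≃ₗ[ZMod q] A))
    (hL : ∀ g ∈ L, ∃ (a : GaloisField q n) (σ : GaloisField q n ≃+* GaloisField q n),
      ∀ v, e (g v) = a * σ (e v)) : Nat.card L ≤ (q ^ n - 1) * n := by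
  choose a σ h using hL
  have ha : ∀ g hg, a g hg ≠ 0 := by
    intro g hg h0
    have h1 := h g hg (e.symm 1)
    rw [h0, zero_mul] at h1
    have h2 : g (e.symm 1) = 0 := e.injective (by rw [h1, map_zero])
    rw [LinearEquiv.map_eq_zero_iff, AddEquiv.map_eq_zero_iff] at h2
    exact one_ne_zero h2
  let f : L → (GaloisField q n)ˣ × (GaloisField q n ≃+* GaloisField q n) :=
    fun g => (Units.mk0 (a g.1 g.2) (ha g.1 g.2), σ g.1 g.2)
  have hf : Function.Injective f := by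
    intro g g' hgg
    have h1 : Units.mk0 (a g.1 g.2) (ha g.1 g.2) = Units.mk0 (a g'.1 g'.2) (ha g'.1 g'.2) :=
      congrArg Prod.fst hgg
    have h1' : a g.1 g.2 = a g'.1 g'.2 := by
      have := congrArg Units.val h1
      simpa using this
    have h2 : σ g.1 g.2 = σ g'.1 g'.2 := congrArg Prod.snd hgg
    apply Subtype.ext
    apply LinearEquiv.ext
    intro v
    apply e.injective
    rw [h g.1 g.2, h g'.1 g'.2, h1', h2]
  have h3 := Nat.card_le_card_of_injective f hf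
  rw [Nat.card_prod, card_aut hn] at h3
  have h4 : Nat.card (GaloisField q n)ˣ = q ^ n - 1 := by
    rw [Nat.card_units, GaloisField.card q n hn]
  rwa [h4] at h3

/-- arithmetic -/
theorem arith {q n N : ℕ} (hq2 : 2 ≤ q) (hn : 4 ≤ n) (h1 : N * ((q - 1) * (q ^ 2 - 1)) = (q ^ (n - 1) - 1) * (q ^ n - 1))
    (h2 : N * (q - 1) ≤ (q ^ n - 1) * n) : (n = 5 ∧ q = 2) ∨ (n = 4 ∧ (q = 2 ∨ q = 3)) := by
  have hqn : 0 < q ^ n - 1 := by
    have := Nat.one_lt_pow (n := n) (by omega) (by omega : 1 < q)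
    omega
  have h3 : q ^ (n - 1) - 1 ≤ n * (q ^ 2 - 1) := by
    have h4 : (q ^ (n - 1) - 1) * (q ^ n - 1) ≤ (n * (q ^ 2 - 1)) * (q ^ n - 1) := by
      calc (q ^ (n - 1) - 1) * (q ^ n - 1) = N * (q - 1) * (q ^ 2 - 1) := by rw [← h1]; ring
        _ ≤ (q ^ n - 1) * n * (q ^ 2 - 1) := Nat.mul_le_mul_right _ h2
        _ = _ := by ring
    exact Nat.le_of_mul_le_mul_right h4 hqn
  have h4 : q ^ (n - 1) ≤ n * q ^ 2 := by
    have h5 : 1 ≤ q ^ 2 := Nat.one_le_pow _ _ (by omega)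
    have h6 : n * (q ^ 2 - 1) + n = n * q ^ 2 := by
      rw [← Nat.mul_succ]; congr 1; omega
    omega
  have h5 : q ^ (n - 3) ≤ n := by
    have h6 : q ^ (n - 1) = q ^ (n - 3) * q ^ 2 := by rw [← pow_add]; congr 1; omega
    rw [h6] at h4
    exact Nat.le_of_mul_le_mul_right h4 (by positivity)
  have h6 : n ≤ 5 := by
    by_contra hc
    have h7 : ∀ m, 6 ≤ m → m < 2 ^ (m - 3) := by
      intro m hm
      induction m, hm using Nat.le_induction with
      | base => norm_num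
      | succ m hm ih =>
        rw [show m + 1 - 3 = (m - 3) + 1 by omega, pow_succ]
        omega
    have h8 := h7 n (by omega)
    have h9 : 2 ^ (n - 3) ≤ q ^ (n - 3) := Nat.pow_le_pow_left hq2 _
    omega
  have h7 : n = 4 ∨ n = 5 := by omega
  rcases h7 with rfl | rfl
  · right
    refine ⟨rfl, ?_⟩
    have h8 : q ≤ 4 := by simpa using h5
    interval_cases q
    · left; rfl
    · right; rfl
    · norm_num at h3
  · left
    refine ⟨rfl, ?_⟩
    have h8 : q < 3 := by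
      by_contra hc
      have h9 : 3 ^ (5 - 3) ≤ q ^ (5 - 3) := Nat.pow_le_pow_left (by omega) _
      omega
    omega

theorem exc {q n : ℕ} (hq2 : 2 ≤ q) (hn : 3 ≤ n) (hex : q ^ n ∈ ({9, 25, 49, 121, 529, 81} : Set ℕ)) :
    n = 4 ∧ q = 3 := by
  simp only [Set.mem_insert_iff, Set.mem_singleton_iff] at hex
  have hle : q ^ n ≤ 529 := by omega
  have hn9 : n ≤ 9 := by
    by_contra hc
    have h4 : 2 ^ 10 ≤ q ^ n := (Nat.pow_le_pow_right (by norm_num) (by omega)).trans (Nat.pow_le_pow_left hq2 n)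
    omega
  have hq8 : q ≤ 8 := by
    by_contra hc
    have h4 : 9 ^ 3 ≤ q ^ n := (Nat.pow_le_pow_left (by omega) 3).trans (Nat.pow_le_pow_right (by omega) hn)
    omega
  interval_cases n <;> interval_cases q <;> simp_all

theorem lin_main {n : ℕ} (hn : 3 ≤ n) (hA : Nat.card A = q ^ n) {X : Type*} [Group X] [Finite X]
    (hs : Group.IsSolvable X) (ρ : X →* (A ≃ₗ[ZMod q] A))
    (h1 : ∀ v w : A, v ≠ 0 → w ≠ 0 → ∃ x : X, ∃ c : (ZMod q)ˣ, ρ x v = (c : ZMod q) • w)
    (h2 : ∀ U W : Submodule (ZMod q) A, finrank (ZMod q) U = 2 → finrank (ZMod q) W = 2 →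
      ∃ x : X, U.map (ρ x : A →ₗ[ZMod q] A) = W) :
    (∃ e : A ≃+ GaloisField q n, ∀ x, ∃ (a : GaloisField q n) (σ : GaloisField q n ≃+* GaloisField q n),
      ∀ v, e (ρ x v) = a * σ (e v)) ∧ (n = 3 ∨ (n = 5 ∧ q = 2)) ∧ (q = 2 → n = 3 → 7 ∣ Nat.card X) ∧
      (q = 2 → n = 5 → 155 ∣ Nat.card X) := by
  have hn0 : n ≠ 0 := by omega
  have hrank : finrank (ZMod q) A = n := by
    have := Module.natCard_eq_pow_finrank (K := ZMod q) (V := A)
    rw [hA, Nat.card_zmod] at this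
    exact (Nat.pow_right_injective hq.out.two_le this).symm
  let sc : (ZMod q)ˣ →* (A ≃ₗ[ZMod q] A) := DistribMulAction.toModuleAut (ZMod q) A
  have hsc : ∀ (c : (ZMod q)ˣ) (v : A), sc c v = (c : ZMod q) • v := fun c v => rfl
  have hcomm : ∀ x c, Commute (ρ x) (sc c) := by
    intro x c
    apply LinearEquiv.ext
    intro v
    show ρ x (sc c v) = sc c (ρ x v)
    rw [hsc, hsc, map_smul]
  let φ : X × (ZMod q)ˣ →* (A ≃ₗ[ZMod q] A) := ρ.noncommCoprod sc hcomm
  have hφ : ∀ x c v, φ (x, c) v = (c : ZMod q) • ρ x v := by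
    intro x c v
    show (ρ x * sc c) v = _
    rw [(hcomm x c).eq]
    rfl
  let L : Subgroup (A ≃ₗ[ZMod q] A) := φ.range
  have hLs : Group.IsSolvable L := by
    haveI := hs
    exact Group.isSolvable_of_surjective φ.rangeRestrict_surjective
  have hLf : Finite L := Finite.of_surjective _ φ.rangeRestrict_surjective
  have hLsc : ∀ c : (ZMod q)ˣ, ∃ g ∈ L, ∀ v, g v = (c : ZMod q) • v := by
    intro c
    refine ⟨φ (1, c), ⟨(1, c), rfl⟩, fun v => ?_⟩
    rw [hφ, map_one]; rfl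
  have hLρ : ∀ x, ρ x ∈ L := by
    intro x
    refine ⟨(x, 1), ?_⟩
    apply LinearEquiv.ext
    intro v
    rw [hφ, Units.val_one, one_smul]
  have hL2 : ∀ U W : Submodule (ZMod q) A, finrank (ZMod q) U = 2 → finrank (ZMod q) W = 2 →
      ∃ g ∈ L, U.map (g : A →ₗ[ZMod q] A) = W := by
    intro U W hU hW
    obtain ⟨x, hx⟩ := h2 U W hU hW
    exact ⟨ρ x, hLρ x, hx⟩
  have hLt : ∀ v w : A, v ≠ 0 → w ≠ 0 → ∃ g : L, L.subtype g v = w := by
    intro v w hv hw
    obtain ⟨x, c, hx⟩ := h1 v w hv hw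
    refine ⟨⟨φ (x, c⁻¹), ⟨(x, c⁻¹), rfl⟩⟩, ?_⟩
    show φ (x, c⁻¹) v = w
    rw [hφ, hx, smul_smul, Units.inv_mul, one_smul]
  have hd := N2_mul_dvd L hLsc hL2 (by omega)
  have hN := card_N2 (q := q) (A := A) hrank (by omega)
  set N := Nat.card {W : Submodule (ZMod q) A // finrank (ZMod q) W = 2} with hNdef
  -- `n = 4`, `q = 2, 3` impossible
  have hno : ¬ (n = 4 ∧ (q = 2 ∨ q = 3)) := by
    rintro ⟨rfl, hq23⟩
    rcases hq23 with h | h
    · have hN' : N = 35 := by
        rw [h] at hN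
        norm_num at hN
        omega
      rw [hN', show q - 1 = 1 by omega] at hd
      norm_num at hd
      haveI : Fact (Nat.Prime 7) := ⟨by norm_num⟩
      exact no_solvable (A := A) (H := L) (q := q) (r := 7) (Or.inl ⟨h, rfl⟩) hA hLs
        ((by norm_num : 7 ∣ 35).trans hd) ((by norm_num : 5 ∣ 35).trans hd)
    · have hN' : N = 130 := by
        rw [h] at hN
        norm_num at hN
        omega
      rw [hN', show q - 1 = 2 by omega] at hd
      norm_num at hd
      haveI : Fact (Nat.Prime 13) := ⟨by norm_num⟩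
      exact no_solvable (A := A) (H := L) (q := q) (r := 13) (Or.inr ⟨h, rfl⟩) hA hLs
        ((by norm_num : 13 ∣ 260).trans hd) ((by norm_num : 5 ∣ 260).trans hd)
  haveI : Nontrivial A := Module.nontrivial_of_finrank_pos (R := ZMod q) (by omega)
  rcases Cfsg.Agent.S3360.result q hLs L.subtype L.subtype_injective hLt with ⟨F, iF, iFf, e, he⟩ | hex
  · letI := Fintype.ofFinite (GaloisField q n)
    have hcF : Fintype.card F = Fintype.card (GaloisField q n) := by
      rw [← Nat.card_eq_fintype_card, ← Nat.card_eq_fintype_card, GaloisField.card q n hn0, ← hA]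
      exact (Nat.card_congr e.toEquiv).symm
    let θ := FiniteField.ringEquivOfCardEq (K := F) (K' := GaloisField q n) hcF
    have hLe : ∀ g ∈ L, ∃ (a : GaloisField q n) (σ : GaloisField q n ≃+* GaloisField q n),
        ∀ v, (e.trans θ.toAddEquiv) (g v) = a * σ ((e.trans θ.toAddEquiv) v) := by
      intro g hg
      obtain ⟨a, σ, ha⟩ := he ⟨g, hg⟩
      refine ⟨θ a, θ.symm.trans (σ.trans θ), fun v => ?_⟩
      have h3 : e (g v) = a * σ (e v) := ha v
      show θ (e (g v)) = θ a * θ (σ (θ.symm (θ (e v))))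
      rw [h3, map_mul, θ.symm_apply_apply]
    have hLX : Nat.card L ∣ Nat.card X * (q - 1) := by
      have h5 : Nat.card (X × (ZMod q)ˣ) = Nat.card X * (q - 1) := by
        rw [Nat.card_prod, Nat.card_eq_fintype_card (α := (ZMod q)ˣ), ZMod.card_units q]
      rw [← h5]
      exact Subgroup.card_range_dvd φ
    refine ⟨⟨e.trans θ.toAddEquiv, fun x => hLe (ρ x) (hLρ x)⟩, ?_, ?_, ?_⟩
    rotate_left
    · intro hq2 hn3
      rw [hn3] at hN
      have hN' : N = 7 := by
        rw [hq2] at hN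
        norm_num at hN
        omega
      have h6 := hd.trans hLX
      rw [hN', show q - 1 = 1 by omega, mul_one, mul_one] at h6
      exact h6
    · intro hq2 hn5
      rw [hn5] at hN
      have hN' : N = 155 := by
        rw [hq2] at hN
        norm_num at hN
        omega
      have h6 := hd.trans hLX
      rw [hN', show q - 1 = 1 by omega, mul_one, mul_one] at h6
      exact h6
    have hle := card_le hn0 (e.trans θ.toAddEquiv) L hLe
    by_cases hn3 : n = 3
    · exact Or.inl hn3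
    · rcases arith hq.out.two_le (by omega) hN ((Nat.le_of_dvd Nat.card_pos hd).trans hle) with h | h
      · exact Or.inr h
      · exact absurd h hno
  · exfalso
    rw [hA] at hex
    have h3 := exc hq.out.two_le hn hex
    exact hno ⟨h3.1, Or.inr h3.2⟩

end lin

end H56.EqOrd
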