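import Mathlib
import Cfsg.Agent.Lib.H56.EqOrd2
import Cfsg.Agent.Lib.H70.ConjP2
import Cfsg.Agent.Lib.H28.Cj
import Cfsg.Agent.Lib.H28.RelSyl
import Cfsg.Agent.Lib.H1.Solv
import Cfsg.Prelude.Def_Perm

/-! Normalizers of elementary abelian Sylow subgroups when `p`-subgroups of equal order are conjugate. (helper56) -/

set_option autoImplicit false
set_option linter.unusedVariables false
set_option linter.style.haveILetI false
set_option linter.unusedSectionVars false

open Subgroup Cfsg H70.ConjP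

namespace H56.EqOrd

section cards
universe u
variable {F : Type u} [Field F]

theorem card_affine [Finite F] : Nat.card (affineGroup F) = Nat.card Fˣ * Nat.card F := by
  rw [← Nat.card_prod]
  symm
  refine Nat.card_congr (Equiv.ofBijective (fun ab : Fˣ × F =>
    (⟨(Units.mulLeft ab.1 : Equiv.Perm F).trans (Equiv.addRight ab.2), ab.1, ab.2, fun x => rfl⟩ : affineGroup F)) ⟨?_, ?_⟩)
  · rintro ⟨a, b⟩ ⟨c, d⟩ h
    have h1 : ∀ x : F, (a : F) * x + b = (c : F) * x + d := fun x =>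
      congrArg (fun s : affineGroup F => (s : Equiv.Perm F) x) h
    have h0 := h1 0
    rw [mul_zero, mul_zero, zero_add, zero_add] at h0
    have h2 := h1 1
    rw [mul_one, mul_one, h0] at h2
    exact Prod.ext (Units.ext (add_right_cancel h2)) h0
  · rintro ⟨s, a, b, h⟩
    exact ⟨(a, b), Subtype.ext (Equiv.ext fun x => (h x).symm)⟩

theorem card_semi [Finite F] : Nat.card (semiaffineGroup F) = Nat.card Fˣ * Nat.card F * Nat.card (F ≃+* F) := by
  rw [← Nat.card_prod, ← Nat.card_prod]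
  symm
  refine Nat.card_congr (Equiv.ofBijective (fun ab : (Fˣ × F) × (F ≃+* F) =>
    (⟨(ab.2.toEquiv.trans (Units.mulLeft ab.1.1 : Equiv.Perm F)).trans (Equiv.addRight ab.1.2),
      ab.1.1, ab.1.2, ab.2, fun x => rfl⟩ : semiaffineGroup F)) ⟨?_, ?_⟩)
  · rintro ⟨⟨a, b⟩, σ⟩ ⟨⟨c, d⟩, τ⟩ h
    have h1 : ∀ x : F, (a : F) * σ x + b = (c : F) * τ x + d := fun x =>
      congrArg (fun s : semiaffineGroup F => (s : Equiv.Perm F) x) h
    have h0 := h1 0
    rw [map_zero, map_zero, mul_zero, mul_zero, zero_add, zero_add] at h0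
    have h2 := h1 1
    rw [map_one, map_one, mul_one, mul_one, h0] at h2
    have h3 : a = c := Units.ext (add_right_cancel h2)
    have h4 : σ = τ := by
      apply RingEquiv.ext
      intro x
      have h5 := h1 x
      rw [h0, h3] at h5
      exact mul_left_cancel₀ c.ne_zero (add_right_cancel h5)
    rw [h3, h0, h4]
  · rintro ⟨s, a, b, φ, h⟩
    exact ⟨((a, b), φ), Subtype.ext (Equiv.ext fun x => (h x).symm)⟩

theorem semi_pow {s : Equiv.Perm F} {a b : F} {φ : F ≃+* F} (h : ∀ x, s x = a * φ x + b) (k : ℕ) :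
    ∃ c d : F, ∀ x, (s ^ k) x = c * (φ ^ k) x + d := by
  induction k with
  | zero => exact ⟨1, 0, fun x => by simp⟩
  | succ k ih =>
    obtain ⟨c, d, hcd⟩ := ih
    refine ⟨a * φ c, a * φ d + b, fun x => ?_⟩
    rw [pow_succ', Equiv.Perm.mul_apply, hcd, h, map_add, map_mul, pow_succ', RingAut.mul_apply]
    ring

theorem aff_of_coprime [Finite F] {s : Equiv.Perm F} (hs : s ∈ semiaffineGroup F) {m : ℕ} (hm : s ^ m = 1)
    (hcop : m.Coprime (Nat.card (F ≃+* F))) : s ∈ affineGroup F := by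
  obtain ⟨a, b, φ, h⟩ := hs
  obtain ⟨c, d, hcd⟩ := semi_pow h m
  rw [hm] at hcd
  have h0 := hcd 0
  rw [Equiv.Perm.one_apply, map_zero, mul_zero, zero_add] at h0
  have h1 := hcd 1
  rw [Equiv.Perm.one_apply, map_one, mul_one, ← h0, add_zero] at h1
  have h2 : φ ^ m = 1 := by
    apply RingEquiv.ext
    intro x
    have := hcd x
    rw [Equiv.Perm.one_apply, ← h0, ← h1, one_mul, add_zero] at this
    exact this.symm
  have h3 : φ = 1 := by
    have h4 : orderOf φ ∣ m := orderOf_dvd_of_pow_eq_one h2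
    have h5 : orderOf φ ∣ Nat.card (F ≃+* F) := orderOf_dvd_natCard φ
    exact orderOf_eq_one_iff.1 (Nat.eq_one_of_dvd_coprimes hcop h4 h5)
  refine ⟨a, b, fun x => ?_⟩
  rw [h, h3]; rfl

end cards

section embed
variable {Q : Type*} [Group Q] [Finite Q]

theorem embed {F : Type} [Field F] (V : Subgroup Q) [V.Normal] (X : Subgroup Q) (hc : IsComplement' V X)
    (hC : centralizer (V : Set Q) ≤ V) (e : V ≃ F) (hmul : ∀ u v, e (u * v) = e u + e v)
    (he : ∀ g : Q, ∃ (a : F) (σ : F ≃+* F), ∀ v : V, e (MulAut.conjNormal g v) = a * σ (e v)) :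
    ∃ f : Q →* semiaffineGroup F, Function.Injective f := by
  have hdis : ∀ x, x ∈ V → x ∈ X → x = 1 := by
    intro x h1 h2
    have := hc.disjoint
    rw [disjoint_iff] at this
    have h3 : x ∈ V ⊓ X := ⟨h1, h2⟩
    rw [this] at h3
    exact Subgroup.mem_bot.1 h3
  have hdec : ∀ g : Q, ∃ (u : V) (x : X), g = u * x := by
    intro g
    obtain ⟨⟨u, x⟩, h⟩ := hc.2 g
    exact ⟨u, x, h.symm⟩
  have hβ : Function.Bijective (fun v : V => (QuotientGroup.mk (v : Q) : Q ⧸ X)) := by
    constructor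
    · intro v v' h
      have h1 : (v : Q)⁻¹ * v' ∈ X := QuotientGroup.eq.1 h
      have h2 := hdis _ (V.mul_mem (V.inv_mem v.2) v'.2) h1
      exact Subtype.ext (inv_mul_eq_one.1 h2)
    · intro y
      obtain ⟨g, rfl⟩ := QuotientGroup.mk_surjective y
      obtain ⟨u, x, rfl⟩ := hdec g
      refine ⟨u, ?_⟩
      apply QuotientGroup.eq.2
      simp
  let T : (Q ⧸ X) ≃ F := (Equiv.ofBijective _ hβ).symm.trans e
  have hT : ∀ v : V, T (QuotientGroup.mk (v : Q)) = e v := by
    intro v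
    show e ((Equiv.ofBijective _ hβ).symm ((Equiv.ofBijective _ hβ) v)) = e v
    rw [Equiv.symm_apply_apply]
  have hT' : ∀ v : V, T.symm (e v) = QuotientGroup.mk (v : Q) := by
    intro v
    rw [Equiv.symm_apply_eq, hT]
  let f0 : Q →* Equiv.Perm F := (T.permCongrHom.toMonoidHom).comp (MulAction.toPermHom Q (Q ⧸ X))
  have hf0 : ∀ g t, f0 g t = T (g • T.symm t) := fun g t => rfl
  have key : ∀ (u : V) (x : X) (v : V), f0 ((u : Q) * x) (e v) = e u + e (MulAut.conjNormal (x : Q) v) := by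
    intro u x v
    rw [hf0, hT', ← hmul]
    have h1 : ((u : Q) * x) • (QuotientGroup.mk (v : Q) : Q ⧸ X) =
        QuotientGroup.mk ((u * MulAut.conjNormal (x : Q) v : V) : Q) := by
      rw [MulAction.Quotient.smul_mk]
      apply QuotientGroup.eq.2
      rw [Subgroup.coe_mul, MulAut.conjNormal_apply, smul_eq_mul]
      have h2 : ((u : Q) * x * v)⁻¹ * (u * (x * v * (x : Q)⁻¹)) = (x : Q)⁻¹ := by group
      rw [h2]
      exact X.inv_mem x.2
    rw [h1, hT]
  have hmem : ∀ g, f0 g ∈ semiaffineGroup F := by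
    intro g
    obtain ⟨u, x, rfl⟩ := hdec g
    obtain ⟨a, σ, ha⟩ := he (x : Q)
    have ha0 : a ≠ 0 := by
      rintro rfl
      have h1 := ha (MulAut.conjNormal (x : Q)⁻¹ (e.symm 1))
      rw [zero_mul, ← MulAut.mul_apply, ← map_mul, mul_inv_cancel, map_one, MulAut.one_apply,
        Equiv.apply_symm_apply] at h1
      exact one_ne_zero h1
    refine ⟨Units.mk0 a ha0, e u, σ, fun t => ?_⟩
    obtain ⟨v, rfl⟩ := e.surjective t
    rw [key, ha, Units.val_mk0, add_comm]
  refine ⟨f0.codRestrict _ hmem, ?_⟩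
  rw [injective_iff_map_eq_one]
  intro g hg
  have hg' : f0 g = 1 := congrArg Subtype.val hg
  obtain ⟨u, x, rfl⟩ := hdec g
  have h1 : ∀ v : V, e u + e (MulAut.conjNormal (x : Q) v) = e v := by
    intro v
    rw [← key, hg']; rfl
  have he1 : e 1 = 0 := by
    have := hmul 1 1
    rw [mul_one] at this
    exact left_eq_add.1 this
  have h2 := h1 1
  rw [map_one, he1, add_zero, ← he1] at h2
  have hu : u = 1 := e.injective h2
  have hx : (x : Q) ∈ V := by
    apply hC
    rw [mem_centralizer_iff]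
    intro v hv
    have h3 := h1 ⟨v, hv⟩
    rw [hu, he1, zero_add] at h3
    have h4 := congrArg Subtype.val (e.injective h3)
    rw [MulAut.conjNormal_apply] at h4
    exact (mul_inv_eq_iff_eq_mul.1 h4).symm
  rw [hu, hdis _ hx x.2]
  simp

end embed

section core
variable {Q : Type*} [Group Q] [Finite Q]

open Module in
theorem core0 {p n : ℕ} [hp : Fact p.Prime] (hn : 3 ≤ n) (hs : Group.IsSolvable Q) (hCP : CP p Q)
    (V : Subgroup Q) [V.Normal] {A : Type*} [AddCommGroup A] [Module (ZMod p) A] [Finite A] (E : V ≃ A)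
    (hE : ∀ u v, E (u * v) = E u + E v) (hcard : Nat.card V = p ^ n) :
    (∃ e : V ≃ GaloisField p n, (∀ u v, e (u * v) = e u + e v) ∧
      ∀ g : Q, ∃ (a : GaloisField p n) (σ : GaloisField p n ≃+* GaloisField p n),
        ∀ v : V, e (MulAut.conjNormal g v) = a * σ (e v)) ∧ (n = 3 ∨ (n = 5 ∧ p = 2)) ∧
    (p = 2 → n = 3 → 7 ∣ Nat.card Q) ∧ (p = 2 → n = 5 → 155 ∣ Nat.card Q) := by
  have hE1 : E 1 = 0 := by
    have := hE 1 1
    rw [mul_one] at this
    exact left_eq_add.1 this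
  have hEinv : ∀ u, E u⁻¹ = - E u := by
    intro u
    rw [eq_neg_iff_add_eq_zero, ← hE, inv_mul_cancel, hE1]
  have hEs : ∀ a b, E.symm (a + b) = E.symm a * E.symm b := by
    intro a b
    rw [Equiv.symm_apply_eq, hE, E.apply_symm_apply, E.apply_symm_apply]
  let ρa : Q → (A →+ A) := fun g => AddMonoidHom.mk' (fun a => E (MulAut.conjNormal g (E.symm a))) (by
    intro a b
    rw [hEs, map_mul, hE])
  have hρa : ∀ g a, ρa g a = E (MulAut.conjNormal g (E.symm a)) := fun g a => rfl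
  have hρm : ∀ g h a, ρa g (ρa h a) = ρa (g * h) a := by
    intro g h a
    rw [hρa, hρa, hρa, E.symm_apply_apply, map_mul, MulAut.mul_apply]
  have hρ1 : ∀ a, ρa 1 a = a := by
    intro a
    rw [hρa, map_one, MulAut.one_apply, E.apply_symm_apply]
  let ρ : Q →* (A ≃ₗ[ZMod p] A) :=
    MonoidHom.mk' (fun g => LinearEquiv.ofLinearMap ((ρa g).toZModLinearMap p) ((ρa g⁻¹).toZModLinearMap p)
      (by
        ext a
        show ρa g (ρa g⁻¹ a) = a
        rw [hρm, mul_inv_cancel, hρ1])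
      (by
        ext a
        show ρa g⁻¹ (ρa g a) = a
        rw [hρm, inv_mul_cancel, hρ1])) (by
        intro g h
        apply LinearEquiv.ext
        intro a
        exact (hρm g h a).symm)
  have hρ : ∀ g (v : V), ρ g (E v) = E (MulAut.conjNormal g v) := by
    intro g v
    show ρa g (E v) = _
    rw [hρa, E.symm_apply_apply]
  -- the subgroup of a submodule
  let sub : Submodule (ZMod p) A → Subgroup Q := fun U =>
    { carrier := {g | ∃ h : g ∈ V, E (⟨g, h⟩ : V) ∈ U}
      one_mem' := ⟨V.one_mem, by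
        have : (⟨1, V.one_mem⟩ : V) = 1 := rfl
        rw [this, hE1]; exact U.zero_mem⟩
      mul_mem' := by
        rintro a b ⟨ha, ha'⟩ ⟨hb, hb'⟩
        refine ⟨V.mul_mem ha hb, ?_⟩
        have : (⟨a * b, V.mul_mem ha hb⟩ : V) = ⟨a, ha⟩ * ⟨b, hb⟩ := rfl
        rw [this, hE]
        exact U.add_mem ha' hb'
      inv_mem' := by
        rintro a ⟨ha, ha'⟩
        refine ⟨V.inv_mem ha, ?_⟩
        have : (⟨a⁻¹, V.inv_mem ha⟩ : V) = (⟨a, ha⟩ : V)⁻¹ := rfl
        rw [this, hEinv]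
        exact U.neg_mem ha' }
  have hsub : ∀ U (v : V), (v : Q) ∈ sub U ↔ E v ∈ U := by
    intro U v
    constructor
    · rintro ⟨h, h'⟩; exact h'
    · intro h; exact ⟨v.2, h⟩
  have hsubV : ∀ U, sub U ≤ V := by
    rintro U g ⟨h, _⟩; exact h
  have hsubc : ∀ U : Submodule (ZMod p) A, Nat.card (sub U) = Nat.card U := by
    intro U
    refine Nat.card_congr ⟨fun g => ⟨E ⟨g.1, hsubV U g.2⟩, (hsub U _).1 g.2⟩,
      fun w => ⟨((E.symm w.1 : V) : Q), (hsub U _).2 (by rw [E.apply_symm_apply]; exact w.2)⟩, fun g => ?_, fun w => ?_⟩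
    · apply Subtype.ext
      show ((E.symm (E ⟨g.1, hsubV U g.2⟩) : V) : Q) = g
      rw [E.symm_apply_apply]
    · apply Subtype.ext
      show E (E.symm w.1) = w.1
      rw [E.apply_symm_apply]
  have hVp : IsPGroup p V := IsPGroup.of_card hcard
  have hsubp : ∀ U, IsPGroup p (sub U) := fun U => hVp.to_le (hsubV U)
  have hconj : ∀ U W : Submodule (ZMod p) A, finrank (ZMod p) U = finrank (ZMod p) W →
      ∃ g : Q, U.map (ρ g : A →ₗ[ZMod p] A) = W := by
    intro U W hUW
    have hc : Nat.card (sub U) = Nat.card (sub W) := by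
      rw [hsubc, hsubc, Module.natCard_eq_pow_finrank (K := ZMod p) (V := U),
        Module.natCard_eq_pow_finrank (K := ZMod p) (V := W), hUW]
    obtain ⟨g, hg⟩ := hCP (sub U) (sub W) (hsubp U) (hsubp W) hc
    refine ⟨g, ?_⟩
    ext w
    constructor
    · rintro ⟨u, hu, rfl⟩
      obtain ⟨v, rfl⟩ := E.surjective u
      have h1 : ((v : V) : Q) ∈ sub U := (hsub U _).2 hu
      have h2 : ((MulAut.conjNormal g v : V) : Q) ∈ sub W := by
        rw [hg]; exact ⟨_, h1, rfl⟩
      have h3 := (hsub W _).1 h2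
      rw [← hρ] at h3
      exact h3
    · intro hw
      obtain ⟨v, rfl⟩ := E.surjective w
      have h1 : ((v : V) : Q) ∈ sub W := (hsub W _).2 hw
      rw [hg] at h1
      obtain ⟨u, hu, hu'⟩ := h1
      refine ⟨E ⟨u, hsubV U hu⟩, (hsub U ⟨u, hsubV U hu⟩).1 hu, ?_⟩
      have h2 : (MulAut.conjNormal g (⟨u, hsubV U hu⟩ : V) : V) = v := Subtype.ext hu'
      show ρ g (E ⟨u, hsubV U hu⟩) = E v
      rw [hρ, h2]
  have hA : Nat.card A = p ^ n := by rw [← hcard]; exact (Nat.card_congr E).symm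
  obtain ⟨⟨e, he⟩, h3, h4, h5⟩ := lin_main (q := p) (A := A) hn hA hs ρ (by
    intro v w hv hw
    obtain ⟨g, hg⟩ := hconj (Submodule.span (ZMod p) {v}) (Submodule.span (ZMod p) {w})
      (by rw [finrank_span_singleton hv, finrank_span_singleton hw])
    have h1 : ρ g v ∈ Submodule.span (ZMod p) {w} := by
      rw [← hg]; exact ⟨v, Submodule.mem_span_singleton_self v, rfl⟩
    obtain ⟨c, hc⟩ := Submodule.mem_span_singleton.1 h1
    have hc0 : c ≠ 0 := by
      rintro rfl
      rw [zero_smul] at hc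
      exact hv ((LinearEquiv.map_eq_zero_iff (ρ g)).1 hc.symm)
    exact ⟨g, Units.mk0 c hc0, hc.symm⟩) (by
    intro U W hU hW
    exact hconj U W (by rw [hU, hW]))
  refine ⟨⟨E.trans e.toEquiv, fun u v => ?_, fun g => ?_⟩, h3, h4, h5⟩
  · show e (E (u * v)) = e (E u) + e (E v)
    rw [hE, map_add]
  · obtain ⟨a, σ, h⟩ := he g
    refine ⟨a, σ, fun v => ?_⟩
    have h6 := h (E v)
    rw [hρ] at h6
    exact h6

theorem core {p n : ℕ} [hp : Fact p.Prime] (hn : 3 ≤ n) (hs : Group.IsSolvable Q) (hCP : CP p Q)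
    (V : Subgroup Q) [V.Normal] (hab : ∀ x ∈ V, ∀ y ∈ V, x * y = y * x) (hexp : ∀ x ∈ V, x ^ p = 1)
    (hcard : Nat.card V = p ^ n) :
    (∃ e : V ≃ GaloisField p n, (∀ u v, e (u * v) = e u + e v) ∧
      ∀ g : Q, ∃ (a : GaloisField p n) (σ : GaloisField p n ≃+* GaloisField p n),
        ∀ v : V, e (MulAut.conjNormal g v) = a * σ (e v)) ∧ (n = 3 ∨ (n = 5 ∧ p = 2)) ∧
    (p = 2 → n = 3 → 7 ∣ Nat.card Q) ∧ (p = 2 → n = 5 → 155 ∣ Nat.card Q) := by
  let iC : AddCommGroup (Additive V) := { Additive.addGroup (α := V) with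
    add_comm := fun a b => congrArg Additive.ofMul (Subtype.ext (hab _ (Additive.toMul a).2 _ (Additive.toMul b).2)) }
  let iM : Module (ZMod p) (Additive V) := AddCommGroup.zmodModule (n := p) (by
    intro x
    apply Additive.toMul.injective
    apply Subtype.ext
    exact hexp _ (Additive.toMul x).2)
  haveI : Finite (Additive V) := inferInstanceAs (Finite V)
  exact @core0 Q _ _ p n hp hn hs hCP V _ (Additive V) iC iM _ Additive.ofMul (fun u v => rfl) hcard

end core

end H56.EqOrd
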