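import Mathlib
import Cfsg.Agent.Lib.H56.EqOrd3

/-! Normalizers of elementary abelian Sylow subgroups when `p`-subgroups of equal order are conjugate, II. (helper56) -/

set_option autoImplicit false
set_option linter.unusedVariables false
set_option linter.style.haveILetI false
set_option linter.unusedSectionVars false

open Subgroup Cfsg H70.ConjP H28.Cj H28.RelSyl

namespace H56.EqOrd

section norm
variable {G : Type*} [Group G] [Finite G] {p : ℕ} [hp : Fact p.Prime]

theorem le_of_isPGroup_normalizer (P : Sylow p G) {A : Subgroup G} (hA : IsPGroup p A)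
    (hAN : A ≤ normalizer ((P : Subgroup G) : Set G)) : A ≤ P := by
  have h1 : IsPGroup p (A ⊔ P : Subgroup G) := hA.to_sup_of_normal_right' P.isPGroup' hAN
  have h2 := P.is_maximal' h1 le_sup_right
  rw [← h2]
  exact le_sup_left

/-- `p`-subgroups of equal order are conjugate in the normalizer of an abelian Sylow subgroup -/
theorem cp_normalizer (h : CP p G) (P : Sylow p G) (hab : ∀ x ∈ (P : Subgroup G), ∀ y ∈ (P : Subgroup G), x * y = y * x)
    (N : Subgroup G) (hN : N = normalizer ((P : Subgroup G) : Set G)) : CP p N := by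
  intro A B hA hB hAB
  have hA' : IsPGroup p (A.map N.subtype) := isPGroup_map_subtype.2 hA
  have hB' : IsPGroup p (B.map N.subtype) := isPGroup_map_subtype.2 hB
  have hAP : A.map N.subtype ≤ P := le_of_isPGroup_normalizer P hA' ((map_subtype_le A).trans hN.le)
  have hBP : B.map N.subtype ≤ P := le_of_isPGroup_normalizer P hB' ((map_subtype_le B).trans hN.le)
  obtain ⟨g, hg⟩ := h (A.map N.subtype) (B.map N.subtype) hA' hB' (by
    rw [card_map_subtype, card_map_subtype, hAB])
  set C := centralizer ((B.map N.subtype : Subgroup G) : Set G) with hC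
  have hPC : (P : Subgroup G) ≤ C := by
    intro x hx
    rw [hC, mem_centralizer_iff]
    intro b hb
    exact hab b (hBP hb) x hx
  have hgPC : cj g (P : Subgroup G) ≤ C := by
    rintro _ ⟨x, hx, rfl⟩
    rw [hC, mem_centralizer_iff]
    intro b hb
    rw [hg] at hb
    obtain ⟨a, ha, rfl⟩ := hb
    have h1 := hab a (hAP ha) x hx
    show g * a * g⁻¹ * (g * x * g⁻¹) = g * x * g⁻¹ * (g * a * g⁻¹)
    have h2 : g * a * g⁻¹ * (g * x * g⁻¹) = g * (a * x) * g⁻¹ := by group
    have h3 : g * x * g⁻¹ * (g * a * g⁻¹) = g * (x * a) * g⁻¹ := by group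
    rw [h2, h3, h1]
  have hS1 : IsSyl p (P : Subgroup G) C := (isSyl_top P).of_le_of_le hPC le_top
  have hS2 : IsSyl p (cj g (P : Subgroup G)) C := by
    have h1 : IsSyl p (cj g (P : Subgroup G)) ⊤ := by
      have h2 := (isSyl_top P).cj g
      have h3 : cj g (⊤ : Subgroup G) = ⊤ := cj_eq_top.2 rfl
      rwa [h3] at h2
    exact h1.of_le_of_le hgPC le_top
  obtain ⟨c, hc, hcP⟩ := hS2.exists_conj_eq hS1
  rw [cj_cj] at hcP
  have hn : c * g ∈ N := by
    rw [hN, mem_normalizer_iff_cj]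
    exact hcP.symm
  refine ⟨⟨c * g, hn⟩, ?_⟩
  apply Subgroup.map_injective N.subtype_injective
  rw [hg]
  have h4 : (B.map N.subtype) = cj c (B.map N.subtype) := by
    symm
    exact cj_eq_self_of_mem_centralizer hc
  rw [← hg, h4, hg]
  show cj c (cj g (A.map N.subtype)) = _
  rw [cj_cj]
  ext x
  constructor
  · rintro ⟨_, ⟨a, ha, rfl⟩, rfl⟩
    exact ⟨_, ⟨a, ha, rfl⟩, rfl⟩
  · rintro ⟨_, ⟨a, ha, rfl⟩, rfl⟩
    exact ⟨_, ⟨a, ha, rfl⟩, rfl⟩

end norm

section final
variable {Q : Type*} [Group Q] [Finite Q]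

theorem final {p n : ℕ} [hp : Fact p.Prime] (hn : 3 ≤ n) (hs : Group.IsSolvable Q) (hCP : CP p Q)
    (V : Subgroup Q) [V.Normal] (hab : ∀ x ∈ V, ∀ y ∈ V, x * y = y * x) (hexp : ∀ x ∈ V, x ^ p = 1)
    (hcard : Nat.card V = p ^ n) (hC : centralizer (V : Set Q) ≤ V) (hidx : (Nat.card V).Coprime V.index) :
    (n = 3 ∧ (∃ f : Q →* ↥(Cfsg.semiaffineGroup (GaloisField p 3)), Function.Injective f) ∧
      (p = 2 → Nonempty (Q ≃* Cfsg.semiaffineGroup (GaloisField 2 3)) ∨
               Nonempty (Q ≃* Cfsg.affineGroup (GaloisField 2 3)))) ∨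
    (n = 5 ∧ p = 2 ∧ Nonempty (Q ≃* Cfsg.semiaffineGroup (GaloisField 2 5))) := by
  obtain ⟨⟨e, hmul, he⟩, hn35, h7, h155⟩ := core hn hs hCP V hab hexp hcard
  obtain ⟨X, hX⟩ := Subgroup.exists_right_complement'_of_coprime hidx
  obtain ⟨f, hf⟩ := embed V X hX hC e hmul he
  have hVQ : p ^ n ∣ Nat.card Q := by rw [← hcard]; exact card_subgroup_dvd_card V
  rcases hn35 with rfl | ⟨rfl, rfl⟩
  · left
    refine ⟨rfl, ⟨f, hf⟩, ?_⟩
    intro hp2
    subst hp2
    have hF : Nat.card (GaloisField 2 3) = 8 := by rw [GaloisField.card 2 3 (by norm_num)]; norm_num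
    have hFu : Nat.card (GaloisField 2 3)ˣ = 7 := by rw [Nat.card_units, hF]
    have hFa : Nat.card (GaloisField 2 3 ≃+* GaloisField 2 3) = 3 := card_aut (by norm_num)
    have hcs : Nat.card (semiaffineGroup (GaloisField 2 3)) = 168 := by
      rw [card_semi, hF, hFu, hFa]
    have hca : Nat.card (affineGroup (GaloisField 2 3)) = 56 := by
      rw [card_affine, hF, hFu]
    haveI : Finite (semiaffineGroup (GaloisField 2 3)) := Nat.finite_of_card_ne_zero (by rw [hcs]; norm_num)
    haveI : Finite (affineGroup (GaloisField 2 3)) := Nat.finite_of_card_ne_zero (by rw [hca]; norm_num)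
    have h56 : 56 ∣ Nat.card Q := by
      have h1 := h7 rfl rfl
      have h2 : 8 ∣ Nat.card Q := hVQ
      exact (by norm_num : Nat.Coprime 8 7).mul_dvd_of_dvd_of_dvd h2 h1
    have h168 : Nat.card Q ∣ 168 := by
      rw [← hcs]
      exact Subgroup.card_dvd_of_injective f hf
    obtain ⟨k, hk⟩ := h56
    have hk3 : k ∣ 3 := by
      rw [hk, show (168 : ℕ) = 56 * 3 by norm_num] at h168
      exact Nat.dvd_of_mul_dvd_mul_left (by norm_num) h168
    rcases (Nat.dvd_prime (by norm_num : Nat.Prime 3)).1 hk3 with rfl | rfl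
    · right
      have hQ : Nat.card Q = 56 := hk
      have hmem : ∀ g : Q, ((f g : semiaffineGroup (GaloisField 2 3)) : Equiv.Perm (GaloisField 2 3)) ∈
          affineGroup (GaloisField 2 3) := by
        intro g
        refine aff_of_coprime (f g).2 (m := 56) ?_ (by rw [hFa]; norm_num)
        have h3 : g ^ 56 = 1 := by rw [← hQ]; exact pow_card_eq_one'
        have h4 : (f g) ^ 56 = 1 := by rw [← map_pow, h3, map_one]
        exact congrArg Subtype.val h4
      let f' : Q →* affineGroup (GaloisField 2 3) :=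
        ((semiaffineGroup (GaloisField 2 3)).subtype.comp f).codRestrict _ hmem
      have hf' : Function.Injective f' := by
        intro a b hab
        apply hf
        apply Subtype.ext
        have h9 : ((f' a : affineGroup (GaloisField 2 3)) : Equiv.Perm (GaloisField 2 3)) = (f' b) := by rw [hab]
        exact h9
      exact ⟨MulEquiv.ofBijective f' ((Nat.bijective_iff_injective_and_card f').2 ⟨hf', by rw [hQ, hca]⟩)⟩
    · left
      have hQ : Nat.card Q = 168 := hk
      exact ⟨MulEquiv.ofBijective f ((Nat.bijective_iff_injective_and_card f).2 ⟨hf, by rw [hQ, hcs]⟩)⟩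
  · right
    refine ⟨rfl, rfl, ?_⟩
    have hF : Nat.card (GaloisField 2 5) = 32 := by rw [GaloisField.card 2 5 (by norm_num)]; norm_num
    have hFu : Nat.card (GaloisField 2 5)ˣ = 31 := by rw [Nat.card_units, hF]
    have hFa : Nat.card (GaloisField 2 5 ≃+* GaloisField 2 5) = 5 := card_aut (by norm_num)
    have hcs : Nat.card (semiaffineGroup (GaloisField 2 5)) = 4960 := by
      rw [card_semi, hF, hFu, hFa]
    haveI : Finite (semiaffineGroup (GaloisField 2 5)) := Nat.finite_of_card_ne_zero (by rw [hcs]; norm_num)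
    have h1 : 4960 ∣ Nat.card Q := by
      have h1 := h155 rfl rfl
      have h2 : 32 ∣ Nat.card Q := hVQ
      exact (by norm_num : Nat.Coprime 32 155).mul_dvd_of_dvd_of_dvd h2 h1
    have h2 : Nat.card Q ∣ 4960 := by
      rw [← hcs]
      exact Subgroup.card_dvd_of_injective f hf
    have hQ := Nat.dvd_antisymm h2 h1
    exact ⟨MulEquiv.ofBijective f ((Nat.bijective_iff_injective_and_card f).2 ⟨hf, by rw [hQ, hcs]⟩)⟩

end final

theorem main {G : Type*} [Group G] [Finite G]
    {p : ℕ} [Fact p.Prime] (hC : CP p G) (P : Sylow p G) (n : ℕ) (hn : 3 ≤ n)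
    (hel : Cfsg.IsElementaryAbelian p (P : Subgroup G)) (hcard : Nat.card P = p ^ n)
    (N : Subgroup G) (hN : N = Subgroup.normalizer ((P : Subgroup G) : Set G))
    (hsolv : Group.IsSolvable (↥N ⧸ Cfsg.pPrimeCore p ↥N)) :
    (n = 3 ∧ (∃ f : ↥N ⧸ Cfsg.pPrimeCore p ↥N →* ↥(Cfsg.semiaffineGroup (GaloisField p 3)), Function.Injective f) ∧
      (p = 2 → Nonempty (↥N ⧸ Cfsg.pPrimeCore p ↥N ≃* Cfsg.semiaffineGroup (GaloisField 2 3)) ∨
               Nonempty (↥N ⧸ Cfsg.pPrimeCore p ↥N ≃* Cfsg.affineGroup (GaloisField 2 3)))) ∨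
    (n = 5 ∧ p = 2 ∧ Nonempty (↥N ⧸ Cfsg.pPrimeCore p ↥N ≃* Cfsg.semiaffineGroup (GaloisField 2 5))) := by
  have hab : ∀ x ∈ (P : Subgroup G), ∀ y ∈ (P : Subgroup G), x * y = y * x := by
    intro x hx y hy
    haveI := hel.1
    exact congrArg Subtype.val (mul_comm' (⟨x, hx⟩ : (P : Subgroup G)) ⟨y, hy⟩)
  have hCN : CP p N := cp_normalizer hC P hab N hN
  have hPN : (P : Subgroup G) ≤ N := by rw [hN]; exact le_normalizer
  set K := pPrimeCore p N with hK
  have hKc : (Nat.card K).Coprime p := H1.Cores.coprime_card_pPrimeCore p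
  have hCQ : CP p (N ⧸ K) := hCN.quotient hKc
  let P' : Sylow p N := P.subtype hPN
  have hP'c : (P' : Subgroup N) = (P : Subgroup G).subgroupOf N := rfl
  let S : Sylow p (N ⧸ K) := P'.mapSurjective (QuotientGroup.mk'_surjective K)
  have hSc : (S : Subgroup (N ⧸ K)) = (P' : Subgroup N).map (QuotientGroup.mk' K) := Sylow.coe_mapSurjective _ _
  haveI hP'n : (P' : Subgroup N).Normal := by
    rw [hP'c]
    have h1 : N ≤ normalizer ((P : Subgroup G) : Set G) := hN.le
    exact normal_subgroupOf_of_le_normalizer h1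
  haveI hSn : (S : Subgroup (N ⧸ K)).Normal := by
    rw [hSc]
    exact hP'n.map _ (QuotientGroup.mk'_surjective K)
  have hab' : ∀ x ∈ (S : Subgroup (N ⧸ K)), ∀ y ∈ (S : Subgroup (N ⧸ K)), x * y = y * x := by
    intro x hx y hy
    rw [hSc] at hx hy
    obtain ⟨a, ha, rfl⟩ := hx
    obtain ⟨b, hb, rfl⟩ := hy
    rw [← map_mul, ← map_mul]
    congr 1
    exact Subtype.ext (hab a ha b hb)
  have hexp' : ∀ x ∈ (S : Subgroup (N ⧸ K)), x ^ p = 1 := by
    intro x hx
    rw [hSc] at hx
    obtain ⟨a, ha, rfl⟩ := hx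
    rw [← map_pow]
    have h1 : a ^ p = 1 := Subtype.ext (hel.2 a ha)
    rw [h1, map_one]
  have hcardS : Nat.card (S : Subgroup (N ⧸ K)) = p ^ n := by
    rw [hSc, H1.Hall.card_map_mk_of_disjoint (H1.Cores.disjoint_of_isPGroup P'.isPGroup' hKc), hP'c,
      card_subgroupOf hPN]
    exact hcard
  have hcent : centralizer ((S : Subgroup (N ⧸ K)) : Set (N ⧸ K)) ≤ S := by
    have h1 : centralizer (pCore p (N ⧸ K) : Set (N ⧸ K)) ≤ pCore p (N ⧸ K) :=
      H1.Solv.centralizer_pCore_le hsolv p (H1.Cores.pPrimeCore_quotient_pPrimeCore p)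
    have h2 : pCore p (N ⧸ K) = (S : Subgroup (N ⧸ K)) :=
      le_antisymm (H1.Cores.pCore_le_sylow S) (H1.Cores.le_pCore hSn S.isPGroup')
    rw [← h2]; exact h1
  have hidx : (Nat.card (S : Subgroup (N ⧸ K))).Coprime (S : Subgroup (N ⧸ K)).index := S.card_coprime_index
  exact final hn hsolv hCQ (S : Subgroup (N ⧸ K)) hab' hexp' hcardS hcent hidx

end H56.EqOrd
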