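import Mathlib
import Cfsg.Agent.Lib.H56.JQuad

set_option autoImplicit false

/-! Higman's lemma: an element of order 3 without fixed points forces commutativity. -/

namespace H56.Hig

open scoped commutatorElement

universe u

section two

variable {H : Type u} [Group H] {Q : Subgroup H}

/-- Class two: bilinearity. -/
theorem bil_left (hc : ∀ a ∈ Q, ∀ b ∈ Q, ∀ c ∈ Q, ⁅a, b⁆ * c = c * ⁅a, b⁆) {a b c : H} (ha : a ∈ Q) (hb : b ∈ Q)
    (hcQ : c ∈ Q) : ⁅a * b, c⁆ = ⁅a, c⁆ * ⁅b, c⁆ := by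
  have h1 : ⁅a * b, c⁆ = a * ⁅b, c⁆ * a⁻¹ * ⁅a, c⁆ := by
    rw [commutatorElement_def, commutatorElement_def, commutatorElement_def]; group
  rw [h1, ← hc b hb c hcQ a ha, mul_inv_cancel_right]
  have h2 : ⁅a, c⁆ ∈ Q := mul_mem (mul_mem (mul_mem ha hcQ) (inv_mem ha)) (inv_mem hcQ)
  exact hc b hb c hcQ _ h2

theorem bil_right (hc : ∀ a ∈ Q, ∀ b ∈ Q, ∀ c ∈ Q, ⁅a, b⁆ * c = c * ⁅a, b⁆) {a b c : H} (ha : a ∈ Q) (hb : b ∈ Q)
    (hcQ : c ∈ Q) : ⁅a, b * c⁆ = ⁅a, b⁆ * ⁅a, c⁆ := by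
  have h1 : ⁅a, b * c⁆ = ⁅a, b⁆ * (b * ⁅a, c⁆ * b⁻¹) := by
    rw [commutatorElement_def, commutatorElement_def, commutatorElement_def]; group
  rw [h1, ← hc a ha c hcQ b hb, mul_inv_cancel_right]

variable (hQ : ∀ h : H, ∀ a ∈ Q, h * a * h⁻¹ ∈ Q)
  (hc : ∀ a ∈ Q, ∀ b ∈ Q, ∀ c ∈ Q, ⁅a, b⁆ * c = c * ⁅a, b⁆)
include hQ hc

/-- The basic identity. -/
theorem ident {y : H} (hy : ∀ v ∈ Q, v * (y * v * y⁻¹) * (y * (y * v * y⁻¹) * y⁻¹) = 1) {v w : H} (hv : v ∈ Q)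
    (hw : w ∈ Q) : ⁅v, y * w * y⁻¹⁆ = ⁅y * v * y⁻¹, w⁆ := by
  have hcomm : ∀ v ∈ Q, ⁅v, y * v * y⁻¹⁆ = 1 := by
    intro v hv
    have h1 := hy v hv
    have h2 := hy v⁻¹ (inv_mem hv)
    set a := y * v * y⁻¹ with ha
    set b := y * a * y⁻¹ with hb
    have h3 : y * v⁻¹ * y⁻¹ = a⁻¹ := by rw [ha]; group
    have h4 : y * a⁻¹ * y⁻¹ = b⁻¹ := by rw [hb]; group
    rw [h3, h4] at h2
    -- `v a b = 1` and `b a v = 1`
    have h5 : b * a * v = 1 := by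
      have : (b * a * v)⁻¹ = 1 := by rw [← h2]; group
      rwa [inv_eq_one] at this
    have h6 : b * (v * a) = 1 := by
      have : b * (v * a) = b * (v * a * b) * b⁻¹ := by group
      rw [this, h1]; group
    have h7 : a * v = v * a := by
      apply mul_left_cancel (a := b)
      rw [← mul_assoc, h5, h6]
    rw [commutatorElement_eq_one_iff_mul_comm]
    exact h7.symm
  have hyv := hQ y v hv
  have hyw := hQ y w hw
  have h1 := hcomm (v * w) (mul_mem hv hw)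
  have h2 : y * (v * w) * y⁻¹ = (y * v * y⁻¹) * (y * w * y⁻¹) := by group
  rw [h2, bil_left hc hv hw (mul_mem hyv hyw), bil_right hc hv hyv hyw, bil_right hc hw hyv hyw, hcomm v hv, hcomm w hw,
    one_mul, mul_one] at h1
  have h3 : ⁅v, y * w * y⁻¹⁆ = ⁅w, y * v * y⁻¹⁆⁻¹ := eq_inv_of_mul_eq_one_left h1
  rw [h3, commutatorElement_inv]

theorem P1 {y : H} (hy : ∀ v ∈ Q, v * (y * v * y⁻¹) * (y * (y * v * y⁻¹) * y⁻¹) = 1) (hy3 : y ^ 3 = 1) {v w : H}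
    (hv : v ∈ Q) (hw : w ∈ Q) : y * ⁅v, w⁆ * y⁻¹ = ⁅v, y⁻¹ * w * y⁆ := by
  have h1 := ident hQ hc hy hv (hQ y w hw)
  have h2 : y * ⁅v, w⁆ * y⁻¹ = ⁅y * v * y⁻¹, y * w * y⁻¹⁆ := by
    rw [commutatorElement_def, commutatorElement_def]; group
  rw [h2, ← h1]
  congr 1
  have h3 : y * y = y⁻¹ := by
    rw [eq_inv_iff_mul_eq_one, ← hy3, pow_succ, pow_two]
  have h4 : y⁻¹ * y⁻¹ = y := by rw [← mul_inv_rev, h3, inv_inv]
  calc y * (y * w * y⁻¹) * y⁻¹ = (y * y) * w * (y⁻¹ * y⁻¹) := by group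
    _ = y⁻¹ * w * y := by rw [h3, h4]

theorem P2 {y : H} (hy : ∀ v ∈ Q, v * (y * v * y⁻¹) * (y * (y * v * y⁻¹) * y⁻¹) = 1) (hy3 : y ^ 3 = 1) {v w : H}
    (hv : v ∈ Q) (hw : w ∈ Q) : y⁻¹ * ⁅v, w⁆ * y = ⁅v, y * w * y⁻¹⁆ := by
  have h1 := P1 hQ hc hy hy3 hv (hQ y w hw)
  have h2 : y⁻¹ * (y * w * y⁻¹) * y = w := by group
  rw [h2] at h1
  rw [← h1]; group

/-- Conjugates agree modulo the centralizer of the commutator subgroup. -/
theorem conj_eq {y z : H} (hy : ∀ v ∈ Q, v * (y * v * y⁻¹) * (y * (y * v * y⁻¹) * y⁻¹) = 1) (hy3 : y ^ 3 = 1)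
    (hz : ∀ v ∈ Q, v * (z * v * z⁻¹) * (z * (z * v * z⁻¹) * z⁻¹) = 1) (hz3 : z ^ 3 = 1)
    (ht : ∀ v ∈ Q, v * ((z * y * z⁻¹) * v * (z * y * z⁻¹)⁻¹) *
      ((z * y * z⁻¹) * ((z * y * z⁻¹) * v * (z * y * z⁻¹)⁻¹) * (z * y * z⁻¹)⁻¹) = 1) {v w : H}
    (hv : v ∈ Q) (hw : w ∈ Q) :
    (z * y * z⁻¹) * ⁅v, w⁆ * (z * y * z⁻¹)⁻¹ = (z⁻¹ * y * z) * ⁅v, w⁆ * (z⁻¹ * y * z)⁻¹ := by
  have ht3 : (z * y * z⁻¹) ^ 3 = 1 := by rw [conj_pow, hy3]; group
  rw [P1 hQ hc ht ht3 hv hw]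
  have hzi : ∀ a ∈ Q, z⁻¹ * a * z ∈ Q := fun a ha => by
    have := hQ z⁻¹ a ha
    rwa [inv_inv] at this
  have hyi : ∀ a ∈ Q, y⁻¹ * a * y ∈ Q := fun a ha => by
    have := hQ y⁻¹ a ha
    rwa [inv_inv] at this
  have h1 : (z * y * z⁻¹)⁻¹ * w * (z * y * z⁻¹) = z * (y⁻¹ * (z⁻¹ * w * z) * y) * z⁻¹ := by group
  rw [h1, ← P2 hQ hc hz hz3 hv (hyi _ (hzi w hw)), ← P1 hQ hc hy hy3 hv (hzi w hw), ← P1 hQ hc hz hz3 hv hw]
  group

end two

section main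

variable {G : Type u} [Group G] [Finite G] (Q : Subgroup G) [hQn : Q.Normal]

/-- The product formula. -/
theorem prodF {x : G} (hx3 : x ^ 3 = 1) (hfpf : ∀ q ∈ Q, x * q * x⁻¹ = q → q = 1) :
    ∀ v ∈ Q, v * (x * v * x⁻¹) * (x * (x * v * x⁻¹) * x⁻¹) = 1 := by
  intro v hv
  let f : Q → Q := fun q => ⟨(q : G)⁻¹ * (x * q * x⁻¹), mul_mem (inv_mem q.2) (hQn.conj_mem q q.2 x)⟩
  have hf : Function.Injective f := by
    intro a b hab
    have h1 : (a : G)⁻¹ * (x * a * x⁻¹) = (b : G)⁻¹ * (x * b * x⁻¹) := congrArg Subtype.val hab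
    have h2 : (b : G) * (a : G)⁻¹ = 1 := by
      apply hfpf _ (mul_mem b.2 (inv_mem a.2))
      calc x * ((b : G) * (a : G)⁻¹) * x⁻¹ = (b : G) * ((b : G)⁻¹ * (x * b * x⁻¹)) * (x * (a : G) * x⁻¹)⁻¹ := by group
        _ = (b : G) * ((a : G)⁻¹ * (x * a * x⁻¹)) * (x * (a : G) * x⁻¹)⁻¹ := by rw [h1]
        _ = (b : G) * (a : G)⁻¹ := by group
    exact Subtype.ext (mul_inv_eq_one.1 h2).symm
  obtain ⟨w, hw⟩ := (Finite.injective_iff_surjective.1 hf) ⟨v, hv⟩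
  have hw' : (w : G)⁻¹ * (x * w * x⁻¹) = v := congrArg Subtype.val hw
  rw [← hw']
  have h3 : x * x * x = 1 := by rw [← hx3, pow_succ, pow_two]
  calc (w : G)⁻¹ * (x * w * x⁻¹) * (x * ((w : G)⁻¹ * (x * w * x⁻¹)) * x⁻¹) *
        (x * (x * ((w : G)⁻¹ * (x * w * x⁻¹)) * x⁻¹) * x⁻¹) = (w : G)⁻¹ * (x * x * x) * w * (x * x * x)⁻¹ := by group
    _ = 1 := by rw [h3]; group

/-- Commutativity. -/
theorem comm_of_fpf (hQ2 : IsPGroup 2 Q) {x : G} (hx3 : x ^ 3 = 1) (hfpf : ∀ q ∈ Q, x * q * x⁻¹ = q → q = 1)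
    (hNC : ∀ C : Subgroup G, C.Normal → Q ≤ C →
      (∀ g h : G, ⁅g * x * g⁻¹, h * x * h⁻¹⁆ ∈ C) → C = ⊤) : ⁅Q, Q⁆ = ⊥ := by
  set N := ⁅⁅Q, Q⁆, Q⁆ with hN
  have hNn : N.Normal := inferInstance
  set π := QuotientGroup.mk' N with hπ
  have hprod := prodF Q hx3 hfpf
  have hprod' : ∀ g : G, ∀ v ∈ Q, v * ((g * x * g⁻¹) * v * (g * x * g⁻¹)⁻¹) *
      ((g * x * g⁻¹) * ((g * x * g⁻¹) * v * (g * x * g⁻¹)⁻¹) * (g * x * g⁻¹)⁻¹) = 1 := by
    intro g v hv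
    have h1 := hprod (g⁻¹ * v * g) (by
      have := hQn.conj_mem v hv g⁻¹
      rwa [inv_inv] at this)
    calc _ = g * ((g⁻¹ * v * g) * (x * (g⁻¹ * v * g) * x⁻¹) * (x * (x * (g⁻¹ * v * g) * x⁻¹) * x⁻¹)) * g⁻¹ := by group
      _ = 1 := by rw [h1]; group
  -- the class two quotient
  set Q' := Q.map π with hQ'
  have hQ'n : ∀ h : G ⧸ N, ∀ a ∈ Q', h * a * h⁻¹ ∈ Q' := by
    intro h a ha
    obtain ⟨h, rfl⟩ := QuotientGroup.mk'_surjective N h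
    obtain ⟨a, ha, rfl⟩ := ha
    exact ⟨h * a * h⁻¹, hQn.conj_mem a ha h, by simp [hπ]⟩
  have hc : ∀ a ∈ Q', ∀ b ∈ Q', ∀ c ∈ Q', ⁅a, b⁆ * c = c * ⁅a, b⁆ := by
    rintro _ ⟨a, ha, rfl⟩ _ ⟨b, hb, rfl⟩ _ ⟨c, hc, rfl⟩
    rw [← commutatorElement_eq_one_iff_mul_comm, ← map_commutatorElement, ← map_commutatorElement]
    apply (QuotientGroup.eq_one_iff _).2
    exact Subgroup.commutator_mem_commutator (Subgroup.commutator_mem_commutator ha hb) hc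
  have hid : ∀ g : G, ∀ v ∈ Q', v * ((π (g * x * g⁻¹)) * v * (π (g * x * g⁻¹))⁻¹) *
      ((π (g * x * g⁻¹)) * ((π (g * x * g⁻¹)) * v * (π (g * x * g⁻¹))⁻¹) * (π (g * x * g⁻¹))⁻¹) = 1 := by
    rintro g _ ⟨v, hv, rfl⟩
    have := congrArg π (hprod' g v hv)
    simpa only [map_mul, map_inv, map_one] using this
  have h3 : ∀ g : G, (π (g * x * g⁻¹)) ^ 3 = 1 := by
    intro g
    rw [← map_pow, conj_pow, hx3]; simp
  -- the centralizer
  set C : Subgroup G := (Subgroup.centralizer ((⁅Q, Q⁆.map π : Subgroup (G ⧸ N)) : Set (G ⧸ N))).comap π with hC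
  have hCn : C.Normal := by
    have h1 : (⁅Q, Q⁆.map π).Normal := Subgroup.Normal.map inferInstance π (QuotientGroup.mk'_surjective N)
    have h2 : (Subgroup.centralizer ((⁅Q, Q⁆.map π : Subgroup (G ⧸ N)) : Set (G ⧸ N))).Normal := inferInstance
    exact h2.comap π
  have hmemC : ∀ g : G, (∀ v ∈ Q, ∀ w ∈ Q, π g * ⁅π v, π w⁆ = ⁅π v, π w⁆ * π g) → g ∈ C := by
    intro g hg
    rw [hC, Subgroup.mem_comap, Subgroup.map_commutator]
    have h1 : ⁅Q.map π, Q.map π⁆ ≤ Subgroup.centralizer {π g} := by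
      rw [Subgroup.commutator_le]
      rintro _ ⟨v, hv, rfl⟩ _ ⟨w, hw, rfl⟩
      rw [Subgroup.mem_centralizer_singleton_iff]
      exact (hg v hv w hw).symm
    rw [Subgroup.mem_centralizer_iff]
    intro z hz
    exact Subgroup.mem_centralizer_singleton_iff.1 (h1 hz)
  have hQC : Q ≤ C := by
    intro q hq
    apply hmemC
    intro v hv w hw
    exact (hc _ ⟨v, hv, rfl⟩ _ ⟨w, hw, rfl⟩ _ ⟨q, hq, rfl⟩).symm
  have hCt : C = ⊤ := by
    apply hNC C hCn hQC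
    intro g h
    set y := g * x * g⁻¹ with hy
    set z := h * x * h⁻¹ with hz
    have hy3 : y ^ 3 = 1 := by rw [hy, conj_pow, hx3]; group
    have hz3 : z ^ 3 = 1 := by rw [hz, conj_pow, hx3]; group
    -- `z² ` commutes with `y` modulo `C`
    have h4 : (z⁻¹ * y * z)⁻¹ * (z * y * z⁻¹) ∈ C := by
      apply hmemC
      intro v hv w hw
      have e1 : z * y * z⁻¹ = (h * x * h⁻¹ * g) * x * (h * x * h⁻¹ * g)⁻¹ := by rw [hy, hz]; group
      have h5 := conj_eq hQ'n hc (y := π y) (z := π z) (hid g) (h3 g) (hid h) (h3 h) (by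
        have h6 := hid (h * x * h⁻¹ * g)
        rw [← e1] at h6
        simpa only [map_mul, map_inv] using h6) (v := π v) (w := π w) ⟨v, hv, rfl⟩ ⟨w, hw, rfl⟩
      simp only [map_mul, map_inv] at h5 ⊢
      set c := ⁅π v, π w⁆ with hcdef
      set t := π z * π y * (π z)⁻¹ with ht
      set s := (π z)⁻¹ * π y * π z with hs
      show s⁻¹ * t * c = c * (s⁻¹ * t)
      calc s⁻¹ * t * c = s⁻¹ * (t * c * t⁻¹) * t := by group
        _ = s⁻¹ * (s * c * s⁻¹) * t := by rw [h5]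
        _ = c * (s⁻¹ * t) := by group
    -- in the quotient by `C`
    have h5 : (QuotientGroup.mk' C) ((z⁻¹ * y * z)⁻¹ * (z * y * z⁻¹)) = 1 := (QuotientGroup.eq_one_iff _).2 h4
    have h6 : (QuotientGroup.mk' C) ⁅y, z⁆ = 1 := by
      simp only [map_mul, map_inv] at h5
      rw [map_commutatorElement, commutatorElement_eq_one_iff_mul_comm]
      set Y := (QuotientGroup.mk' C) y
      set Z := (QuotientGroup.mk' C) z
      have hZ3 : Z * Z * Z = 1 := by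
        have := congrArg (QuotientGroup.mk' C) hz3
        rw [map_pow, map_one] at this
        rw [← this, pow_succ, pow_two]
      have h7 : Z * Y * Z⁻¹ = Z⁻¹ * Y * Z := by
        have := inv_mul_eq_one.1 h5
        exact this.symm
      have h8 : (Z * Z) * Y = Y * (Z * Z) := by
        calc (Z * Z) * Y = Z * (Z * Y * Z⁻¹) * Z := by group
          _ = Z * (Z⁻¹ * Y * Z) * Z := by rw [h7]
          _ = Y * (Z * Z) := by group
      have h9 : Z = (Z * Z) * (Z * Z) := by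
        calc Z = Z * (Z * Z * Z) := by rw [hZ3, mul_one]
          _ = _ := by group
      calc Y * Z = Y * ((Z * Z) * (Z * Z)) := by rw [← h9]
        _ = (Y * (Z * Z)) * (Z * Z) := by group
        _ = (Z * Z) * (Y * (Z * Z)) := by rw [← h8, mul_assoc (Z * Z) Y (Z * Z), ← h8]
        _ = (Z * Z) * ((Z * Z) * Y) := by rw [← h8]
        _ = ((Z * Z) * (Z * Z)) * Y := by group
        _ = Z * Y := by rw [← h9]
    exact (QuotientGroup.eq_one_iff _).1 h6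
  -- conclusion
  have hxC : x ∈ C := by rw [hCt]; trivial
  have hle : ⁅Q, Q⁆ ≤ ⁅Q, ⁅Q, Q⁆⁆ := by
    intro c hcQ
    have hcQ' : c ∈ Q := (Subgroup.commutator_le_left Q Q) hcQ
    rw [hC, Subgroup.mem_comap, Subgroup.mem_centralizer_iff] at hxC
    have h4 := hxC (π c) ⟨c, hcQ, rfl⟩
    have h5 := congrArg π (hprod c hcQ')
    simp only [map_mul, map_inv, map_one] at h5
    have h6 : π x * π c * (π x)⁻¹ = π c := by rw [← h4]; group
    rw [h6, h6] at h5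
    have h7 : c ^ 3 ∈ N := by
      rw [← QuotientGroup.eq_one_iff]
      show π (c ^ 3) = 1
      rw [map_pow, ← h5, pow_succ, pow_two]
    obtain ⟨k, hk⟩ := hQ2 ⟨c, hcQ'⟩
    have hk' : c ^ 2 ^ k = 1 := congrArg Subtype.val hk
    have h8 : c ∈ N := by
      have hcop : Nat.Coprime 3 (2 ^ k) := Nat.Coprime.pow_right k (by norm_num)
      have h9 : Nat.gcd 3 (2 ^ k) = 1 := hcop
      have h10 := Nat.gcd_eq_gcd_ab 3 (2 ^ k)
      rw [h9] at h10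
      have h11 : c = (c ^ 3) ^ (Nat.gcdA 3 (2 ^ k)) * (c ^ 2 ^ k) ^ (Nat.gcdB 3 (2 ^ k)) := by
        rw [← zpow_natCast c 3, ← zpow_natCast c (2 ^ k), ← zpow_mul, ← zpow_mul, ← zpow_add]
        nth_rw 1 [← zpow_one c]
        congr 1
      rw [h11, hk', one_zpow, mul_one]
      exact zpow_mem h7 _
    rw [Subgroup.commutator_comm]
    exact h8
  exact JQuad.eq_bot_of_le_commutator (S := Q) (K := ⁅Q, Q⁆) (A := Q) hQ2 (Subgroup.commutator_le_left Q Q) le_rfl hle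

end main

end H56.Hig
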