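import Mathlib

set_option autoImplicit false

/-! Representations of `SL₂(K)` in characteristic two in which elements of trace one have no fixed points:
the ring-theoretic core. -/

namespace H56.Hig

section ring

variable {R : Type*} [Ring R]

theorem eq_of_add (two : ∀ x : R, x + x = 0) {x y : R} (h : x + y = 0) : x = y := by
  rw [eq_neg_of_add_eq_zero_left h]
  exact (eq_neg_of_add_eq_zero_left (two y)).symm

theorem relF2 (two : ∀ x : R, x + x = 0) {U V : R} (hU : U * U = 0) (hV : V * V = 0)
    (h : ((1+U)*(1+V)) * ((1+U)*(1+V)) + (1+U)*(1+V) + 1 = 0) :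
    U*V+V*U=1 := by
  have h' : V*U+V*U*V+U*V*U+U*V*U*V+U+V+1 = 0 := by
    linear_combination (norm := noncomm_ring) h - hU - hV - hU * V - U * hV - two (1+U+V+U*V+U*V)
  have h1 : U*V*U*V = U*V := by
    apply eq_of_add two
    linear_combination (norm := noncomm_ring) U * h' * V - hU * V * U * V - U*V*U*hV - hU * V*U*V*V -
      hU * V - U * hV - U * V * U * V * hV + U*V*U*V*hV
  have h2 : U*V*U = U := by
    apply eq_of_add two
    linear_combination (norm := noncomm_ring) U * h' - hU - hU * V * U * V - hU * V * U - h1 - two (U*V)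
  have h3 : V*U*V = V := by
    apply eq_of_add two
    linear_combination (norm := noncomm_ring) h' * V - hV - V * U * hV - U * V * U * hV - h1 - two (U*V)
  apply eq_of_add two
  linear_combination (norm := noncomm_ring) h' - h3 - h2 - h1 - two U - two V

variable {K : Type*} [Field K]

/-- The abstract data. -/
structure Dat (K R : Type*) [Field K] [Ring R] (u v : K → R) : Prop where
  two : ∀ x : R, x + x = 0
  twoK : ∀ x : K, x + x = 0
  sq : ∀ a : K, ∃ b : K, b * b = a
  add : ∀ a b : K, u (a + b) = u a + u b + u a * u b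
  zero : u 0 = 0
  rel : ∀ a : K, a ≠ 0 → u a * v a⁻¹ + v a⁻¹ * u a = 1
  vv : v 1 * v 1 = 0
  wt : ∀ a : K, v a * (u 1 + v 1) = (u 1 + v 1) * u a
  ht : ∀ a : K, a ≠ 0 → ∀ b : K, ((u a + v a⁻¹) * (u 1 + v 1)) * u b = u (a * a * b) * ((u a + v a⁻¹) * (u 1 + v 1))

namespace Dat

variable {u v : K → R} (D : Dat K R u v)
include D

theorem uu (a : K) : u a * u a = 0 := by
  have h1 := D.add a a
  rw [D.twoK, D.zero, D.two, zero_add] at h1
  exact h1.symm

theorem ucomm (a b : K) : u a * u b = u b * u a := by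
  have h1 := D.add a b
  have h2 := D.add b a
  rw [add_comm b a, add_comm (u b) (u a)] at h2
  rw [h1] at h2
  exact add_left_cancel h2

theorem uv : u 1 * v 1 + v 1 * u 1 = 1 := by
  have := D.rel 1 one_ne_zero
  rwa [inv_one] at this

/-- The coefficient `q`. -/
def q (u v : K → R) (a : K) : R := u a * v 1 + v 1 * u a

/-- The coefficient `p`. -/
def p (u v : K → R) (a : K) : R := u a + q u v a * u 1

omit D in
theorem q_def (a : K) : q u v a = u a * v 1 + v 1 * u a := rfl

theorem qU (a : K) : u 1 * q u v a = q u v a * u 1 := by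
  have cU := D.ucomm a 1
  have hUV := D.uv
  rw [q_def]
  set U := u 1
  set V := v 1
  set A := u a
  symm
  linear_combination (norm := noncomm_ring) V * cU + cU * V + A * hUV + hUV * A + D.two A - D.two (A * U * V) -
    D.two (U * V * A)

theorem qV (a : K) : v 1 * q u v a = q u v a * v 1 := by
  have hV := D.vv
  rw [q_def]
  set V := v 1
  set A := u a
  linear_combination (norm := noncomm_ring) hV * A - A * hV

theorem u_eq (a : K) : u a = p u v a + q u v a * u 1 := by
  have := D.two (q u v a * u 1)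
  rw [p, add_assoc, this, add_zero]

theorem pU (a : K) : u 1 * p u v a = p u v a * u 1 := by
  have h1 := D.ucomm a 1
  have h2 := D.qU a
  rw [p]
  set Q := q u v a
  set U := u 1
  linear_combination (norm := noncomm_ring) h2 * U - h1

theorem pV (a : K) : v 1 * p u v a = p u v a * v 1 := by
  have h2 := D.qV a
  have h3 : q u v a = u a * v 1 + v 1 * u a := rfl
  have hUV := D.uv
  rw [p]
  set Q := q u v a
  set U := u 1
  set V := v 1
  set A := u a
  apply eq_of_add D.two
  linear_combination (norm := noncomm_ring) h2 * U + Q * hUV - h3 + D.two Q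

theorem vuv : v 1 * (u 1 * v 1) = v 1 := by
  have hUV := D.uv
  have hV := D.vv
  set U := u 1
  set V := v 1
  linear_combination (norm := noncomm_ring) V * hUV - hV * U

theorem uvu : u 1 * (v 1 * u 1) = u 1 := by
  have hUV := D.uv
  have hU := D.uu 1
  set U := u 1
  set V := v 1
  linear_combination (norm := noncomm_ring) U * hUV - hU * V

/-- Elements commuting with `U` and `V`. -/
def Cm (u v : K → R) (x : R) : Prop := u 1 * x = x * u 1 ∧ v 1 * x = x * v 1

theorem cmp (a : K) : Cm u v (p u v a) := ⟨D.pU a, D.pV a⟩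

theorem cmq (a : K) : Cm u v (q u v a) := ⟨D.qU a, D.qV a⟩

omit D in
theorem Cm.add {x y : R} (hx : Cm u v x) (hy : Cm u v y) : Cm u v (x + y) :=
  ⟨by rw [mul_add, add_mul, hx.1, hy.1], by rw [mul_add, add_mul, hx.2, hy.2]⟩

omit D in
theorem Cm.mul {x y : R} (hx : Cm u v x) (hy : Cm u v y) : Cm u v (x * y) :=
  ⟨by rw [← mul_assoc, hx.1, mul_assoc, hy.1, mul_assoc], by rw [← mul_assoc, hx.2, mul_assoc, hy.2, mul_assoc]⟩

/-- Extraction of coefficients. -/
theorem cmU {x : R} (hx : Cm u v x) (h : x * u 1 = 0) : x = 0 := by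
  have h1 : x * (u 1 * v 1) = 0 := by rw [← mul_assoc, h, zero_mul]
  have h2 : x * (v 1 * u 1) = 0 := by rw [← mul_assoc, ← hx.2, mul_assoc, h, mul_zero]
  rw [← mul_one x, ← D.uv, mul_add, h1, h2, add_zero]

theorem cmUV {x : R} (hx : Cm u v x) (h : x * (u 1 * v 1) = 0) : x = 0 := by
  apply D.cmU hx
  rw [← D.uvu, ← mul_assoc (u 1), ← mul_assoc, h, zero_mul]

/-- `α + β U = 0`. -/
theorem ext1 {x y : R} (hx : Cm u v x) (hy : Cm u v y) (h : x + y * u 1 = 0) : x = 0 ∧ y = 0 := by
  have hUV := D.uv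
  have h1 : y = 0 := by
    have h3 := hx.2
    have h4 := hy.2
    set U := u 1
    set V := v 1
    linear_combination (norm := noncomm_ring) h * V + V * h - h3 - h4 * U - y * hUV - D.two (x * V)
  rw [h1, zero_mul, add_zero] at h
  exact ⟨h, h1⟩

theorem pp (a b : K) : p u v a * p u v b = p u v b * p u v a := by
  have h1 := D.ucomm a b
  rw [D.u_eq a, D.u_eq b] at h1
  have h2 := D.cmp a
  have h3 := D.cmp b
  have h4 := D.cmq a
  have h5 := D.cmq b
  have hU := D.uu 1
  apply eq_of_add D.two
  refine (D.ext1 (x := p u v a * p u v b + p u v b * p u v a)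
    (y := p u v a * q u v b + q u v a * p u v b + p u v b * q u v a + q u v b * p u v a)
    ((h2.mul h3).add (h3.mul h2)) ((((h2.mul h5).add (h4.mul h3)).add (h3.mul h4)).add (h5.mul h2)) ?_).1
  have e1 := h2.1
  have e2 := h3.1
  have e3 := h4.1
  have e4 := h5.1
  set U := u 1
  set A := p u v a
  set B := p u v b
  set C := q u v a
  set E := q u v b
  linear_combination (norm := noncomm_ring) h1 - C * e2 - C * e4 * U - C * E * hU + E * e1 + E * e3 * U + E * C * hU +
    D.two (B * A) + D.two (B * C * U) + D.two (E * A * U)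

theorem p2 (a : K) : p u v a * p u v a = 0 := by
  have h1 := D.uu a
  rw [D.u_eq a] at h1
  have h2 := D.cmp a
  have h4 := D.cmq a
  have hU := D.uu 1
  refine (D.ext1 (x := p u v a * p u v a)
    (y := p u v a * q u v a + q u v a * p u v a)
    (h2.mul h2) ((h2.mul h4).add (h4.mul h2)) ?_).1
  have e1 := h2.1
  have e3 := h4.1
  set U := u 1
  set A := p u v a
  set C := q u v a
  linear_combination (norm := noncomm_ring) h1 - C * e1 - C * e3 * U - C * C * hU

theorem v_eq (a : K) : v a = p u v a + q u v a * v 1 := by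
  have h1 := D.wt a
  have h2 := D.uv
  have hU := D.uu 1
  have hV := D.vv
  have h3 : (u 1 + v 1) * (u 1 + v 1) = 1 := by
    set U := u 1
    set V := v 1
    linear_combination (norm := noncomm_ring) h2 + hU + hV
  have h4 : v a = (u 1 + v 1) * u a * (u 1 + v 1) := by
    rw [← h1, mul_assoc, h3, mul_one]
  rw [h4, D.u_eq a]
  have h5 := D.cmp a
  have h6 := D.cmq a
  have h7 := D.vuv
  have e1 := h5.1
  have e2 := h5.2
  have e3 := h6.1
  have e4 := h6.2
  set U := u 1
  set V := v 1
  set A := p u v a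
  set C := q u v a
  linear_combination (norm := noncomm_ring) A * h3 + e1 * (U + V) + e2 * (U + V) + e3 * U * (U + V) + e4 * U * (U + V) +
    C * hU * U + C * hU * V + C * V * hU + C * h7

omit D in
theorem Cm.sub {x y : R} (hx : Cm u v x) (hy : Cm u v y) : Cm u v (x - y) :=
  ⟨by rw [mul_sub, sub_mul, hx.1, hy.1], by rw [mul_sub, sub_mul, hx.2, hy.2]⟩

omit D in
theorem Cm.one : Cm u v (1 : R) := ⟨by rw [mul_one, one_mul], by rw [mul_one, one_mul]⟩

theorem qq (a : K) (ha : a ≠ 0) : q u v a⁻¹ * q u v a = 1 := by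
  have h1 := D.rel a ha
  rw [D.u_eq a, D.v_eq a⁻¹] at h1
  have hA := D.cmp a
  have hB := D.cmp a⁻¹
  have hC := D.cmq a
  have hE := D.cmq a⁻¹
  have hAB := D.pp a a⁻¹
  have hU := D.uu 1
  have hV := D.vv
  have h7 := D.vuv
  have h8 := D.uvu
  have hUV := D.uv
  rw [← sub_eq_zero]
  apply D.cmUV ((hE.mul hC).sub Cm.one)
  set U := u 1
  set V := v 1
  set A := p u v a
  set B := p u v a⁻¹
  set C := q u v a
  set E := q u v a⁻¹
  -- `X = 1`
  have hX : (A * E + E * A) * V + (C * B + B * C) * U + C * E * (U * V) + E * C * (V * U) = 1 := by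
    have := hE.1
    linear_combination (norm := noncomm_ring) h1 - C * hB.1 - C * hE.1 * V - E * hA.2 - E * hC.2 * U + hAB - D.two (A * B)
  have hX2 : U * ((A * E + E * A) * V + (C * B + B * C) * U + C * E * (U * V) + E * C * (V * U)) * V = U * V := by
    rw [hX, mul_one]
  have c1 := ((hA.mul hE).add (hE.mul hA)).1
  have c2 := ((hC.mul hB).add (hB.mul hC)).1
  have c3 := (hC.mul hE).1
  have c4 := (hE.mul hC).1
  change U * _ = _ * U at c1
  change U * _ = _ * U at c2
  change U * _ = _ * U at c3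
  change U * _ = _ * U at c4
  linear_combination (norm := noncomm_ring) hX2 - c1 * (V * V) - c2 * (U * V) - c3 * (U * V * V) - c4 * (V * U * V) -
    (A * E + E * A) * U * hV - (C * B + B * C) * hU * V - C * E * hU * V * V - E * C * U * h7

theorem ppq (a : K) (ha : a ≠ 0) : p u v a + p u v a⁻¹ = p u v (a * a) * q u v a⁻¹ ∧ q u v (a * a) = q u v a * q u v a := by
  have h1 := D.ht a ha 1
  rw [mul_one, D.u_eq a, D.v_eq a⁻¹, D.u_eq (a * a)] at h1
  have hA := D.cmp a
  have hB := D.cmp a⁻¹
  have hC := D.cmq a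
  have hE := D.cmq a⁻¹
  have hP := D.cmp (a * a)
  have hQ := D.cmq (a * a)
  have hU := D.uu 1
  have hV := D.vv
  have h7 := D.vuv
  have h8 := D.uvu
  have hUV := D.uv
  have hqq := D.qq a ha
  set A := p u v a
  set B := p u v a⁻¹
  set C := q u v a
  set E := q u v a⁻¹
  set P := p u v (a * a)
  set Q := q u v (a * a)
  have hS := hA.add hB
  -- normal form of `h`
  have e1 : (A + C * u 1 + (B + E * v 1)) * (u 1 + v 1) = (A + B) * (u 1 + v 1) + C * (u 1 * v 1) + E * (v 1 * u 1) := by
    set U := u 1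
    set V := v 1
    linear_combination (norm := noncomm_ring) C * hU + E * hV
  rw [e1] at h1
  have e2 : ((A + B) * (u 1 + v 1) + C * (u 1 * v 1) + E * (v 1 * u 1)) * u 1 = (A + B) * (v 1 * u 1) + C * u 1 := by
    set U := u 1
    set V := v 1
    linear_combination (norm := noncomm_ring) (A + B) * hU + C * h8 + E * V * hU
  have e3 : (P + Q * u 1) * ((A + B) * (u 1 + v 1) + C * (u 1 * v 1) + E * (v 1 * u 1)) =
      P * (A + B) * (u 1 + v 1) + P * C * (u 1 * v 1) + P * E * (v 1 * u 1) + Q * (A + B) * (u 1 * v 1) + Q * E * u 1 := by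
    have c1 := hS.1
    have c2 := hC.1
    have c3 := hE.1
    set U := u 1
    set V := v 1
    linear_combination (norm := noncomm_ring) Q * c1 * (U + V) + Q * c2 * (U * V) + Q * c3 * (V * U) +
      Q * (A + B) * hU + Q * C * hU * V + Q * E * h8
  rw [e2, e3] at h1
  have hPS := hP.mul hS
  have hPC := hP.mul hC
  have hPE := hP.mul hE
  have hQS := hQ.mul hS
  have hQE := hQ.mul hE
  -- first coefficient
  have f1 : (A + B - P * E) * (u 1 * v 1) = 0 := by
    have h2 : u 1 * ((A + B) * (v 1 * u 1) + C * u 1) * v 1 = u 1 * (P * (A + B) * (u 1 + v 1) + P * C * (u 1 * v 1) +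
      P * E * (v 1 * u 1) + Q * (A + B) * (u 1 * v 1) + Q * E * u 1) * v 1 := by rw [h1]
    have c1 := hS.1
    have c2 := hC.1
    have c3 := hPS.1
    have c4 := hPC.1
    have c5 := hPE.1
    have c6 := hQS.1
    have c7 := hQE.1
    set U := u 1
    set V := v 1
    linear_combination (norm := noncomm_ring) h2 - c1 * (V * U * V) - c2 * (U * V) + c3 * (U + V) * V + c4 * (U * V * V) +
      c5 * (V * U * V) + c6 * (U * V * V) + c7 * (U * V) - (A + B) * U * h7 - C * hU * V + P * (A + B) * hU * V +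
      P * (A + B) * U * hV + P * C * hU * V * V + P * E * U * h7 + Q * (A + B) * hU * V * V + Q * E * hU * V
  have f1' : A + B = P * E := by
    rw [← sub_eq_zero]
    exact D.cmUV (hS.sub hPE) f1
  -- second coefficient
  have f2 : P * (A + B) = 0 := by
    apply D.cmU hPS
    have h2 : u 1 * ((A + B) * (v 1 * u 1) + C * u 1) * u 1 = u 1 * (P * (A + B) * (u 1 + v 1) + P * C * (u 1 * v 1) +
      P * E * (v 1 * u 1) + Q * (A + B) * (u 1 * v 1) + Q * E * u 1) * u 1 := by rw [h1]
    have c1 := hS.1
    have c2 := hC.1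
    have c3 := hPS.1
    have c4 := hPC.1
    have c5 := hPE.1
    have c6 := hQS.1
    have c7 := hQE.1
    set U := u 1
    set V := v 1
    linear_combination (norm := noncomm_ring) -h2 + c1 * (V * U * U) + c2 * (U * U) - c3 * (U + V) * U - c4 * (U * V * U) -
      c5 * (V * U * U) - c6 * (U * V * U) - c7 * (U * U) + (A + B) * U * V * hU + C * hU * U - P * (A + B) * hU * U -
      P * (A + B) * h8 - P * C * hU * V * U - P * E * U * V * hU - Q * (A + B) * hU * V * U - Q * E * hU * U
  -- third coefficient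
  have f3 : (C - Q * E) * u 1 = 0 := by
    rw [mul_assoc P] at h1
    have h3 : P * ((A + B) * (u 1 + v 1)) = 0 := by rw [← mul_assoc, f2, zero_mul]
    rw [← mul_assoc P, f2, zero_mul, zero_add, ← f1'] at h1
    have h4 : C * u 1 = P * C * (u 1 * v 1) + Q * (A + B) * (u 1 * v 1) + Q * E * u 1 := by
      linear_combination (norm := noncomm_ring) h1
    have h5 : v 1 * (C * u 1) = v 1 * (P * C * (u 1 * v 1) + Q * (A + B) * (u 1 * v 1) + Q * E * u 1) := by rw [h4]
    have h6 : (v 1 * (C * u 1)) * (v 1 * u 1) = v 1 * (P * C * (u 1 * v 1) + Q * (A + B) * (u 1 * v 1) +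
      Q * E * u 1) * (v 1 * u 1) := by rw [h5]
    have c2 := hC.2
    have c4 := hPC.2
    have c6 := hQS.2
    have c7 := hQE.2
    have c8 := (hC.sub hQE).1
    have h9 : (C - Q * E) * (v 1 * u 1) = 0 := by
      set U := u 1
      set V := v 1
      linear_combination (norm := noncomm_ring) h6 - c2 * (U * V * U) + c4 * (U * V * V * U) + c6 * (U * V * V * U) +
        c7 * (U * V * U) - C * h7 * U + P * C * V * U * hV * U + Q * (A + B) * V * U * hV * U + Q * E * h7 * U
    rw [← D.uvu, ← mul_assoc, ← c8, mul_assoc, h9, mul_zero]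
  have f3' : C = Q * E := by
    rw [← sub_eq_zero]
    exact D.cmU (hC.sub hQE) f3
  refine ⟨f1', ?_⟩
  rw [f3', mul_assoc Q E, ← f3', hqq, mul_one]

theorem q_one : q u v 1 = 1 := D.uv

theorem p_one : p u v 1 = 0 := by
  rw [p, D.q_one, one_mul, D.two]

theorem psq (a : K) (ha : a ≠ 0) : p u v (a * a) = (p u v a + p u v a⁻¹) * q u v a := by
  rw [(D.ppq a ha).1, mul_assoc, D.qq a ha, mul_one]

theorem p_inv (a : K) (ha : a ≠ 0) : p u v a⁻¹ = p u v a * q u v a⁻¹ := by
  obtain ⟨b, hb⟩ := D.sq a⁻¹
  have hb0 : b ≠ 0 := by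
    rintro rfl
    rw [mul_zero] at hb
    exact inv_ne_zero ha hb.symm
  have h1 := D.psq b hb0
  have h2 := D.psq b⁻¹ (inv_ne_zero hb0)
  rw [inv_inv, ← mul_inv, hb, inv_inv, add_comm (p u v b⁻¹)] at h2
  rw [hb] at h1
  have h3 := (D.ppq b hb0).2
  rw [hb] at h3
  rw [h1, h2, h3, mul_assoc, ← mul_assoc (q u v b⁻¹), D.qq b hb0, one_mul]

theorem psq' (a : K) (ha : a ≠ 0) : p u v (a * a) = p u v a * q u v a + p u v a := by
  rw [D.psq a ha, D.p_inv a ha, add_mul, mul_assoc, D.qq a ha, mul_one]

theorem u_mul_U (a : K) : u a * u 1 = p u v a * u 1 := by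
  have h := D.u_eq a
  have hU := D.uu 1
  linear_combination (norm := noncomm_ring) h * u 1 + q u v a * hU

theorem q_add_one (a : K) : q u v (a + 1) = q u v a + 1 + p u v a := by
  have h1 : q u v (a + 1) = u (a + 1) * v 1 + v 1 * u (a + 1) := rfl
  have h2 : q u v a = u a * v 1 + v 1 * u a := rfl
  have h3 := D.u_mul_U a
  have h4 := D.pV a
  have hUV := D.uv
  have hadd := D.add a 1
  set V := v 1
  set U := u 1
  set P := p u v a
  linear_combination (norm := noncomm_ring) h1 - h2 + hadd * V + V * hadd + h3 * V + V * h3 + h4 * U + P * hUV + hUV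

theorem p_add_one (a : K) : p u v (a + 1) = p u v a := by
  have h1 : p u v (a + 1) = u (a + 1) + q u v (a + 1) * u 1 := rfl
  have h2 : p u v a = u a + q u v a * u 1 := rfl
  rw [h1, D.q_add_one a, D.add a 1, D.u_mul_U a]
  nth_rw 3 [h2]
  set V := v 1
  set U := u 1
  set P := p u v a
  linear_combination (norm := noncomm_ring) D.two U + D.two (P * U)

theorem p0 (a : K) : p u v a = 0 := by
  by_cases ha : a = 0
  · rw [ha, p, q_def, D.zero]; simp
  by_cases ha1 : a + 1 = 0
  · have : a = 1 := by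
      have h := D.twoK 1
      exact add_right_cancel (ha1.trans h.symm)
    rw [this, D.p_one]
  have h1 := D.psq' (a + 1) ha1
  have h2 : (a + 1) * (a + 1) = a * a + 1 := by linear_combination D.twoK a
  rw [h2, D.p_add_one, D.p_add_one, D.q_add_one, D.psq' a ha] at h1
  have h3 := D.p2 a
  linear_combination (norm := noncomm_ring) h1 + h3 + D.two (p u v a)

theorem u_eq' (a : K) : u a = q u v a * u 1 := by
  have := D.u_eq a
  rwa [D.p0, zero_add] at this

theorem v_eq' (a : K) : v a = q u v a * v 1 := by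
  have := D.v_eq a
  rwa [D.p0, zero_add] at this

theorem uu0 (a b : K) : u a * u b = 0 := by
  rw [D.u_eq' a, D.u_eq' b, mul_assoc, ← mul_assoc (u 1), D.qU, mul_assoc (q u v b), D.uu, mul_zero, mul_zero]

theorem q_add (a b : K) : q u v (a + b) = q u v a + q u v b := by
  rw [q_def, q_def, q_def, D.add, D.uu0, add_zero, add_mul, mul_add]
  abel

theorem q_zero : q u v 0 = 0 := by
  rw [q_def, D.zero, zero_mul, mul_zero, add_zero]

theorem q_sandwich (a b : K) : q u v (a * a * b) = q u v a * q u v b * q u v a := by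
  by_cases ha : a = 0
  · rw [ha, D.q_zero, zero_mul, zero_mul, mul_zero, D.q_zero]
  have h1 := D.ht a ha b
  have hqq := D.qq a ha
  rw [D.u_eq' a, D.v_eq' a⁻¹, D.u_eq' b, D.u_eq' (a * a * b)] at h1
  have hU := D.uu 1
  have hV := D.vv
  have h7 := D.vuv
  have h8 := D.uvu
  have hC := D.cmq a
  have hE := D.cmq a⁻¹
  have hB := D.cmq b
  have hQ := D.cmq (a * a * b)
  have f : (q u v a * q u v b - q u v (a * a * b) * q u v a⁻¹) * u 1 = 0 := by
    have c1 := hB.1
    have c2 := hB.2
    have c3 := hC.1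
    have c4 := hE.1
    set C := q u v a
    set E := q u v a⁻¹
    set B := q u v b
    set Q := q u v (a * a * b)
    set U := u 1
    set V := v 1
    linear_combination (norm := noncomm_ring) h1 - C * U * c1 * U - C * U * c2 * U - E * V * c1 * U - E * V * c2 * U -
      C * c1 * U * U - C * B * hU * U - C * c1 * V * U - C * B * h8 - E * c2 * U * U - E * B * V * hU - E * c2 * V * U -
      E * B * hV * U + Q * c3 * U * U + Q * C * hU * U + Q * c3 * U * V + Q * C * hU * V + Q * c4 * V * U + Q * E * h8 +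
      Q * c4 * V * V + Q * E * U * hV
  have g := D.cmU ((hC.mul hB).sub (hQ.mul hE)) f
  rw [sub_eq_zero] at g
  rw [g, mul_assoc (q u v (a * a * b)), hqq, mul_one]

theorem q_comm (a b : K) : q u v a * q u v b = q u v b * q u v a := by
  have h1 := D.q_sandwich (a + b) 1
  have h2 : (a + b) * (a + b) * 1 = a * a * 1 + b * b * 1 := by linear_combination D.twoK (a * b)
  rw [h2, D.q_add, D.q_add, D.q_sandwich a 1, D.q_sandwich b 1, D.q_one] at h1
  apply eq_of_add D.two
  linear_combination (norm := noncomm_ring) -h1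

theorem q_mul (a b : K) : q u v (a * b) = q u v a * q u v b := by
  obtain ⟨c, hc⟩ := D.sq a
  have h1 := D.q_sandwich c b
  have h2 := D.q_sandwich c 1
  rw [D.q_one, mul_one, mul_one] at h2
  rw [← hc, h1, h2, mul_assoc, D.q_comm b c, mul_assoc]

/-- The ring homomorphism. -/
def qHom : K →+* R where
  toFun := q u v
  map_one' := D.q_one
  map_mul' := D.q_mul
  map_zero' := D.q_zero
  map_add' := D.q_add

end Dat

end ring

end H56.Hig
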