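import Mathlib
import Cfsg.Agent.Lib.H56.Hig2

set_option autoImplicit false

/-! From a homomorphism of `SL₂(K)` to a ring of characteristic two to matrix units. -/

namespace H56.Hig

open Matrix

variable {K : Type*} [Field K] {R : Type*} [Ring R]

/-- Upper unipotent. -/
def uM (a : K) : SpecialLinearGroup (Fin 2) K := ⟨!![1, a; 0, 1], by simp [det_fin_two_of]⟩
/-- Lower unipotent. -/
def vM (a : K) : SpecialLinearGroup (Fin 2) K := ⟨!![1, 0; a, 1], by simp [det_fin_two_of]⟩

theorem uM_coe (a : K) : ((uM a : SpecialLinearGroup (Fin 2) K) : Matrix (Fin 2) (Fin 2) K) = !![1, a; 0, 1] := rfl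

theorem vM_coe (a : K) : ((vM a : SpecialLinearGroup (Fin 2) K) : Matrix (Fin 2) (Fin 2) K) = !![1, 0; a, 1] := rfl

theorem SL_ext {A B : SpecialLinearGroup (Fin 2) K}
    (h : (A : Matrix (Fin 2) (Fin 2) K) = (B : Matrix (Fin 2) (Fin 2) K)) : A = B := by
  ext i j
  rw [h]

theorem uM_mul (a b : K) : uM a * uM b = uM (a + b) := by
  apply SL_ext
  rw [Matrix.SpecialLinearGroup.coe_mul, uM_coe, uM_coe, uM_coe]
  simp [add_comm]

theorem vM_mul (a b : K) : vM a * vM b = vM (a + b) := by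
  apply SL_ext
  rw [Matrix.SpecialLinearGroup.coe_mul, vM_coe, vM_coe, vM_coe]
  simp

theorem uM_zero : uM (0 : K) = 1 := by
  apply SL_ext
  rw [uM_coe, Matrix.SpecialLinearGroup.coe_one, Matrix.one_fin_two]

theorem vM_zero : vM (0 : K) = 1 := by
  apply SL_ext
  rw [vM_coe, Matrix.SpecialLinearGroup.coe_one, Matrix.one_fin_two]

/-- The antidiagonal matrices in characteristic two. -/
theorem w_coe (twoK : ∀ x : K, x + x = 0) (a : K) (ha : a ≠ 0) :
    ((uM a * vM a⁻¹ * uM a : SpecialLinearGroup (Fin 2) K) : Matrix (Fin 2) (Fin 2) K) = !![0, a; a⁻¹, 0] := by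
  have h1 := twoK 1
  rw [Matrix.SpecialLinearGroup.coe_mul, Matrix.SpecialLinearGroup.coe_mul, vM_coe, uM_coe]
  simp [ha, h1]

theorem wt_mat (twoK : ∀ x : K, x + x = 0) (a : K) :
    vM a * (uM 1 * vM 1 * uM 1) = (uM 1 * vM 1 * uM 1) * uM a := by
  apply SL_ext
  have h := w_coe twoK (1 : K) one_ne_zero
  rw [inv_one] at h
  rw [Matrix.SpecialLinearGroup.coe_mul, Matrix.SpecialLinearGroup.coe_mul _ (uM a), h, vM_coe, uM_coe]
  simp

theorem ht_mat (twoK : ∀ x : K, x + x = 0) (a : K) (ha : a ≠ 0) (b : K) :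
    ((uM a * vM a⁻¹ * uM a) * (uM 1 * vM 1 * uM 1)) * uM b =
      uM (a * a * b) * ((uM a * vM a⁻¹ * uM a) * (uM 1 * vM 1 * uM 1)) := by
  apply SL_ext
  have h := w_coe twoK (1 : K) one_ne_zero
  rw [inv_one] at h
  have h2 := w_coe twoK a ha
  rw [Matrix.SpecialLinearGroup.coe_mul, Matrix.SpecialLinearGroup.coe_mul _ (uM 1 * vM 1 * uM 1), h, h2,
    Matrix.SpecialLinearGroup.coe_mul, Matrix.SpecialLinearGroup.coe_mul _ (uM 1 * vM 1 * uM 1), h, h2, uM_coe, uM_coe]
  simp
  field_simp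

theorem tr_mat (twoK : ∀ x : K, x + x = 0) (a : K) (ha : a ≠ 0) :
    ((uM a * vM a⁻¹ : SpecialLinearGroup (Fin 2) K) : Matrix (Fin 2) (Fin 2) K).trace = 1 := by
  have h1 := twoK 1
  rw [Matrix.SpecialLinearGroup.coe_mul, vM_coe, uM_coe]
  simp [ha, Matrix.trace_fin_two, h1]

variable (two : ∀ x : R, x + x = 0) (twoK : ∀ x : K, x + x = 0) (sq : ∀ a : K, ∃ b : K, b * b = a)
  (T : SpecialLinearGroup (Fin 2) K →* R)
  (hT : ∀ M : SpecialLinearGroup (Fin 2) K, (M : Matrix (Fin 2) (Fin 2) K).trace = 1 → T M * T M + T M + 1 = 0)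

include two twoK hT in
theorem relT (a : K) (ha : a ≠ 0) :
    (T (uM a) + 1) * (T (vM a⁻¹) + 1) + (T (vM a⁻¹) + 1) * (T (uM a) + 1) = 1 := by
  have h1 : T (uM a) * T (uM a) = 1 := by rw [← map_mul, uM_mul, twoK, uM_zero, map_one]
  have h2 : T (vM a⁻¹) * T (vM a⁻¹) = 1 := by rw [← map_mul, vM_mul, twoK, vM_zero, map_one]
  have h3 := hT _ (tr_mat twoK a ha)
  rw [map_mul] at h3
  set A := T (uM a)
  set B := T (vM a⁻¹)
  have e1 : 1 + (A + 1) = A := by linear_combination (norm := noncomm_ring) two 1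
  have e2 : 1 + (B + 1) = B := by linear_combination (norm := noncomm_ring) two 1
  apply relF2 two
  · linear_combination (norm := noncomm_ring) h1 + two A + two 1
  · linear_combination (norm := noncomm_ring) h2 + two B + two 1
  · rw [e1, e2]; exact h3

include two twoK hT in
theorem wT (a : K) (ha : a ≠ 0) :
    (T (uM a) + 1) + (T (vM a⁻¹) + 1) = T (uM a * vM a⁻¹ * uM a) := by
  have h1 : T (uM a) * T (uM a) = 1 := by rw [← map_mul, uM_mul, twoK, uM_zero, map_one]
  have h3 := relT two twoK T hT a ha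
  rw [map_mul, map_mul]
  set A := T (uM a)
  set B := T (vM a⁻¹)
  -- `AB + BA + 2A + 2B + 2 = 1`
  apply eq_of_add two
  linear_combination (norm := noncomm_ring) h3 * A - B * h1 - two (A * A) - two (B * A) + two 1

include two twoK sq hT in
/-- The abstract data. -/
theorem dat : Dat K R (fun a => T (uM a) + 1) (fun a => T (vM a) + 1) where
  two := two
  twoK := twoK
  sq := sq
  add a b := by
    show T (uM (a + b)) + 1 = _
    rw [← uM_mul, map_mul]
    linear_combination (norm := noncomm_ring) -two (T (uM a)) - two (T (uM b)) - two 1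
  zero := by
    show T (uM 0) + 1 = 0
    rw [uM_zero, map_one, two]
  rel := relT two twoK T hT
  vv := by
    have h2 : T (vM 1) * T (vM 1) = 1 := by rw [← map_mul, vM_mul, twoK, vM_zero, map_one]
    show (T (vM 1) + 1) * (T (vM 1) + 1) = 0
    linear_combination (norm := noncomm_ring) h2 + two (T (vM 1)) + two 1
  wt a := by
    have h := wT two twoK T hT 1 one_ne_zero
    rw [inv_one] at h
    show (T (vM a) + 1) * (T (uM 1) + 1 + (T (vM 1) + 1)) = (T (uM 1) + 1 + (T (vM 1) + 1)) * (T (uM a) + 1)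
    rw [h, add_mul, mul_add, ← map_mul, ← map_mul, wt_mat twoK, one_mul, mul_one]
  ht a ha b := by
    have h := wT two twoK T hT 1 one_ne_zero
    rw [inv_one] at h
    have h2 := wT two twoK T hT a ha
    show ((T (uM a) + 1) + (T (vM a⁻¹) + 1)) * (T (uM 1) + 1 + (T (vM 1) + 1)) * (T (uM b) + 1) =
      (T (uM (a * a * b)) + 1) * (((T (uM a) + 1) + (T (vM a⁻¹) + 1)) * (T (uM 1) + 1 + (T (vM 1) + 1)))
    rw [h, h2, add_mul, mul_add, ← map_mul, ← map_mul, ← map_mul, ht_mat twoK a ha, one_mul, mul_one]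

omit two twoK sq T hT in
/-- Matrix units evaluation. -/
def phi (q : K →+* R) (U V : R) (M : Matrix (Fin 2) (Fin 2) K) : R :=
  q (M 0 0) * (U * V) + q (M 0 1) * U + q (M 1 0) * V + q (M 1 1) * (V * U)

theorem phi_mul (q : K →+* R) (U V : R) (hU : U * U = 0) (hV : V * V = 0) (hUV : U * V + V * U = 1)
    (cU : ∀ a, U * q a = q a * U) (cV : ∀ a, V * q a = q a * V) (M N : Matrix (Fin 2) (Fin 2) K) :
    phi q U V (M * N) = phi q U V M * phi q U V N := by
  have h1 : V * (U * V) = V := by linear_combination (norm := noncomm_ring) V * hUV - hV * U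
  have h2 : U * (V * U) = U := by linear_combination (norm := noncomm_ring) U * hUV - hU * V
  have cU' : ∀ a z, U * (q a * z) = q a * (U * z) := fun a z => by rw [← mul_assoc, cU, mul_assoc]
  have cV' : ∀ a z, V * (q a * z) = q a * (V * z) := fun a z => by rw [← mul_assoc, cV, mul_assoc]
  have hU' : ∀ z, U * (U * z) = 0 := fun z => by rw [← mul_assoc, hU, zero_mul]
  have hV' : ∀ z, V * (V * z) = 0 := fun z => by rw [← mul_assoc, hV, zero_mul]
  have h1' : ∀ z, V * (U * (V * z)) = V * z := fun z => by rw [← mul_assoc U, ← mul_assoc V, h1]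
  have h2' : ∀ z, U * (V * (U * z)) = U * z := fun z => by rw [← mul_assoc V, ← mul_assoc U, h2]
  simp only [phi, Matrix.mul_apply, Fin.sum_univ_two, map_add, map_mul, mul_add, add_mul, mul_assoc, cU, cV, cU', cV',
    hU, hV, hU', hV', h1, h2, h1', h2', mul_zero, zero_mul, add_zero, zero_add]
  abel

theorem phi_one (q : K →+* R) (U V : R) (hUV : U * V + V * U = 1) : phi q U V 1 = 1 := by
  simp [phi, hUV]

theorem gen_decomp (g : SpecialLinearGroup (Fin 2) K) (hc : (g : Matrix (Fin 2) (Fin 2) K) 1 0 ≠ 0) :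
    ∃ x y z : K, g = uM x * vM y * uM z := by
  have hdet := g.det_coe
  rw [Matrix.det_fin_two] at hdet
  set c := (g : Matrix (Fin 2) (Fin 2) K) 1 0 with hcdef
  set a := (g : Matrix (Fin 2) (Fin 2) K) 0 0 with hadef
  set b := (g : Matrix (Fin 2) (Fin 2) K) 0 1 with hbdef
  set d := (g : Matrix (Fin 2) (Fin 2) K) 1 1 with hddef
  refine ⟨(a - 1) / c, c, (d - 1) / c, ?_⟩
  apply SL_ext
  rw [Matrix.SpecialLinearGroup.coe_mul, Matrix.SpecialLinearGroup.coe_mul, uM_coe, vM_coe, uM_coe]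
  ext i j
  fin_cases i <;> fin_cases j
  · show a = _
    simp
    field_simp
    ring
  · show b = _
    simp
    field_simp
    linear_combination -hdet
  · show c = _
    simp
  · show d = _
    simp
    field_simp
    ring

include two twoK sq hT in
theorem exists_units : ∃ (q : K →+* R) (U V : R), U * U = 0 ∧ V * V = 0 ∧ U * V + V * U = 1 ∧
    (∀ a, U * q a = q a * U) ∧ (∀ a, V * q a = q a * V) ∧
    (∀ g : SpecialLinearGroup (Fin 2) K, T g = phi q U V (g : Matrix (Fin 2) (Fin 2) K)) := by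
  have D := dat two twoK sq T hT
  set u : K → R := fun a => T (uM a) + 1 with hu
  set v : K → R := fun a => T (vM a) + 1 with hv
  have hm := phi_mul D.qHom (u 1) (v 1) (D.uu 1) D.vv D.uv D.qU D.qV
  have ho := phi_one D.qHom (u 1) (v 1) D.uv
  have hTu : ∀ a, T (uM a) = phi D.qHom (u 1) (v 1) (uM a : SpecialLinearGroup (Fin 2) K) := by
    intro a
    have h1 : u a = D.qHom a * u 1 := D.u_eq' a
    have h2 : phi D.qHom (u 1) (v 1) (uM a : SpecialLinearGroup (Fin 2) K) = 1 + D.qHom a * u 1 := by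
      rw [uM_coe, ← D.uv]
      simp only [phi, Matrix.of_apply, Matrix.cons_val', Matrix.cons_val_zero, Matrix.cons_val_one, Matrix.cons_val_fin_one, map_one, map_zero,
        one_mul, zero_mul, add_zero]
      abel
    rw [h2, ← h1]
    show T (uM a) = 1 + (T (uM a) + 1)
    linear_combination (norm := noncomm_ring) -two 1
  have hTv : ∀ a, T (vM a) = phi D.qHom (u 1) (v 1) (vM a : SpecialLinearGroup (Fin 2) K) := by
    intro a
    have h1 : v a = D.qHom a * v 1 := D.v_eq' a
    have h2 : phi D.qHom (u 1) (v 1) (vM a : SpecialLinearGroup (Fin 2) K) = 1 + D.qHom a * v 1 := by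
      rw [vM_coe, ← D.uv]
      simp only [phi, Matrix.of_apply, Matrix.cons_val', Matrix.cons_val_zero, Matrix.cons_val_one, Matrix.cons_val_fin_one, map_one, map_zero,
        one_mul, zero_mul, add_zero]
      abel
    rw [h2, ← h1]
    show T (vM a) = 1 + (T (vM a) + 1)
    linear_combination (norm := noncomm_ring) -two 1
  have hcase : ∀ g : SpecialLinearGroup (Fin 2) K, (g : Matrix (Fin 2) (Fin 2) K) 1 0 ≠ 0 →
      T g = phi D.qHom (u 1) (v 1) (g : Matrix (Fin 2) (Fin 2) K) := by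
    intro g hg
    obtain ⟨x, y, z, rfl⟩ := gen_decomp g hg
    rw [map_mul, map_mul, hTu, hTv, hTu, ← hm, ← hm, Matrix.SpecialLinearGroup.coe_mul, Matrix.SpecialLinearGroup.coe_mul]
  refine ⟨D.qHom, u 1, v 1, D.uu 1, D.vv, D.uv, D.qU, D.qV, ?_⟩
  intro g
  by_cases hg : (g : Matrix (Fin 2) (Fin 2) K) 1 0 = 0
  · have h1 : (vM 1 : SpecialLinearGroup (Fin 2) K) * (vM 1 * g) = g := by
      rw [← mul_assoc, vM_mul, twoK, vM_zero, one_mul]
    have h2 : ((vM 1 * g : SpecialLinearGroup (Fin 2) K) : Matrix (Fin 2) (Fin 2) K) 1 0 ≠ 0 := by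
      have hdet := g.det_coe
      rw [Matrix.det_fin_two, hg, mul_zero, sub_zero] at hdet
      rw [Matrix.SpecialLinearGroup.coe_mul, vM_coe]
      simp only [Matrix.mul_apply, Fin.sum_univ_two, Matrix.of_apply, Matrix.cons_val', Matrix.cons_val_zero,
        Matrix.cons_val_one, Matrix.cons_val_fin_one, hg, one_mul, add_zero]
      intro h
      rw [h, zero_mul] at hdet
      exact zero_ne_one hdet
    rw [← h1, map_mul, hTv, hcase _ h2, ← hm, ← Matrix.SpecialLinearGroup.coe_mul]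
  · exact hcase g hg

end H56.Hig
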