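import Mathlib
import Cfsg.Agent.Lib.H56.Hig3

set_option autoImplicit false

/-! The ring generated by the image has characteristic two. -/

namespace H56.Hig

open Matrix

section lift

variable {R : Type*} [Ring R]

/-- The principal ideal of a central integer is two-sided. -/
theorem span_two_twoSided : (Ideal.span {(2 : R)}).IsTwoSided := by
  constructor
  intro a b ha
  rw [Ideal.mem_span_singleton'] at ha ⊢
  obtain ⟨r, rfl⟩ := ha
  exact ⟨r * b, by rw [mul_assoc, mul_assoc, (Commute.ofNat_left 2 b).eq]⟩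

theorem key_calc {Q U A r t s : R} (hU : U * U = -2 * U) (hA : A * A = -2 * A) (hAU : A * U = U * A)
    (h1 : A = Q * U + 2 * r) (h2 : U * Q = Q * U + 2 * t) (h3 : Q * r = r * Q + 2 * s) :
    2 * ((Q * Q + Q) * U) = 4 * (r * Q * U + s * U + r * r + r + Q * U) := by
  subst h1
  -- `2 t U = 2 r U - 2 U r`
  have e1 : 2 * (t * U) = 2 * (r * U) - 2 * (U * r) := by
    linear_combination (norm := noncomm_ring) -hAU - h2 * U
  have e2 : 2 * (Q * (t * U)) = 2 * (Q * (r * U)) - 2 * (Q * (U * r)) := by
    linear_combination (norm := noncomm_ring) Q * e1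
  linear_combination (norm := noncomm_ring) -hA + Q * h2 * U + Q * Q * hU + e2 + 2 * h3 * U

end lift

variable {K : Type*} [Field K] {R : Type*} [Ring R]

theorem two_eq_zero (twoK : ∀ x : K, x + x = 0) (sq : ∀ a : K, ∃ b : K, b * b = a)
    (a : K) (ha0 : a ≠ 0) (ha1 : a + 1 ≠ 0)
    (T : SpecialLinearGroup (Fin 2) K →* R)
    (hT : ∀ M : SpecialLinearGroup (Fin 2) K, (M : Matrix (Fin 2) (Fin 2) K).trace = 1 → T M * T M + T M + 1 = 0)
    (hgen : Subring.closure (Set.range T) = ⊤) (k : ℕ) (hk : (2 : R) ^ k = 0) : (2 : R) = 0 := by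
  have : (Ideal.span {(2 : R)}).IsTwoSided := span_two_twoSided
  set I := Ideal.span {(2 : R)} with hI
  set π := Ideal.Quotient.mk I with hπ
  have hπs : Function.Surjective π := Ideal.Quotient.mk_surjective
  have hlift : ∀ x : R, π x = 0 → ∃ r, x = 2 * r := by
    intro x hx
    have h1 : x ∈ I := Ideal.Quotient.eq_zero_iff_mem.1 hx
    rw [hI, Ideal.mem_span_singleton'] at h1
    obtain ⟨r, hr⟩ := h1
    exact ⟨r, by rw [← hr, (Commute.ofNat_left 2 r).eq]⟩
  have two : ∀ x : R ⧸ I, x + x = 0 := by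
    intro x
    obtain ⟨x, rfl⟩ := hπs x
    rw [← map_add, ← two_mul]
    apply Ideal.Quotient.eq_zero_iff_mem.2
    rw [hI, Ideal.mem_span_singleton']
    exact ⟨x, by rw [(Commute.ofNat_left 2 x).eq]⟩
  set T' : SpecialLinearGroup (Fin 2) K →* R ⧸ I := (π : R →* R ⧸ I).comp T with hT'
  have hT2 : ∀ M : SpecialLinearGroup (Fin 2) K, (M : Matrix (Fin 2) (Fin 2) K).trace = 1 → T' M * T' M + T' M + 1 = 0 := by
    intro M hM
    show π (T M) * π (T M) + π (T M) + 1 = 0
    rw [← map_mul, ← map_add, ← map_one π, ← map_add, hT M hM, map_zero]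
  obtain ⟨q, U', V', hU', hV', hUV', cU, cV, hform⟩ := exists_units two twoK sq T' hT2
  have hcq : ∀ a b, q a * q b = q b * q a := fun a b => by rw [← map_mul, ← map_mul, mul_comm]
  -- centrality
  have hcent : ∀ a : K, ∀ r : R, q a * π r = π r * q a := by
    intro a r
    have hr : r ∈ Subring.closure (Set.range T) := by rw [hgen]; trivial
    induction hr using Subring.closure_induction with
    | mem x hx =>
      obtain ⟨g, rfl⟩ := hx
      have h1 : π (T g) = phi q U' V' (g : Matrix (Fin 2) (Fin 2) K) := hform g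
      have cU2 : ∀ z, U' * (q a * z) = q a * (U' * z) := fun z => by rw [← mul_assoc, cU, mul_assoc]
      have cV2 : ∀ z, V' * (q a * z) = q a * (V' * z) := fun z => by rw [← mul_assoc, cV, mul_assoc]
      rw [h1]
      simp only [phi, mul_add, add_mul, mul_assoc, cU, cV, cU2, cV2]
      simp only [← mul_assoc, hcq a]
    | zero => rw [map_zero, mul_zero, zero_mul]
    | one => rw [map_one, mul_one, one_mul]
    | add x y _ _ h1 h2 => rw [map_add, mul_add, add_mul, h1, h2]
    | neg x _ h1 => rw [map_neg, mul_neg, neg_mul, h1]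
    | mul x y _ _ h1 h2 => rw [map_mul, ← mul_assoc, h1, mul_assoc, h2, mul_assoc]
  have hTu : ∀ b, π (T (uM b)) = 1 + q b * U' := by
    intro b
    have h1 : π (T (uM b)) = phi q U' V' ((uM b : SpecialLinearGroup (Fin 2) K) : Matrix (Fin 2) (Fin 2) K) := hform _
    rw [h1, uM_coe, ← hUV']
    simp only [phi, Matrix.of_apply, Matrix.cons_val', Matrix.cons_val_zero, Matrix.cons_val_one, Matrix.cons_val_fin_one,
      map_one, map_zero, one_mul, zero_mul, add_zero]
    abel
  have hTv : ∀ b, π (T (vM b)) = 1 + q b * V' := by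
    intro b
    have h1 : π (T (vM b)) = phi q U' V' ((vM b : SpecialLinearGroup (Fin 2) K) : Matrix (Fin 2) (Fin 2) K) := hform _
    rw [h1, vM_coe, ← hUV']
    simp only [phi, Matrix.of_apply, Matrix.cons_val', Matrix.cons_val_zero, Matrix.cons_val_one, Matrix.cons_val_fin_one,
      map_one, map_zero, one_mul, zero_mul, add_zero]
    abel
  have haa : a * a + a ≠ 0 := by
    have : a * a + a = a * (a + 1) := by ring
    rw [this]
    exact mul_ne_zero ha0 ha1
  obtain ⟨Q, hQ⟩ := hπs (q a)
  obtain ⟨B, hB⟩ := hπs (q (a * a + a)⁻¹)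
  set A := T (uM a) - 1 with hAdef
  set U := T (uM 1) - 1 with hUdef
  set V := T (vM 1) - 1 with hVdef
  have hπA : π A = q a * U' := by rw [hAdef, map_sub, hTu, map_one]; abel
  have hπU : π U = U' := by rw [hUdef, map_sub, hTu, map_one, map_one, one_mul]; abel
  have hπV : π V = V' := by rw [hVdef, map_sub, hTv, map_one, map_one, one_mul]; abel
  obtain ⟨r, hr⟩ := hlift (A - Q * U) (by rw [map_sub, map_mul, hπA, hQ, hπU, sub_self])
  obtain ⟨t, ht⟩ := hlift (U * Q - Q * U) (by rw [map_sub, map_mul, map_mul, hQ, hπU, cU, sub_self])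
  obtain ⟨s, hs⟩ := hlift (Q * r - r * Q) (by rw [map_sub, map_mul, map_mul, hQ, hcent, sub_self])
  obtain ⟨c, hc⟩ := hlift (B * (Q * Q + Q) - 1) (by
    rw [map_sub, map_mul, map_add, map_mul, hQ, hB, map_one, ← map_mul, ← map_add, ← map_mul, inv_mul_cancel₀ haa, map_one,
      sub_self])
  obtain ⟨d, hd⟩ := hlift (U * V + V * U - 1) (by
    rw [map_sub, map_add, map_mul, map_mul, hπU, hπV, hUV', map_one, sub_self])
  have hsq : ∀ b, T (uM b) * T (uM b) = 1 := fun b => by rw [← map_mul, uM_mul, twoK, uM_zero, map_one]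
  have h21 : (2 : R) = 1 + 1 := by norm_num
  have hUU : U * U = -2 * U := by
    have := hsq 1
    rw [hUdef]
    linear_combination (norm := noncomm_ring) this - h21
  have hAA : A * A = -2 * A := by
    have := hsq a
    rw [hAdef]
    linear_combination (norm := noncomm_ring) this - h21
  have hAU : A * U = U * A := by
    have h1 : T (uM a) * T (uM 1) = T (uM 1) * T (uM a) := by
      rw [← map_mul, ← map_mul, uM_mul, uM_mul, add_comm]
    rw [hAdef, hUdef]
    linear_combination (norm := noncomm_ring) h1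
  have hkey := key_calc hUU hAA hAU (eq_add_of_sub_eq' hr) (eq_add_of_sub_eq' ht) (eq_add_of_sub_eq' hs)
  set z := r * Q * U + s * U + r * r + r + Q * U with hz
  -- `2 U = 4 z1`
  have h2U : 2 * U = 4 * (B * z - c * U) := by
    linear_combination (norm := noncomm_ring) B * hkey - 2 * hc * U
  have h2 : (2 : R) = 4 * ((B * z - c * U) * V + V * (B * z - c * U) - d) := by
    linear_combination (norm := noncomm_ring) h2U * V + V * h2U - 2 * hd + h21
  set ρ := (B * z - c * U) * V + V * (B * z - c * U) - d with hρ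
  have hind : ∀ m : ℕ, (2 : R) = 2 ^ (m + 1) * ρ ^ m := by
    intro m
    induction m with
    | zero => simp
    | succ m ih =>
      calc (2 : R) = 2 ^ (m + 1) * ρ ^ m := ih
        _ = 2 ^ m * 2 * ρ ^ m := by rw [pow_succ]
        _ = 2 ^ m * (4 * ρ) * ρ ^ m := by rw [← h2]
        _ = 2 ^ (m + 1 + 1) * ρ ^ (m + 1) := by
          rw [pow_succ' ρ, show (4 : R) = 2 * 2 by norm_num, pow_succ, pow_succ]
          noncomm_ring
  rw [hind k, pow_succ', hk, mul_zero, zero_mul]

end H56.Hig
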