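import Mathlib
import Cfsg.Agent.Lib.H56.Hig4

set_option autoImplicit false

/-! The module decomposition. -/

namespace H56.Hig

open Matrix

universe u v

variable {K : Type u} [Field K] {V : Type v} [AddCommGroup V] [Finite V]

theorem exists_psi (ρ : SpecialLinearGroup (Fin 2) K → AddMonoid.End V) (q : K →+* AddMonoid.End V)
    (U W : AddMonoid.End V) (hU : U * U = 0) (hW : W * W = 0) (hUW : U * W + W * U = 1)
    (cU : ∀ a, U * q a = q a * U) (cW : ∀ a, W * q a = q a * W)
    (hρ : ∀ g : SpecialLinearGroup (Fin 2) K, ρ g = phi q U W (g : Matrix (Fin 2) (Fin 2) K)) :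
    ∃ (k : ℕ) (Ψ : V ≃+ (Fin k → Fin 2 → K)), ∀ (g : SpecialLinearGroup (Fin 2) K) (v : V) (i : Fin k),
      Ψ (ρ g v) i = (g : Matrix (Fin 2) (Fin 2) K).mulVec (Ψ v i) := by
  letI : Module K V :=
    { smul := fun a v => q a v
      one_smul := fun v => by show q 1 v = v; rw [map_one]; rfl
      mul_smul := fun a b v => by show q (a * b) v = q a (q b v); rw [map_mul]; rfl
      smul_zero := fun a => map_zero (q a)
      smul_add := fun a v w => map_add (q a) v w
      add_smul := fun a b v => by show q (a + b) v = q a v + q b v; rw [map_add]; rfl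
      zero_smul := fun v => by show q 0 v = 0; rw [map_zero]; rfl }
  have hsm : ∀ (a : K) (v : V), a • v = q a v := fun _ _ => rfl
  have eU : ∀ a v, U (q a v) = q a (U v) := fun a v => DFunLike.congr_fun (cU a) v
  have eW : ∀ a v, W (q a v) = q a (W v) := fun a v => DFunLike.congr_fun (cW a) v
  have eUU : ∀ v, U (U v) = 0 := fun v => DFunLike.congr_fun hU v
  have eWW : ∀ v, W (W v) = 0 := fun v => DFunLike.congr_fun hW v
  have eUW : ∀ v, U (W v) + W (U v) = v := fun v => DFunLike.congr_fun hUW v
  let Ul : V →ₗ[K] V :=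
    { toFun := fun v => U v
      map_add' := fun v w => map_add U v w
      map_smul' := fun a v => eU a v }
  let X : Submodule K V := LinearMap.ker Ul
  have hX : ∀ v, v ∈ X ↔ U v = 0 := fun v => Iff.rfl
  haveI : Module.Finite K X := Module.Finite.of_finite
  set b := Module.finBasis K X with hb
  set k := Module.finrank K X with hk
  let P1 : V →ₗ[K] X :=
    { toFun := fun v => ⟨U (W v), (hX _).2 (eUU _)⟩
      map_add' := fun v w => Subtype.ext (by
        show U (W (v + w)) = U (W v) + U (W w)
        rw [map_add, map_add])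
      map_smul' := fun a v => Subtype.ext (by
        show U (W (q a v)) = q a (U (W v))
        rw [eW, eU]) }
  let P2 : V →ₗ[K] X :=
    { toFun := fun v => ⟨U v, (hX _).2 (eUU _)⟩
      map_add' := fun v w => Subtype.ext (map_add U v w)
      map_smul' := fun a v => Subtype.ext (eU a v) }
  let Ψ0 : V →+ (Fin k → Fin 2 → K) :=
    { toFun := fun v i => ![b.repr (P1 v) i, b.repr (P2 v) i]
      map_zero' := by
        funext i j
        fin_cases j <;> simp
      map_add' := fun v w => by
        funext i j
        fin_cases j <;> simp }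
  have hinj : Function.Injective Ψ0 := by
    rw [injective_iff_map_eq_zero]
    intro v hv
    have h1 : P1 v = 0 := by
      rw [← b.repr.map_eq_zero_iff]
      ext i
      exact congrFun (congrFun hv i) 0
    have h2 : P2 v = 0 := by
      rw [← b.repr.map_eq_zero_iff]
      ext i
      exact congrFun (congrFun hv i) 1
    have h3 : U (W v) = 0 := congrArg Subtype.val h1
    have h4 : U v = 0 := congrArg Subtype.val h2
    rw [← eUW v, h3, h4, map_zero, add_zero]
  have hsurj : Function.Surjective Ψ0 := by
    intro f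
    let x : X := b.equivFun.symm (fun i => f i 0)
    let y : X := b.equivFun.symm (fun i => f i 1)
    have hx : U (x : V) = 0 := x.2
    have hy : U (y : V) = 0 := y.2
    have h1 : P1 ((x : V) + W (y : V)) = x := by
      apply Subtype.ext
      show U (W ((x : V) + W (y : V))) = x
      rw [map_add, eWW, add_zero]
      have := eUW (x : V)
      rw [hx, map_zero, add_zero] at this
      exact this
    have h2 : P2 ((x : V) + W (y : V)) = y := by
      apply Subtype.ext
      show U ((x : V) + W (y : V)) = y
      rw [map_add, hx, zero_add]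
      have := eUW (y : V)
      rw [hy, map_zero, add_zero] at this
      exact this
    refine ⟨(x : V) + W (y : V), ?_⟩
    funext i j
    show ![b.repr (P1 ((x : V) + W (y : V))) i, b.repr (P2 ((x : V) + W (y : V))) i] j = f i j
    rw [h1, h2]
    have e1 : b.repr x i = f i 0 := by
      rw [← b.equivFun_apply]
      exact congrFun (b.equivFun.apply_symm_apply _) i
    have e2 : b.repr y i = f i 1 := by
      rw [← b.equivFun_apply]
      exact congrFun (b.equivFun.apply_symm_apply _) i
    fin_cases j
    · exact e1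
    · exact e2
  refine ⟨k, AddEquiv.ofBijective Ψ0 ⟨hinj, hsurj⟩, ?_⟩
  intro g v i
  have hg : ρ g v = q ((g : Matrix (Fin 2) (Fin 2) K) 0 0) (U (W v)) + q ((g : Matrix (Fin 2) (Fin 2) K) 0 1) (U v) +
      q ((g : Matrix (Fin 2) (Fin 2) K) 1 0) (W v) + q ((g : Matrix (Fin 2) (Fin 2) K) 1 1) (W (U v)) := by
    rw [hρ]; rfl
  set a := (g : Matrix (Fin 2) (Fin 2) K) 0 0 with ha
  set b' := (g : Matrix (Fin 2) (Fin 2) K) 0 1 with hb'
  set c := (g : Matrix (Fin 2) (Fin 2) K) 1 0 with hc
  set d := (g : Matrix (Fin 2) (Fin 2) K) 1 1 with hd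
  have eWUW : W (U (W v)) = W v := by
    have := eUW (W v)
    rwa [eWW, map_zero, zero_add] at this
  have eUWU : U (W (U v)) = U v := by
    have := eUW (U v)
    rwa [eUU, map_zero, add_zero] at this
  have h1 : P1 (ρ g v) = a • P1 v + b' • P2 v := by
    apply Subtype.ext
    show U (W (ρ g v)) = q a (U (W v)) + q b' (U v)
    rw [hg]
    simp only [map_add, eU, eW, eUU, eWW, eWUW, eUWU, map_zero, add_zero]
  have h2 : P2 (ρ g v) = c • P1 v + d • P2 v := by
    apply Subtype.ext
    show U (ρ g v) = q c (U (W v)) + q d (U v)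
    rw [hg]
    simp only [map_add, eU, eW, eUU, eWW, eWUW, eUWU, map_zero, zero_add]
  show ![b.repr (P1 (ρ g v)) i, b.repr (P2 (ρ g v)) i] =
    (g : Matrix (Fin 2) (Fin 2) K).mulVec ![b.repr (P1 v) i, b.repr (P2 v) i]
  rw [h1, h2]
  funext j
  fin_cases j
  · simp [Matrix.mulVec, dotProduct, Fin.sum_univ_two, ← ha, ← hb']
  · simp [Matrix.mulVec, dotProduct, Fin.sum_univ_two, ← hc, ← hd]

end H56.Hig
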