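import Mathlib
import Cfsg.Agent.Lib.H56.Hig1
import Cfsg.Agent.Lib.H56.Hig5

set_option autoImplicit false

/-! Facts on `SL₂(K)` in characteristic two. -/

namespace H56.Hig

open Matrix

section field

variable {K : Type*} [Field K] [Fintype K] {n : ℕ} (hn : 2 ≤ n) (hK : Fintype.card K = 2 ^ n)
include hn hK

theorem twoK_of_card (x : K) : x + x = 0 := by
  have h1 : ((Fintype.card K : ℕ) : K) = 0 := Nat.cast_card_eq_zero K
  rw [hK, Nat.cast_pow] at h1
  have h2 : ((2 : ℕ) : K) = 0 := by
    by_contra h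
    exact pow_ne_zero n h h1
  rw [← two_mul]
  have h3 : (2 : K) = 0 := by exact_mod_cast h2
  rw [h3, zero_mul]

theorem sq_of_card (a : K) : ∃ b : K, b * b = a := by
  have h2 := twoK_of_card hn hK
  have hinj : Function.Injective (fun b : K => b * b) := by
    intro b c hbc
    have h3 : (b + c) * (b + c) = 0 := by
      have h4 : b * b = c * c := hbc
      linear_combination h4 + h2 (c * c) + h2 (b * c)
    have h5 : b + c = 0 := by
      rcases mul_eq_zero.1 h3 with h | h <;> exact h
    exact eq_of_add h2 h5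
  exact (Finite.injective_iff_surjective.1 hinj) a

theorem exists_a : ∃ a : K, a ≠ 0 ∧ a + 1 ≠ 0 := by
  classical
  have h2 := twoK_of_card hn hK
  by_contra h
  push Not at h
  have h3 : (Finset.univ : Finset K) ⊆ {0, 1} := by
    intro a _
    by_cases ha : a = 0
    · simp [ha]
    · have := h a ha
      have h4 : a = 1 := eq_of_add h2 this
      simp [h4]
  have h4 := Finset.card_le_card h3
  rw [Finset.card_univ, hK] at h4
  have h5 : ({0, 1} : Finset K).card ≤ 2 := Finset.card_le_two
  have h6 : 2 ^ 2 ≤ 2 ^ n := Nat.pow_le_pow_right (by norm_num) hn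
  omega

theorem trace_of_cube {M : SpecialLinearGroup (Fin 2) K} (h3 : M ^ 3 = 1) (h1 : M ≠ 1) :
    (M : Matrix (Fin 2) (Fin 2) K).trace = 1 := by
  have h2 := twoK_of_card hn hK
  have h21 : (2 : K) = 0 := by
    have := h2 1
    rw [← this]; norm_num
  have hdet := M.det_coe
  rw [Matrix.det_fin_two] at hdet
  have hMM : (M : Matrix (Fin 2) (Fin 2) K) * (M : Matrix (Fin 2) (Fin 2) K) = adjugate (M : Matrix (Fin 2) (Fin 2) K) := by
    have e1 : M * M = M⁻¹ := by
      rw [eq_inv_iff_mul_eq_one, ← h3, pow_succ, pow_two]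
    rw [← Matrix.SpecialLinearGroup.coe_mul, e1, Matrix.SpecialLinearGroup.coe_inv]
  rw [Matrix.adjugate_fin_two, ← Matrix.ext_iff] at hMM
  have m00 := hMM 0 0
  have m01 := hMM 0 1
  have m10 := hMM 1 0
  have m11 := hMM 1 1
  simp only [Matrix.mul_apply, Fin.sum_univ_two, Matrix.of_apply, Matrix.cons_val', Matrix.cons_val_zero,
    Matrix.cons_val_one, Matrix.cons_val_fin_one] at m00 m01 m10 m11
  have hM1 : ¬ ((M : Matrix (Fin 2) (Fin 2) K) 0 0 = 1 ∧ (M : Matrix (Fin 2) (Fin 2) K) 0 1 = 0 ∧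
      (M : Matrix (Fin 2) (Fin 2) K) 1 0 = 0 ∧ (M : Matrix (Fin 2) (Fin 2) K) 1 1 = 1) := by
    rintro ⟨e1, e2, e3, e4⟩
    apply h1
    ext i j
    fin_cases i <;> fin_cases j
    · show (M : Matrix (Fin 2) (Fin 2) K) 0 0 = _
      rw [e1]; simp
    · show (M : Matrix (Fin 2) (Fin 2) K) 0 1 = _
      rw [e2]; simp
    · show (M : Matrix (Fin 2) (Fin 2) K) 1 0 = _
      rw [e3]; simp
    · show (M : Matrix (Fin 2) (Fin 2) K) 1 1 = _
      rw [e4]; simp
  rw [Matrix.trace_fin_two]
  set a := (M : Matrix (Fin 2) (Fin 2) K) 0 0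
  set b := (M : Matrix (Fin 2) (Fin 2) K) 0 1
  set c := (M : Matrix (Fin 2) (Fin 2) K) 1 0
  set d := (M : Matrix (Fin 2) (Fin 2) K) 1 1
  by_cases hb : b = 0
  · by_cases hc : c = 0
    · rw [hb, hc] at m00 m11 hdet
      have ha : a ≠ 1 := by
        intro ha
        apply hM1
        refine ⟨ha, hb, hc, ?_⟩
        rw [ha] at hdet
        linear_combination hdet
      have e1 : (a - 1) * (a * a + a + 1) = 0 := by linear_combination a * m00 + hdet
      have e2 := (mul_eq_zero.1 e1).resolve_left (sub_ne_zero.2 ha)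
      linear_combination e2 - m00 - h21
    · apply mul_left_cancel₀ hc
      linear_combination m10 - h21 * c
  · apply mul_left_cancel₀ hb
    linear_combination m01 - h21 * b

/-- The companion matrix. -/
def cM (h2 : ∀ x : K, x + x = 0) : SpecialLinearGroup (Fin 2) K := ⟨!![0, 1; 1, 1], by
  rw [det_fin_two_of]
  linear_combination -h2 1⟩

omit hn hK in
theorem conj_c (h2 : ∀ x : K, x + x = 0) (sq : ∀ a : K, ∃ b : K, b * b = a) {M : SpecialLinearGroup (Fin 2) K}
    (hM : (M : Matrix (Fin 2) (Fin 2) K).trace = 1) :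
    ∃ g : SpecialLinearGroup (Fin 2) K, M * g = g * cM h2 := by
  have hdet := M.det_coe
  rw [Matrix.det_fin_two] at hdet
  rw [Matrix.trace_fin_two] at hM
  set a := (M : Matrix (Fin 2) (Fin 2) K) 0 0 with ha
  set b := (M : Matrix (Fin 2) (Fin 2) K) 0 1 with hb
  set c := (M : Matrix (Fin 2) (Fin 2) K) 1 0 with hc
  set d := (M : Matrix (Fin 2) (Fin 2) K) 1 1 with hd
  have hMe : (M : Matrix (Fin 2) (Fin 2) K) = !![a, b; c, d] := by
    ext i j
    fin_cases i <;> fin_cases j <;> rfl
  have h21 : (2 : K) = 0 := by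
    have := h2 1
    rw [← this]; norm_num
  obtain ⟨x, y, hxy⟩ : ∃ x y : K, x * (c * x + d * y) - y * (a * x + b * y) ≠ 0 := by
    by_cases hc0 : c = 0
    · by_cases hb0 : b = 0
      · refine ⟨1, 1, ?_⟩
        rw [hc0, hb0]
        intro h
        apply one_ne_zero (α := K)
        linear_combination h - hM + h21 * a
      · refine ⟨0, 1, ?_⟩
        intro h
        apply hb0
        linear_combination -h
    · refine ⟨1, 0, ?_⟩
      intro h
      apply hc0
      linear_combination h
  set δ := x * (c * x + d * y) - y * (a * x + b * y) with hδ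
  obtain ⟨l, hl⟩ := sq δ⁻¹
  have hl' : l * l * δ = 1 := by rw [hl, inv_mul_cancel₀ hxy]
  have hdg : (!![l * x, l * (a * x + b * y); l * y, l * (c * x + d * y)] : Matrix (Fin 2) (Fin 2) K).det = 1 := by
    rw [det_fin_two_of]
    linear_combination hl' + l * l * hδ
  obtain ⟨g, hg⟩ : ∃ g : SpecialLinearGroup (Fin 2) K, (g : Matrix (Fin 2) (Fin 2) K) =
    !![l * x, l * (a * x + b * y); l * y, l * (c * x + d * y)] := ⟨⟨_, hdg⟩, rfl⟩
  have hcc : (cM h2 : Matrix (Fin 2) (Fin 2) K) = !![0, 1; 1, 1] := rfl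
  refine ⟨g, ?_⟩
  · apply SL_ext
    rw [Matrix.SpecialLinearGroup.coe_mul, Matrix.SpecialLinearGroup.coe_mul, hMe, hg, hcc]
    rw [Matrix.mul_fin_two, Matrix.mul_fin_two]
    congr 1
    ext i j
    fin_cases i <;> fin_cases j
    · show a * (l * x) + b * (l * y) = l * x * 0 + l * (a * x + b * y) * 1
      ring
    · show a * (l * (a * x + b * y)) + b * (l * (c * x + d * y)) = l * x * 1 + l * (a * x + b * y) * 1
      linear_combination l * (a * x + b * y) * hM - l * x * hdet - h21 * l * x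
    · show c * (l * x) + d * (l * y) = l * y * 0 + l * (c * x + d * y) * 1
      ring
    · show c * (l * (a * x + b * y)) + d * (l * (c * x + d * y)) = l * y * 1 + l * (c * x + d * y) * 1
      linear_combination l * (c * x + d * y) * hM - l * y * hdet - h21 * l * y

omit hn hK in
theorem conj_of_trace (h2 : ∀ x : K, x + x = 0) (sq : ∀ a : K, ∃ b : K, b * b = a) {M N : SpecialLinearGroup (Fin 2) K}
    (hM : (M : Matrix (Fin 2) (Fin 2) K).trace = 1) (hN : (N : Matrix (Fin 2) (Fin 2) K).trace = 1) :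
    ∃ g : SpecialLinearGroup (Fin 2) K, M = g * N * g⁻¹ := by
  obtain ⟨g, hg⟩ := conj_c h2 sq hM
  obtain ⟨h, hh⟩ := conj_c h2 sq hN
  refine ⟨g * h⁻¹, ?_⟩
  have e1 : cM h2 = h⁻¹ * (N * h) := by rw [hh]; group
  rw [e1] at hg
  have e2 : M = (g * (h⁻¹ * (N * h))) * g⁻¹ := by rw [← hg]; group
  rw [e2]; group

theorem center_bot : Subgroup.center (SpecialLinearGroup (Fin 2) K) = ⊥ := by
  have h2 := twoK_of_card hn hK
  rw [eq_bot_iff]
  intro A hA
  obtain ⟨r, hr, hr'⟩ := Matrix.SpecialLinearGroup.mem_center_iff.1 hA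
  rw [Fintype.card_fin] at hr
  have hr1 : r = 1 := by
    have h3 : (r + 1) * (r + 1) = 0 := by linear_combination hr + h2 r + h2 1
    have h4 : r + 1 = 0 := by rcases mul_eq_zero.1 h3 with h | h <;> exact h
    exact eq_of_add h2 h4
  rw [Subgroup.mem_bot]
  apply SL_ext
  rw [← hr', hr1, map_one, Matrix.SpecialLinearGroup.coe_one]

theorem normal_eq (D : Subgroup (SpecialLinearGroup (Fin 2) K)) (hD : D.Normal) : D = ⊥ ∨ D = ⊤ := by
  have hZ := center_bot hn hK
  have hs : IsSimpleGroup (Matrix.ProjectiveSpecialLinearGroup (Fin 2) K) := by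
    apply Matrix.ProjectiveSpecialLinearGroup.rank_two_simple
    rw [Nat.card_eq_fintype_card, hK]
    calc 4 = 2 ^ 2 := by norm_num
      _ ≤ 2 ^ n := Nat.pow_le_pow_right (by norm_num) hn
  set π := QuotientGroup.mk' (Subgroup.center (SpecialLinearGroup (Fin 2) K)) with hπ
  have hker : π.ker = ⊥ := by rw [hπ, QuotientGroup.ker_mk', hZ]
  have hn1 : (D.map π).Normal := hD.map π (QuotientGroup.mk'_surjective _)
  rcases hs.eq_bot_or_eq_top_of_normal (D.map π) hn1 with h | h
  · left
    rw [Subgroup.map_eq_bot_iff, hker] at h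
    exact le_bot_iff.1 h
  · right
    have h3 := Subgroup.comap_map_eq π D
    rw [h, Subgroup.comap_top, hker, sup_bot_eq] at h3
    exact h3.symm

/-- Commuting conjugates. -/
theorem conj_comm_eq_one (z : SpecialLinearGroup (Fin 2) K)
    (hz : ∀ g h : SpecialLinearGroup (Fin 2) K, (g * z * g⁻¹) * (h * z * h⁻¹) = (h * z * h⁻¹) * (g * z * g⁻¹)) :
    z = 1 := by
  set N := Subgroup.normalClosure {z} with hN
  have hNn : N.Normal := Subgroup.normalClosure_normal
  have hCn : (Subgroup.centralizer (N : Set (SpecialLinearGroup (Fin 2) K))).Normal := inferInstance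
  have hzN : z ∈ N := Subgroup.subset_normalClosure rfl
  have hzC : z ∈ Subgroup.centralizer (N : Set (SpecialLinearGroup (Fin 2) K)) := by
    have h1 : N ≤ Subgroup.centralizer {z} := by
      rw [hN, Subgroup.normalClosure, Subgroup.closure_le]
      intro x hx
      rw [Group.mem_conjugatesOfSet_iff] at hx
      obtain ⟨y, hy, hxy⟩ := hx
      rw [Set.mem_singleton_iff] at hy
      subst hy
      obtain ⟨c, rfl⟩ := isConj_iff.1 hxy
      rw [SetLike.mem_coe, Subgroup.mem_centralizer_singleton_iff]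
      have := hz c 1
      simpa using this
    rw [Subgroup.mem_centralizer_iff]
    intro x hx
    exact Subgroup.mem_centralizer_singleton_iff.1 (h1 hx)
  rcases normal_eq hn hK N hNn with h | h
  · rw [h] at hzN
    exact Subgroup.mem_bot.1 hzN
  · rw [h] at hzC
    have h3 : z ∈ Subgroup.center (SpecialLinearGroup (Fin 2) K) := by
      rw [Subgroup.mem_center_iff]
      intro g
      exact Subgroup.mem_centralizer_iff.1 hzC g (Subgroup.mem_top g)
    rw [center_bot hn hK] at h3
    exact Subgroup.mem_bot.1 h3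

end field

end H56.Hig
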