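import Mathlib
import Cfsg.Agent.Lib.H56.Hig6

set_option autoImplicit false

/-! Higman's theorem on extensions of 2-groups by `SL₂(2ⁿ)`. -/

namespace H56.Hig

open Matrix
open scoped commutatorElement

universe u v

section act

variable {G : Type u} [Group G] (Q : Subgroup G) [hQn : Q.Normal]

/-- Conjugation as an endomorphism of the additive group. -/
def cnj (g : G) : AddMonoid.End (Additive Q) where
  toFun v := Additive.ofMul ⟨g * ((Additive.toMul v : Q) : G) * g⁻¹, hQn.conj_mem _ (Additive.toMul v).2 g⟩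
  map_zero' := by
    apply Additive.toMul.injective
    apply Subtype.ext
    show g * ((1 : Q) : G) * g⁻¹ = 1
    simp
  map_add' v w := by
    apply Additive.toMul.injective
    apply Subtype.ext
    show g * (((Additive.toMul v : Q) : G) * ((Additive.toMul w : Q) : G)) * g⁻¹ =
      (g * ((Additive.toMul v : Q) : G) * g⁻¹) * (g * ((Additive.toMul w : Q) : G) * g⁻¹)
    group

end act

variable {G : Type u} [Group G] [Finite G] (Q : Subgroup G) [hQn : Q.Normal]

theorem higman_data (hQ : IsPGroup 2 ↥Q) (n : ℕ) (hn : 2 ≤ n)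
    (K : Type v) [Field K] [Fintype K] (hK : Fintype.card K = 2 ^ n)
    (e : G ⧸ Q ≃* Matrix.SpecialLinearGroup (Fin 2) K)
    (x : G) (hx : orderOf x = 3) (hfpf : ∀ q ∈ Q, x * q * x⁻¹ = q → q = 1) :
    (∀ a ∈ Q, ∀ b ∈ Q, a * b = b * a) ∧ (∀ a ∈ Q, a ^ 2 = 1) ∧
      ∃ (k : ℕ) (Ψ : Q → (Fin k → Fin 2 → K)), Function.Bijective Ψ ∧ (∀ a b, Ψ (a * b) = Ψ a + Ψ b) ∧
        ∀ (g : G) (q : Q) (i : Fin k), Ψ ⟨g * q * g⁻¹, hQn.conj_mem _ q.2 g⟩ i =
          (e (QuotientGroup.mk g) : Matrix (Fin 2) (Fin 2) K).mulVec (Ψ q i) := by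
  have h2K := twoK_of_card hn hK
  have hsq := sq_of_card hn hK
  obtain ⟨a0, ha0, ha1⟩ := exists_a hn hK
  have hx3 : x ^ 3 = 1 := by rw [← hx]; exact pow_orderOf_eq_one x
  have hxQ : x ∉ Q := by
    intro h
    have h1 := hfpf x h (by group)
    rw [h1, orderOf_one] at hx
    omega
  set z := e (QuotientGroup.mk x) with hz
  have hz3 : z ^ 3 = 1 := by
    rw [hz, ← map_pow, ← QuotientGroup.mk_pow, hx3, QuotientGroup.mk_one, map_one]
  have hz1 : z ≠ 1 := by
    intro h
    rw [hz, map_eq_one_iff e e.injective, QuotientGroup.eq_one_iff] at h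
    exact hxQ h
  have hztr := trace_of_cube hn hK hz3 hz1
  -- commutativity
  have hNC : ∀ C : Subgroup G, C.Normal → Q ≤ C →
      (∀ g h : G, ⁅g * x * g⁻¹, h * x * h⁻¹⁆ ∈ C) → C = ⊤ := by
    intro C hC hQC hcom
    set φ : G →* SpecialLinearGroup (Fin 2) K := e.toMonoidHom.comp (QuotientGroup.mk' Q) with hφ
    have hφs : Function.Surjective φ := e.surjective.comp (QuotientGroup.mk'_surjective Q)
    have hker : φ.ker = Q := by
      ext y
      rw [MonoidHom.mem_ker]
      show e (QuotientGroup.mk y) = 1 ↔ _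
      rw [map_eq_one_iff e e.injective, QuotientGroup.eq_one_iff]
    rcases normal_eq hn hK (C.map φ) (hC.map φ hφs) with h | h
    · exfalso
      apply hz1
      apply conj_comm_eq_one hn hK
      intro g h'
      obtain ⟨g, rfl⟩ := hφs g
      obtain ⟨h', rfl⟩ := hφs h'
      have h1 : φ ⁅g * x * g⁻¹, h' * x * h'⁻¹⁆ = 1 := by
        have : φ ⁅g * x * g⁻¹, h' * x * h'⁻¹⁆ ∈ C.map φ := ⟨_, hcom g h', rfl⟩
        rw [h] at this
        exact Subgroup.mem_bot.1 this
      rw [map_commutatorElement, commutatorElement_eq_one_iff_mul_comm] at h1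
      have hzφ : φ x = z := rfl
      simpa only [map_mul, map_inv, hzφ] using h1
    · have h3 := Subgroup.comap_map_eq φ C
      rw [h, Subgroup.comap_top, hker, sup_eq_left.2 hQC] at h3
      exact h3.symm
  have hcomm := comm_of_fpf Q hQ hx3 hfpf hNC
  have hcomm' : ∀ a ∈ Q, ∀ b ∈ Q, a * b = b * a := by
    intro a ha b hb
    have h1 : ⁅a, b⁆ ∈ ⁅Q, Q⁆ := Subgroup.commutator_mem_commutator ha hb
    rw [hcomm, Subgroup.mem_bot] at h1
    exact commutatorElement_eq_one_iff_mul_comm.1 h1
  letI : CommGroup Q := { (inferInstance : Group Q) with mul_comm := fun a b => Subtype.ext (hcomm' a a.2 b b.2) }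
  -- the action
  let T0 : G →* AddMonoid.End (Additive Q) :=
    { toFun := fun g => cnj Q g
      map_one' := by
        ext v
        show (1 : G) * ((Additive.toMul v : Q) : G) * (1 : G)⁻¹ = ((Additive.toMul v : Q) : G)
        simp
      map_mul' := fun g h => by
        ext v
        show (g * h) * ((Additive.toMul v : Q) : G) * (g * h)⁻¹ = g * (h * ((Additive.toMul v : Q) : G) * h⁻¹) * g⁻¹
        group }
  have hT0 : ∀ q ∈ Q, T0 q = 1 := by
    intro q hq
    ext v
    show q * ((Additive.toMul v : Q) : G) * q⁻¹ = ((Additive.toMul v : Q) : G)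
    rw [hcomm' q hq _ (Additive.toMul v).2, mul_inv_cancel_right]
  let T1 : G ⧸ Q →* AddMonoid.End (Additive Q) := QuotientGroup.lift Q T0 hT0
  let T : SpecialLinearGroup (Fin 2) K →* AddMonoid.End (Additive Q) := T1.comp e.symm.toMonoidHom
  have hTe : ∀ g : G, T (e (QuotientGroup.mk g)) = T0 g := by
    intro g
    show T1 (e.symm (e (QuotientGroup.mk g))) = T0 g
    rw [e.symm_apply_apply]
    rfl
  have hTz : T z * T z + T z + 1 = 0 := by
    rw [hz, hTe]
    ext v
    have h1 := prodF Q hx3 hfpf (Additive.toMul v : Q) (Additive.toMul v).2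
    have h2 : ((T0 x * T0 x + T0 x + 1 : AddMonoid.End (Additive Q)) v) =
      (T0 x (T0 x v) + T0 x v + v) := rfl
    rw [h2, add_comm _ v, add_comm (T0 x (T0 x v)), ← add_assoc]
    exact h1
  have hT : ∀ M : SpecialLinearGroup (Fin 2) K, (M : Matrix (Fin 2) (Fin 2) K).trace = 1 → T M * T M + T M + 1 = 0 := by
    intro M hM
    obtain ⟨g, hg⟩ := conj_of_trace h2K hsq hM hztr
    have h1 : T g * T g⁻¹ = 1 := by rw [← map_mul, mul_inv_cancel, map_one]
    have h2 : T g⁻¹ * T g = 1 := by rw [← map_mul, inv_mul_cancel, map_one]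
    rw [hg, map_mul, map_mul]
    linear_combination (norm := noncomm_ring) T g * hTz * T g⁻¹ + T g * T z * h2 * T z * T g⁻¹ - h1
  -- characteristic two
  obtain ⟨k, hk⟩ := IsPGroup.iff_card.1 hQ
  have hnil : ∀ v : Additive Q, (2 ^ k) • v = 0 := by
    intro v
    have h1 : (Additive.toMul v : Q) ^ (2 ^ k) = 1 := by
      rw [← hk]; exact pow_card_eq_one'
    exact h1
  set R := Subring.closure (Set.range T) with hR
  let TR : SpecialLinearGroup (Fin 2) K →* R :=
    { toFun := fun g => ⟨T g, Subring.subset_closure ⟨g, rfl⟩⟩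
      map_one' := Subtype.ext (map_one T)
      map_mul' := fun g h => Subtype.ext (map_mul T g h) }
  have hgen : Subring.closure (Set.range TR) = ⊤ := by
    rw [eq_top_iff]
    rintro ⟨r, hr⟩ _
    have key : ∀ y (hy : y ∈ Subring.closure (Set.range T)), (⟨y, hy⟩ : R) ∈ Subring.closure (Set.range TR) := by
      intro y hy
      induction hy using Subring.closure_induction with
      | mem x hx =>
        obtain ⟨g, rfl⟩ := hx
        exact Subring.subset_closure ⟨g, rfl⟩
      | zero => exact zero_mem _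
      | one => exact one_mem _
      | add x y _ _ h1 h2 => exact add_mem h1 h2
      | neg x _ h1 => exact neg_mem h1
      | mul x y _ _ h1 h2 => exact mul_mem h1 h2
    exact key r hr
  have h2R : (2 : R) = 0 := by
    apply two_eq_zero h2K hsq a0 ha0 ha1 TR _ hgen k
    · apply Subtype.ext
      have h5 : ((2 : R) ^ k : R) = (((2 ^ k : ℕ) : R)) := by push_cast; rfl
      rw [h5]
      show (((2 ^ k : ℕ) : R) : AddMonoid.End (Additive Q)) = 0
      rw [Subring.coe_natCast]
      ext v
      rw [AddMonoid.End.natCast_apply, hnil v]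
      rfl
    · intro M hM
      apply Subtype.ext
      exact hT M hM
  have h2E : (2 : AddMonoid.End (Additive Q)) = 0 := by
    have := congrArg Subtype.val h2R
    exact this
  have two : ∀ y : AddMonoid.End (Additive Q), y + y = 0 := by
    intro y
    rw [← two_mul, h2E, zero_mul]
  have hel : ∀ a ∈ Q, a ^ 2 = 1 := by
    intro a ha
    have h1 : (2 : AddMonoid.End (Additive Q)) (Additive.ofMul (⟨a, ha⟩ : Q)) = 0 := by rw [h2E]; rfl
    have h3 : (2 : AddMonoid.End (Additive Q)) = ((2 : ℕ) : AddMonoid.End (Additive Q)) := by norm_num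
    rw [h3, AddMonoid.End.natCast_apply] at h1
    have h4 : ((⟨a, ha⟩ : Q)) ^ 2 = 1 := h1
    exact congrArg Subtype.val h4
  refine ⟨hcomm', hel, ?_⟩
  obtain ⟨q, U, W, hU, hW, hUW, cU, cW, hform⟩ := exists_units two h2K hsq T hT
  obtain ⟨k', Ψ, hΨ⟩ := exists_psi (fun g => T g) q U W hU hW hUW cU cW hform
  refine ⟨k', fun y => Ψ (Additive.ofMul y), Ψ.bijective.comp Additive.ofMul.bijective, fun a b => map_add Ψ _ _, ?_⟩
  intro g y i
  have h1 := hΨ (e (QuotientGroup.mk g)) (Additive.ofMul y) i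
  rw [hTe] at h1
  exact h1

end H56.Hig
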