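import Mathlib
import Cfsg.Agent.Lib.H53.PMin
import Cfsg.Agent.Lib.H51.PMinimal
import Cfsg.Agent.Lib.H52.PRes
import Cfsg.Agent.Lib.H26.LocalFitting
import Cfsg.Agent.Lib.H26.Components
import Cfsg.Agent.Lib.H1.Coprime2

set_option autoImplicit false

/-! Isolated `p`-minimal subgroups: the overgroups of a Sylow subgroup. -/

namespace H56.Iso

open Subgroup Cfsg H26.LocalFitting H52.PRes

variable {G : Type*} [Group G] [Finite G] {p : ℕ} [hp : Fact p.Prime]

/-- The isolated configuration. -/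
structure Setup (S : Sylow p G) (P L : Subgroup G) : Prop where
  hSP : (S : Subgroup G) ≤ P
  hP : IsPMinimal p ↥P
  hL : L = normalizer ((S : Subgroup G) : Set G) ⊔
    ⨆ P' : {P' : Subgroup G // (S : Subgroup G) ≤ P' ∧ IsPMinimal p ↥P' ∧ P' ≠ P}, (P' : Subgroup G)
  hiso : ¬ pc p L ≤ pc p P

namespace Setup

variable {S : Sylow p G} {P L : Subgroup G} (h : Setup S P L)
include h

omit hp [Finite G] in
theorem norm_le : normalizer ((S : Subgroup G) : Set G) ≤ L := by
  rw [h.hL]; exact le_sup_left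

omit hp [Finite G] in
theorem S_le : (S : Subgroup G) ≤ L := le_normalizer.trans h.norm_le

omit hp [Finite G] in
theorem pmin_le {P' : Subgroup G} (h1 : (S : Subgroup G) ≤ P') (h2 : IsPMinimal p ↥P') (h3 : P' ≠ P) : P' ≤ L := by
  rw [h.hL]
  exact (le_iSup (fun P' : {P' : Subgroup G // (S : Subgroup G) ≤ P' ∧ IsPMinimal p ↥P' ∧ P' ≠ P} =>
    (P' : Subgroup G)) ⟨P', h1, h2, h3⟩).trans le_sup_right

/-- Overgroups of `S` contain `P` or lie in `L`. -/
theorem overgp' : ∀ (n : ℕ) (H : Subgroup G), Nat.card H = n → (S : Subgroup G) ≤ H → P ≤ H ∨ H ≤ L := by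
  intro n
  induction n using Nat.strong_induction_on with
  | _ n ih =>
  intro H hcard hSH
  by_cases hn : (((S.subtype hSH : Sylow p H)) : Subgroup H).Normal
  · right
    refine le_trans ?_ h.norm_le
    rw [Sylow.coe_subtype, Subgroup.normal_subgroupOf_iff_le_normalizer hSH] at hn
    exact hn
  by_cases hu : ∃! M : Subgroup H, IsCoatom M ∧ (((S.subtype hSH : Sylow p H)) : Subgroup H) ≤ M
  · by_cases hHP : H = P
    · left; rw [hHP]
    · right
      exact h.pmin_le hSH (H51.PMinimal.isPMinimal_of_one (S.subtype hSH) ⟨hn, hu⟩) hHP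
  -- two coatoms
  have hne : (((S.subtype hSH : Sylow p H)) : Subgroup H) ≠ ⊤ := by
    intro h; apply hn; rw [h]; infer_instance
  obtain ⟨M₁, hM₁, hle₁⟩ := (eq_top_or_exists_le_coatom _).resolve_left hne
  obtain ⟨M₂, hM₂, hle₂, hM12⟩ : ∃ M₂ : Subgroup H, IsCoatom M₂ ∧
      (((S.subtype hSH : Sylow p H)) : Subgroup H) ≤ M₂ ∧ M₂ ≠ M₁ := by
    by_contra hcon
    push Not at hcon
    exact hu ⟨M₁, ⟨hM₁, hle₁⟩, fun M hM => hcon M hM.1 hM.2⟩
  have hsup : M₁ ⊔ M₂ = ⊤ := by
    refine hM₁.2 _ (lt_of_le_of_ne le_sup_left ?_)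
    intro h
    have : M₂ ≤ M₁ := by rw [h]; exact le_sup_right
    rcases eq_or_lt_of_le this with h' | h'
    · exact hM12 h'
    · exact hM₁.1 (hM₂.2 _ h')
  have key : ∀ M : Subgroup H, IsCoatom M → (((S.subtype hSH : Sylow p H)) : Subgroup H) ≤ M →
      P ≤ M.map H.subtype ∨ M.map H.subtype ≤ L := by
    intro M hM hSM
    refine ih (Nat.card (M.map H.subtype)) ?_ (M.map H.subtype) rfl ?_
    · rw [← hcard, Subgroup.card_map_of_injective H.subtype_injective]
      exact lt_of_le_of_ne (Subgroup.card_le_card_group M) (fun h => hM.1 (Subgroup.eq_top_of_card_eq M h))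
    · intro x hx
      exact ⟨⟨x, hSH hx⟩, hSM (by rw [Sylow.coe_subtype, Subgroup.mem_subgroupOf]; exact hx), rfl⟩
  rcases key M₁ hM₁ hle₁ with h1 | h1
  · left; exact h1.trans (Subgroup.map_subtype_le _)
  rcases key M₂ hM₂ hle₂ with h2 | h2
  · left; exact h2.trans (Subgroup.map_subtype_le _)
  right
  have h1' : H = (M₁ ⊔ M₂).map H.subtype := by
    rw [hsup, ← MonoidHom.range_eq_map, Subgroup.range_subtype]
  rw [h1', Subgroup.map_sup]
  exact sup_le h1 h2

theorem overgp {H : Subgroup G} (hSH : (S : Subgroup G) ≤ H) : P ≤ H ∨ H ≤ L := h.overgp' _ H rfl hSH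

theorem Q_le : pc p L ≤ (S : Subgroup G) := by
  have h1 := H1.Cores.pCore_le_sylow (S.subtype h.S_le)
  have h2 := Subgroup.map_mono (f := L.subtype) h1
  rw [Sylow.coe_subtype, Subgroup.map_subgroupOf_eq_of_le h.S_le] at h2
  exact h2

theorem Q_le_P : pc p L ≤ P := h.Q_le.trans h.hSP

theorem not_norm : ¬ P ≤ normalizer (pc p L : Set G) := by
  intro h1
  exact h.hiso (le_pc h.Q_le_P h1 (isPGroup_pc p L))

theorem not_le : ¬ P ≤ L := fun h1 => h.not_norm (h1.trans (le_normalizer_pc p L))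

theorem pc_P_le : pc p P ≤ (S : Subgroup G) := by
  have h1 := H1.Cores.pCore_le_sylow (S.subtype h.hSP)
  have h2 := Subgroup.map_mono (f := P.subtype) h1
  rw [Sylow.coe_subtype, Subgroup.map_subgroupOf_eq_of_le h.hSP] at h2
  exact h2

/-- `P = S O^p(P)`. -/
theorem sup_res : (S : Subgroup G) ⊔ resOf p P = P := by
  have h1 := sup_resOf_eq (S.subtype h.hSP)
  rwa [Sylow.coe_subtype, Subgroup.map_subgroupOf_eq_of_le h.hSP] at h1

/-- `O^p(P)` lies in the normal closure of `Q`. -/
theorem res_le {N : Subgroup G} (hN : P ≤ normalizer (N : Set G)) (hQN : pc p L ≤ N) : resOf p P ≤ N := by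
  obtain ⟨M, ⟨hM, hSM⟩, -⟩ := (h.hP (S.subtype h.hSP)).2
  have hn : (N.subgroupOf P).Normal := by
    constructor
    intro x hx g
    rw [mem_subgroupOf] at hx ⊢
    exact (mem_normalizer_iff.1 (hN g.2) x).1 hx
  rcases H53.PMin.normal_le_or h.hP hM hSM hn with h1 | h1
  · have h2 := Subgroup.map_mono (f := P.subtype) h1
    exact h2.trans (by rw [Subgroup.subgroupOf_map_subtype]; exact inf_le_left)
  · exfalso
    apply h.hiso
    intro x hx
    have h2 : (⟨x, h.Q_le_P hx⟩ : P) ∈ pCore p P := by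
      apply H53.PMin.core_inf_sylow_le_pCore h.hP hM hSM
      refine ⟨h1 ?_, ?_⟩
      · show x ∈ N
        exact hQN hx
      · show (⟨x, h.Q_le_P hx⟩ : P) ∈ ((S.subtype h.hSP : Sylow p P) : Subgroup P)
        rw [Sylow.coe_subtype, mem_subgroupOf]
        exact h.Q_le hx
    exact ⟨_, h2, rfl⟩

/-- If `P ≤ T S` then `O^p(P) ≤ T`. -/
theorem res_le_of_sup {T : Subgroup G} (hT : (S : Subgroup G) ≤ normalizer (T : Set G))
    (hP : P ≤ (S : Subgroup G) ⊔ T) : resOf p P ≤ T := by
  have h1 := resOf_le_of_pMod (pMod_of_sup S.2 hT)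
  exact (resOf_mono hP).trans h1

/-- The `T`-dichotomy. -/
theorem dich {T : Subgroup G} (hT : (S : Subgroup G) ≤ normalizer (T : Set G)) : resOf p P ≤ T ∨ T ≤ L := by
  rcases h.overgp (H := (S : Subgroup G) ⊔ T) le_sup_left with h1 | h1
  · exact Or.inl (h.res_le_of_sup hT h1)
  · exact Or.inr (le_sup_right.trans h1)

/-- Property (*). -/
theorem star {Y : Subgroup G} (hY : Y = normalClosure (resOf p P : Set G)) (N : Subgroup G) [hN : N.Normal] :
    Y ≤ N ∨ ∀ n ∈ N, ∀ y ∈ Y, n * y * n⁻¹ * y⁻¹ ∈ pc p N := by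
  rcases h.dich (T := N) (by rw [Subgroup.normalizer_eq_top]; exact le_top) with h1 | h1
  · left
    rw [hY]
    exact Subgroup.normalClosure_le_normal h1
  · right
    set K := pc p N with hK
    have hKn : K.Normal := by
      rw [← Subgroup.normalizer_eq_top_iff, eq_top_iff]
      refine le_trans ?_ (normalizer_le_normalizer_pc p N)
      rw [Subgroup.normalizer_eq_top]
    have hC : (centralizer ((N.map (QuotientGroup.mk' K) : Subgroup (G ⧸ K)) : Set (G ⧸ K))).Normal := by
      have : (N.map (QuotientGroup.mk' K)).Normal := hN.map _ (QuotientGroup.mk'_surjective K)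
      infer_instance
    set D := (centralizer ((N.map (QuotientGroup.mk' K) : Subgroup (G ⧸ K)) : Set (G ⧸ K))).comap (QuotientGroup.mk' K) with hD
    have hDn : D.Normal := hC.comap _
    have hmem : ∀ g : G, g ∈ D ↔ ∀ n ∈ N, n * g * n⁻¹ * g⁻¹ ∈ K := by
      intro g
      rw [hD, mem_comap, mem_centralizer_iff]
      constructor
      · intro h2 n hn
        have h3 := h2 _ ⟨n, hn, rfl⟩
        rw [← QuotientGroup.eq_one_iff]
        show QuotientGroup.mk' K (n * g * n⁻¹ * g⁻¹) = 1
        rw [map_mul, map_mul, map_mul, map_inv, map_inv, h3]; group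
      · rintro h2 _ ⟨n, hn, rfl⟩
        have h3 := h2 n hn
        rw [← QuotientGroup.eq_one_iff] at h3
        have h4 : QuotientGroup.mk' K n * QuotientGroup.mk' K g * (QuotientGroup.mk' K n)⁻¹ * (QuotientGroup.mk' K g)⁻¹ = 1 := by
          rw [← map_inv, ← map_inv, ← map_mul, ← map_mul, ← map_mul]; exact h3
        calc QuotientGroup.mk' K n * QuotientGroup.mk' K g =
            (QuotientGroup.mk' K n * QuotientGroup.mk' K g * (QuotientGroup.mk' K n)⁻¹ * (QuotientGroup.mk' K g)⁻¹) *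
              (QuotientGroup.mk' K g * QuotientGroup.mk' K n) := by group
          _ = QuotientGroup.mk' K g * QuotientGroup.mk' K n := by rw [h4, one_mul]
    have hQD : pc p L ≤ D := by
      intro q hq
      rw [hmem]
      intro n hn
      have hle : N ⊓ pc p L ≤ K := by
        refine le_pc inf_le_left ?_ ((isPGroup_pc p L).to_le inf_le_right)
        exact H1.Coprime2.le_normalizer_inf le_normalizer (h1.trans (le_normalizer_pc p L))
      apply hle
      refine mem_inf.2 ⟨?_, ?_⟩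
      · have e : n * q * n⁻¹ * q⁻¹ = n * (q * n⁻¹ * q⁻¹) := by group
        rw [e]
        exact mul_mem hn (hN.conj_mem _ (inv_mem hn) q)
      · exact mul_mem ((mem_normalizer_iff.1 (le_normalizer_pc p L (h1 hn)) q).1 hq) (inv_mem hq)
    have hXD : resOf p P ≤ D := h.res_le (by rw [Subgroup.normalizer_eq_top]; exact le_top) hQD
    have hYD : Y ≤ D := by
      rw [hY]; exact Subgroup.normalClosure_le_normal hXD
    intro n hn y hy
    exact (hmem y).1 (hYD hy) n hn

end Setup

end H56.Iso
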