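import Mathlib
import Cfsg.Agent.Lib.H56.Iso1
import Cfsg.Agent.Lib.H76.Maschke
import Cfsg.Agent.Lib.H1.Solv
import Cfsg.Agent.Lib.H28.RelSyl
import Cfsg.Agent.Lib.H3.PBasic

set_option autoImplicit false

/-! Isolated `p`-minimal subgroups: the `p'`-case. -/

namespace H56.Iso

open Subgroup Cfsg H26.LocalFitting H52.PRes H1.Coprime2
open scoped commutatorElement

variable {G : Type*} [Group G] [Finite G] {p : ℕ} [hp : Fact p.Prime]

/-- Invariant complements modulo `F`. -/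
theorem compl_aux {t : ℕ} [ht : Fact t.Prime] (Y F X : Subgroup G) [hYn : Y.Normal] [hFn : F.Normal] [hXn : X.Normal]
    (hFX : F ≤ X) (hXY : X ≤ Y) (hcomm : ∀ a ∈ Y, ∀ b ∈ Y, ⁅a, b⁆ ∈ F) (hpow : ∀ a ∈ Y, a ^ t ∈ F)
    (hY : IsPGroup t Y) (hidx : ¬ t ∣ Y.index) :
    ∃ T : Subgroup G, T.Normal ∧ F ≤ T ∧ T ≤ Y ∧ T ⊓ X ≤ F ∧ T ⊔ X = Y := by
  set π := QuotientGroup.mk' F with hπ
  have hsurj : Function.Surjective π := QuotientGroup.mk'_surjective F
  have hone : ∀ g : G, π g = 1 ↔ g ∈ F := fun g => QuotientGroup.eq_one_iff g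
  have hV : (Y.map π).Normal := hYn.map _ hsurj
  have hW : (X.map π).Normal := hXn.map _ hsurj
  have hker : π.ker = F := QuotientGroup.ker_mk' F
  have hVidx : (Y.map π).index = Y.index := by
    rw [Subgroup.index_map_eq Y hsurj (by rw [hker]; exact hFX.trans hXY)]
  obtain ⟨U, hUn, hUV, hUW, hWU⟩ := H76.Maschke.exists_normal_compl (p := t) (Y.map π) (X.map π)
    (Subgroup.map_mono hXY) (by
      rintro _ ⟨a, ha, rfl⟩ _ ⟨b, hb, rfl⟩
      have h1 := (hone _).2 (hcomm a ha b hb)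
      rw [commutatorElement_def, map_mul, map_mul, map_mul, map_inv, map_inv] at h1
      calc π a * π b = (π a * π b * (π a)⁻¹ * (π b)⁻¹) * (π b * π a) := by group
        _ = π b * π a := by rw [h1, one_mul]) (by
      rintro _ ⟨a, ha, rfl⟩
      rw [← map_pow, hone]
      exact hpow a ha) (by
      rw [hVidx]
      obtain ⟨k, hk⟩ := IsPGroup.iff_card.1 ((hY.to_le hXY).map π)
      rw [hk]
      exact Nat.Coprime.pow_left k ((Nat.Prime.coprime_iff_not_dvd ht.out).2 hidx))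
  have hTn : (U.comap π).Normal := hUn.comap π
  have hFT : F ≤ U.comap π := by
    intro x hx
    show π x ∈ U
    rw [(hone x).2 hx]; exact one_mem _
  have hTY : U.comap π ≤ Y := by
    intro x hx
    obtain ⟨y, hy, hyx⟩ := hUV (show π x ∈ U from hx)
    have h1 : y⁻¹ * x ∈ F := by
      rw [← hone, map_mul, map_inv, hyx]; group
    have h2 : x = y * (y⁻¹ * x) := by group
    rw [h2]
    exact mul_mem hy (hXY (hFX h1))
  refine ⟨U.comap π, hTn, hFT, hTY, ?_, ?_⟩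
  · intro x hx
    obtain ⟨h1, h2⟩ := mem_inf.1 hx
    have h3 : π x ∈ U ⊓ X.map π := mem_inf.2 ⟨h1, ⟨x, h2, rfl⟩⟩
    rw [hUW, mem_bot, hone] at h3
    exact h3
  · apply le_antisymm (sup_le hTY hXY)
    intro y hy
    have h1 : π y ∈ X.map π ⊔ U := by rw [hWU]; exact ⟨y, hy, rfl⟩
    rw [Subgroup.mem_sup_of_normal_right] at h1
    obtain ⟨_, ⟨x, hx, rfl⟩, u, hu, hxu⟩ := h1
    have h2 : x⁻¹ * y ∈ U.comap π := by
      show π (x⁻¹ * y) ∈ U
      rw [map_mul, map_inv, ← hxu]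
      have : (π x)⁻¹ * (π x * u) = u := by group
      rw [this]; exact hu
    have h3 : y = x * (x⁻¹ * y) := by group
    rw [h3]
    exact mul_mem (le_sup_right (a := U.comap π) hx) (le_sup_left (b := X) h2)

/-- Commutator trick. -/
theorem commutator_le_of_mul {Y Q R : Subgroup G} (hQR : Q ≤ normalizer (R : Set G))
    (h : ∀ y ∈ Y, ∃ c ∈ centralizer (Q : Set G), ∃ u ∈ R, y = c * u) : ⁅Y, Q⁆ ≤ R := by
  rw [Subgroup.commutator_le]
  intro y hy q hq
  obtain ⟨c, hc, u, hu, hcu⟩ := h y⁻¹ (inv_mem hy)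
  have h1 : q * c = c * q := mem_centralizer_iff.1 hc q hq
  have h2 : q * u * q⁻¹ ∈ R := (mem_normalizer_iff.1 (hQR hq) u).1 hu
  have h3 : ⁅y, q⁆ = u⁻¹ * (q * u * q⁻¹) := by
    have hy' : y = (c * u)⁻¹ := by rw [← hcu, inv_inv]
    rw [commutatorElement_def, hy', inv_inv]
    calc (c * u)⁻¹ * q * (c * u) * q⁻¹ = u⁻¹ * (c⁻¹ * (q * c)) * u * q⁻¹ := by group
      _ = u⁻¹ * (c⁻¹ * (c * q)) * u * q⁻¹ := by rw [h1]
      _ = u⁻¹ * (q * u * q⁻¹) := by group
  rw [h3]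
  exact mul_mem (inv_mem hu) h2

/-- The abstract `p'`-configuration: `Y` normal of order prime to `p`, with `X ≤ Y` the unique minimal
`S`-invariant subgroup not centralized by `Q`. -/
theorem pprime_case {S Q X Y : Subgroup G} [hYn : Y.Normal] (hcop : (Nat.card Y).Coprime p) (hS : IsPGroup p S) (hQS : Q ≤ S)
    (hSQ : S ≤ normalizer (Q : Set G)) (hXS : S ≤ normalizer (X : Set G))
    (hdich : ∀ T : Subgroup G, T ≤ Y → S ≤ normalizer (T : Set G) → X ≤ T ∨ ⁅T, Q⁆ = ⊥)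
    (hXQ : ⁅X, Q⁆ ≠ ⊥) (hD : ⁅Y, Q⁆ = Y) (hcl : ∀ N : Subgroup G, N.Normal → X ≤ N → Y ≤ N) (hXY : X ≤ Y) :
    X = Y ∧ ∃ t : ℕ, t.Prime ∧ t ≠ p ∧ IsPGroup t Y ∧ ∀ a ∈ Y, ∀ b ∈ Y, ∀ c ∈ Y, ⁅⁅a, b⁆, c⁆ = 1 := by
  have hSY : S ≤ normalizer (Y : Set G) := by rw [Subgroup.normalizer_eq_top]; exact le_top
  have hcard : (Nat.card S).Coprime (Nat.card Y) := by
    obtain ⟨k, hk⟩ := IsPGroup.iff_card.1 hS
    rw [hk]
    exact Nat.Coprime.pow_left k hcop.symm
  have hsolvS : Group.IsSolvable S := by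
    have : Group.IsNilpotent S := hS.isNilpotent
    infer_instance
  have hQp : IsPGroup p Q := hS.to_le hQS
  have hQcard : (Nat.card Q).Coprime (Nat.card Y) := Nat.Coprime.coprime_dvd_left (Subgroup.card_dvd_of_le hQS) hcard
  have hQsolv : Group.IsSolvable Q := by
    have : Group.IsNilpotent Q := hQp.isNilpotent
    infer_instance
  set C := Y ⊓ centralizer (Q : Set G) with hC
  have hsyl : ∀ t : ℕ, t.Prime → ∃ R, H28.RelSyl.IsSyl t R Y ∧ S ≤ normalizer (R : Set G) := by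
    intro t ht
    have : Fact t.Prime := ⟨ht⟩
    obtain ⟨R, hR, hSR⟩ := exists_invariant_sylow S Y hSY hcard (Or.inl hsolvS) t
    exact ⟨R, H28.RelSyl.isSyl_of_card hR.1 hR.2, hSR⟩
  have hidx : ∀ t : ℕ, t.Prime → (∃ R, H28.RelSyl.IsSyl t R Y ∧ ⁅R, Q⁆ = ⊥) → ¬ t ∣ C.relIndex Y := by
    rintro t ht ⟨R, hR, hRQ⟩ hdvd
    have hRC : R ≤ C := le_inf hR.le (Subgroup.commutator_eq_bot_iff_le_centralizer.1 hRQ)
    apply hR.not_dvd
    rw [← Subgroup.relIndex_mul_relIndex R C Y hRC inf_le_left]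
    exact Dvd.dvd.mul_left hdvd _
  have hCY : C ≠ Y := by
    intro h1
    apply hXQ
    rw [Subgroup.commutator_eq_bot_iff_le_centralizer]
    refine hXY.trans ?_
    rw [← h1]; exact inf_le_right
  have hrel : C.relIndex Y ≠ 1 := by
    intro h1
    exact hCY (le_antisymm inf_le_left (Subgroup.relIndex_eq_one.1 h1))
  obtain ⟨t, ht, htd⟩ := Nat.exists_prime_and_dvd hrel
  have htf : Fact t.Prime := ⟨ht⟩
  obtain ⟨R, hR, hSR⟩ := hsyl t ht
  have hRQ : ⁅R, Q⁆ ≠ ⊥ := fun h1 => hidx t ht ⟨R, hR, h1⟩ htd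
  have hXR : X ≤ R := (hdich R hR.le hSR).resolve_right hRQ
  have hother : ∀ r : ℕ, r.Prime → r ∣ C.relIndex Y → r = t := by
    intro r hr hrd
    by_contra hrt
    have hrf : Fact r.Prime := ⟨hr⟩
    obtain ⟨R', hR', hSR'⟩ := hsyl r hr
    have hR'Q : ⁅R', Q⁆ ≠ ⊥ := fun h1 => hidx r hr ⟨R', hR', h1⟩ hrd
    have hXR' : X ≤ R' := (hdich R' hR'.le hSR').resolve_right hR'Q
    have h1 : R' ⊓ R = ⊥ := by
      apply inf_eq_bot_of_coprime hR'.isPGroup
      obtain ⟨k, hk⟩ := IsPGroup.iff_card.1 hR.isPGroup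
      rw [hk]
      exact Nat.Coprime.pow_left k ((Nat.coprime_primes ht hr).2 (Ne.symm hrt))
    have h2 : X ≤ ⊥ := by rw [← h1]; exact le_inf hXR' hXR
    apply hXQ
    rw [le_bot_iff.1 h2, Subgroup.commutator_bot_left]
  -- `Y = C R`
  have hmul : ∀ y ∈ Y, ∃ c ∈ centralizer (Q : Set G), ∃ u ∈ R, y = c * u := by
    intro y hy
    have h1 : (C.subgroupOf Y).index.Coprime (R.subgroupOf Y).index := by
      rw [Nat.coprime_iff_gcd_eq_one]
      by_contra hcon
      obtain ⟨r, hr, hrd⟩ := Nat.exists_prime_and_dvd hcon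
      have h2 : r = t := hother r hr (hrd.trans (Nat.gcd_dvd_left _ _))
      subst h2
      exact hR.not_dvd (hrd.trans (Nat.gcd_dvd_right _ _))
    obtain ⟨c, hc, u, hu, hcu⟩ := H1.Solv.exists_mul_of_coprime_index h1 ⟨y, hy⟩
    exact ⟨c, (mem_inf.1 (mem_subgroupOf.1 hc)).2, u, mem_subgroupOf.1 hu, congrArg Subtype.val hcu⟩
  have hYR : Y ≤ R := by
    conv_lhs => rw [← hD]
    exact commutator_le_of_mul (hQS.trans hSR) hmul
  have hYt : IsPGroup t Y := hR.isPGroup.to_le hYR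
  have htp : t ≠ p := by
    intro h1
    subst h1
    have h2 : IsPGroup t Y := hYt
    apply hXQ
    have h3 : Y = ⊥ := by
      rw [← inf_idem Y]
      exact inf_eq_bot_of_coprime h2 hcop
    have h4 : X = ⊥ := by rw [eq_bot_iff, ← h3]; exact hXY
    rw [h4, Subgroup.commutator_bot_left]
  -- the Frattini subgroup
  set F := (frattini Y).map Y.subtype with hF
  have hFY : F ≤ Y := Subgroup.map_subtype_le _
  have hFn : F.Normal := by
    have : (frattini Y).Characteristic := inferInstance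
    infer_instance
  have hFne : ¬ X ≤ F := by
    intro h1
    have h2 := hcl F hFn h1
    have h3 : frattini Y = ⊤ := by
      rw [eq_top_iff]
      intro y _
      obtain ⟨z, hz, hzy⟩ := h2 y.2
      have : z = y := Subtype.ext hzy
      rw [← this]; exact hz
    have hYne : Nontrivial Y := by
      rw [Subgroup.nontrivial_iff_ne_bot]
      intro h4
      apply hXQ
      have h5 : X = ⊥ := by rw [eq_bot_iff, ← h4]; exact hXY
      rw [h5, Subgroup.commutator_bot_left]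
    obtain ⟨M, hM⟩ := (eq_top_or_exists_le_coatom (⊥ : Subgroup Y)).resolve_left (bot_ne_top)
    have h5 : frattini Y ≤ M := frattini_le_coatom hM.1
    rw [h3, top_le_iff] at h5
    exact hM.1.1 h5
  have hFQ : ⁅F, Q⁆ = ⊥ := (hdich F hFY (by rw [Subgroup.normalizer_eq_top]; exact le_top)).resolve_left hFne
  have hFYc : ⁅F, Y⁆ = ⊥ := by
    have h1 : ⁅⁅F, Y⁆, Q⁆ = ⊥ := by
      rw [eq_bot_iff, ← hFQ]
      exact Subgroup.commutator_mono (by
        rw [Subgroup.commutator_le]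
        intro f hf y hy
        have e : ⁅f, y⁆ = f * (y * f⁻¹ * y⁻¹) := by rw [commutatorElement_def]; group
        rw [e]
        exact mul_mem hf (hFn.conj_mem _ (inv_mem hf) y)) le_rfl
    have h2 : ⁅⁅Q, F⁆, Y⁆ = ⊥ := by
      rw [Subgroup.commutator_comm Q F, hFQ, Subgroup.commutator_bot_left]
    have h3 : ⁅⁅Y, Q⁆, F⁆ = ⊥ := by
      apply Subgroup.commutator_commutator_eq_bot_of_rotate
      · exact h2
      · exact h1
    rw [hD] at h3
    rw [Subgroup.commutator_comm]; exact h3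
  have hcomm : ∀ a ∈ Y, ∀ b ∈ Y, ⁅a, b⁆ ∈ F := by
    intro a ha b hb
    have h1 : commutator Y ≤ frattini Y := by
      exact H3.PBasic.commutator_le_frattini hYt
    exact ⟨⁅(⟨a, ha⟩ : Y), ⟨b, hb⟩⁆, h1 (Subgroup.commutator_mem_commutator (mem_top _) (mem_top _)), rfl⟩
  have hclass : ∀ a ∈ Y, ∀ b ∈ Y, ∀ c ∈ Y, ⁅⁅a, b⁆, c⁆ = 1 := by
    intro a ha b hb c hc
    have h1 := Subgroup.commutator_mem_commutator (hcomm a ha b hb) hc
    rw [hFYc] at h1
    exact Subgroup.mem_bot.1 h1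
  refine ⟨?_, t, ht, htp, hYt, hclass⟩
  -- `X = Y` by Maschke
  set X₀ := X ⊔ F with hX₀
  have hX₀Y : X₀ ≤ Y := sup_le hXY hFY
  set H := S ⊔ Y with hH
  have hSH : S ≤ H := le_sup_left
  have hYH : Y ≤ H := le_sup_right
  have hYX₀ : Y ≤ normalizer (X₀ : Set G) := by
    apply H1.Coprime.le_normalizer_of_conj_mem
    intro y hy x hx
    have h1 : ⁅y, x⁆ ∈ X₀ := (le_sup_right : F ≤ X₀) (hcomm y hy x (hX₀Y hx))
    have h2 : y * x * y⁻¹ = ⁅y, x⁆ * x := by rw [commutatorElement_def]; group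
    rw [h2]; exact mul_mem h1 hx
  have hSX₀ : S ≤ normalizer (X₀ : Set G) :=
    le_normalizer_sup hXS (by rw [Subgroup.normalizer_eq_top]; exact le_top)
  have n1 : (Y.subgroupOf H).Normal := inferInstance
  have n2 : (F.subgroupOf H).Normal := inferInstance
  have n3 : (X₀.subgroupOf H).Normal := Subgroup.normal_subgroupOf_of_le_normalizer (sup_le hSX₀ hYX₀)
  obtain ⟨T, hTn, hFT, hTY, hTX, hTsup⟩ := compl_aux (t := t) (Y.subgroupOf H) (F.subgroupOf H) (X₀.subgroupOf H)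
    (Subgroup.comap_mono le_sup_right) (Subgroup.comap_mono hX₀Y) (by
      intro a ha b hb
      exact hcomm a ha b hb) (by
      intro a ha
      have h1 := H3.PBasic.pow_mem_frattini hYt (⟨a, ha⟩ : Y)
      exact ⟨_, h1, rfl⟩) ((H28.RelSyl.isPGroup_subgroupOf hYH).2 hYt) (by
      intro h1
      have h2 : (Y.subgroupOf H).index ∣ Nat.card S := by
        show Y.relIndex (S ⊔ Y) ∣ _
        rw [Subgroup.relIndex_sup_right]
        exact Subgroup.relIndex_dvd_card _ _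
      have h3 : t ∣ Nat.card S := h1.trans h2
      obtain ⟨k, hk⟩ := IsPGroup.iff_card.1 hS
      rw [hk] at h3
      exact htp ((Nat.prime_dvd_prime_iff_eq ht hp.out).1 (ht.dvd_of_dvd_pow h3)))
  set T' := T.map H.subtype with hT'
  have hT'Y : T' ≤ Y := by
    rintro _ ⟨x, hx, rfl⟩
    exact hTY hx
  have hST' : S ≤ normalizer (T' : Set G) := by
    apply H1.Coprime.le_normalizer_of_conj_mem
    rintro s hs _ ⟨x, hx, rfl⟩
    exact ⟨_, hTn.conj_mem x hx ⟨s, hSH hs⟩, rfl⟩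
  have hT'Q : ⁅T', Q⁆ = ⊥ := by
    refine (hdich T' hT'Y hST').resolve_left ?_
    intro h1
    apply hFne
    intro x hx
    obtain ⟨y, hy, hyx⟩ := h1 hx
    have h2 : y ∈ T ⊓ X₀.subgroupOf H := by
      refine mem_inf.2 ⟨hy, ?_⟩
      rw [mem_subgroupOf]
      have h3 : (y : G) = x := hyx
      rw [h3]; exact (le_sup_left : X ≤ X₀) hx
    have h3 := hTX h2
    rw [mem_subgroupOf] at h3
    rw [← hyx]; exact h3
  have hYX : Y ≤ X₀ := by
    conv_lhs => rw [← hD]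
    apply commutator_le_of_mul (hQS.trans hSX₀)
    intro y hy
    have h1 : (⟨y, hYH hy⟩ : H) ∈ T ⊔ X₀.subgroupOf H := by rw [hTsup]; exact hy
    rw [Subgroup.mem_sup_of_normal_right] at h1
    obtain ⟨a, ha, b, hb, hab⟩ := h1
    refine ⟨a, ?_, b, mem_subgroupOf.1 hb, (congrArg Subtype.val hab).symm⟩
    exact Subgroup.commutator_eq_bot_iff_le_centralizer.1 hT'Q ⟨a, ha, rfl⟩
  have h1 : X.subgroupOf Y = ⊤ := by
    apply frattini_nongenerating
    rw [eq_top_iff]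
    rintro ⟨y, hy⟩ -
    have h2 := hYX hy
    rw [hX₀, Subgroup.mem_sup_of_normal_right] at h2
    obtain ⟨x, hx, _, ⟨f, hf, rfl⟩, hxf⟩ := h2
    have h3 : (⟨y, hy⟩ : Y) = ⟨x, hXY hx⟩ * f := Subtype.ext hxf.symm
    rw [h3]
    exact mul_mem (le_sup_left (b := frattini Y) (mem_subgroupOf.2 hx)) (le_sup_right (a := X.subgroupOf Y) hf)
  exact le_antisymm hXY (Subgroup.subgroupOf_eq_top.1 h1)

end H56.Iso
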