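import Mathlib
import Cfsg.Agent.Lib.H56.Iso2

set_option autoImplicit false

/-! Isolated `p`-minimal subgroups: the normal closure of `O^p(P)`. -/

namespace H56.Iso

open Subgroup Cfsg H26.LocalFitting H52.PRes H1.Coprime2
open scoped commutatorElement

variable {G : Type*} [Group G] [Finite G] {p : ℕ} [hp : Fact p.Prime]

section act

variable (Y : Subgroup G) [hYn : Y.Normal]

/-- The action of `G` on `Y/O_p(Y)`. -/
noncomputable def act (p : ℕ) (g : G) : (↥Y ⧸ pCore p ↥Y) ≃* (↥Y ⧸ pCore p ↥Y) :=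
  QuotientGroup.congr _ _ (MulAut.conjNormal g : Y ≃* Y) (H1.Cores.map_equiv_pCore p (MulAut.conjNormal g : Y ≃* Y))

omit [Finite G] in
theorem act_mk (p : ℕ) (g : G) (y : Y) : act Y p g (QuotientGroup.mk' (pCore p ↥Y) y) =
    QuotientGroup.mk' (pCore p ↥Y) (MulAut.conjNormal g y) := rfl

omit hYn in
/-- Preimages. -/
def up (p : ℕ) (K : Subgroup (↥Y ⧸ pCore p ↥Y)) : Subgroup G := (K.comap (QuotientGroup.mk' (pCore p ↥Y))).map Y.subtype

omit [Finite G] hYn in
theorem mem_up {p : ℕ} {K : Subgroup (↥Y ⧸ pCore p ↥Y)} {y : Y} : (y : G) ∈ up Y p K ↔ QuotientGroup.mk' (pCore p ↥Y) y ∈ K := by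
  constructor
  · rintro ⟨z, hz, hzy⟩
    have : z = y := Subtype.ext hzy
    rw [← this]; exact hz
  · intro h
    exact ⟨y, h, rfl⟩

omit [Finite G] hYn in
theorem up_le (p : ℕ) (K : Subgroup (↥Y ⧸ pCore p ↥Y)) : up Y p K ≤ Y := Subgroup.map_subtype_le _

omit [Finite G] hYn in
theorem pc_le_up (p : ℕ) (K : Subgroup (↥Y ⧸ pCore p ↥Y)) : pc p Y ≤ up Y p K := by
  rintro _ ⟨x, hx, rfl⟩
  refine ⟨x, ?_, rfl⟩
  show QuotientGroup.mk' (pCore p ↥Y) x ∈ K
  rw [show QuotientGroup.mk' (pCore p ↥Y) x = 1 from (QuotientGroup.eq_one_iff x).2 hx]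
  exact one_mem _

omit [Finite G] in
theorem up_act (p : ℕ) (g : G) (K : Subgroup (↥Y ⧸ pCore p ↥Y)) :
    up Y p (K.map (act Y p g : (↥Y ⧸ pCore p ↥Y) →* (↥Y ⧸ pCore p ↥Y))) = (up Y p K).map (MulAut.conj g).toMonoidHom := by
  ext x
  constructor
  · rintro ⟨y, ⟨k, hk, hky⟩, rfl⟩
    obtain ⟨z, rfl⟩ := QuotientGroup.mk'_surjective _ k
    refine ⟨((MulAut.conjNormal g : MulAut Y).symm y : Y), ?_, ?_⟩
    · rw [SetLike.mem_coe, mem_up]
      have h1 : QuotientGroup.mk' (pCore p ↥Y) ((MulAut.conjNormal g : MulAut Y).symm y) = QuotientGroup.mk' (pCore p ↥Y) z := by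
        apply (act Y p g).injective
        rw [act_mk, MulEquiv.apply_symm_apply]
        exact hky.symm
      rw [h1]; exact hk
    · show g * (((MulAut.conjNormal g : MulAut Y).symm y : Y) : G) * g⁻¹ = y
      rw [← MulAut.conjNormal_apply, MulEquiv.apply_symm_apply]
  · rintro ⟨_, ⟨y, hy, rfl⟩, rfl⟩
    refine ⟨MulAut.conjNormal g y, ?_, ?_⟩
    · exact ⟨QuotientGroup.mk' _ y, hy, rfl⟩
    · show ((MulAut.conjNormal g y : Y) : G) = g * (y : G) * g⁻¹
      rw [MulAut.conjNormal_apply]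

omit [Finite G] in
theorem up_normal {p : ℕ} (K : Subgroup (↥Y ⧸ pCore p ↥Y)) [hK : K.Characteristic] : (up Y p K).Normal := by
  constructor
  intro x hx g
  have h1 : K.map (act Y p g : (↥Y ⧸ pCore p ↥Y) →* (↥Y ⧸ pCore p ↥Y)) = K := characteristic_iff_map_eq.1 hK _
  have h2 := up_act Y p g K
  rw [h1] at h2
  rw [h2]
  exact ⟨x, hx, rfl⟩

end act

namespace Setup

variable {S : Sylow p G} {P L : Subgroup G} (h : Setup S P L) {Y : Subgroup G}
  (hY : Y = normalClosure (resOf p P : Set G))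

omit [Finite G] hp in
include hY in
theorem Y_normal : Y.Normal := by rw [hY]; infer_instance

omit [Finite G] hp in
include hY in
theorem res_le_Y : resOf p P ≤ Y := by rw [hY]; exact Subgroup.subset_normalClosure

omit [Finite G] hp in
include hY in
theorem Y_le {N : Subgroup G} (hN : N.Normal) (h1 : resOf p P ≤ N) : Y ≤ N := by
  rw [hY]; exact Subgroup.normalClosure_le_normal h1

include hY in
theorem Y_le_res : Y ≤ resOf p Y := by
  have hYn := Y_normal hY
  apply Y_le hY
  · rw [← Subgroup.normalizer_eq_top_iff, eq_top_iff]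
    refine le_trans ?_ (normalizer_le_normalizer_resOf Y)
    rw [Subgroup.normalizer_eq_top]
  · rw [← resOf_resOf P]
    exact resOf_mono (res_le_Y hY)

include h

theorem P_sup_L : P ⊔ L = ⊤ := by
  rw [eq_top_iff]
  refine (H51.PMinimal.le_pMinGen_sup_normalizer S _ ⊤ rfl le_top).trans ?_
  refine sup_le (sup_le (h.hSP.trans le_sup_left) (iSup_le ?_)) (h.norm_le.trans le_sup_right)
  rintro ⟨P', h1, h2⟩
  by_cases h3 : P' = P
  · show P' ≤ _
    rw [h3]; exact le_sup_left
  · exact (h.pmin_le h1 h2 h3).trans le_sup_right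

include hY in
theorem Y_sup_L : Y ⊔ L = ⊤ := by
  rw [eq_top_iff, ← h.P_sup_L]
  refine sup_le ?_ le_sup_right
  rw [← h.sup_res]
  exact sup_le (h.S_le.trans le_sup_right) ((res_le_Y hY).trans le_sup_left)

theorem res_ne : resOf p P ≠ ⊥ := by
  intro h1
  have h2 := h.sup_res
  rw [h1, sup_bot_eq] at h2
  apply (h.hP (S.subtype h.hSP)).1
  rw [Sylow.coe_subtype, Subgroup.normal_subgroupOf_iff_le_normalizer h.hSP]
  conv_lhs => rw [← h2]
  exact le_normalizer

include hY in
theorem Y_not_pgroup : ¬ IsPGroup p Y := by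
  intro h1
  apply h.res_ne
  rw [← resOf_resOf P]
  have h2 : resOf p (resOf p P) ≤ resOf p Y := resOf_mono (res_le_Y hY)
  rw [resOf_eq_bot_iff.2 h1, le_bot_iff] at h2
  exact h2

include hY in
theorem pc_normal : (pc p Y).Normal := by
  have hYn := Y_normal hY
  rw [← Subgroup.normalizer_eq_top_iff, eq_top_iff]
  refine le_trans ?_ (normalizer_le_normalizer_pc p Y)
  rw [Subgroup.normalizer_eq_top]

include hY in
/-- Characteristic subgroups of `Y/O_p(Y)`. -/
theorem charDich (K : Subgroup (↥Y ⧸ pCore p ↥Y)) [hK : K.Characteristic] : K = ⊤ ∨ K ≤ center _ := by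
  have hYn := Y_normal hY
  have hn := up_normal Y K
  rcases h.star hY (up Y p K) with h1 | h1
  · left
    rw [eq_top_iff]
    intro k _
    obtain ⟨y, rfl⟩ := QuotientGroup.mk'_surjective _ k
    exact (mem_up Y).1 (h1 y.2)
  · right
    intro k hk
    rw [mem_center_iff]
    intro z
    obtain ⟨y, rfl⟩ := QuotientGroup.mk'_surjective _ z
    obtain ⟨n, rfl⟩ := QuotientGroup.mk'_surjective _ k
    have h2 := h1 n ((mem_up Y).2 hk) y y.2
    have h3 : pc p (up Y p K) ≤ pc p Y := by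
      refine le_pc ((pc_le p _).trans (up_le Y p K)) ?_ (isPGroup_pc p _)
      refine le_trans ?_ (normalizer_le_normalizer_pc p (up Y p K))
      rw [Subgroup.normalizer_eq_top]; exact le_top
    obtain ⟨w, hw, hwe⟩ := h3 h2
    have h4 : n * y * n⁻¹ * y⁻¹ ∈ pCore p Y := by
      have : w = n * y * n⁻¹ * y⁻¹ := Subtype.ext hwe
      rw [← this]; exact hw
    rw [← QuotientGroup.eq_one_iff] at h4
    have h5 : QuotientGroup.mk' (pCore p Y) (n * y * n⁻¹ * y⁻¹) = 1 := h4
    rw [map_mul, map_mul, map_mul, map_inv, map_inv] at h5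
    calc QuotientGroup.mk' (pCore p Y) y * QuotientGroup.mk' (pCore p Y) n =
        (QuotientGroup.mk' (pCore p Y) n * QuotientGroup.mk' (pCore p Y) y * (QuotientGroup.mk' (pCore p Y) n)⁻¹ * (QuotientGroup.mk' (pCore p Y) y)⁻¹)⁻¹ *
        (QuotientGroup.mk' (pCore p Y) n * QuotientGroup.mk' (pCore p Y) y) := by group
      _ = _ := by rw [h5, inv_one, one_mul]

include hY in
/-- `[X, Q]` is not contained in `O_p(Y)`. -/
theorem comm_ne [hO : (pc p Y).Normal] : ⁅(resOf p P).map (QuotientGroup.mk' (pc p Y)), (pc p L).map (QuotientGroup.mk' (pc p Y))⁆ ≠ ⊥ := by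
  intro h1
  rw [Subgroup.commutator_eq_bot_iff_le_centralizer] at h1
  set π := QuotientGroup.mk' (pc p Y) with hπ
  have hsurj : Function.Surjective π := QuotientGroup.mk'_surjective _
  set T := ((pc p L).map π).comap π with hT
  have hTQ : pc p L ≤ T := Subgroup.le_comap_map _ _
  have hOS : pc p Y ≤ (S : Subgroup G) :=
    (H1.Cores.le_pCore hO (isPGroup_pc p Y)).trans (H1.Cores.pCore_le_sylow S)
  have hTS : T ≤ (S : Subgroup G) := by
    rw [hT, Subgroup.comap_map_eq, QuotientGroup.ker_mk']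
    exact sup_le h.Q_le hOS
  have hST : (S : Subgroup G) ≤ normalizer (T : Set G) := by
    apply H1.Coprime.le_normalizer_of_conj_mem
    intro s hs x hx
    obtain ⟨q, hq, hqx⟩ := hx
    refine ⟨s * q * s⁻¹, ?_, ?_⟩
    · exact (mem_normalizer_iff.1 (le_normalizer_pc p L (h.S_le hs)) q).1 hq
    · rw [map_mul, map_mul, map_mul, map_mul, hqx]
  have hXT : resOf p P ≤ normalizer (T : Set G) := by
    apply H1.Coprime.le_normalizer_of_conj_mem
    intro s hs x hx
    obtain ⟨q, hq, hqx⟩ := hx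
    refine ⟨q, hq, ?_⟩
    have h2 := mem_centralizer_iff.1 (h1 ⟨s, hs, rfl⟩) (π q) ⟨q, hq, rfl⟩
    rw [map_mul, map_mul, map_inv, ← hqx, ← h2]; group
  have hPT : P ≤ normalizer (T : Set G) := by
    rw [← h.sup_res]
    exact sup_le hST hXT
  have h2 : T ≤ pc p P := le_pc (hTS.trans h.hSP) hPT (S.2.to_le hTS)
  exact h.hiso (hTQ.trans h2)

include hY in
/-- The `p'`-case. -/
theorem pprime (hdvd : ¬ p ∣ (pCore p Y).index) : resOf p P = Y ∧ ∃ t : ℕ, t.Prime ∧ t ≠ p ∧
    IsPGroup t (↥Y ⧸ pCore p ↥Y) ∧ ∀ a ∈ Y, ∀ b ∈ Y, ∀ c ∈ Y, ⁅⁅a, b⁆, c⁆ ∈ pc p Y := by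
  have hYn := Y_normal hY
  have hO := h.pc_normal hY
  set O := pc p Y with hOdef
  have hOY : O ≤ Y := pc_le p Y
  set π := QuotientGroup.mk' O with hπ
  have hsurj : Function.Surjective π := QuotientGroup.mk'_surjective _
  have hcard : Nat.card (Y.map π) = (pCore p Y).index := by
    have h1 := Subgroup.relIndex_ker Y π
    rw [QuotientGroup.ker_mk'] at h1
    rw [← h1]
    exact H28.RelSyl.relIndex_map_subtype _
  have hYbn : (Y.map π).Normal := hYn.map _ hsurj
  have hcop : (Nat.card (Y.map π)).Coprime p := by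
    rw [hcard]; exact ((Nat.Prime.coprime_iff_not_dvd hp.out).2 hdvd).symm
  have hSp : IsPGroup p ((S : Subgroup G).map π) := S.2.map π
  have hnorm : ∀ {A B : Subgroup G}, A ≤ normalizer (B : Set G) → A.map π ≤ normalizer (B.map π : Set (G ⧸ O)) := by
    intro A B hAB
    apply H1.Coprime.le_normalizer_of_conj_mem
    rintro _ ⟨a, ha, rfl⟩ _ ⟨b, hb, rfl⟩
    exact ⟨a * b * a⁻¹, (mem_normalizer_iff.1 (hAB ha) b).1 hb, by rw [map_mul, map_mul, map_inv]⟩
  have hXS : (S : Subgroup G) ≤ normalizer (resOf p P : Set G) := h.hSP.trans (le_normalizer_resOf P)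
  have hdich : ∀ T : Subgroup (G ⧸ O), T ≤ Y.map π → (S : Subgroup G).map π ≤ normalizer (T : Set (G ⧸ O)) →
      (resOf p P).map π ≤ T ∨ ⁅T, (pc p L).map π⁆ = ⊥ := by
    intro T hTY hST
    have hmap : (T.comap π).map π = T := Subgroup.map_comap_eq_self_of_surjective hsurj T
    have h1 : (S : Subgroup G) ≤ normalizer ((T.comap π : Subgroup G) : Set G) := by
      apply H1.Coprime.le_normalizer_of_conj_mem
      intro s hs x hx
      show π (s * x * s⁻¹) ∈ T
      rw [map_mul, map_mul, map_inv]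
      exact (mem_normalizer_iff.1 (hST ⟨s, hs, rfl⟩) (π x)).1 hx
    rcases h.dich h1 with h2 | h2
    · left
      rw [← hmap]; exact Subgroup.map_mono h2
    · right
      rw [Subgroup.commutator_comm]
      apply commutator_eq_bot_of_coprime ((isPGroup_pc p L).map π)
      · exact Nat.Coprime.coprime_dvd_left (Subgroup.card_dvd_of_le hTY) hcop
      · exact (Subgroup.map_mono h.Q_le).trans hST
      · rw [← hmap]
        exact hnorm (h2.trans (le_normalizer_pc p L))
  have hXQ := h.comm_ne hY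
  have hQS : (pc p L).map π ≤ (S : Subgroup G).map π := Subgroup.map_mono h.Q_le
  have hXY : (resOf p P).map π ≤ Y.map π := Subgroup.map_mono (res_le_Y hY)
  have hcl : ∀ N : Subgroup (G ⧸ O), N.Normal → (resOf p P).map π ≤ N → Y.map π ≤ N := by
    intro N hN hXN
    rw [Subgroup.map_le_iff_le_comap] at hXN ⊢
    exact Y_le hY (hN.comap π) hXN
  have hD : ⁅Y.map π, (pc p L).map π⁆ = Y.map π := by
    apply le_antisymm (commutator_le_left (by rw [Subgroup.normalizer_eq_top]; exact le_top))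
    have hDn : (⁅Y.map π, (pc p L).map π⁆ : Subgroup (G ⧸ O)).Normal := by
      rw [← Subgroup.normalizer_eq_top_iff, eq_top_iff]
      have h1 : (⊤ : Subgroup (G ⧸ O)) = Y.map π ⊔ L.map π := by
        rw [← Subgroup.map_sup, h.Y_sup_L hY, Subgroup.map_top_of_surjective π hsurj]
      rw [h1]
      refine sup_le (le_normalizer_commutator_left _ _) (le_normalizer_commutator ?_ (hnorm (le_normalizer_pc p L)))
      rw [Subgroup.normalizer_eq_top]; exact le_top
    apply hcl _ hDn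
    refine (hdich _ (commutator_le_left (by rw [Subgroup.normalizer_eq_top]; exact le_top))
      (by rw [Subgroup.normalizer_eq_top]; exact le_top)).resolve_right ?_
    intro h1
    apply hXQ
    have hQp : IsPGroup p ((pc p L).map π) := (isPGroup_pc p L).map π
    have h2 : ⁅Y.map π, (pc p L).map π⁆ = ⊥ := by
      refine commutator_eq_bot_of _ _ (by rw [Subgroup.normalizer_eq_top]; exact le_top) ?_ (Or.inl ?_) h1
      · obtain ⟨k, hk⟩ := IsPGroup.iff_card.1 hQp
        rw [hk]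
        exact Nat.Coprime.pow_left k hcop.symm
      · have : Group.IsNilpotent ((pc p L).map π) := hQp.isNilpotent
        infer_instance
    rw [eq_bot_iff, ← h2]
    exact Subgroup.commutator_mono hXY le_rfl
  obtain ⟨hXY', t, ht, htp, hYt, hcls⟩ := pprime_case (p := p) hcop hSp hQS (hnorm (h.S_le.trans (le_normalizer_pc p L)))
    (hnorm hXS) hdich hXQ hD hcl hXY
  have hOS : O ≤ (S : Subgroup G) :=
    (H1.Cores.le_pCore hO (isPGroup_pc p Y)).trans (H1.Cores.pCore_le_sylow S)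
  have hYP : Y ≤ P := by
    intro y hy
    have h1 : π y ∈ (resOf p P).map π := by rw [hXY']; exact ⟨y, hy, rfl⟩
    obtain ⟨x, hx, hxy⟩ := h1
    have h2 : x⁻¹ * y ∈ O := by
      rw [← QuotientGroup.eq_one_iff]
      show π (x⁻¹ * y) = 1
      rw [map_mul, map_inv, hxy]; group
    have h3 : y = x * (x⁻¹ * y) := by group
    rw [h3]
    exact mul_mem (resOf_le P hx) (h.hSP (hOS h2))
  refine ⟨le_antisymm (res_le_Y hY) ((Y_le_res hY).trans (resOf_mono hYP)), t, ht, htp, ?_, ?_⟩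
  · intro k
    obtain ⟨y, rfl⟩ := QuotientGroup.mk'_surjective _ k
    obtain ⟨n, hn⟩ := hYt ⟨π y, ⟨y, y.2, rfl⟩⟩
    refine ⟨n, ?_⟩
    have h1 : π ((y : G) ^ t ^ n) = 1 := by rw [map_pow]; exact congrArg Subtype.val hn
    have h2 : (y : G) ^ t ^ n ∈ O := (QuotientGroup.eq_one_iff _).1 h1
    obtain ⟨w, hw, hwe⟩ := h2
    rw [← map_pow]
    apply (QuotientGroup.eq_one_iff _).2
    have : w = y ^ t ^ n := Subtype.ext hwe
    rw [← this]; exact hw
  · intro a ha b hb c hc
    have h1 := hcls (π a) ⟨a, ha, rfl⟩ (π b) ⟨b, hb, rfl⟩ (π c) ⟨c, hc, rfl⟩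
    rw [← map_commutatorElement, ← map_commutatorElement] at h1
    exact (QuotientGroup.eq_one_iff _).1 h1

end Setup

end H56.Iso
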