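import Mathlib
import Cfsg.Agent.Lib.H56.Iso3

set_option autoImplicit false

/-! Isolated `p`-minimal subgroups: the layer of `Y/O_p(Y)`. -/

namespace H56.Iso

open Subgroup Cfsg H26.LocalFitting H52.PRes H1.Coprime2
open scoped commutatorElement

variable {G : Type*} [Group G] [Finite G] {p : ℕ} [hp : Fact p.Prime]

theorem mem_norm_of_conj' {A : Type*} [Group A] [Finite A] {B : Subgroup A} {g : A} (h : ∀ a ∈ B, g * a * g⁻¹ ∈ B) :
    g ∈ normalizer (B : Set A) := by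
  have h1 : B.map (MulAut.conj g).toMonoidHom ≤ B := by
    rintro _ ⟨a, ha, rfl⟩
    exact h a ha
  have h2 : B.map (MulAut.conj g).toMonoidHom = B := by
    apply Subgroup.eq_of_le_of_card_ge h1
    rw [Nat.card_congr (B.equivMapOfInjective _ (MulAut.conj g).injective).symm.toEquiv]
  rw [mem_normalizer_iff]
  intro y
  constructor
  · exact h y
  · intro hy
    have h3 : g * y * g⁻¹ ∈ B.map (MulAut.conj g).toMonoidHom := by rw [h2]; exact hy
    obtain ⟨z, hz, hzy⟩ := h3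
    have h4 : g * z * g⁻¹ = g * y * g⁻¹ := hzy
    have h5 : z = y := mul_left_cancel (mul_right_cancel h4)
    rw [← h5]; exact hz

namespace Setup

variable {S : Sylow p G} {P L : Subgroup G} (h : Setup S P L) {Y : Subgroup G}
  (hY : Y = normalClosure (resOf p P : Set G))

include h hY

theorem quot_nontrivial : (⊤ : Subgroup (↥Y ⧸ pCore p ↥Y)) ≠ ⊥ := by
  intro h1
  apply h.Y_not_pgroup hY
  have h2 : pCore p Y = ⊤ := by
    rw [eq_top_iff]
    intro y _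
    rw [← QuotientGroup.eq_one_iff]
    have h3 : (y : ↥Y ⧸ pCore p ↥Y) ∈ (⊤ : Subgroup (↥Y ⧸ pCore p ↥Y)) := trivial
    rw [h1] at h3
    exact Subgroup.mem_bot.1 h3
  have h3 := H1.Cores.isPGroup_pCore (G := Y) p
  rw [h2] at h3
  intro g
  obtain ⟨k, hk⟩ := h3 ⟨g, mem_top g⟩
  exact ⟨k, congrArg Subtype.val hk⟩

theorem gFitting_top : generalizedFittingSubgroup (↥Y ⧸ pCore p ↥Y) = ⊤ := by
  rcases h.charDich hY (generalizedFittingSubgroup (↥Y ⧸ pCore p ↥Y)) with h1 | h1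
  · exact h1
  · rw [eq_top_iff]
    refine le_trans ?_ (H26.Components.centralizer_gFitting_le (G := ↥Y ⧸ pCore p ↥Y))
    intro x _
    rw [mem_centralizer_iff]
    intro y hy
    exact (mem_center_iff.1 (h1 hy) x).symm

theorem layer_or : layer (↥Y ⧸ pCore p ↥Y) = ⊤ ∨ (Group.IsNilpotent (↥Y ⧸ pCore p ↥Y) ∧ ¬ p ∣ (pCore p Y).index) := by
  rcases h.charDich hY (layer (↥Y ⧸ pCore p ↥Y)) with h1 | h1
  · exact Or.inl h1
  · right
    have h2 : layer (↥Y ⧸ pCore p ↥Y) = ⊥ := by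
      rw [← H26.Components.commutator_layer_self, Subgroup.commutator_eq_bot_iff_le_centralizer]
      intro x hx
      rw [mem_centralizer_iff]
      intro y hy
      exact mem_center_iff.1 (h1 hx) y
    have h3 := h.gFitting_top hY
    rw [generalizedFittingSubgroup, h2, bot_sup_eq] at h3
    have h4 : Group.IsNilpotent (↥Y ⧸ pCore p ↥Y) := by
      have h5 := H1.Cores.isNilpotent_fittingSubgroup (G := ↥Y ⧸ pCore p ↥Y)
      rw [h3] at h5
      exact Group.nilpotent_of_mulEquiv Subgroup.topEquiv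
    refine ⟨h4, ?_⟩
    intro hd
    have hbot : pCore p (↥Y ⧸ pCore p ↥Y) = ⊥ := H1.Cores.pCore_quotient_pCore p
    obtain ⟨T⟩ : Nonempty (Sylow p (↥Y ⧸ pCore p ↥Y)) := inferInstance
    have hTn : (T : Subgroup (↥Y ⧸ pCore p ↥Y)).Normal := by
      have := (Group.isNilpotent_of_finite_tfae (G := ↥Y ⧸ pCore p ↥Y)).out 0 3
      exact this.1 h4 p hp T
    have hT1 : (T : Subgroup (↥Y ⧸ pCore p ↥Y)) = ⊥ := by
      rw [eq_bot_iff, ← hbot]
      exact H1.Cores.le_pCore hTn T.2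
    have h5 := T.card_eq_multiplicity
    rw [hT1, Subgroup.card_bot] at h5
    have h6 : p ∣ Nat.card (↥Y ⧸ pCore p ↥Y) := hd
    have h7 : (Nat.card (↥Y ⧸ pCore p ↥Y)).factorization p = 0 := by
      by_contra h8
      have := Nat.one_lt_pow h8 hp.out.one_lt
      omega
    rw [Nat.factorization_eq_zero_iff] at h7
    rcases h7 with h7 | h7 | h7
    · exact h7 hp.out
    · exact h7 h6
    · exact Nat.card_pos.ne' h7

omit h hY in
theorem map_sSup_le {A : Type*} [Group A] (f : A →* A) (𝒮 : Set (Subgroup A)) (hf : ∀ K ∈ 𝒮, K.map f ∈ 𝒮) :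
    (sSup 𝒮).map f ≤ sSup 𝒮 := by
  rw [Subgroup.map_le_iff_le_comap]
  apply sSup_le
  intro K hK
  rw [← Subgroup.map_le_iff_le_comap]
  exact le_sSup (hf K hK)

omit h hY in
theorem le_norm_up {Y : Subgroup G} [hYn : Y.Normal] (A : Subgroup G) (𝒮 : Set (Subgroup (↥Y ⧸ pCore p ↥Y)))
    (hf : ∀ a ∈ A, ∀ K ∈ 𝒮, K.map (act Y p a : (↥Y ⧸ pCore p ↥Y) →* (↥Y ⧸ pCore p ↥Y)) ∈ 𝒮) :
    A ≤ normalizer (up Y p (sSup 𝒮) : Set G) := by
  apply H1.Coprime.le_normalizer_of_conj_mem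
  intro a ha x hx
  have h1 : a * x * a⁻¹ ∈ (up Y p (sSup 𝒮)).map (MulAut.conj a).toMonoidHom := ⟨x, hx, rfl⟩
  rw [← up_act] at h1
  obtain ⟨y, hy, hyx⟩ := h1
  exact ⟨y, map_sSup_le _ 𝒮 (hf a ha) hy, hyx⟩

/-- If a normal subgroup of `Y` normalized by `S` lies in `L`, it is centralized by `Q` modulo `O_p(Y)`. -/
theorem comm_mem {N : Subgroup G} (hNY : N ≤ Y) (hYN : Y ≤ normalizer (N : Set G))
    (hSN : (S : Subgroup G) ≤ normalizer (N : Set G)) (hNL : N ≤ L) :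
    ∀ n ∈ N, ∀ q ∈ pc p L, n * q * n⁻¹ * q⁻¹ ∈ pc p Y := by
  intro n hn q hq
  have h1 : pc p N ≤ pc p Y := by
    refine le_pc ((pc_le p _).trans hNY) ?_ (isPGroup_pc p _)
    exact hYN.trans (normalizer_le_normalizer_pc p N)
  apply h1
  have h2 : N ⊓ pc p L ≤ pc p N := by
    refine le_pc inf_le_left ?_ ((isPGroup_pc p L).to_le inf_le_right)
    exact le_normalizer_inf le_normalizer (hNL.trans (le_normalizer_pc p L))
  apply h2
  refine mem_inf.2 ⟨?_, ?_⟩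
  · have e : n * q * n⁻¹ * q⁻¹ = n * (q * n⁻¹ * q⁻¹) := by group
    rw [e]
    exact mul_mem hn ((mem_normalizer_iff.1 (hSN (h.Q_le hq)) _).1 (inv_mem hn))
  · exact mul_mem ((mem_normalizer_iff.1 (le_normalizer_pc p L (hNL hn)) q).1 hq) (inv_mem hq)

theorem comp_not_comm (hlay : layer (↥Y ⧸ pCore p ↥Y) = ⊤) {K₀ : Subgroup (↥Y ⧸ pCore p ↥Y)} (hK₀ : IsComponent K₀)
    (hK₀Q : ∀ n ∈ up Y p K₀, ∀ q ∈ pc p L, n * q * n⁻¹ * q⁻¹ ∈ pc p Y) : False := by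
  have hYn := Y_normal hY
  have hO := h.pc_normal hY
  set 𝒮 : Set (Subgroup (↥Y ⧸ pCore p ↥Y)) := {K | IsComponent K ∧ ∀ n ∈ up Y p K, ∀ q ∈ pc p L, n * q * n⁻¹ * q⁻¹ ∈ pc p Y} with h𝒮
  have hYinv : ∀ y ∈ Y, ∀ K : Subgroup (↥Y ⧸ pCore p ↥Y), IsComponent K →
      K.map (act Y p y : (↥Y ⧸ pCore p ↥Y) →* (↥Y ⧸ pCore p ↥Y)) = K := by
    intro y hy K hK
    have hKn : K.Normal := by
      rw [← Subgroup.normalizer_eq_top_iff, eq_top_iff, ← hlay]
      exact H26.Components.layer_le_normalizer hK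
    apply Subgroup.eq_of_le_of_card_ge
    · rintro _ ⟨k, hk, rfl⟩
      obtain ⟨z, rfl⟩ := QuotientGroup.mk'_surjective _ k
      show act Y p y (QuotientGroup.mk' (pCore p ↥Y) z) ∈ K
      rw [act_mk]
      have h1 : (MulAut.conjNormal y : MulAut Y) z = ⟨y, hy⟩ * z * (⟨y, hy⟩ : Y)⁻¹ := Subtype.ext (MulAut.conjNormal_apply y z)
      rw [h1, map_mul, map_mul, map_inv]
      exact hKn.conj_mem _ hk _
    · exact (Nat.card_congr (K.equivMapOfInjective (act Y p y : (↥Y ⧸ pCore p ↥Y) →* (↥Y ⧸ pCore p ↥Y)) (act Y p y).injective).toEquiv).le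
  have hLinv : ∀ l ∈ L, ∀ K ∈ 𝒮, K.map (act Y p l : (↥Y ⧸ pCore p ↥Y) →* (↥Y ⧸ pCore p ↥Y)) ∈ 𝒮 := by
    rintro l hl K ⟨hK, hKQ⟩
    refine ⟨(H26.Components.map_mulEquiv_iff _).2 hK, ?_⟩
    intro n hn q hq
    rw [up_act] at hn
    obtain ⟨m, hm, rfl⟩ := hn
    have h1 : l⁻¹ * q * l ∈ pc p L := by
      have := (mem_normalizer_iff.1 (inv_mem (le_normalizer_pc p L hl)) q).1 hq
      rwa [inv_inv] at this
    have h2 := hO.conj_mem _ (hKQ m hm _ h1) l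
    have e : (MulAut.conj l).toMonoidHom m * q * ((MulAut.conj l).toMonoidHom m)⁻¹ * q⁻¹ =
        l * (m * (l⁻¹ * q * l) * m⁻¹ * (l⁻¹ * q * l)⁻¹) * l⁻¹ := by
      show (l * m * l⁻¹) * q * (l * m * l⁻¹)⁻¹ * q⁻¹ = _
      group
    rw [e]; exact h2
  have hN : (up Y p (sSup 𝒮)).Normal := by
    rw [← Subgroup.normalizer_eq_top_iff, eq_top_iff, ← h.Y_sup_L hY]
    refine sup_le (le_norm_up Y 𝒮 ?_) (le_norm_up L 𝒮 hLinv)
    intro y hy K hK
    rw [hYinv y hy K hK.1]; exact hK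
  rcases h.star hY (up Y p (sSup 𝒮)) with h1 | h1
  · -- everything is centralized by `Q`
    apply h.comm_ne hY
    rw [Subgroup.commutator_eq_bot_iff_le_centralizer]
    rintro _ ⟨x, hx, rfl⟩
    rw [mem_centralizer_iff]
    rintro _ ⟨q, hq, rfl⟩
    let Z : Subgroup (↥Y ⧸ pCore p ↥Y) :=
      { carrier := {z | act Y p q z = z}
        one_mem' := map_one _
        mul_mem' := by
          intro a b ha hb
          show act Y p q (a * b) = a * b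
          rw [map_mul, ha, hb]
        inv_mem' := by
          intro a ha
          show act Y p q a⁻¹ = a⁻¹
          rw [map_inv, ha] }
    have h2 : sSup 𝒮 ≤ Z := by
      apply sSup_le
      rintro K ⟨hK, hKQ⟩ k hk
      obtain ⟨z, rfl⟩ := QuotientGroup.mk'_surjective _ k
      show act Y p q (QuotientGroup.mk' (pCore p ↥Y) z) = QuotientGroup.mk' (pCore p ↥Y) z
      rw [act_mk]
      apply QuotientGroup.eq.2
      obtain ⟨w, hw, hwe⟩ := hKQ z ((mem_up Y).2 hk) q hq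
      have h5 : ((MulAut.conjNormal q : MulAut Y) z)⁻¹ * z = ((MulAut.conjNormal q : MulAut Y) z)⁻¹ * w * ((MulAut.conjNormal q : MulAut Y) z) := by
        apply Subtype.ext
        have h6 : ((w : Y) : G) = (z : G) * q * (z : G)⁻¹ * q⁻¹ := hwe
        show ((((MulAut.conjNormal q : MulAut Y) z : Y) : G))⁻¹ * (z : G) = ((((MulAut.conjNormal q : MulAut Y) z : Y) : G))⁻¹ * (w : G) * ((((MulAut.conjNormal q : MulAut Y) z : Y) : G))
        rw [MulAut.conjNormal_apply, h6]; group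
      rw [h5]
      have h7 := (inferInstance : (pCore p ↥Y).Normal).conj_mem _ hw ((MulAut.conjNormal q : MulAut Y) z)⁻¹
      rwa [inv_inv] at h7
    have h3 : QuotientGroup.mk' (pCore p ↥Y) ⟨x, res_le_Y hY hx⟩ ∈ Z := h2 ((mem_up Y).1 (h1 (res_le_Y hY hx)))
    have h4 : act Y p q (QuotientGroup.mk' (pCore p ↥Y) ⟨x, res_le_Y hY hx⟩) = QuotientGroup.mk' (pCore p ↥Y) ⟨x, res_le_Y hY hx⟩ := h3
    rw [act_mk] at h4
    have h5 := QuotientGroup.eq.1 h4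
    have h6 : (q * x * q⁻¹)⁻¹ * x ∈ pc p Y := by
      refine ⟨_, h5, ?_⟩
      show ((((MulAut.conjNormal q : MulAut Y) ⟨x, res_le_Y hY hx⟩ : Y) : G))⁻¹ * x = _
      rw [MulAut.conjNormal_apply]
    have h7 : QuotientGroup.mk' (pc p Y) ((q * x * q⁻¹)⁻¹ * x) = 1 := (QuotientGroup.eq_one_iff _).2 h6
    rw [map_mul, map_inv, map_mul, map_mul, map_inv] at h7
    have h8 := inv_mul_eq_one.1 h7
    calc QuotientGroup.mk' (pc p Y) q * QuotientGroup.mk' (pc p Y) x =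
        (QuotientGroup.mk' (pc p Y) q * QuotientGroup.mk' (pc p Y) x * (QuotientGroup.mk' (pc p Y) q)⁻¹) * QuotientGroup.mk' (pc p Y) q := by group
      _ = QuotientGroup.mk' (pc p Y) x * QuotientGroup.mk' (pc p Y) q := by rw [h8]
  · -- `K₀` is central
    apply H26.Components.not_commutative hK₀
    rw [Subgroup.commutator_eq_bot_iff_le_centralizer]
    have h3 : pc p (up Y p (sSup 𝒮)) ≤ pc p Y := by
      refine le_pc ((pc_le p _).trans (up_le Y p _)) ?_ (isPGroup_pc p _)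
      refine le_trans ?_ (normalizer_le_normalizer_pc p _)
      rw [Subgroup.normalizer_eq_top_iff.2 hN]; exact le_top
    intro k hk
    rw [mem_centralizer_iff]
    intro z hz
    obtain ⟨k, rfl⟩ := QuotientGroup.mk'_surjective _ k
    obtain ⟨z, rfl⟩ := QuotientGroup.mk'_surjective _ z
    have hzS : QuotientGroup.mk' (pCore p ↥Y) z ∈ sSup 𝒮 := (le_sSup (show K₀ ∈ 𝒮 from ⟨hK₀, hK₀Q⟩)) hz
    obtain ⟨w, hw, hwe⟩ := h3 (h1 z ((mem_up Y).2 hzS) k k.2)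
    have h4 : z * k * z⁻¹ * k⁻¹ ∈ pCore p Y := by
      have : w = z * k * z⁻¹ * k⁻¹ := Subtype.ext hwe
      rw [← this]; exact hw
    have h5 : QuotientGroup.mk' (pCore p Y) (z * k * z⁻¹ * k⁻¹) = 1 := (QuotientGroup.eq_one_iff _).2 h4
    rw [map_mul, map_mul, map_mul, map_inv, map_inv] at h5
    calc QuotientGroup.mk' (pCore p Y) z * QuotientGroup.mk' (pCore p Y) k =
        (QuotientGroup.mk' (pCore p Y) z * QuotientGroup.mk' (pCore p Y) k * (QuotientGroup.mk' (pCore p Y) z)⁻¹ * (QuotientGroup.mk' (pCore p Y) k)⁻¹) *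
        (QuotientGroup.mk' (pCore p Y) k * QuotientGroup.mk' (pCore p Y) z) := by group
      _ = _ := by rw [h5, one_mul]

/-- `S` permutes the components transitively. -/
theorem trans (hlay : layer (↥Y ⧸ pCore p ↥Y) = ⊤) {K₁ K₂ : Subgroup (↥Y ⧸ pCore p ↥Y)} (hK₁ : IsComponent K₁)
    (hK₂ : IsComponent K₂) : ∃ s ∈ (S : Subgroup G), up Y p K₂ = (up Y p K₁).map (MulAut.conj s).toMonoidHom := by
  have hYn := Y_normal hY
  by_contra hcon
  set 𝒮₁ : Set (Subgroup (↥Y ⧸ pCore p ↥Y)) := {K | IsComponent K ∧ ∃ s ∈ (S : Subgroup G), up Y p K = (up Y p K₁).map (MulAut.conj s).toMonoidHom} with h𝒮₁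
  set 𝒮₂ : Set (Subgroup (↥Y ⧸ pCore p ↥Y)) := {K | IsComponent K ∧ ¬ ∃ s ∈ (S : Subgroup G), up Y p K = (up Y p K₁).map (MulAut.conj s).toMonoidHom} with h𝒮₂
  have hmapmap : ∀ (a b : G) (T : Subgroup G), (T.map (MulAut.conj a).toMonoidHom).map (MulAut.conj b).toMonoidHom =
      T.map (MulAut.conj (b * a)).toMonoidHom := by
    intro a b T
    rw [Subgroup.map_map]
    congr 1
    ext x
    show b * (a * x * a⁻¹) * b⁻¹ = (b * a) * x * (b * a)⁻¹
    group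
  have hinv1 : ∀ s ∈ (S : Subgroup G), ∀ K ∈ 𝒮₁, K.map (act Y p s : (↥Y ⧸ pCore p ↥Y) →* (↥Y ⧸ pCore p ↥Y)) ∈ 𝒮₁ := by
    rintro s hs K ⟨hK, t, ht, htK⟩
    refine ⟨(H26.Components.map_mulEquiv_iff _).2 hK, s * t, mul_mem hs ht, ?_⟩
    rw [up_act, htK, hmapmap]
  have hinv2 : ∀ s ∈ (S : Subgroup G), ∀ K ∈ 𝒮₂, K.map (act Y p s : (↥Y ⧸ pCore p ↥Y) →* (↥Y ⧸ pCore p ↥Y)) ∈ 𝒮₂ := by
    rintro s hs K ⟨hK, hKn⟩
    refine ⟨(H26.Components.map_mulEquiv_iff _).2 hK, ?_⟩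
    rintro ⟨t, ht, htK⟩
    apply hKn
    refine ⟨s⁻¹ * t, mul_mem (inv_mem hs) ht, ?_⟩
    rw [up_act] at htK
    have h1 := congrArg (fun T : Subgroup G => T.map (MulAut.conj s⁻¹).toMonoidHom) htK
    simp only [hmapmap] at h1
    rw [inv_mul_cancel] at h1
    have h2 : (up Y p K).map (MulAut.conj (1 : G)).toMonoidHom = up Y p K := by
      ext x
      constructor
      · rintro ⟨y, hy, rfl⟩
        show (1 : G) * y * 1⁻¹ ∈ _
        simpa using hy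
      · intro hx
        exact ⟨x, hx, by show (1 : G) * x * 1⁻¹ = x; simp⟩
    rw [h2] at h1
    exact h1
  have hnorm : ∀ K : Subgroup (↥Y ⧸ pCore p ↥Y), IsComponent K → K.Normal := by
    intro K hK
    rw [← Subgroup.normalizer_eq_top_iff, eq_top_iff, ← hlay]
    exact H26.Components.layer_le_normalizer hK
  have hYnorm : ∀ N : Subgroup (↥Y ⧸ pCore p ↥Y), N.Normal → Y ≤ normalizer (up Y p N : Set G) := by
    intro N hN
    apply H1.Coprime.le_normalizer_of_conj_mem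
    rintro y hy _ ⟨x, hx, rfl⟩
    refine ⟨⟨y, hy⟩ * x * (⟨y, hy⟩ : Y)⁻¹, ?_, rfl⟩
    show QuotientGroup.mk' (pCore p ↥Y) (⟨y, hy⟩ * x * (⟨y, hy⟩ : Y)⁻¹) ∈ N
    rw [map_mul, map_mul, map_inv]
    exact hN.conj_mem _ hx _
  have hsup : ∀ 𝒮 : Set (Subgroup (↥Y ⧸ pCore p ↥Y)), (∀ K ∈ 𝒮, IsComponent K) → (sSup 𝒮).Normal := by
    intro 𝒮 h1
    rw [← Subgroup.normalizer_eq_top_iff, eq_top_iff]
    intro g _
    apply mem_norm_of_conj'
    intro a ha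
    have h2 : sSup 𝒮 ≤ (sSup 𝒮).comap (MulAut.conj g).toMonoidHom := by
      apply sSup_le
      intro K hK k hk
      have h3 := (hnorm K (h1 K hK)).conj_mem k hk g
      exact le_sSup hK h3
    exact h2 ha
  have key : ∀ 𝒮 : Set (Subgroup (↥Y ⧸ pCore p ↥Y)), (∀ K ∈ 𝒮, IsComponent K) →
      (∀ s ∈ (S : Subgroup G), ∀ K ∈ 𝒮, K.map (act Y p s : (↥Y ⧸ pCore p ↥Y) →* (↥Y ⧸ pCore p ↥Y)) ∈ 𝒮) →
      (∃ K, K ∈ 𝒮) → resOf p P ≤ up Y p (sSup 𝒮) := by
    rintro 𝒮 hc hi ⟨K, hK⟩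
    have hS := le_norm_up (S : Subgroup G) 𝒮 hi
    refine (h.dich hS).resolve_right ?_
    intro h1
    have h2 := h.comm_mem hY (up_le Y p _) (hYnorm _ (hsup 𝒮 hc)) hS h1
    refine h.comp_not_comm hY hlay (hc K hK) ?_
    intro n hn q hq
    refine h2 n ?_ q hq
    obtain ⟨y, hy, rfl⟩ := hn
    exact ⟨y, (le_sSup hK) hy, rfl⟩
  have hX1 := key 𝒮₁ (fun K hK => hK.1) hinv1 ⟨K₁, hK₁, 1, one_mem _, by
    ext x
    constructor
    · intro hx
      exact ⟨x, hx, by show (1 : G) * x * 1⁻¹ = x; simp⟩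
    · rintro ⟨y, hy, rfl⟩
      show (1 : G) * y * 1⁻¹ ∈ _
      simpa using hy⟩
  have hX2 := key 𝒮₂ (fun K hK => hK.1) hinv2 ⟨K₂, hK₂, hcon⟩
  have hcomm12 : ⁅sSup 𝒮₁, sSup 𝒮₂⁆ = ⊥ := by
    apply H26.Basic.commutator_sSup_left_eq_bot
    intro K hK
    rw [Subgroup.commutator_comm]
    apply H26.Basic.commutator_sSup_left_eq_bot
    intro K' hK'
    apply H26.Components.commutator_eq_bot_of_ne hK'.1 hK.1
    rintro rfl
    exact hK'.2 hK.2
  have hXZ : resOf p P ≤ up Y p (center _) := by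
    intro x hx
    have hxY := res_le_Y hY hx
    have h1 : QuotientGroup.mk' (pCore p ↥Y) ⟨x, hxY⟩ ∈ sSup 𝒮₁ := (mem_up Y (y := ⟨x, hxY⟩)).1 (hX1 hx)
    have h2 : QuotientGroup.mk' (pCore p ↥Y) ⟨x, hxY⟩ ∈ sSup 𝒮₂ := (mem_up Y (y := ⟨x, hxY⟩)).1 (hX2 hx)
    refine (mem_up Y (y := ⟨x, hxY⟩)).2 ?_
    have h3 : layer (↥Y ⧸ pCore p ↥Y) ≤ centralizer {QuotientGroup.mk' (pCore p ↥Y) ⟨x, hxY⟩} := by
      apply sSup_le
      intro K hK k hk
      rw [mem_centralizer_singleton_iff]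
      by_cases hKS : K ∈ 𝒮₁
      · have h4 := Subgroup.commutator_eq_bot_iff_le_centralizer.1 hcomm12 ((le_sSup hKS) hk)
        exact (mem_centralizer_iff.1 h4 _ h2).symm
      · have hKS2 : K ∈ 𝒮₂ := ⟨hK, fun hc => hKS ⟨hK, hc⟩⟩
        have h4 := Subgroup.commutator_eq_bot_iff_le_centralizer.1 hcomm12 h1
        exact mem_centralizer_iff.1 h4 _ ((le_sSup hKS2) hk)
    rw [mem_center_iff]
    intro z
    have h4 : z ∈ layer (↥Y ⧸ pCore p ↥Y) := by rw [hlay]; trivial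
    exact mem_centralizer_singleton_iff.1 (h3 h4)
  have hZ := Y_le hY (up_normal Y (center (↥Y ⧸ pCore p ↥Y))) hXZ
  apply H26.Components.not_commutative hK₁
  rw [Subgroup.commutator_eq_bot_iff_le_centralizer]
  intro k hk
  rw [mem_centralizer_iff]
  intro z _
  obtain ⟨y, rfl⟩ := QuotientGroup.mk'_surjective _ k
  exact mem_center_iff.1 ((mem_up Y).1 (hZ y.2)) z

end Setup

theorem class_le {Y : Subgroup G} {_hnil : Group.IsNilpotent (↥Y ⧸ pCore p ↥Y)}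
    (hcls : ∀ a ∈ Y, ∀ b ∈ Y, ∀ c ∈ Y, ⁅⁅a, b⁆, c⁆ ∈ pc p Y) : Group.nilpotencyClass (↥Y ⧸ pCore p ↥Y) ≤ 2 := by
  rw [← Subgroup.lowerCentralSeries_eq_bot_iff_nilpotencyClass_le]
  have hcc : (⁅⁅(⊤ : Subgroup (↥Y ⧸ pCore p ↥Y)), (⊤ : Subgroup (↥Y ⧸ pCore p ↥Y))⁆, (⊤ : Subgroup (↥Y ⧸ pCore p ↥Y))⁆ : Subgroup (↥Y ⧸ pCore p ↥Y)) = ⊥ := by
    rw [Subgroup.commutator_eq_bot_iff_le_centralizer, Subgroup.commutator_le]
    intro a _ b _
    rw [Subgroup.mem_centralizer_iff]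
    intro c _
    obtain ⟨a, rfl⟩ := QuotientGroup.mk'_surjective _ a
    obtain ⟨b, rfl⟩ := QuotientGroup.mk'_surjective _ b
    obtain ⟨c, rfl⟩ := QuotientGroup.mk'_surjective _ c
    obtain ⟨w, hw, hwe⟩ := hcls a a.2 b b.2 c c.2
    have h4 : ⁅⁅a, b⁆, c⁆ ∈ pCore p ↥Y := by
      have : w = ⁅⁅a, b⁆, c⁆ := Subtype.ext hwe
      rw [← this]; exact hw
    have h5 : QuotientGroup.mk' (pCore p ↥Y) ⁅⁅a, b⁆, c⁆ = 1 := (QuotientGroup.eq_one_iff _).2 h4
    rw [map_commutatorElement, map_commutatorElement] at h5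
    exact (commutatorElement_eq_one_iff_mul_comm.1 h5).symm
  exact hcc

end H56.Iso
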