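import Mathlib
import Cfsg.Prelude.Def_Solvable
import Cfsg.Agent.Lib.H56.Hyper4
import Cfsg.Agent.S0035

set_option autoImplicit false

namespace H56.Isolated

open Subgroup H56.Basic H28.Cj H28.RelSyl

universe u

/-- `x` is isolated -/
def Iso {G : Type u} [Group G] (p : ℕ) (x : G) : Prop :=
  ∀ (g : G) (T : Subgroup G), IsPGroup p T → x ∈ T → g * x * g⁻¹ ∈ T → g * x * g⁻¹ = x

def Ctr {G : Type u} [Group G] (p : ℕ) (x : G) : Prop :=
  ∀ H : Subgroup G, (Nat.card H).Coprime p → (∀ h ∈ H, x * h * x⁻¹ ∈ H) → ∀ h ∈ H, x * h = h * x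

theorem isPGroup_sup_of_commute {G : Type u} [Group G] {p : ℕ} {x y : G} (hx : IsPGroup p (zpowers x))
    (hy : IsPGroup p (zpowers y)) (h : x * y = y * x) : IsPGroup p (zpowers x ⊔ zpowers y : Subgroup G) := by
  apply IsPGroup.to_sup_of_normal_right' hx hy
  rw [zpowers_le]
  apply centralizer_le_normalizer
  rw [mem_centralizer_iff]
  intro z hz
  obtain ⟨k, rfl⟩ := hz
  have : Commute x y := h
  exact (this.zpow_right k).symm

theorem main (p : ℕ) [hp : Fact p.Prime] (n : ℕ) : ∀ (G : Type u) [Group G] [Finite G], Nat.card G = n →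
    ∀ x : G, (∃ k, orderOf x = p ^ k) → Iso p x → Ctr p x → ∀ g : G, x * g = g * x := by
  induction n using Nat.strong_induction_on with
  | _ n ih =>
    intro G _ _ hn x hxo hiso hctr
    by_contra hcon
    push Not at hcon
    obtain ⟨g0, hg0⟩ := hcon
    set C := centralizer ({x} : Set G) with hC
    have hxC : x ∈ C := mem_centralizer_singleton_iff.mpr rfl
    have hCt : C ≠ ⊤ := by
      intro h
      apply hg0
      have : g0 ∈ C := by rw [h]; trivial
      exact (mem_centralizer_singleton_iff.mp this).symm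
    have hxp : IsPGroup p (zpowers x) := by
      obtain ⟨k, hk⟩ := hxo
      exact H56.Hyper.isPGroup_zpowers hk
    -- every proper subgroup containing `x` is in `C`
    have hA : ∀ H : Subgroup G, x ∈ H → H ≠ ⊤ → H ≤ C := by
      intro H hxH hH h hhH
      have h1 := ih (Nat.card H) (by
        rw [← hn]
        apply lt_of_le_of_ne (Nat.le_of_dvd Nat.card_pos (Subgroup.card_subgroup_dvd_card H))
        intro he
        exact hH (Subgroup.eq_top_of_card_eq H he)) H rfl ⟨x, hxH⟩ (by
          obtain ⟨k, hk⟩ := hxo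
          exact ⟨k, by rw [← hk, ← Subgroup.orderOf_coe]⟩) (by
          intro g T hT hxT hgT
          apply Subtype.ext
          exact hiso g (T.map H.subtype) (hT.map _) ⟨_, hxT, rfl⟩ ⟨_, hgT, rfl⟩) (by
          intro K hK hxK k hk
          apply Subtype.ext
          apply hctr (K.map H.subtype) (by
            rw [H28.RelSyl.card_map_subtype]; exact hK) _ _ ⟨k, hk, rfl⟩
          rintro _ ⟨k', hk', rfl⟩
          exact ⟨_, hxK k' hk', rfl⟩) ⟨h, hhH⟩
      rw [hC, mem_centralizer_singleton_iff]
      exact (congrArg Subtype.val h1).symm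
    have hxg : ∀ g : G, (g * x * g⁻¹) * x = x * (g * x * g⁻¹) → g ∈ C := by
      intro g hg
      have hgp : IsPGroup p (zpowers (g * x * g⁻¹)) := by
        obtain ⟨k, hk⟩ := hxo
        apply H56.Hyper.isPGroup_zpowers (j := k)
        rw [← hk]
        exact (MulAut.conj g).orderOf_eq x
      have h1 := hiso g _ (isPGroup_sup_of_commute hxp hgp hg.symm)
        ((le_sup_left : zpowers x ≤ _) (mem_zpowers x)) ((le_sup_right : zpowers (g * x * g⁻¹) ≤ _) (mem_zpowers _))
      rw [hC, mem_centralizer_singleton_iff]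
      calc g * x = (g * x * g⁻¹) * g := by group
        _ = x * g := by rw [h1]
    have hB : ∀ g : G, g ∉ C → ∀ z : G, z ∈ C → z ∈ cj g C → z ∈ center G := by
      intro g hg z hz hzg
      rw [hC, cj_centralizer_singleton, mem_centralizer_singleton_iff] at hzg
      rw [hC, mem_centralizer_singleton_iff] at hz
      by_cases h1 : centralizer ({z} : Set G) = ⊤
      · rw [mem_center_iff]
        intro y
        have : y ∈ centralizer ({z} : Set G) := by rw [h1]; trivial
        exact mem_centralizer_singleton_iff.mp this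
      · exfalso
        have h2 := hA _ (mem_centralizer_singleton_iff.mpr hz.symm) h1
        apply hg
        apply hxg
        have h3 : g * x * g⁻¹ ∈ C := h2 (mem_centralizer_singleton_iff.mpr hzg.symm)
        exact mem_centralizer_singleton_iff.mp h3
    set Z := center G with hZ
    set π := QuotientGroup.mk' Z with hπ
    have hker : π.ker = Z := QuotientGroup.ker_mk' Z
    have hZC : Z ≤ C := by
      intro z hz
      rw [hC, mem_centralizer_singleton_iff]
      exact (mem_center_iff.mp hz x).symm
    have hfrob : Cfsg.IsFrobeniusComplement (C.map π) := by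
      refine ⟨?_, ?_, ?_⟩
      · intro h
        have h1 : π x ∈ C.map π := ⟨x, hxC, rfl⟩
        rw [h, mem_bot, ← MonoidHom.mem_ker, hker] at h1
        exact hg0 (mem_center_iff.mp h1 g0).symm
      · intro h
        apply hCt
        rw [eq_top_iff]
        have h1 : (C.map π).comap π = C := by
          rw [comap_map_eq, hker, sup_eq_left]; exact hZC
        rw [← h1, h, comap_top]
      · intro g' hg'
        obtain ⟨g, rfl⟩ := QuotientGroup.mk'_surjective Z g'
        rw [eq_bot_iff]
        rintro y ⟨⟨c1, hc1, rfl⟩, hy⟩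
        rw [mem_bot, ← MonoidHom.mem_ker, hker]
        have hgC : g ∉ C := fun h => hg' ⟨g, h, rfl⟩
        apply hB g hgC c1 hc1
        obtain ⟨_, ⟨c2, hc2, rfl⟩, h2⟩ := hy
        have h3 : π (g * c2 * g⁻¹) = π c1 := by
          rw [map_mul, map_mul, map_inv]; exact h2
        have h4 : (g * c2 * g⁻¹)⁻¹ * c1 ∈ Z := QuotientGroup.eq.mp h3
        have h5 : c1 = (g * c2 * g⁻¹) * ((g * c2 * g⁻¹)⁻¹ * c1) := by group
        rw [h5]
        apply (cj g C).mul_mem (conj_mem_cj.mpr hc2)
        rw [mem_cj]
        have h6 : g⁻¹ * ((g * c2 * g⁻¹)⁻¹ * c1) * g = (g * c2 * g⁻¹)⁻¹ * c1 := by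
          rw [mem_center_iff.mp h4 g⁻¹, inv_mul_cancel_right]
        rw [h6]
        exact hZC h4
    obtain ⟨N, -, hNn, hNc⟩ := Cfsg.Agent.S0035.result _ hfrob
    set K := N.comap π with hK
    have hKn : K.Normal := hNn.comap π
    have hKC : K ⊓ C ≤ Z := by
      rintro y ⟨hy1, hy2⟩
      have h1 : π y ∈ N ⊓ C.map π := ⟨hy1, y, hy2, rfl⟩
      rw [disjoint_iff.mp hNc.disjoint, mem_bot, ← MonoidHom.mem_ker, hker] at h1
      exact h1
    -- Sylow subgroup
    have hxKx : x ∈ K ⊔ zpowers x := (le_sup_right : zpowers x ≤ K ⊔ zpowers x) (mem_zpowers x)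
    obtain ⟨P, hP, hxP⟩ := exists_isSyl_ge hxp (le_sup_right : zpowers x ≤ K ⊔ zpowers x)
    have hPC : P ≤ C := by
      intro t ht
      have hxP' : x ∈ P := hxP (mem_zpowers x)
      have h1 := hiso t P hP.isPGroup hxP' (P.mul_mem (P.mul_mem ht hxP') (P.inv_mem ht))
      rw [hC, mem_centralizer_singleton_iff]
      calc t * x = (t * x * t⁻¹) * t := by group
        _ = x * t := by rw [h1]
    have hPK : IsSyl p (P ⊓ K) K := by
      apply hP.inf_normal (by rw [normalizer_eq_top_iff.mpr hKn]; exact le_top) le_sup_left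
    have hPKZ : P ⊓ K ≤ Z := fun y hy => hKC ⟨hy.2, hPC hy.1⟩
    have hnpc : Cfsg.HasNormalPComplement p K := by
      set P0 := hPK.toSylow with hP0
      have hcent : (P0 : Subgroup K) ≤ center K := by
        intro y hy
        rw [hP0, hPK.coe_toSylow, mem_subgroupOf] at hy
        rw [mem_center_iff]
        intro z
        apply Subtype.ext
        exact mem_center_iff.mp (hPKZ hy) z
      have h1 : normalizer ((P0 : Subgroup K) : Set K) ≤ centralizer ((P0 : Subgroup K) : Set K) := by
        intro y _
        rw [mem_centralizer_iff]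
        intro z hz
        exact (mem_center_iff.mp (hcent hz) y).symm
      exact ⟨P0, _, inferInstance, MonoidHom.ker_transferSylow_isComplement' P0 h1⟩
    rw [H2.NPC.iff_not_dvd_card_residual] at hnpc
    have hRc : Nat.card (H52.PRes.resOf p K) = Nat.card (Cfsg.pResidual p K) :=
      (Nat.card_congr ((Cfsg.pResidual p K).equivMapOfInjective _ K.subtype_injective).toEquiv).symm
    have hR1 : ∀ h ∈ H52.PRes.resOf p K, x * h = h * x := by
      apply hctr
      · rw [hRc]
        exact ((Nat.Prime.coprime_iff_not_dvd hp.out).mpr hnpc).symm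
      · intro h hh
        have h1 : x ∈ normalizer (H52.PRes.resOf p K : Set G) :=
          H52.PRes.normalizer_le_normalizer_resOf K (by rw [normalizer_eq_top_iff.mpr hKn]; trivial)
        exact (mem_normalizer_iff.mp h1 h).mp hh
    have hKC' : K ≤ C := by
      have h2 := H52.PRes.sup_resOf_eq (p := p) hPK.toSylow
      rw [hPK.map_toSylow] at h2
      rw [← h2]
      apply sup_le (inf_le_left.trans hPC)
      intro h hh
      rw [hC, mem_centralizer_singleton_iff]
      exact (hR1 h hh).symm
    apply hCt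
    rw [eq_top_iff]
    intro g _
    have h1 : π g ∈ N ⊔ C.map π := by rw [hNc.sup_eq_top]; trivial
    have h2 : N ≤ C.map π := by
      intro y hy
      obtain ⟨y, rfl⟩ := QuotientGroup.mk'_surjective Z y
      exact ⟨y, hKC' hy, rfl⟩
    rw [sup_eq_right.mpr h2] at h1
    have h3 : (C.map π).comap π = C := by
      rw [comap_map_eq, hker, sup_eq_left]; exact hZC
    rw [← h3]
    exact h1

end H56.Isolated
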