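import Mathlib

set_option autoImplicit false

/-! An alternating form computation. -/

namespace H56.JAlt

theorem main {M : Type*} [AddCommGroup M] (τ : M →+ M) (c : ℕ → ℕ → M) (h2 : ∀ i, c i i = 0)
    (h3 : ∀ i j, τ (c i j) = c (i + 1) (j + 1) + c (i + 1) j + c i (j + 1)) {d : ℕ} (h4 : ∀ i j, d ≤ j → c i j = 0)
    (h5 : ∀ i j, τ (τ (c i j)) = 0) (hd : 5 ≤ d) :
    c (d - 3) (d - 2) = 0 ∧ c (d - 3) (d - 1) = 0 ∧ c (d - 2) (d - 1) = 0 := by
  -- the last column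
  have ha : ∀ i, c (i + 1) (d - 1) = τ (c i (d - 1)) := by
    intro i
    rw [h3 i (d - 1), show d - 1 + 1 = d by omega, h4 _ _ le_rfl, h4 _ _ le_rfl]; simp
  have hb : ∀ i, c (i + 2) (d - 1) = 0 := by
    intro i
    rw [ha (i + 1), ha i, h5]
  have hb' : ∀ i, 2 ≤ i → c i (d - 1) = 0 := by
    intro i hi
    obtain ⟨k, rfl⟩ := Nat.exists_eq_add_of_le' hi
    exact hb k
  refine ⟨?_, hb' _ (by omega), hb' _ (by omega)⟩
  rcases Nat.eq_or_lt_of_le hd with h | h
  · -- `d = 5`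
    subst h
    show c 2 3 = 0
    have e13 : τ (c 1 3) = c 2 3 + c 1 4 := by
      have := h3 1 3
      rw [this, show (1 : ℕ) + 1 = 2 by rfl, show (3 : ℕ) + 1 = 4 by rfl, hb' 2 le_rfl]; simp
    have e12 : τ (c 1 2) = c 2 3 + c 1 3 := by
      have := h3 1 2
      rw [this, show (1 : ℕ) + 1 = 2 by rfl, show (2 : ℕ) + 1 = 3 by rfl, h2 2, add_zero]
    have e23 : τ (c 2 3) = 0 := by
      have := h3 2 3
      rw [this, show (2 : ℕ) + 1 = 3 by rfl, show (3 : ℕ) + 1 = 4 by rfl, h2 3, hb' 3 (by omega), hb' 2 le_rfl]; simp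
    have e03 : τ (c 0 3) = c 1 4 + c 1 3 + c 0 4 := h3 0 3
    have e13' : τ (c 1 3) = 0 := by
      have h6 := congrArg τ e12
      rw [h5, map_add, e23, zero_add] at h6
      exact h6.symm
    have e14 : c 1 4 = τ (c 0 4) := ha 0
    have e14' : τ (c 1 4) = 0 := by rw [e14, h5]
    have e04 : τ (c 0 4) = 0 := by
      have h6 := congrArg τ e03
      rw [h5, map_add, map_add, e14', e13', zero_add, zero_add] at h6
      exact h6.symm
    rw [e14, e04, add_zero] at e13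
    rw [← e13, e13']
  · -- `d ≥ 6`
    obtain ⟨k, rfl⟩ := Nat.exists_eq_add_of_le' h
    have g1 := h3 (k + 2) (k + 1 + 5 - 2)
    have g2 := h3 (k + 1) (k + 1 + 5 - 2)
    rw [show k + 1 + 5 - 2 + 1 = k + 1 + 5 - 1 by omega] at g1 g2
    rw [hb' (k + 2 + 1) (by omega), hb' (k + 2) (by omega), zero_add, add_zero] at g1
    rw [hb' (k + 1 + 1) (by omega), zero_add, ha k] at g2
    have g3 : τ (c (k + 1 + 1) (k + 1 + 5 - 2)) = 0 := by
      have h6 := congrArg τ g2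
      rw [h5, map_add, h5, add_zero] at h6
      exact h6.symm
    rw [show k + 1 + 5 - 3 = k + 2 + 1 by omega, ← g1]
    exact g3

end H56.JAlt
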