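import Mathlib
import Cfsg.Agent.Lib.H56.JAlt
import Cfsg.Agent.Lib.H56.JTrt

set_option autoImplicit false

/-! The isotropy computation in a group of class two. -/

namespace H56.JIso

open Cfsg H56.JTrt
open scoped commutatorElement

variable {X : Type*} [Group X]

theorem comm_last {T N Y : Subgroup X} [hTn : T.Normal] [hNn : N.Normal] [hYn : Y.Normal] (hNT : N ≤ T) (hNY : ⁅N, Y⁆ = ⊥)
    (hNNT : ⁅⁅N, N⁆, T⁆ = ⊥) {a : X} (hquad : ∀ x ∈ T ⊓ Subgroup.centralizer (T : Set X), ⁅a, ⁅a, x⁆⁆ = 1)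
    (v : ℕ → X) (hv : ∀ i, v i ∈ N) (hv1 : ∀ i, v (i + 1) = ⁅a, v i⁆) {d : ℕ} (hd : 5 ≤ d) (hvd : ∀ j, d ≤ j → v j ∈ Y) :
    v (d - 3) * v (d - 2) = v (d - 2) * v (d - 3) ∧ v (d - 3) * v (d - 1) = v (d - 1) * v (d - 3) ∧
      v (d - 2) * v (d - 1) = v (d - 1) * v (d - 2) := by
  set Z : Subgroup X := T ⊓ Subgroup.centralizer (T : Set X) with hZ
  have hZn : Z.Normal := inferInstance
  have hcen : ∀ u ∈ ⁅N, N⁆, ∀ w ∈ T, u * w = w * u := by
    intro u hu w hw
    have := Subgroup.commutator_mem_commutator hu hw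
    rw [hNNT, Subgroup.mem_bot, commutatorElement_eq_one_iff_mul_comm] at this
    exact this
  have hNNZ : ⁅N, N⁆ ≤ Z := by
    refine le_inf ((Subgroup.commutator_le_left N N).trans hNT) ?_
    intro u hu
    rw [Subgroup.mem_centralizer_iff]
    exact fun w hw => (hcen u hu w hw).symm
  have hZc : ∀ x y : ↥Z, x * y = y * x := by
    intro x y
    apply Subtype.ext
    exact Subgroup.mem_centralizer_iff.1 (Subgroup.mem_inf.1 y.2).2 x (Subgroup.mem_inf.1 x.2).1
  let _ : CommGroup ↥Z := { (inferInstance : Group ↥Z) with mul_comm := hZc }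
  let τ : Additive ↥Z →+ Additive ↥Z :=
    MonoidHom.toAdditive (MulAut.conjNormal (H := Z) a : ↥Z →* ↥Z) - AddMonoidHom.id (Additive ↥Z)
  have hτ : ∀ z : ↥Z, (((τ (Additive.ofMul z)).toMul : ↥Z) : X) = ⁅a, (z : X)⁆ := by
    intro z
    have h1 : (τ (Additive.ofMul z)).toMul = MulAut.conjNormal (H := Z) a z * z⁻¹ := by
      have : τ (Additive.ofMul z) = Additive.ofMul (MulAut.conjNormal (H := Z) a z) - Additive.ofMul z := rfl
      rw [this, sub_eq_add_neg]; rfl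
    rw [h1, commutatorElement_def]
    show ((MulAut.conjNormal (H := Z) a z : ↥Z) : X) * ((z : X))⁻¹ = _
    rw [MulAut.conjNormal_apply]
  have hmem : ∀ i j, ⁅v i, v j⁆ ∈ Z := fun i j => hNNZ (Subgroup.commutator_mem_commutator (hv i) (hv j))
  let c : ℕ → ℕ → Additive ↥Z := fun i j => Additive.ofMul ⟨⁅v i, v j⁆, hmem i j⟩
  have hc0 : ∀ i j, c i j = 0 ↔ v i * v j = v j * v i := by
    intro i j
    have h1 : c i j = 0 ↔ (⟨⁅v i, v j⁆, hmem i j⟩ : ↥Z) = 1 := Iff.rfl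
    rw [h1, ← OneMemClass.coe_eq_one]
    exact commutatorElement_eq_one_iff_mul_comm
  have hconj : ∀ i, a * v i * a⁻¹ = v (i + 1) * v i := by
    intro i
    rw [hv1 i, commutatorElement_def]; group
  have hbil1 : ∀ x' ∈ N, ∀ x ∈ N, ∀ w ∈ N, ⁅x' * x, w⁆ = ⁅x', w⁆ * ⁅x, w⁆ := by
    intro x' hx' x hx w hw
    have h1 := hcen _ (Subgroup.commutator_mem_commutator hx hw) x' (hNT hx')
    have h2 := hcen _ (Subgroup.commutator_mem_commutator hx' hw) _ (hNT ((Subgroup.commutator_le_left N N) (Subgroup.commutator_mem_commutator hx hw)))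
    have e : ⁅x' * x, w⁆ = (x' * ⁅x, w⁆ * x'⁻¹) * ⁅x', w⁆ := by simp only [commutatorElement_def]; group
    rw [e, ← h1, mul_inv_cancel_right, h2]
  have hbil2 : ∀ w ∈ N, ∀ y' ∈ N, ∀ y ∈ N, ⁅w, y' * y⁆ = ⁅w, y'⁆ * ⁅w, y⁆ := by
    intro w hw y' hy' y hy
    have h1 := hcen _ (Subgroup.commutator_mem_commutator hw hy) y' (hNT hy')
    have e : ⁅w, y' * y⁆ = ⁅w, y'⁆ * (y' * ⁅w, y⁆ * y'⁻¹) := by simp only [commutatorElement_def]; group
    rw [e, ← h1, mul_inv_cancel_right]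
  have g2 : ∀ i, c i i = 0 := by
    intro i
    exact (hc0 i i).2 rfl
  have g3 : ∀ i j, τ (c i j) = c (i + 1) (j + 1) + c (i + 1) j + c i (j + 1) := by
    intro i j
    apply Additive.toMul.injective
    apply Subtype.ext
    rw [hτ]
    show ⁅a, ⁅v i, v j⁆⁆ = ⁅v (i + 1), v (j + 1)⁆ * ⁅v (i + 1), v j⁆ * ⁅v i, v (j + 1)⁆
    have e : ⁅a, ⁅v i, v j⁆⁆ = ⁅a * v i * a⁻¹, a * v j * a⁻¹⁆ * ⁅v i, v j⁆⁻¹ := by
      simp only [commutatorElement_def]; group
    rw [e, hconj, hconj, hbil1 _ (hv _) _ (hv _) _ (mul_mem (hv _) (hv _)), hbil2 _ (hv _) _ (hv _) _ (hv _),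
      hbil2 _ (hv _) _ (hv _) _ (hv _)]
    group
  have g4 : ∀ i j, d ≤ j → c i j = 0 := by
    intro i j hj
    rw [hc0]
    have := Subgroup.commutator_mem_commutator (hv i) (hvd j hj)
    rw [hNY, Subgroup.mem_bot, commutatorElement_eq_one_iff_mul_comm] at this
    exact this
  have g5 : ∀ i j, τ (τ (c i j)) = 0 := by
    intro i j
    apply Additive.toMul.injective
    apply Subtype.ext
    have h1 := hτ (τ (c i j)).toMul
    have h2 := hτ ⟨⁅v i, v j⁆, hmem i j⟩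
    show (((τ (τ (c i j))).toMul : ↥Z) : X) = 1
    rw [show τ (τ (c i j)) = τ (Additive.ofMul (τ (c i j)).toMul) from rfl, h1]
    rw [show (((τ (c i j)).toMul : ↥Z) : X) = ⁅a, ⁅v i, v j⁆⁆ from h2]
    exact hquad _ (hmem i j)
  obtain ⟨h1, h2, h3⟩ := JAlt.main τ c g2 g3 g4 g5 hd
  exact ⟨(hc0 _ _).1 h1, (hc0 _ _).1 h2, (hc0 _ _).1 h3⟩

/-- the commutators `⁅g, v (d-4)⁆` commute -/
theorem MM_comm {T N Y A : Subgroup X} [hTn : T.Normal] [hNn : N.Normal] [hYn : Y.Normal] (hYN : Y ≤ N) (hNT : N ≤ T) (hNY : ⁅N, Y⁆ = ⊥)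
    (hNTY : ⁅N, T⁆ ≤ Y) (hNNT : ⁅⁅N, N⁆, T⁆ = ⊥) {a : X} (hquad : ∀ x ∈ T ⊓ Subgroup.centralizer (T : Set X), ⁅a, ⁅a, x⁆⁆ = 1)
    (ha : ∀ x ∈ A, ∃ i : ℕ, ∃ t ∈ A ⊓ T, x = a ^ i * t)
    (v : ℕ → X) (hv : ∀ i, v i ∈ N) (hv1 : ∀ i, v (i + 1) = ⁅a, v i⁆) {d : ℕ} (hd : 5 ≤ d) (hvd : ∀ j, d ≤ j → v j ∈ Y) :
    ∀ u ∈ MM A (v (d - 4)), ∀ w ∈ MM A (v (d - 4)), u * w = w * u := by
  obtain ⟨h12, h13, h23⟩ := comm_last hNT hNY hNNT hquad v hv hv1 hd hvd
  set s : Set X := {v (d - 3), v (d - 2), v (d - 1)} ∪ (Y : Set X) with hs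
  set P : Subgroup X := Subgroup.closure s with hP
  have hYP : Y ≤ P := fun y hy => Subgroup.subset_closure (Or.inr hy)
  have hYc : ∀ n ∈ N, ∀ y ∈ Y, n * y = y * n := by
    intro n hn y hy
    have := Subgroup.commutator_mem_commutator hn hy
    rw [hNY, Subgroup.mem_bot, commutatorElement_eq_one_iff_mul_comm] at this
    exact this
  have hsN : ∀ x ∈ s, x ∈ N := by
    rintro x (hx | hx)
    · rcases hx with rfl | rfl | rfl <;> exact hv _
    · exact hYN hx
  have hsc : ∀ x ∈ s, ∀ y ∈ s, x * y = y * x := by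
    rintro x hx y (hy | hy)
    · rcases hx with hx | hx
      · rcases hx with rfl | rfl | rfl <;> rcases hy with rfl | rfl | rfl
        · rfl
        · exact h12
        · exact h13
        · exact h12.symm
        · rfl
        · exact h23
        · exact h13.symm
        · exact h23.symm
        · rfl
      · rcases hy with rfl | rfl | rfl <;> exact (hYc _ (hv _) _ hx).symm
    · exact hYc x (hsN x hx) y hy
  have hPc : ∀ x ∈ P, ∀ y ∈ P, x * y = y * x := by
    have h1 : P ≤ Subgroup.centralizer (P : Set X) := by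
      rw [hP, Subgroup.closure_le]
      intro x hx
      rw [SetLike.mem_coe, Subgroup.mem_centralizer_iff]
      intro y hy
      refine Subgroup.closure_induction (p := fun y _ => y * x = x * y) ?_ ?_ ?_ ?_ hy
      · intro y hy; exact hsc _ hy _ hx
      · rw [one_mul, mul_one]
      · intro y z _ _ hy hz
        rw [mul_assoc, hz, ← mul_assoc, hy, mul_assoc]
      · intro y _ hy
        rw [inv_mul_eq_iff_eq_mul, ← mul_assoc, hy, mul_assoc, mul_inv_cancel, mul_one]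
    intro x hx y hy
    exact (Subgroup.mem_centralizer_iff.1 (h1 hx) y hy).symm
  -- conjugation by `a`
  have hmem : ∀ i, d - 3 ≤ i → v i ∈ P := by
    intro i hi
    by_cases h : d ≤ i
    · exact hYP (hvd i h)
    · have : i = d - 3 ∨ i = d - 2 ∨ i = d - 1 := by omega
      rcases this with rfl | rfl | rfl
      · exact Subgroup.subset_closure (Or.inl (Or.inl rfl))
      · exact Subgroup.subset_closure (Or.inl (Or.inr (Or.inl rfl)))
      · exact Subgroup.subset_closure (Or.inl (Or.inr (Or.inr rfl)))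
  have hva : ∀ i, a * v i * a⁻¹ = v (i + 1) * v i := by
    intro i
    rw [hv1 i, commutatorElement_def]; group
  have hcj : ∀ x ∈ P, a * x * a⁻¹ ∈ P := by
    intro x hx
    refine Subgroup.closure_induction (p := fun x _ => a * x * a⁻¹ ∈ P) ?_ ?_ ?_ ?_ hx
    · rintro x (hx | hx)
      · rcases hx with rfl | rfl | rfl
        · rw [hva]; exact mul_mem (hmem _ (by omega)) (hmem _ (by omega))
        · rw [hva]; exact mul_mem (hmem _ (by omega)) (hmem _ (by omega))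
        · rw [hva]; exact mul_mem (hmem _ (by omega)) (hmem _ (by omega))
      · exact hYP (hYn.conj_mem x hx a)
    · rw [mul_one, mul_inv_cancel]; exact one_mem _
    · intro x y _ _ hx hy
      have : a * (x * y) * a⁻¹ = (a * x * a⁻¹) * (a * y * a⁻¹) := by group
      rw [this]; exact mul_mem hx hy
    · intro x _ hx
      have : a * x⁻¹ * a⁻¹ = (a * x * a⁻¹)⁻¹ := by group
      rw [this]; exact inv_mem hx
  have hpow : ∀ i : ℕ, ⁅a ^ i, v (d - 4)⁆ ∈ P := by
    intro i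
    induction i with
    | zero => rw [pow_zero, commutatorElement_one_left]; exact one_mem _
    | succ i ih =>
      have e : ⁅a ^ (i + 1), v (d - 4)⁆ = (a * ⁅a ^ i, v (d - 4)⁆ * a⁻¹) * ⁅a, v (d - 4)⁆ := by
        rw [pow_succ']; simp only [commutatorElement_def]; group
      rw [e]
      refine mul_mem (hcj _ ih) ?_
      rw [← hv1, show d - 4 + 1 = d - 3 by omega]
      exact hmem _ le_rfl
  apply MM_comm_of
  have hall : ∀ g ∈ A, ⁅g, v (d - 4)⁆ ∈ P := by
    intro g hg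
    obtain ⟨i, t, ht, rfl⟩ := ha g hg
    have e : ⁅a ^ i * t, v (d - 4)⁆ = (a ^ i * ⁅t, v (d - 4)⁆ * (a ^ i)⁻¹) * ⁅a ^ i, v (d - 4)⁆ := by
      simp only [commutatorElement_def]; group
    rw [e]
    refine mul_mem (hYP (hYn.conj_mem _ ?_ _)) (hpow i)
    apply hNTY
    rw [Subgroup.commutator_comm]
    exact Subgroup.commutator_mem_commutator (Subgroup.mem_inf.1 ht).2 (hv _)
  intro g hg u hu
  exact hPc _ (hall g hg) _ (hall u hu)

end H56.JIso
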