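import Mathlib
import Cfsg.Agent.Lib.H39.ThomAb

set_option autoImplicit false

/-! An elementary abelian section as a `ZMod p`-module with operators. -/

namespace H56.JMod

open scoped commutatorElement

universe u

theorem exists_rep {G : Type*} [Group G] {C : Type*} [AddCommGroup C] {p : ℕ} (h : ∀ a : C, p • a = 0)
    (cj : G →* AddMonoid.End C) :
    ∃ (_ : Module (ZMod p) C) (ρ : G →* Module.End (ZMod p) C), ∀ (x : G) (c : C), ρ x c = cj x c := by
  let _ : Module (ZMod p) C := AddCommGroup.zmodModule (n := p) h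
  let ρ : G →* Module.End (ZMod p) C :=
    { toFun := fun x => AddMonoidHom.toZModLinearMap p (cj x)
      map_one' := by
        refine LinearMap.ext fun v => ?_
        show cj 1 v = v
        rw [map_one]; rfl
      map_mul' := by
        intro x y
        refine LinearMap.ext fun v => ?_
        show cj (x * y) v = cj x (cj y v)
        rw [map_mul]; rfl }
  exact ⟨inferInstance, ρ, fun x c => rfl⟩

theorem exists_module {G : Type u} [Group G] (p : ℕ) (N Y : Subgroup G) [N.Normal] [Y.Normal]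
    (hNN : ⁅N, N⁆ ≤ Y) (hp : ∀ a ∈ N, a ^ p ∈ Y) :
    ∃ (V : Type u) (_ : AddCommGroup V) (_ : Module (ZMod p) V) (π : N → V) (ρ : G →* Module.End (ZMod p) V),
      (∀ a b, π (a * b) = π a + π b) ∧ Function.Surjective π ∧ (∀ a : N, π a = 0 ↔ (a : G) ∈ Y) ∧
      (Finite G → Finite V) ∧
      ∀ (x : G) (a : N) (b : N), (b : G) = x * a * x⁻¹ → π b = ρ x (π a) := by
  set f := QuotientGroup.mk' Y with hf
  have hcomm : ∀ a b : ↥(N.map f), a * b = b * a := by
    rintro ⟨_, a, ha, rfl⟩ ⟨_, b, hb, rfl⟩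
    apply Subtype.ext
    show f a * f b = f b * f a
    have h1 : f ⁅a, b⁆ = 1 := (QuotientGroup.eq_one_iff _).2 (hNN (Subgroup.commutator_mem_commutator ha hb))
    rwa [map_commutatorElement, commutatorElement_eq_one_iff_mul_comm] at h1
  let _ : CommGroup ↥(N.map f) := { (inferInstance : Group ↥(N.map f)) with mul_comm := hcomm }
  have hpow : ∀ a : ↥(N.map f), a ^ p = 1 := by
    rintro ⟨_, a, ha, rfl⟩
    apply Subtype.ext
    show (f a) ^ p = 1
    rw [← map_pow]
    exact (QuotientGroup.eq_one_iff _).2 (hp a ha)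
  let cj : G →* AddMonoid.End (Additive ↥(N.map f)) :=
    { toFun := fun x => MonoidHom.toAdditive (H39.ThomAb.act N Y x : ↥(N.map f) →* ↥(N.map f))
      map_one' := by rw [map_one]; rfl
      map_mul' := by intro x y; rw [map_mul]; rfl }
  obtain ⟨inst, ρ, hρ⟩ := exists_rep (G := G) (C := Additive ↥(N.map f)) (p := p)
    (fun a => congrArg Additive.ofMul (hpow a.toMul)) cj
  refine ⟨Additive ↥(N.map f), inferInstance, inst, fun a => Additive.ofMul ⟨f a, ⟨a, a.2, rfl⟩⟩, ρ, ?_, ?_, ?_, ?_, ?_⟩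
  · intro a b; rfl
  · intro v
    obtain ⟨a, ha, hav⟩ := v.toMul.2
    refine ⟨⟨a, ha⟩, ?_⟩
    have : v.toMul = ⟨f a, ⟨a, ha, rfl⟩⟩ := Subtype.ext hav.symm
    exact (congrArg Additive.ofMul this).symm
  · intro a
    have h1 : (Additive.ofMul (⟨f a, ⟨a, a.2, rfl⟩⟩ : ↥(N.map f)) = 0) ↔ (⟨f a, ⟨a, a.2, rfl⟩⟩ : ↥(N.map f)) = 1 := Iff.rfl
    rw [h1, ← OneMemClass.coe_eq_one]
    exact QuotientGroup.eq_one_iff _
  · intro _
    exact (inferInstance : Finite ↥(N.map f))
  · intro x a b hb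
    rw [hρ]
    refine congrArg Additive.ofMul (Subtype.ext ?_ : (⟨f b, ⟨b, b.2, rfl⟩⟩ : ↥(N.map f)) = H39.ThomAb.act N Y x ⟨f a, ⟨a, a.2, rfl⟩⟩)
    rw [H39.ThomAb.act_apply]
    show f b = f x * f a * (f x)⁻¹
    rw [hb, map_mul, map_mul, map_inv]

end H56.JMod
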