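import Mathlib
import Cfsg.Agent.Lib.H39.Chief
import Cfsg.Agent.Lib.H39.MinFail2
import Cfsg.Agent.Lib.H2.Residual

set_option autoImplicit false

/-! Minimal normal subgroups of `O_p(X)` not centralized by `O^p(X)`. -/

namespace H56.JNY

open Cfsg H39.Chief
open scoped commutatorElement

universe u

variable {X : Type u} [Group X] [Finite X] {p : ℕ} [hp : Fact p.Prime]

omit [Finite X] hp in
/-- `[M, O^p, O^p] = 1` implies `[M, O^p] = 1` for `M` a normal `p`-subgroup. -/
theorem comm_residual_eq_bot {M W : Subgroup X} [hM : M.Normal] [hW : W.Normal] (hMp : IsPGroup p M)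
    (h : ⁅⁅M, pResidual p X⁆, pResidual p X⁆ ≤ W) : ⁅M, pResidual p X⁆ ≤ W := by
  have h1 : pResidual p X ≤ (Subgroup.centralizer ((M.map (QuotientGroup.mk' W) : Subgroup (X ⧸ W)) : Set (X ⧸ W))).comap
      (QuotientGroup.mk' W) := by
    rw [pResidual, Subgroup.closure_le]
    intro x hx
    rw [SetLike.mem_coe, Subgroup.mem_comap, Subgroup.mem_centralizer_iff]
    rintro _ ⟨m, hm, rfl⟩
    have hxR : x ∈ pResidual p X := Subgroup.subset_closure hx
    have h2 : ⁅m, x⁆ ∈ W := by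
      refine mem_of_commutator_commutator_mem hW hMp hx ?_ ?_
      · exact Subgroup.commutator_le_left M (pResidual p X) (Subgroup.commutator_mem_commutator hm hxR)
      · exact h (Subgroup.commutator_mem_commutator (Subgroup.commutator_mem_commutator hm hxR) hxR)
    have h3 : QuotientGroup.mk' W ⁅m, x⁆ = 1 := (QuotientGroup.eq_one_iff _).2 h2
    rwa [map_commutatorElement, commutatorElement_eq_one_iff_mul_comm] at h3
  rw [Subgroup.commutator_le]
  intro m hm x hx
  have h2 := Subgroup.mem_centralizer_iff.1 (h1 hx) (QuotientGroup.mk' W m) ⟨m, hm, rfl⟩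
  rw [← QuotientGroup.eq_one_iff]
  change QuotientGroup.mk' W ⁅m, x⁆ = 1
  rw [map_commutatorElement, commutatorElement_eq_one_iff_mul_comm]
  exact h2

theorem exists_NY (T : Subgroup X) [hTn : T.Normal] (hT : IsPGroup p T) (hC : ¬ pResidual p X ≤ Subgroup.centralizer (T : Set X)) :
    ∃ N Y : Subgroup X, IsChiefFactor N Y ∧ N ≤ T ∧ ⁅N, Y⁆ = ⊥ ∧ ⁅N, T⁆ ≤ Y ∧ (∀ u ∈ N, u ^ p ∈ Y) ∧
      ⁅⁅N, N⁆, T⁆ = ⊥ ∧ ¬ ⁅N, pResidual p X⁆ ≤ Y := by
  classical
  set R := pResidual p X with hR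
  obtain ⟨N, ⟨hNn, hNT, hNR⟩, hmin⟩ := Set.exists_min_image
    {N : Subgroup X | N.Normal ∧ N ≤ T ∧ ¬ ⁅N, R⁆ = ⊥} (fun N => Nat.card N) (Set.toFinite _)
    ⟨T, hTn, le_rfl, fun h => hC (by
      rw [Subgroup.commutator_eq_bot_iff_le_centralizer] at h
      rwa [Subgroup.le_centralizer_iff] at h)⟩
  have hmin' : ∀ M : Subgroup X, M.Normal → M ≤ N → M ≠ N → ⁅M, R⁆ = ⊥ := by
    intro M hM hMN hne
    by_contra hcon
    have h1 := hmin M ⟨hM, hMN.trans hNT, hcon⟩
    exact hne (Subgroup.eq_of_le_of_card_ge hMN h1)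
  set Y : Subgroup X := N ⊓ Subgroup.centralizer (R : Set X) with hY
  have hYn : Y.Normal := inferInstance
  have hYR : ⁅Y, R⁆ = ⊥ := by
    rw [Subgroup.commutator_eq_bot_iff_le_centralizer]; exact inf_le_right
  have hYN : Y ≤ N := inf_le_left
  have hYne : Y ≠ N := fun h => hNR (by rw [← h]; exact hYR)
  have hle : ∀ M : Subgroup X, M.Normal → M ≤ N → M ≠ N → M ≤ Y := by
    intro M hM hMN hne
    refine le_inf hMN ?_
    rw [← Subgroup.commutator_eq_bot_iff_le_centralizer]
    exact hmin' M hM hMN hne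
  have hchief : IsChiefFactor N Y := by
    refine ⟨lt_of_le_of_ne hYN hYne, hNn, hYn, fun M hM hYM hMN => ?_⟩
    by_cases h : M = N
    · right; exact h
    · left; exact le_antisymm (hle M hM hMN h) hYM
  have hNp : IsPGroup p N := hT.to_le hNT
  have hNRN : ⁅N, R⁆ = N := by
    by_contra hne
    have h1 : ⁅N, R⁆ ≤ Y := hle _ inferInstance (Subgroup.commutator_le_left N R) hne
    apply hNR
    rw [← le_bot_iff]
    apply comm_residual_eq_bot hNp
    rw [← hYR]
    exact Subgroup.commutator_mono h1 le_rfl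
  have hYcN : ⁅N, Y⁆ = ⊥ := by
    have h1 : ⁅⁅R, N⁆, Y⁆ = ⊥ := by
      apply Subgroup.commutator_commutator_eq_bot_of_rotate
      · rw [← le_bot_iff, ← hYR]
        exact Subgroup.commutator_mono (le_inf (Subgroup.commutator_le_left N Y)
          ((Subgroup.commutator_le_right N Y).trans inf_le_right)) le_rfl
      · rw [hYR, Subgroup.commutator_bot_left]
    rwa [Subgroup.commutator_comm R N, hNRN] at h1
  have hNT' : ⁅N, T⁆ ≤ Y := commutator_le_of_chief hchief hTn hT.isNilpotent hNT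
  refine ⟨N, Y, hchief, hNT, hYcN, hNT', ?_, ?_, ?_⟩
  · exact pow_mem_of_chief hchief hNp
  · have h1 : ⁅⁅N, T⁆, N⁆ = ⊥ := by
      rw [← le_bot_iff, ← hYcN, Subgroup.commutator_comm N Y]
      exact Subgroup.commutator_mono hNT' le_rfl
    apply Subgroup.commutator_commutator_eq_bot_of_rotate
    · exact h1
    · rw [Subgroup.commutator_comm T N]; exact h1
  · intro h
    apply hYne
    exact le_antisymm hYN (by rw [← hNRN]; exact h)

end H56.JNY
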