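import Mathlib

set_option autoImplicit false

/-! Unipotent operators in characteristic `p`. -/

namespace H56.JOp

open Polynomial

theorem sub_one_pow (p : ℕ) [hp : Fact p.Prime] {R : Type*} [Ring R] [Algebra (ZMod p) R] (x : R) (n : ℕ) :
    (x - 1) ^ (p ^ n) = x ^ (p ^ n) - 1 := by
  have h : ((X : (ZMod p)[X]) - 1) ^ (p ^ n) = X ^ (p ^ n) - 1 := by
    rw [sub_pow_char_pow, one_pow]
  have h2 := congrArg (Polynomial.aeval x) h
  simpa using h2

theorem exists_factor {R : Type*} [Ring R] {x y : R} (h : Commute y x) (n : ℕ) :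
    ∃ q : R, Commute y q ∧ x ^ n - 1 = (x - 1) * q := by
  refine ⟨∑ i ∈ Finset.range n, x ^ i, ?_, ?_⟩
  · exact Commute.sum_right _ _ _ fun i _ => h.pow_right i
  · rw [mul_geom_sum]

theorem core {p : ℕ} [hp : Fact p.Prime] (hp3 : 3 ≤ p) {V : Type*} [AddCommGroup V] [Module (ZMod p) V]
    (E : Module.End (ZMod p) V) {w c : V} {m N k : ℕ} (hE : E ^ (p ^ N) = 1)
    (h1 : (E - 1) ((E - 1) w) = (E ^ (p * m) - 1) w + c) (h2 : (E - 1) c = 0) : ((E ^ k - 1) ^ 3 : Module.End (ZMod p) V) w = 0 := by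
  set γ := E - 1 with hγ
  have hγE : Commute γ E := (Commute.refl E).sub_left (Commute.one_left E)
  have hγ0 : γ ^ (p ^ N) = 0 := by rw [hγ, sub_one_pow, hE, sub_self]
  obtain ⟨q, hq, hq2⟩ := exists_factor (hγE.pow_right p) m
  have hEp : E ^ p - 1 = γ ^ p := by
    have := sub_one_pow p E 1
    rw [pow_one] at this
    exact this.symm
  rw [pow_mul, hq2, hEp] at h1
  have h3 : (γ ^ 3) w = ((γ ^ (p - 2) * q)) ((γ ^ 3) w) := by
    have e1 : (γ ^ 3) w = γ ((γ) (γ w)) := rfl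
    have e2 : (γ ^ (p - 2) * q) * γ ^ 3 = γ * (γ ^ p * q) := by
      rw [mul_assoc, ← (hq.pow_left 3).eq, ← mul_assoc, ← pow_add, ← mul_assoc, ← pow_succ']
      congr 2
      omega
    calc (γ ^ 3) w = γ ((γ ^ p * q) w + c) := by rw [e1, h1]
      _ = (γ * (γ ^ p * q)) w := by rw [map_add, h2, add_zero]; rfl
      _ = ((γ ^ (p - 2) * q)) ((γ ^ 3) w) := by rw [← e2]; rfl
  have h4 : ∀ n : ℕ, (γ ^ 3) w = ((γ ^ (p - 2) * q) ^ n) ((γ ^ 3) w) := by
    generalize (γ ^ 3) w = u at h3 ⊢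
    intro n
    induction n with
    | zero => rfl
    | succ n ih =>
      rw [pow_succ, Module.End.mul_apply, ← h3]; exact ih
  have h5 : (γ ^ (p - 2) * q) ^ (p ^ N) = 0 := by
    rw [(hq.pow_left (p - 2)).mul_pow, ← pow_mul, mul_comm (p - 2), pow_mul, hγ0, zero_pow (by omega), zero_mul]
  have h6 : (γ ^ 3) w = 0 := by
    rw [h4 (p ^ N), h5]; rfl
  obtain ⟨r, hr, hr2⟩ := exists_factor hγE k
  rw [hr2, hr.mul_pow, (hr.pow_pow 3 3).eq, Module.End.mul_apply, h6, map_zero]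

end H56.JOp
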