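import Mathlib
import Cfsg.Agent.Lib.H56.JQuad
import Cfsg.Agent.Lib.H56.JIso
import Cfsg.Agent.Lib.H56.JNY
import Cfsg.Agent.Lib.H56.JMod
import Cfsg.Agent.Lib.H56.JOp
import Cfsg.Agent.Lib.H52.PCore
import Cfsg.Agent.Lib.H39.ThomAb

set_option autoImplicit false

/-! `J(S) ≤ O_p(X)` when `S` is maximal and `S / O_p(X)` is cyclic. -/

namespace H56.JCyc

open Cfsg H14.MaxIn H56.JTrt H56.JStep
open scoped commutatorElement

universe u

variable {X : Type u} [Group X] [Finite X] {p : ℕ} [hp : Fact p.Prime]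

omit hp in
theorem exists_gen {S T A : Subgroup X} [hT : T.Normal] (hcyc : IsCyclic (↥S ⧸ T.subgroupOf S)) (hAS : A ≤ S) :
    ∃ a ∈ A, ∀ x ∈ A, ∃ i : ℕ, ∃ t ∈ A ⊓ T, x = a ^ i * t := by
  set f : ↥S →* ↥S ⧸ T.subgroupOf S := QuotientGroup.mk' _ with hf
  obtain ⟨⟨b, hb⟩, hgen⟩ := IsCyclic.exists_generator (α := ((A.subgroupOf S).map f))
  obtain ⟨⟨a, haS⟩, haA, rfl⟩ := hb
  rw [SetLike.mem_coe, Subgroup.mem_subgroupOf] at haA
  refine ⟨a, haA, fun x hx => ?_⟩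
  have h1 := hgen ⟨f ⟨x, hAS hx⟩, ⟨⟨x, hAS hx⟩, Subgroup.mem_subgroupOf.2 hx, rfl⟩⟩
  rw [← mem_powers_iff_mem_zpowers] at h1
  obtain ⟨i, hi⟩ := h1
  have h2 : f (⟨a, haS⟩ ^ i) = f ⟨x, hAS hx⟩ := by
    rw [map_pow]; exact congrArg Subtype.val hi
  have h3 := QuotientGroup.eq.1 h2
  rw [Subgroup.mem_subgroupOf] at h3
  have h4 : (a ^ i)⁻¹ * x ∈ T := h3
  exact ⟨i, (a ^ i)⁻¹ * x, Subgroup.mem_inf.2 ⟨mul_mem (inv_mem (pow_mem haA i)) hx, h4⟩, by group⟩

/-- iterated commutators -/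
def vseq {X : Type*} [Group X] (a n : X) : ℕ → X
  | 0 => n
  | k + 1 => ⁅a, vseq a n k⁆

omit [Finite X] in
theorem not_le (S : Sylow p X) (hSc : IsCoatom (S : Subgroup X)) {N Y : Subgroup X} (hch : IsChiefFactor N Y)
    (hNR : ¬ ⁅N, pResidual p X⁆ ≤ Y) {a : X} (ha : a ∉ pCore p X) :
    ¬ ⁅N, Subgroup.zpowers a⁆ ≤ Y := by
  intro h
  have hNn : N.Normal := hch.2.1
  have hYn : Y.Normal := hch.2.2.1
  set f := QuotientGroup.mk' Y with hf
  have hfn : (N.map f).Normal := hNn.map f (QuotientGroup.mk'_surjective Y)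
  set C : Subgroup X := (Subgroup.centralizer ((N.map f : Subgroup (X ⧸ Y)) : Set (X ⧸ Y))).comap f with hC
  have hCn : C.Normal := inferInstance
  have hle : ∀ K : Subgroup X, ⁅N, K⁆ ≤ Y ↔ K ≤ C := by
    intro K
    rw [H39.Degree.le_iff_map_eq_bot, Subgroup.map_commutator, Subgroup.commutator_comm,
      Subgroup.commutator_eq_bot_iff_le_centralizer, Subgroup.map_le_iff_le_comap]
  rw [hle] at h hNR
  have haC : a ∈ C := h (Subgroup.mem_zpowers a)
  have hCS : ¬ C ≤ (S : Subgroup X) := by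
    intro h1
    exact ha (H52.PCore.le_pCore hCn (S.2.to_le h1) haC)
  have hsup : (S : Subgroup X) ⊔ C = ⊤ := by
    apply hSc.2
    exact lt_of_le_of_ne le_sup_left fun h1 => hCS (h1 ▸ le_sup_right)
  apply hNR
  apply H2.Residual.residual_le_of_isPGroup_quotient
  have h1 : (S : Subgroup X).map (QuotientGroup.mk' C) = ⊤ := by
    have h2 : ((S : Subgroup X) ⊔ C).map (QuotientGroup.mk' C) = ⊤ := by
      rw [hsup]; exact Subgroup.map_top_of_surjective _ (QuotientGroup.mk'_surjective C)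
    rw [Subgroup.map_sup, QuotientGroup.map_mk'_self, sup_bot_eq] at h2
    exact h2
  have h3 := S.2.map (QuotientGroup.mk' C)
  rw [h1] at h3
  exact h3.of_equiv Subgroup.topEquiv

theorem main (hp5 : 5 ≤ p) (S : Sylow p X) (hSc : IsCoatom (S : Subgroup X)) (hNPC : HasNormalPComplement p (X ⧸ pCore p X))
    (hC : Subgroup.centralizer ((pCore p X : Subgroup X) : Set X) ≤ pCore p X)
    (hcyc : IsCyclic (↥(S : Subgroup X) ⧸ (pCore p X).subgroupOf (S : Subgroup X))) {A : Subgroup X}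
    (hA : A ∈ maxIn false p (S : Subgroup X)) : A ≤ pCore p X := by
  classical
  by_contra hAT
  set T := pCore p X with hT
  have hTn : T.Normal := inferInstance
  have hTp : IsPGroup p T := H52.PCore.isPGroup_pCore
  have hTS : T ≤ (S : Subgroup X) := H52.PCore.pCore_le_sylow S
  obtain ⟨A, hA, hAT, hquad⟩ := JQuad.exists_quad S.2 hTS ⟨A, hA, hAT⟩
  have hAc : ∀ x ∈ A, ∀ y ∈ A, x * y = y * x := fun x hx y hy => hA.2.1.comm hx hy
  obtain ⟨a, haA, hagen⟩ := exists_gen hcyc hA.1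
  have haT : a ∉ T := by
    intro h
    apply hAT
    intro x hx
    obtain ⟨i, t, ht, rfl⟩ := hagen x hx
    exact mul_mem (pow_mem h i) (Subgroup.mem_inf.1 ht).2
  have haS : a ∈ (S : Subgroup X) := hA.1 haA
  -- the section
  have hKT : ¬ pResidual p X ≤ Subgroup.centralizer (T : Set X) := by
    intro h
    have h1 := H2.Residual.sylow_sup_residual S
    rw [sup_eq_left.2 ((h.trans hC).trans hTS)] at h1
    exact hSc.1 h1
  obtain ⟨N, Y, hch, hNT, hNY, hNTY, hNp, hNNT, hNR⟩ := JNY.exists_NY T hTp hKT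
  have hNn : N.Normal := hch.2.1
  have hYn : Y.Normal := hch.2.2.1
  have hYN : Y ≤ N := hch.1.le
  have hNN : ⁅N, N⁆ ≤ Y := (Subgroup.commutator_mono le_rfl hNT).trans hNTY
  have hne : ¬ ⁅N, Subgroup.zpowers a⁆ ≤ Y := by
    exact not_le S hSc hch hNR haT
  have hdeg : ¬ iterCommutator N (Subgroup.zpowers a) (p - 1) ≤ Y := fun h =>
    H39.ThomAb.false_of_norm S hSc hNPC haS haT hch hNT h hne
  obtain ⟨V, _, _, π, ρ, hπadd, hπsurj, hπker, -, hπρ⟩ := JMod.exists_module p N Y hNN hNp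
  -- basic facts on `π`
  have hπinv : ∀ n : N, π n⁻¹ = - π n := by
    intro n
    have h1 := hπadd n n⁻¹
    rw [mul_inv_cancel, (hπker 1).2 (one_mem _)] at h1
    rw [eq_neg_iff_add_eq_zero, add_comm]; exact h1.symm
  have hπcomm : ∀ (x : X) (n m : N), (m : X) = ⁅x, (n : X)⁆ → π m = (ρ x - 1) (π n) := by
    intro x n m hm
    have h1 := hπρ x n (m * n) (by
      push_cast; rw [hm, commutatorElement_def]; group)
    rw [hπadd] at h1
    rw [LinearMap.sub_apply, ← h1, Module.End.one_apply, add_sub_cancel_right]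
  have hcommN : ∀ (x n : X), n ∈ N → ⁅x, n⁆ ∈ N := by
    intro x n hn
    rw [commutatorElement_def]
    exact mul_mem (hNn.conj_mem n hn x) (inv_mem hn)
  have hρT : ∀ t ∈ T, ρ t = 1 := by
    intro t ht
    refine LinearMap.ext fun w => ?_
    obtain ⟨n, rfl⟩ := hπsurj w
    have h1 := hπcomm t n ⟨⁅t, (n : X)⁆, hcommN t n n.2⟩ rfl
    rw [(hπker _).2 (by
      show ⁅t, (n : X)⁆ ∈ Y
      apply hNTY
      rw [Subgroup.commutator_comm]
      exact Subgroup.commutator_mem_commutator ht n.2)] at h1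
    rw [LinearMap.sub_apply, Module.End.one_apply, eq_comm, sub_eq_zero] at h1
    exact h1
  set t := ρ a - 1 with ht
  -- nilpotency
  obtain ⟨M, hM⟩ := S.2 ⟨a, haS⟩
  have hM' : a ^ p ^ M = 1 := congrArg Subtype.val hM
  have htnil : t ^ (p ^ M) = 0 := by
    rw [ht, JOp.sub_one_pow, ← map_pow, hM', map_one, sub_self]
  have hex : ∃ m, t ^ m = 0 := ⟨_, htnil⟩
  set d := Nat.find hex with hd
  have htd : t ^ d = 0 := Nat.find_spec hex
  have htd' : ∀ m < d, t ^ m ≠ 0 := fun m hm => Nat.find_min hex hm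
  have hdp : t ^ (p - 1) ≠ 0 := by
    intro h0
    apply hdeg
    -- `[N, a; k]` is contained in the preimage of `t ^ k V`
    have key : ∀ k, ∀ x ∈ iterCommutator N (Subgroup.zpowers a) k, ∃ hx : x ∈ N, ∃ w, π ⟨x, hx⟩ = (t ^ k) w := by
      intro k
      induction k with
      | zero => exact fun x hx => ⟨hx, π ⟨x, hx⟩, rfl⟩
      | succ k ih =>
        intro x hx
        have hx' : x ∈ ⁅iterCommutator N (Subgroup.zpowers a) k, Subgroup.zpowers a⁆ := hx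
        refine Subgroup.closure_induction (p := fun x _ => ∃ hx : x ∈ N, ∃ w, π ⟨x, hx⟩ = (t ^ (k + 1)) w) ?_ ?_ ?_ ?_ hx'
        · rintro _ ⟨y, hy, g, hg, rfl⟩
          obtain ⟨hyN, w, hw⟩ := ih y hy
          rw [← mem_powers_iff_mem_zpowers] at hg
          obtain ⟨i, rfl⟩ := hg
          have h1 : ⁅y, a ^ i⁆ ∈ N := by
            rw [← commutatorElement_inv]; exact inv_mem (hcommN _ _ hyN)
          refine ⟨h1, ?_⟩
          obtain ⟨q, hq, hq2⟩ := JOp.exists_factor (x := ρ a) (y := ρ a) (Commute.refl _) i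
          have hqt : Commute t q := by
            rw [ht]; exact hq.sub_left (Commute.one_left q)
          refine ⟨- (q w), ?_⟩
          have h2 : (⟨⁅y, a ^ i⁆, h1⟩ : N) = (⟨⁅a ^ i, y⁆, hcommN _ _ hyN⟩ : N)⁻¹ := by
            apply Subtype.ext
            show ⁅y, a ^ i⁆ = ⁅a ^ i, y⁆⁻¹
            rw [commutatorElement_inv]
          rw [h2, hπinv, hπcomm (a ^ i) ⟨y, hyN⟩ ⟨⁅a ^ i, y⁆, hcommN _ _ hyN⟩ rfl, hw, map_neg, map_pow, hq2, ← ht]
          congr 1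
          rw [← Module.End.mul_apply, ← Module.End.mul_apply, pow_succ', mul_assoc, mul_assoc, (hqt.pow_left k).eq]
        · exact ⟨one_mem _, 0, by
            rw [map_zero]; exact (hπker _).2 (one_mem _)⟩
        · rintro x y _ _ ⟨hx, w, hw⟩ ⟨hy, w', hw'⟩
          refine ⟨mul_mem hx hy, w + w', ?_⟩
          rw [map_add, ← hw, ← hw', ← hπadd]; rfl
        · rintro x _ ⟨hx, w, hw⟩
          refine ⟨inv_mem hx, -w, ?_⟩
          rw [map_neg, ← hw, ← hπinv]; rfl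
    intro x hx
    obtain ⟨hxN, w, hw⟩ := key _ x hx
    rw [h0, LinearMap.zero_apply] at hw
    exact (hπker _).1 hw
  have hd5 : 5 ≤ d := by
    by_contra hcon
    apply hdp
    have : p - 1 = (p - 1 - d) + d := by omega
    rw [this, pow_add, htd, mul_zero]
  -- the vector `v`
  have hne' : t ^ (d - 1) ≠ 0 := htd' _ (by omega)
  obtain ⟨w₀, hw₀⟩ : ∃ w, (t ^ (d - 1)) w ≠ 0 := by
    by_contra hcon
    push Not at hcon
    exact hne' (LinearMap.ext hcon)
  obtain ⟨n₀, rfl⟩ := hπsurj w₀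
  have hvN : ∀ k, vseq a (n₀ : X) k ∈ N := by
    intro k
    induction k with
    | zero => exact n₀.2
    | succ k ih => exact hcommN a _ ih
  obtain ⟨vv, hvv⟩ : ∃ vv : ℕ → N, ∀ k, ((vv k : N) : X) = vseq a (n₀ : X) k := ⟨fun k => ⟨_, hvN k⟩, fun _ => rfl⟩
  have hvv1 : ∀ k, ((vv (k + 1) : N) : X) = ⁅a, (vv k : X)⁆ := fun k => by rw [hvv, hvv]; rfl
  have hvπ : ∀ k, π (vv k) = (t ^ k) (π n₀) := by
    intro k
    induction k with
    | zero => rw [show vv 0 = n₀ from Subtype.ext (hvv 0)]; rfl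
    | succ k ih =>
      rw [hπcomm a (vv k) (vv (k + 1)) (hvv1 k), ← ht, ih, ← Module.End.mul_apply, ← pow_succ']
  have hvd : ∀ j, d ≤ j → ((vv j : N) : X) ∈ Y := by
    intro j hj
    rw [← hπker, hvπ]
    have : j = (j - d) + d := by omega
    rw [this, pow_add, htd, mul_zero]; rfl
  set y : X := (vv (d - 4) : X) with hy
  have hyN : y ∈ N := (vv (d - 4)).2
  have hyS : y ∈ (S : Subgroup X) := hTS (hNT hyN)
  have hMM : ∀ u ∈ MM A y, ∀ w ∈ MM A y, u * w = w * u :=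
    JIso.MM_comm (T := T) (N := N) (Y := Y) (A := A) hYN hNT hNY hNTY hNNT (a := a)
      (fun x hx => hquad x hx a haA a haA) hagen (fun k => (vv k : X)) (fun k => (vv k).2) hvv1 hd5 hvd
  -- the maximal subgroup `A₀` of `A`
  have haord : ∀ i : ℕ, ¬ p ∣ i → ∃ k : ℕ, a ^ (i * k) = a := by
    intro i hi
    have h1 : (orderOf a) ∣ p ^ M := orderOf_dvd_of_pow_eq_one hM'
    have h2 : Nat.Coprime i (orderOf a) :=
      Nat.Coprime.coprime_dvd_right h1 (Nat.Coprime.pow_right M ((Nat.Prime.coprime_iff_not_dvd hp.out).2 hi).symm)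
    have h3 : 1 < orderOf a := by
      have h4 : orderOf a ≠ 1 := fun h => haT (by rw [orderOf_eq_one_iff.1 h]; exact one_mem _)
      have := orderOf_pos a
      omega
    obtain ⟨k, hk⟩ := Nat.exists_mul_mod_eq_one_of_coprime h2 h3
    refine ⟨k, ?_⟩
    rw [← pow_mod_orderOf, hk.2, pow_one]
  set A₀ : Subgroup X := (A ⊓ T) ⊔ Subgroup.zpowers (a ^ p) with hA₀
  have hA₀le : A₀ ≤ A := sup_le inf_le_left (by rw [Subgroup.zpowers_le]; exact pow_mem haA p)
  have hA₀mem : ∀ x ∈ A₀, ∃ j : ℕ, ∃ s ∈ A ⊓ T, x = a ^ (p * j) * s := by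
    intro x hx
    have hn : Subgroup.zpowers (a ^ p) ≤ Subgroup.normalizer ((A ⊓ T : Subgroup X) : Set X) := by
      refine le_trans ?_ (Subgroup.centralizer_le_normalizer _)
      rw [Subgroup.zpowers_le, Subgroup.mem_centralizer_iff]
      exact fun s hs => hAc s (Subgroup.mem_inf.1 hs).1 _ (pow_mem haA p)
    rw [hA₀, sup_comm] at hx
    obtain ⟨g, hg, s, hs, rfl⟩ := H39.SFMin.mem_sup_of_norm hn hx
    rw [← mem_powers_iff_mem_zpowers] at hg
    obtain ⟨j, rfl⟩ := hg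
    exact ⟨j, s, hs, by rw [pow_mul]⟩
  have hA₀lt : A₀ < A := by
    refine lt_of_le_of_ne hA₀le fun h => haT ?_
    obtain ⟨j, s, hs, has⟩ := hA₀mem a (h ▸ haA)
    -- `a ^ (p j) ≡ a` mod `T`
    by_cases hj : j = 0
    · rw [hj, mul_zero, pow_zero, one_mul] at has
      rw [has]; exact (Subgroup.mem_inf.1 hs).2
    · have h1 : a ^ (p * j - 1) ∈ T := by
        have h2 : a ^ (p * j) = a ^ (p * j - 1) * a := by
          rw [← pow_succ]; congr 1
          have : 0 < p * j := Nat.mul_pos hp.out.pos (Nat.pos_of_ne_zero hj)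
          omega
        have h3 : a ^ (p * j - 1) = a * s⁻¹ * a⁻¹ := by
          rw [eq_mul_inv_iff_mul_eq, ← h2, eq_mul_inv_iff_mul_eq]; exact has.symm
        rw [h3]
        exact hTn.conj_mem _ (inv_mem (Subgroup.mem_inf.1 hs).2) a
      have h2 : ¬ p ∣ (p * j - 1) := by
        intro h3
        have h4 : p ∣ 1 := by
          have : 0 < p * j := Nat.mul_pos hp.out.pos (Nat.pos_of_ne_zero hj)
          have h5 : p * j - (p * j - 1) = 1 := by omega
          rw [← h5]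
          exact Nat.dvd_sub (dvd_mul_right p j) h3
        exact hp.out.one_lt.ne' (Nat.dvd_one.1 h4)
      obtain ⟨k, hk⟩ := haord _ h2
      rw [← hk, pow_mul]; exact pow_mem h1 k
  obtain ⟨g, hg, hg0, b, hb, c, hc, hgb⟩ := step S.2 hA hyS hMM hA₀lt
  -- translate to the module
  obtain ⟨i, s, hs, hgi⟩ := hagen g hg
  have hpi : ¬ p ∣ i := by
    rintro ⟨j, rfl⟩
    apply hg0
    rw [hgi, pow_mul]
    exact mul_mem (Subgroup.mem_sup_right (pow_mem (Subgroup.mem_zpowers _) j)) (Subgroup.mem_sup_left hs)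
  obtain ⟨k, hk⟩ := haord i hpi
  have hρg : ρ g = ρ a ^ i := by
    rw [hgi, map_mul, hρT s (Subgroup.mem_inf.1 hs).2, mul_one, map_pow]
  have hρa : ρ a = ρ g ^ k := by
    rw [hρg, ← pow_mul, ← map_pow, hk]
  obtain ⟨j, s', hs', hbj⟩ := hA₀mem b hb
  have hρb : ρ b = ρ g ^ (p * (k * j)) := by
    rw [hbj, map_mul, hρT s' (Subgroup.mem_inf.1 hs').2, mul_one, map_pow, hρa, ← pow_mul]
    congr 1; ring
  have hcN : c ∈ N := by
    have : c = ⁅b, y⁆⁻¹ * ⁅g, ⁅g, y⁆⁆ := by rw [hgb]; group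
    rw [this]
    exact mul_mem (inv_mem (hcommN _ _ hyN)) (hcommN _ _ (hcommN _ _ hyN))
  have e1 : (ρ g - 1) ((ρ g - 1) (π ⟨y, hyN⟩)) = (ρ g ^ (p * (k * j)) - 1) (π ⟨y, hyN⟩) + π ⟨c, hcN⟩ := by
    rw [← hρb, ← hπcomm g ⟨y, hyN⟩ ⟨⁅g, y⁆, hcommN _ _ hyN⟩ rfl,
      ← hπcomm g ⟨⁅g, y⁆, hcommN _ _ hyN⟩ ⟨⁅g, ⁅g, y⁆⁆, hcommN _ _ (hcommN _ _ hyN)⟩ rfl,
      ← hπcomm b ⟨y, hyN⟩ ⟨⁅b, y⁆, hcommN _ _ hyN⟩ rfl, ← hπadd]
    congr 1
    exact Subtype.ext hgb
  have e2 : (ρ g - 1) (π ⟨c, hcN⟩) = 0 := by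
    rw [← hπcomm g ⟨c, hcN⟩ ⟨⁅g, c⁆, hcommN _ _ hcN⟩ rfl, hπker]
    show ⁅g, c⁆ ∈ Y
    rw [commutatorElement_eq_one_iff_mul_comm.2 (hAc g hg c hc)]; exact one_mem _
  have hgS : g ∈ (S : Subgroup X) := hA.1 hg
  obtain ⟨N', hN'⟩ := S.2 ⟨g, hgS⟩
  have hN'' : g ^ p ^ N' = 1 := congrArg Subtype.val hN'
  have e3 := JOp.core (p := p) (by omega) (ρ g) (N := N') (by rw [← map_pow, hN'', map_one]) (k := k) e1 e2
  rw [← hρa, ← ht] at e3
  apply hw₀
  have e4 : π ⟨y, hyN⟩ = (t ^ (d - 4)) (π n₀) := hvπ (d - 4)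
  rw [e4, ← Module.End.mul_apply, ← pow_add] at e3
  rw [show d - 1 = 3 + (d - 4) by omega]
  exact e3

end H56.JCyc
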