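import Mathlib
import Cfsg.Agent.Lib.H56.JCyc
import Cfsg.Agent.Lib.H66.CopAb
import Cfsg.Agent.Lib.H2.GenCent

set_option autoImplicit false

/-! Reduction of `J(S) ≤ O_p(X)` to the case that `S / O_p(X)` is cyclic. -/

namespace H56.JRed

open Cfsg H14.MaxIn
open scoped commutatorElement

universe u

variable {X : Type u} [Group X] [Finite X] {p : ℕ} [hp : Fact p.Prime]

omit [Finite X] hp in
theorem mem_of_relIndex {T H : Subgroup X} [hT : T.Normal] (hco : (T.relIndex H).Coprime p) {x : X} (hx : x ∈ H)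
    {n : ℕ} (hn : x ^ p ^ n = 1) : x ∈ T := by
  have h1 : x ^ T.relIndex H ∈ T := by
    have := Subgroup.pow_index_mem (T.subgroupOf H) (⟨x, hx⟩ : H)
    exact this
  have h2 : (T.relIndex H).Coprime (p ^ n) := Nat.Coprime.pow_right n hco
  have h3 : (QuotientGroup.mk' T x) ^ T.relIndex H = 1 := by
    rw [← map_pow]; exact (QuotientGroup.eq_one_iff _).2 h1
  have h4 : (QuotientGroup.mk' T x) ^ p ^ n = 1 := by
    rw [← map_pow, hn, map_one]
  have h5 : orderOf (QuotientGroup.mk' T x) = 1 := by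
    have := Nat.dvd_gcd (orderOf_dvd_of_pow_eq_one h3) (orderOf_dvd_of_pow_eq_one h4)
    rw [h2.gcd_eq_one] at this
    exact Nat.dvd_one.1 this
  exact (QuotientGroup.eq_one_iff x).1 (orderOf_eq_one_iff.1 h5)

/-- minimal situation -/
theorem lemF (hp5 : 5 ≤ p) {T H A : Subgroup X} (hTn : T.Normal) (hHn : H.Normal) (hTH : T ≤ H) (hTp : IsPGroup p T)
    (hAc : IsMulCommutative A) (hAp : IsPGroup p A)
    (hAm : ∀ B : Subgroup X, IsPGroup p B → IsMulCommutative B → Nat.card B ≤ Nat.card A)
    (hHA : H ⊔ A = ⊤) (hco : (T.relIndex H).Coprime p) (hHH : ⁅H, H⁆ ≤ T) (hne : ¬ ⁅H, A⁆ ≤ T)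
    (hmin : ∀ H₂ : Subgroup X, T ≤ H₂ → H₂ ≤ H → A ≤ Subgroup.normalizer (H₂ : Set X) → H₂ ≠ H → ⁅H₂, A⁆ ≤ T)
    (hC : Subgroup.centralizer (T : Set X) ≤ T) : False := by
  classical
  set O := pCore p X with hO
  have hOn : O.Normal := inferInstance
  have hOp : IsPGroup p O := H52.PCore.isPGroup_pCore
  have hTO : T ≤ O := H52.PCore.le_pCore hTn hTp
  set f := QuotientGroup.mk' O with hf
  have hfs : Function.Surjective f := QuotientGroup.mk'_surjective O
  have hker : f.ker = O := by rw [hf, QuotientGroup.ker_mk']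
  -- `O ⊓ H = T`
  have hOH : O ⊓ H ≤ T := by
    intro x hx
    obtain ⟨n, hn⟩ := hOp ⟨x, (Subgroup.mem_inf.1 hx).1⟩
    exact mem_of_relIndex hco (Subgroup.mem_inf.1 hx).2 (congrArg Subtype.val hn)
  set K := H.map f with hK
  set B := A.map f with hB
  have hKn : K.Normal := hHn.map f hfs
  have hKc : ∀ x ∈ K, ∀ y ∈ K, x * y = y * x := by
    rintro _ ⟨x, hx, rfl⟩ _ ⟨y, hy, rfl⟩
    rw [← commutatorElement_eq_one_iff_mul_comm, ← map_commutatorElement]
    exact (QuotientGroup.eq_one_iff _).2 (hTO (hHH (Subgroup.commutator_mem_commutator hx hy)))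
  have hBc : IsMulCommutative B := by
    refine ⟨⟨?_⟩⟩
    rintro ⟨_, x, hx, rfl⟩ ⟨_, y, hy, rfl⟩
    apply Subtype.ext
    show f x * f y = f y * f x
    rw [← map_mul, ← map_mul, setLike_mul_comm (s := A) hx hy]
  have hBp : IsPGroup p B := hAp.map f
  have hKco : (Nat.card K).Coprime p := by
    have h1 : O.relIndex H ∣ T.relIndex H := Subgroup.relIndex_dvd_of_le_left H hTO
    rw [hK, ← Subgroup.relIndex_ker, hker]
    exact Nat.Coprime.coprime_dvd_left h1 hco
  have hKB : K ⊔ B = ⊤ := by
    rw [hK, hB, ← Subgroup.map_sup, hHA, Subgroup.map_top_of_surjective _ hfs]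
  have hBK : B ≤ Subgroup.normalizer (K : Set (X ⧸ O)) := by
    rw [Subgroup.normalizer_eq_top]; exact le_top
  have hcop : (Nat.card B).Coprime (Nat.card K) := by
    obtain ⟨n, hn⟩ := IsPGroup.iff_card.1 hBp
    rw [hn]; exact (Nat.Coprime.pow_right n hKco).symm
  -- minimality
  have hmin' : ∀ L : Subgroup (X ⧸ O), L ≤ K → B ≤ Subgroup.normalizer (L : Set (X ⧸ O)) → L ≠ K → ⁅L, B⁆ = ⊥ := by
    intro L hLK hBL hLne
    have h1 : (L.comap f ⊓ H).map f = L := by
      apply le_antisymm
      · exact (Subgroup.map_mono inf_le_left).trans (Subgroup.map_comap_le f L)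
      · intro y hy
        obtain ⟨x, hx, rfl⟩ := hLK hy
        exact ⟨x, Subgroup.mem_inf.2 ⟨hy, hx⟩, rfl⟩
    have h2 : ⁅L.comap f ⊓ H, A⁆ ≤ T := by
      apply hmin
      · refine le_inf (fun t ht => ?_) hTH
        have : f t = 1 := (QuotientGroup.eq_one_iff t).2 (hTO ht)
        rw [Subgroup.mem_comap, this]; exact one_mem _
      · exact inf_le_right
      · intro a ha
        have h3 : f a ∈ Subgroup.normalizer (L : Set (X ⧸ O)) := hBL ⟨a, ha, rfl⟩
        rw [Subgroup.mem_normalizer_iff] at h3 ⊢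
        intro x
        have h4 : a ∈ Subgroup.normalizer (H : Set X) := by
          rw [Subgroup.normalizer_eq_top]; trivial
        rw [Subgroup.mem_inf, Subgroup.mem_inf, Subgroup.mem_comap, Subgroup.mem_comap, h3 (f x), map_mul, map_mul, map_inv,
          (Subgroup.mem_normalizer_iff.1 h4) x]
      · intro h
        apply hLne
        rw [← h1, h]
    rw [← h1, hB, ← Subgroup.map_commutator, eq_bot_iff, Subgroup.map_le_iff_le_comap]
    intro x hx
    rw [Subgroup.mem_comap, Subgroup.mem_bot]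
    exact (QuotientGroup.eq_one_iff x).2 (hTO (h2 hx))
  have hneK : ⁅K, B⁆ ≠ ⊥ := by
    intro h
    apply hne
    rw [hK, hB, ← Subgroup.map_commutator, Subgroup.map_eq_bot_iff, hker] at h
    exact (le_inf h (Subgroup.commutator_le_left H A)).trans hOH
  have hKBK : ⁅K, B⁆ = K := by
    by_contra h
    have h1 : ⁅⁅K, B⁆, B⁆ = ⊥ := by
      apply hmin' _ (Subgroup.commutator_le_left K B) ?_ h
      exact Subgroup.normalizer_commutator_ge_right K B
    exact hneK (H13.Coprime.comm_eq_bot_of_comm_comm_eq_bot hBp hKco hBK h1)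
  have hfix : K ⊓ Subgroup.centralizer (B : Set (X ⧸ O)) = ⊥ := by
    have := H66.CopAb.commutator_inf_centralizer B K hKc hBK hcop
    rwa [hKBK] at this
  -- the centralizer of `K` in `B` is trivial
  have hfaith : B ⊓ Subgroup.centralizer (K : Set (X ⧸ O)) = ⊥ := by
    set Z := B ⊓ Subgroup.centralizer (K : Set (X ⧸ O)) with hZ
    have hcn : (Subgroup.centralizer (K : Set (X ⧸ O))).Normal := inferInstance
    have hZn : Z.Normal := by
      rw [← Subgroup.normalizer_eq_top_iff, ← top_le_iff, ← hKB]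
      refine sup_le ?_ ?_
      · refine le_trans ?_ (Subgroup.centralizer_le_normalizer _)
        rw [Subgroup.le_centralizer_iff]
        exact inf_le_right
      · refine le_trans ?_ (H39.Comm.inf_normalizer_le _ _)
        refine le_inf Subgroup.le_normalizer ?_
        rw [Subgroup.normalizer_eq_top]; exact le_top
    have hZp : IsPGroup p Z := hBp.to_le inf_le_left
    have h1 : Z.comap f ≤ O := by
      apply H52.PCore.le_pCore inferInstance
      apply hZp.comap_of_ker_isPGroup
      rw [hker]; exact hOp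
    rw [eq_bot_iff]
    intro z hz
    obtain ⟨x, rfl⟩ := hfs z
    rw [Subgroup.mem_bot]
    exact (QuotientGroup.eq_one_iff x).2 (h1 hz)
  -- `B` is cyclic
  have hBcyc : IsCyclic B := by
    by_contra hnc
    have h1 := H2.GenCent.main B K hBc hnc hBK hcop
    have h2 : H2.GenCent.gen B K = ⊥ := by
      rw [eq_bot_iff]
      refine iSup₂_le ?_
      rintro b ⟨hb, hb1⟩
      rw [← hfix]
      have hn : B ≤ Subgroup.normalizer ((K ⊓ Subgroup.centralizer {b} : Subgroup (X ⧸ O)) : Set (X ⧸ O)) := by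
        refine le_trans ?_ (H39.Comm.inf_normalizer_le _ _)
        refine le_inf hBK ?_
        refine le_trans ?_ Subgroup.le_normalizer
        intro c hc
        rw [Subgroup.mem_centralizer_singleton_iff]
        exact setLike_mul_comm (s := B) hc hb
      have hKb : K ⊓ Subgroup.centralizer {b} ≠ K := by
        intro h
        apply hb1
        have h3 : b ∈ B ⊓ Subgroup.centralizer (K : Set (X ⧸ O)) := by
          refine Subgroup.mem_inf.2 ⟨hb, ?_⟩
          rw [Subgroup.mem_centralizer_iff]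
          intro k hk
          exact (Subgroup.mem_centralizer_singleton_iff.1 (Subgroup.mem_inf.1 (h.ge hk)).2)
        rw [hfaith] at h3
        exact Subgroup.mem_bot.1 h3
      have h3 := hmin' _ inf_le_left hn hKb
      exact le_inf inf_le_left (Subgroup.commutator_eq_bot_iff_le_centralizer.1 h3)
    rw [h2] at h1
    apply hneK
    rw [← h1, Subgroup.commutator_bot_left]
  -- the Sylow subgroup
  obtain ⟨S, hAS⟩ := hAp.exists_le_sylow
  have hOS : O ≤ (S : Subgroup X) := H52.PCore.pCore_le_sylow S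
  have hSB : (S : Subgroup X).map f = B := by
    refine le_antisymm ?_ (Subgroup.map_mono hAS)
    rintro _ ⟨s, hs, rfl⟩
    have h1 : f s ∈ K ⊔ B := by rw [hKB]; trivial
    rw [sup_comm] at h1
    obtain ⟨b, hb, k, hk, hbk⟩ := H39.SFMin.mem_sup_of_norm hBK h1
    obtain ⟨a, ha, rfl⟩ := hb
    have h2 : k = f (a⁻¹ * s) := by
      rw [map_mul, map_inv, ← hbk]; group
    obtain ⟨n, hn⟩ := S.2 ⟨a⁻¹ * s, mul_mem (inv_mem (hAS ha)) hs⟩
    have h3 : (a⁻¹ * s) ^ p ^ n = 1 := congrArg Subtype.val hn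
    have h4 : k ^ p ^ n = 1 := by rw [h2, ← map_pow, h3, map_one]
    have h5 : orderOf k = 1 := by
      have h6 : orderOf k ∣ Nat.card K := by
        rw [← Subgroup.orderOf_mk k hk]; exact orderOf_dvd_natCard _
      have := Nat.dvd_gcd (orderOf_dvd_of_pow_eq_one h4) h6
      rw [(Nat.Coprime.pow_right n hKco).symm.gcd_eq_one] at this
      exact Nat.dvd_one.1 this
    rw [orderOf_eq_one_iff.1 h5, mul_one] at hbk
    rw [← hbk]; exact ⟨a, ha, rfl⟩
  have hKBbot : K ⊓ B = ⊥ := by
    rw [← disjoint_iff]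
    exact Subgroup.disjoint_of_coprime_natCard hcop.symm
  have hKne : K ≠ ⊥ := by
    intro h; apply hneK; rw [h, Subgroup.commutator_bot_left]
  have hSc : IsCoatom (S : Subgroup X) := by
    constructor
    · intro h
      rw [h, Subgroup.map_top_of_surjective _ hfs] at hSB
      rw [← hSB, inf_top_eq] at hKBbot
      exact hKne hKBbot
    · intro M hM
      by_contra hMtop
      have h1 : K ⊓ M.map f ≠ K := by
        intro h
        apply hMtop
        rw [← top_le_iff]
        intro x _
        have h2 : f x ∈ K ⊔ B := by rw [hKB]; trivial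
        have h3 : K ⊔ B ≤ M.map f := by
          refine sup_le (h ▸ inf_le_right) ?_
          rw [← hSB]; exact Subgroup.map_mono hM.le
        obtain ⟨m, hm, hmx⟩ := h3 h2
        have h4 : m⁻¹ * x ∈ O := by
          rw [← QuotientGroup.eq_one_iff]
          show f (m⁻¹ * x) = 1
          rw [map_mul, map_inv, hmx]; group
        have h5 := mul_mem hm (hM.le (hOS h4))
        rwa [mul_inv_cancel_left] at h5
      have hBM : B ≤ M.map f := by rw [← hSB]; exact Subgroup.map_mono hM.le
      have h2 := hmin' _ inf_le_left (by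
        refine le_trans ?_ (H39.Comm.inf_normalizer_le _ _)
        exact le_inf hBK (hBM.trans Subgroup.le_normalizer)) h1
      have h3 : K ⊓ M.map f = ⊥ := by
        rw [eq_bot_iff, ← hfix]
        exact le_inf inf_le_left (Subgroup.commutator_eq_bot_iff_le_centralizer.1 h2)
      apply hM.not_ge
      intro m hm
      have h4 : f m ∈ K ⊔ B := by rw [hKB]; trivial
      obtain ⟨k, hk, b, hb, hkb⟩ := (by
        rw [sup_comm] at h4
        obtain ⟨b, hb, k, hk, h⟩ := H39.SFMin.mem_sup_of_norm hBK h4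
        exact ⟨b * k * b⁻¹, hKn.conj_mem k hk b, b, hb, by rw [← h]; group⟩ :
          ∃ k ∈ K, ∃ b ∈ B, k * b = f m)
      have h5 : k ∈ K ⊓ M.map f := by
        refine Subgroup.mem_inf.2 ⟨hk, ?_⟩
        have h6 : k = f m * b⁻¹ := by rw [← hkb]; group
        rw [h6]
        exact mul_mem ⟨m, hm, rfl⟩ (inv_mem (hBM hb))
      rw [h3, Subgroup.mem_bot] at h5
      rw [h5, one_mul] at hkb
      rw [← hSB] at hb
      obtain ⟨s, hs, rfl⟩ := hb
      have h7 : s⁻¹ * m ∈ O := by
        rw [← QuotientGroup.eq_one_iff]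
        show f (s⁻¹ * m) = 1
        rw [map_mul, map_inv, hkb]; group
      have h8 := mul_mem hs (hOS h7)
      rwa [mul_inv_cancel_left] at h8
  have hNPC : HasNormalPComplement p (X ⧸ pCore p X) := by
    obtain ⟨n, hn⟩ := IsPGroup.iff_card.1 hBp
    refine H39.PNilp.of_normal K hKn hKco ⟨n, ?_⟩
    rw [← hn, ← Subgroup.relIndex_top_right, ← hKB, Subgroup.relIndex_sup_left, ← Subgroup.inf_relIndex_right, hKBbot,
      Subgroup.relIndex_bot_left]
  have hcyc : IsCyclic (↥(S : Subgroup X) ⧸ (pCore p X).subgroupOf (S : Subgroup X)) := by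
    let g : ↥(S : Subgroup X) →* ↥B := (f.comp (S : Subgroup X).subtype).codRestrict B (fun s => by
      rw [← hSB]; exact ⟨s, s.2, rfl⟩)
    have hg : ∀ s ∈ (pCore p X).subgroupOf (S : Subgroup X), g s = 1 := fun s hs =>
      Subtype.ext ((QuotientGroup.eq_one_iff (s : X)).2 hs)
    apply isCyclic_of_injective (QuotientGroup.lift _ g hg)
    rw [injective_iff_map_eq_one]
    intro x
    refine QuotientGroup.induction_on x fun s hs => ?_
    have h1 : f (s : X) = 1 := congrArg Subtype.val hs
    exact (QuotientGroup.eq_one_iff s).2 (Subgroup.mem_subgroupOf.2 ((QuotientGroup.eq_one_iff (s : X)).1 h1))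
  have hAmax : A ∈ maxIn false p (S : Subgroup X) := by
    refine ⟨hAS, prE_false.2 hAc, fun C hCS hC' => ?_⟩
    exact hAm C (S.2.to_le hCS) (prE_false.1 hC')
  have hfin := JCyc.main hp5 S hSc hNPC ((Subgroup.centralizer_le hTO).trans (hC.trans hTO)) hcyc hAmax
  apply hne
  refine le_trans ?_ hOH
  refine le_inf ?_ (Subgroup.commutator_le_left H A)
  exact (Subgroup.commutator_mono le_rfl hfin).trans (Subgroup.commutator_le_right H O)

omit [Finite X] hp in
theorem map_subtype_commutator_le {L : Subgroup X} {H A T : Subgroup ↥L} {T' : Subgroup X} (hT : T = T'.subgroupOf L) :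
    ⁅H, A⁆ ≤ T ↔ ⁅H.map L.subtype, A.map L.subtype⁆ ≤ T' := by
  rw [← Subgroup.map_commutator, Subgroup.map_le_iff_le_comap, hT]; rfl

theorem le_pCore (hp5 : 5 ≤ p) (S : Sylow p X) (hSc : IsCoatom (S : Subgroup X)) (hNPC : HasNormalPComplement p (X ⧸ pCore p X))
    (hC : Subgroup.centralizer ((pCore p X : Subgroup X) : Set X) ≤ pCore p X) {A : Subgroup X}
    (hA : A ∈ maxIn false p (S : Subgroup X)) : A ≤ pCore p X := by
  classical
  by_contra hAT
  set T := pCore p X with hT
  have hTn : T.Normal := inferInstance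
  have hTp : IsPGroup p T := H52.PCore.isPGroup_pCore
  have hTS : T ≤ (S : Subgroup X) := H52.PCore.pCore_le_sylow S
  obtain ⟨K', hK'n, hK'co, j, hK'i⟩ := H39.PNilp.iff_exists.1 hNPC
  set f := QuotientGroup.mk' T with hf
  have hfs : Function.Surjective f := QuotientGroup.mk'_surjective T
  have hker : f.ker = T := by rw [hf, QuotientGroup.ker_mk']
  set K := K'.comap f with hK
  have hKn : K.Normal := inferInstance
  have hTK : T ≤ K := by
    intro h hh
    have : f h = 1 := (QuotientGroup.eq_one_iff h).2 hh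
    rw [hK, Subgroup.mem_comap, this]; exact one_mem _
  -- `K'` is commutative
  have hT'c : IsCoatom ((S : Subgroup X).map f) := by
    refine ⟨fun h => hSc.1 ?_, fun M hM => ?_⟩
    · rw [← Subgroup.comap_map_eq_self (f := f) (H := (S : Subgroup X)) (by rw [hker]; exact hTS), h,
        Subgroup.comap_top]
    · have h1 : (S : Subgroup X) < M.comap f := by
        refine lt_of_le_of_ne (Subgroup.map_le_iff_le_comap.1 hM.le) fun h => hM.ne ?_
        rw [h, Subgroup.map_comap_eq_self_of_surjective hfs]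
      have h2 := hSc.2 _ h1
      rw [← Subgroup.map_comap_eq_self_of_surjective hfs M, h2, Subgroup.map_top_of_surjective _ hfs]
  have hK'comm := H39.ThomAb.comm_of_coatom (S.2.map f) hT'c hK'co hK'n
  have hSK : (S : Subgroup X) ⊔ K = ⊤ := by
    rw [← Subgroup.index_eq_one]
    have h1 : ((S : Subgroup X) ⊔ K).index ∣ (S : Subgroup X).index := Subgroup.index_dvd_of_le le_sup_left
    have h2 : ((S : Subgroup X) ⊔ K).index ∣ p ^ j := by
      rw [← hK'i, ← Subgroup.index_comap_of_surjective K' hfs]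
      exact Subgroup.index_dvd_of_le le_sup_right
    have h3 : (p ^ j).Coprime (S : Subgroup X).index :=
      Nat.Coprime.pow_left j ((Nat.Prime.coprime_iff_not_dvd hp.out).2 S.not_dvd_index)
    exact Nat.eq_one_of_dvd_coprimes h3 h2 h1
  have hKK : ⁅K, K⁆ ≤ T := by
    rw [Subgroup.commutator_le]
    intro k hk l hl
    rw [← QuotientGroup.eq_one_iff]
    change f ⁅k, l⁆ = 1
    rw [map_commutatorElement, commutatorElement_eq_one_iff_mul_comm]
    exact hK'comm _ hk _ hl
  have hKA : ¬ ⁅K, A⁆ ≤ T := by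
    intro h
    set D := (S : Subgroup X) ⊓ (Subgroup.centralizer (K' : Set (X ⧸ T))).comap f with hD
    have hHD : T ≤ D := by
      refine le_inf hTS fun h hh => ?_
      have : f h = 1 := (QuotientGroup.eq_one_iff h).2 hh
      rw [Subgroup.mem_comap, this]; exact one_mem _
    have hDn : D.Normal := by
      rw [← Subgroup.normalizer_eq_top_iff, ← top_le_iff, ← hSK]
      refine sup_le ?_ ?_
      · rw [hD]
        refine le_trans ?_ (H39.Comm.inf_normalizer_le _ _)
        refine le_inf Subgroup.le_normalizer ?_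
        rw [Subgroup.normalizer_eq_top]; exact le_top
      · rw [Subgroup.le_normalizer_iff_commutator_le_right]
        refine le_trans ?_ hHD
        rw [Subgroup.commutator_le]
        intro k hk x hx
        rw [← QuotientGroup.eq_one_iff]
        change f ⁅k, x⁆ = 1
        rw [map_commutatorElement, commutatorElement_eq_one_iff_mul_comm]
        exact Subgroup.mem_centralizer_iff.1 (Subgroup.mem_inf.1 hx).2 _ hk
    have hDT : D ≤ T := H52.PCore.le_pCore hDn (S.2.to_le inf_le_left)
    apply hAT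
    intro a ha
    apply hDT
    refine Subgroup.mem_inf.2 ⟨hA.1 ha, ?_⟩
    rw [Subgroup.mem_comap, Subgroup.mem_centralizer_iff]
    intro y hy
    obtain ⟨k, rfl⟩ := hfs y
    have h2 : f ⁅k, a⁆ = 1 := (QuotientGroup.eq_one_iff _).2 (h (Subgroup.commutator_mem_commutator hy ha))
    rwa [map_commutatorElement, commutatorElement_eq_one_iff_mul_comm] at h2
  -- a minimal `A`-invariant subgroup
  obtain ⟨H, ⟨hTH, hHK, hAH, hne⟩, hmin⟩ := wellFounded_lt.has_min
    {H : Subgroup X | T ≤ H ∧ H ≤ K ∧ A ≤ Subgroup.normalizer (H : Set X) ∧ ¬ ⁅H, A⁆ ≤ T}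
    ⟨K, hTK, le_rfl, by rw [Subgroup.normalizer_eq_top]; exact le_top, hKA⟩
  set L := H ⊔ A with hL
  have hHL : H ≤ L := le_sup_left
  have hAL : A ≤ L := le_sup_right
  have hTL : T ≤ L := hTH.trans hHL
  have hAp : IsPGroup p A := S.2.to_le hA.1
  have hAc : IsMulCommutative A := prE_false.1 hA.2.1
  have eH : (H.subgroupOf L).map L.subtype = H := by rw [Subgroup.subgroupOf_map_subtype, inf_eq_left.2 hHL]
  have eA : (A.subgroupOf L).map L.subtype = A := by rw [Subgroup.subgroupOf_map_subtype, inf_eq_left.2 hAL]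
  refine lemF (X := ↥L) (p := p) hp5 (T := T.subgroupOf L) (H := H.subgroupOf L) (A := A.subgroupOf L) inferInstance ?_
    (Subgroup.comap_mono hTH) hTp.comap_subtype ?_ hAp.comap_subtype ?_ ?_ ?_ ?_ ?_ ?_ ?_
  · rw [Subgroup.normal_subgroupOf_iff_le_normalizer hHL]
    exact sup_le Subgroup.le_normalizer hAH
  · refine ⟨⟨fun x y => Subtype.ext (Subtype.ext ?_)⟩⟩
    exact setLike_mul_comm (s := A) (Subgroup.mem_subgroupOf.1 x.2) (Subgroup.mem_subgroupOf.1 y.2)
  · intro B hBp hBc
    have h1 : Nat.card (A.subgroupOf L) = Nat.card A := Nat.card_congr (Subgroup.subgroupOfEquivOfLe hAL).toEquiv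
    have h2 : Nat.card (B.map L.subtype) = Nat.card B := H39.PNilp.card_map_injective _ L.subtype_injective B
    obtain ⟨R, hR⟩ := (hBp.map L.subtype).exists_le_sylow
    obtain ⟨g, rfl⟩ := MulAction.exists_smul_eq X S R
    have h3 : Nat.card ((B.map L.subtype).map (MulAut.conj g⁻¹).toMonoidHom) = Nat.card B := by
      rw [← h2]
      exact H39.PNilp.card_map_injective _ (MulAut.conj g⁻¹).injective _
    rw [h1, ← h3]
    apply hA.2.2
    · rintro _ ⟨x, hx, rfl⟩
      have h4 := hR hx
      rw [Sylow.coe_subgroup_smul, Subgroup.mem_pointwise_smul_iff_inv_smul_mem] at h4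
      simpa using h4
    · apply PrE.map
      apply PrE.map
      exact prE_false.2 hBc
  · rw [← Subgroup.subgroupOf_sup hHL hAL, ← hL, Subgroup.subgroupOf_self]
  · rw [Subgroup.relIndex_subgroupOf hHL]
    apply Nat.Coprime.coprime_dvd_left ?_ hK'co
    rw [← hker, Subgroup.relIndex_ker]
    apply Subgroup.card_dvd_of_le
    rw [Subgroup.map_le_iff_le_comap]
    exact hHK
  · rw [map_subtype_commutator_le rfl, eH]
    exact (Subgroup.commutator_mono hHK hHK).trans hKK
  · rw [map_subtype_commutator_le rfl, eH, eA]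
    exact hne
  · intro H₂ hTH₂ hH₂H hAH₂ hne₂
    rw [map_subtype_commutator_le rfl, eA]
    by_contra hcon
    refine hmin (H₂.map L.subtype) ⟨?_, ?_, ?_, hcon⟩ ?_
    · intro t ht
      exact ⟨⟨t, hTL ht⟩, hTH₂ (Subgroup.mem_subgroupOf.2 ht), rfl⟩
    · rintro _ ⟨x, hx, rfl⟩
      exact hHK (Subgroup.mem_subgroupOf.1 (hH₂H hx))
    · rw [← eA]
      refine (Subgroup.map_mono hAH₂).trans (Subgroup.le_normalizer_map _)
    · refine lt_of_le_of_ne ?_ ?_
      · rintro _ ⟨x, hx, rfl⟩
        exact Subgroup.mem_subgroupOf.1 (hH₂H hx)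
      · intro h
        apply hne₂
        rw [← h, Subgroup.subgroupOf, Subgroup.comap_map_eq_self_of_injective L.subtype_injective]
  · intro x hx
    rw [Subgroup.mem_subgroupOf]
    apply hC
    rw [Subgroup.mem_centralizer_iff]
    intro t ht
    exact congrArg Subtype.val (Subgroup.mem_centralizer_iff.1 hx ⟨t, hTL ht⟩ (Subgroup.mem_subgroupOf.2 ht))

end H56.JRed
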