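import Mathlib
import Cfsg.Agent.Lib.H14.Repl2
import Cfsg.Agent.Lib.H14.PBasic
import Cfsg.Agent.Lib.H13.Omega
import Cfsg.Agent.Lib.H38.Basic

/-! A replacement theorem for abelian subgroups -/

set_option autoImplicit false

namespace H56.Repl78

open Subgroup H14.Repl2 Cfsg
open scoped commutatorElement

section

variable {S : Type*} [Group S] {A B : Subgroup S} {b : S} {p : ℕ}

theorem gen_pow (h : Conf A B b) (hp : p.Prime) (hp2 : p ≠ 2) {a : S} (ha : a ∈ A) (hap : a ^ p = 1) :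
    (a * b⁻¹ * a⁻¹ * b) ^ p = 1 := by
  have hn : Odd p := hp.odd_of_ne_two hp2
  have hy : b⁻¹ * a⁻¹ * b ∈ Cb A b := by
    rw [mem_Cb]
    have : b * (b⁻¹ * a⁻¹ * b) * b⁻¹ = a⁻¹ := by group
    rw [this]; exact inv_mem ha
  have h1 : a * b⁻¹ * a⁻¹ * b = a * (b⁻¹ * a⁻¹ * b) := by group
  have hyn : (b⁻¹ * a⁻¹ * b) ^ p = 1 := by
    have h2 : (b⁻¹ * a⁻¹ * b) = b⁻¹ * a⁻¹ * b⁻¹⁻¹ := by group
    rw [h2, conj_pow, inv_pow, hap]; group
  have hc := h.class_two.2 _ (mem_sup_right hy) _ (mem_sup_left ha)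
  have hca : Commute a ⁅b⁻¹ * a⁻¹ * b, a⁆ := h.class_two.1 _ (mem_sup_left ha) _ hc
  have hcy : Commute (b⁻¹ * a⁻¹ * b) ⁅b⁻¹ * a⁻¹ * b, a⁆ := h.class_two.1 _ (mem_sup_right hy) _ hc
  have hcn : ⁅b⁻¹ * a⁻¹ * b, a⁆ ^ p = 1 := by
    have h3 := pow_mul_comm_of hca hcy p
    rw [hyn, one_mul, mul_one] at h3
    exact (mul_eq_right.mp h3.symm)
  have hch : ⁅b⁻¹ * a⁻¹ * b, a⁆ ^ (p.choose 2) = 1 := by
    obtain ⟨k, hk⟩ := hn
    have h4 : p.choose 2 = p * k := by
      rw [hk, Nat.choose_two_right, Nat.add_sub_cancel]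
      have : (2 * k + 1) * (2 * k) = 2 * ((2 * k + 1) * k) := by ring
      rw [this, Nat.mul_div_cancel_left _ two_pos]
    rw [h4, pow_mul, hcn, one_pow]
  rw [h1, mul_pow_of hca hcy, hyn, hap, hch]; simp

theorem card_omega_le [Finite S] (h : Conf A B b) (hB : (∀ x ∈ B, x ^ 2 = 1 → x = 1) ∨ IsMulCommutative B)
    (hp : p.Prime) (hp2 : p ≠ 2) : Nat.card (omegaOne p A) ≤ Nat.card (omegaOne p (Star A b)) := by
  have hcomm := h.star_comm hB
  set Z := A ⊓ Cb A b with hZ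
  have hZS : Z ≤ Star A b := le_sup_left
  have hAc : A ≤ centralizer (A : Set S) := by
    intro x hx
    rw [mem_centralizer_iff]
    exact fun y hy => h.comm y hy x hx
  have hZc : Z ≤ centralizer (Z : Set S) := inf_le_left.trans (hAc.trans (centralizer_le inf_le_left))
  have hSc : Star A b ≤ centralizer (Star A b : Set S) := by
    intro x hx
    rw [mem_centralizer_iff]
    exact fun y hy => hcomm y hy x hx
  set E := omegaOne p A with hE
  set E' := omegaOne p (Star A b) with hE'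
  set Z₁ := omegaOne p Z with hZ₁
  have memE : ∀ {x : S}, x ∈ E ↔ x ∈ A ∧ x ^ p = 1 := H13.Omega.mem_omegaOne hAc
  have memE' : ∀ {x : S}, x ∈ E' ↔ x ∈ Star A b ∧ x ^ p = 1 := H13.Omega.mem_omegaOne hSc
  have memZ₁ : ∀ {x : S}, x ∈ Z₁ ↔ x ∈ Z ∧ x ^ p = 1 := H13.Omega.mem_omegaOne hZc
  have hZE' : Z₁ ≤ E' := H13.Omega.omegaOne_mono hZS
  have hZE : Z₁ ≤ E := H13.Omega.omegaOne_mono inf_le_left
  haveI hn : (Z₁.subgroupOf E').Normal := by
    constructor
    intro x hx g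
    have h1 : g * x * g⁻¹ = x := by
      have h2 : g * x = x * g := Subtype.ext (hcomm g (memE'.1 g.2).1 x (memE'.1 x.2).1).eq
      rw [h2]; group
    rw [h1]; exact hx
  let q := QuotientGroup.mk' (Z₁.subgroupOf E')
  let gen : E → E' := fun a => ⟨(a : S) * b⁻¹ * (a : S)⁻¹ * b,
    memE'.2 ⟨mem_sup_right (subset_closure ⟨a, (memE.1 a.2).1, rfl⟩), gen_pow h hp hp2 (memE.1 a.2).1 (memE.1 a.2).2⟩⟩
  let φ : E →* E' ⧸ (Z₁.subgroupOf E') :=
    { toFun := fun a => q (gen a)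
      map_one' := by
        have : gen 1 = 1 := Subtype.ext (by simp [gen])
        rw [this, map_one]
      map_mul' := by
        intro a c
        rw [← map_mul]
        change QuotientGroup.mk _ = QuotientGroup.mk _
        rw [QuotientGroup.eq, mem_subgroupOf]
        refine memZ₁.2 ⟨?_, (memE'.1 ((gen (a * c))⁻¹ * (gen a * gen c)).2).2⟩
        change (((a : S) * c) * b⁻¹ * ((a : S) * c)⁻¹ * b)⁻¹ *
          (((a : S) * b⁻¹ * (a : S)⁻¹ * b) * ((c : S) * b⁻¹ * (c : S)⁻¹ * b)) ∈ Z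
        have haA : (a : S) ∈ A := (memE.1 a.2).1
        have hcA : (c : S) ∈ A := (memE.1 c.2).1
        have hac := h.comm a haA c hcA
        have h1 : (((a : S) * c) * b⁻¹ * ((a : S) * c)⁻¹ * b)⁻¹ *
          (((a : S) * b⁻¹ * (a : S)⁻¹ * b) * ((c : S) * b⁻¹ * (c : S)⁻¹ * b))
          = (b⁻¹ * ((a : S) * c) * b) * ⁅(c : S)⁻¹, b⁻¹ * (a : S)⁻¹ * b⁆ * (b⁻¹ * ((a : S)⁻¹ * (c : S)⁻¹) * b) := by
          simp only [commutatorElement_def]; group
        have h2 : (a : S)⁻¹ * (c : S)⁻¹ = ((a : S) * c)⁻¹ := by rw [hac, mul_inv_rev]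
        have hb1 : b⁻¹ * ((a : S) * c) * b ∈ Cb A b := by
          rw [mem_Cb]
          have : b * (b⁻¹ * ((a : S) * c) * b) * b⁻¹ = a * c := by group
          rw [this]; exact mul_mem haA hcA
        have hb2 : b⁻¹ * (a : S)⁻¹ * b ∈ Cb A b := by
          rw [mem_Cb]
          have : b * (b⁻¹ * (a : S)⁻¹ * b) * b⁻¹ = (a : S)⁻¹ := by group
          rw [this]; exact inv_mem haA
        have h3 : ⁅(c : S)⁻¹, b⁻¹ * (a : S)⁻¹ * b⁆ ∈ Z :=
          h.class_two.2 _ (mem_sup_left (inv_mem hcA)) _ (mem_sup_right hb2)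
        rw [h1, h2, (h.class_two.1 _ (mem_sup_right hb1) _ h3).eq]
        have h4 : ⁅(c : S)⁻¹, b⁻¹ * (a : S)⁻¹ * b⁆ * (b⁻¹ * ((a : S) * c) * b) *
          (b⁻¹ * ((a : S) * c)⁻¹ * b) = ⁅(c : S)⁻¹, b⁻¹ * (a : S)⁻¹ * b⁆ := by group
        rw [h4]; exact h3 }
  have hker : φ.ker ≤ Z₁.subgroupOf E := by
    intro a ha
    rw [MonoidHom.mem_ker] at ha
    change q (gen a) = 1 at ha
    rw [QuotientGroup.mk'_apply, QuotientGroup.eq_one_iff, mem_subgroupOf] at ha
    rw [mem_subgroupOf]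
    exact memZ₁.2 ⟨(h.gen_mem_Z_iff (memE.1 a.2).1).1 (memZ₁.1 ha).1, (memE.1 a.2).2⟩
  have h1 : Nat.card E = Nat.card φ.ker * Nat.card φ.range := by
    rw [← φ.ker.card_mul_index, index_ker]
  have h2 : Nat.card φ.ker ≤ Nat.card Z₁ := by
    refine (Subgroup.card_le_of_le hker).trans ?_
    rw [Nat.card_congr (subgroupOfEquivOfLe hZE).toEquiv]
  have h3 : Nat.card φ.range ≤ Nat.card (E' ⧸ (Z₁.subgroupOf E')) := Subgroup.card_le_card_group _
  have h4 : Nat.card E' = Nat.card Z₁ * Nat.card (E' ⧸ (Z₁.subgroupOf E')) := by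
    rw [← (Z₁.subgroupOf E').card_mul_index, index_eq_card, Nat.card_congr (subgroupOfEquivOfLe hZE').toEquiv]
  rw [h1, h4]
  exact Nat.mul_le_mul h2 h3

end

theorem main {G : Type*} [Group G] [Finite G] {p : ℕ} [Fact p.Prime] (hp : p ≠ 2) (hG : IsPGroup p G) (A B : Subgroup G) (hA : IsMulCommutative A) (hBA : ⁅B, B⁆ ≤ A) (hAB : A ≤ Subgroup.normalizer (B : Set G)) (hBnA : ¬ B ≤ Subgroup.normalizer (A : Set G)) : ∃ Astar : Subgroup G, IsMulCommutative Astar ∧ Nat.card Astar = Nat.card A ∧ A ⊓ B < Astar ⊓ B ∧ Astar ≤ Subgroup.normalizer (A : Set G) ∧ Astar ≤ Subgroup.normalClosure (A : Set G) ∧ Monoid.exponent Astar ∣ Monoid.exponent A ∧ Nat.card (Cfsg.omegaOne p A) ≤ Nat.card (Cfsg.omegaOne p Astar) := by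
  have hpp : p.Prime := Fact.out
  set S := A ⊔ B with hS
  have hinj := S.subtype_injective
  set A' := A.subgroupOf S with hA'
  set B' := B.subgroupOf S with hB'
  have hAS : A ≤ S := le_sup_left
  have hBS : B ≤ S := le_sup_right
  have hmA : A'.map S.subtype = A := by rw [hA', subgroupOf_map_subtype, inf_eq_left]; exact hAS
  have hmB : B'.map S.subtype = B := by rw [hB', subgroupOf_map_subtype, inf_eq_left]; exact hBS
  have hBn : B'.Normal := normal_subgroupOf_of_le_normalizer (sup_le hAB le_normalizer)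
  have hSp : IsPGroup p S := hG.to_subgroup S
  -- choose `b`
  have hNlt : normalizer (A' : Set S) < ⊤ := by
    rw [lt_top_iff_ne_top]
    intro h
    apply hBnA
    intro x hx
    have h1 : (⟨x, hBS hx⟩ : S) ∈ normalizer (A' : Set S) := by rw [h]; trivial
    rw [mem_normalizer_iff] at h1 ⊢
    intro y
    constructor
    · intro hy
      exact (h1 ⟨y, hAS hy⟩).1 hy
    · intro hy
      have hyS : y ∈ S := by
        have e : y = x⁻¹ * (x * y * x⁻¹) * x := by group
        rw [e]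
        exact mul_mem (mul_mem (inv_mem (hBS hx)) (hAS hy)) (hBS hx)
      exact (h1 ⟨y, hyS⟩).2 hy
  obtain ⟨g, hg1, hg2⟩ : ∃ g ∈ normalizer ((normalizer (A' : Set S) : Subgroup S) : Set S), g ∉ normalizer (A' : Set S) := by
    have h0 : IsPGroup p (⊤ : Subgroup S) := hSp.to_subgroup _
    have h1 := H38.Basic.lt_inf_normalizer h0 hNlt
    obtain ⟨g, hg, hg'⟩ := SetLike.exists_of_lt h1
    exact ⟨g, (mem_inf.1 hg).2, hg'⟩
  have hgs : g ∈ A' ⊔ B' := by
    have : A' ⊔ B' = ⊤ := by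
      apply map_injective hinj
      rw [Subgroup.map_sup, hmA, hmB, ← MonoidHom.range_eq_map, range_subtype]
    rw [this]; trivial
  obtain ⟨a, ha, b, hb, rfl⟩ := mem_sup_of_normal_right.1 hgs
  have haN : a ∈ normalizer (A' : Set S) := le_normalizer ha
  have hbN : b ∈ normalizer ((normalizer (A' : Set S) : Subgroup S) : Set S) := by
    have e : b = a⁻¹ * (a * b) := by group
    rw [e]
    exact mul_mem (inv_mem (le_normalizer haN)) hg1
  have hbA : b ∉ normalizer (A' : Set S) := fun h => hg2 (mul_mem haN h)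
  have hconf : Conf A' B' b := by
    refine ⟨?_, hBn, ?_, hb, hbN⟩
    · intro x hx y hy
      exact Subtype.ext (setLike_mul_comm (s := A) hx hy)
    · rw [← map_le_map_iff_of_injective hinj, map_commutator, hmA, hmB]
      exact hBA
  have hBsq : (∀ x ∈ B', x ^ 2 = 1 → x = 1) ∨ IsMulCommutative B' :=
    Or.inl fun x _ hx => eq_one_of_sq hpp hSp hp hx
  refine ⟨(Star A' b).map S.subtype, ?_, ?_, ?_, ?_, ?_, ?_, ?_⟩
  · refine ⟨⟨?_⟩⟩
    rintro ⟨_, x, hx, rfl⟩ ⟨_, y, hy, rfl⟩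
    apply Subtype.ext
    show S.subtype x * S.subtype y = S.subtype y * S.subtype x
    rw [← map_mul, (hconf.star_comm hBsq x hx y hy).eq, map_mul]
  · rw [card_map_of_injective hinj, hconf.card_star hBsq, hA', Nat.card_congr (subgroupOfEquivOfLe hAS).toEquiv]
  · have h1 := hconf.inf_lt hbA
    have h2 := (map_lt_map_iff_of_injective hinj).2 h1
    rw [map_inf _ _ _ hinj, map_inf _ _ _ hinj, hmA, hmB] at h2
    exact h2
  · have h1 := hconf.Star_le.trans hconf.sup_le_norm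
    refine (map_mono h1).trans ?_
    have h2 := le_normalizer_map (H := A') S.subtype
    rw [hmA] at h2
    exact h2
  · refine (map_mono hconf.Star_le).trans ?_
    rw [Subgroup.map_sup, hmA]
    refine sup_le le_normalClosure ?_
    rintro _ ⟨x, hx, rfl⟩
    change x ∈ Cb A' b at hx
    rw [mem_Cb] at hx
    have h3 : ((b * x * b⁻¹ : S) : G) ∈ normalClosure (A : Set G) := le_normalClosure hx
    have h4 := (inferInstance : (normalClosure (A : Set G)).Normal).conj_mem _ h3 ((b : G)⁻¹)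
    have e : ((b : G)⁻¹) * ((b * x * b⁻¹ : S) : G) * ((b : G)⁻¹)⁻¹ = S.subtype x := by
      push_cast; simp only [Subgroup.coe_subtype]; group
    rw [← e]; exact h4
  · apply Monoid.exponent_dvd_of_forall_pow_eq_one
    rintro ⟨_, x, hx, rfl⟩
    apply Subtype.ext
    show (S.subtype x) ^ _ = 1
    rw [← map_pow, hconf.pow_eq_one hBsq (n := Monoid.exponent A) ?_ ?_ x hx, map_one]
    · obtain ⟨k, hk⟩ := (IsPGroup.iff_card.1 (hG.to_subgroup A))
      have h1 : Monoid.exponent A ∣ p ^ k := by rw [← hk]; exact Group.exponent_dvd_nat_card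
      exact Odd.of_dvd_nat ((hpp.odd_of_ne_two hp).pow) h1
    · intro a ha
      apply Subtype.ext
      have h1 := Monoid.pow_exponent_eq_one (⟨(a : G), ha⟩ : A)
      have h2 : ((⟨(a : G), ha⟩ : A) ^ Monoid.exponent A : A) = 1 := h1
      have h3 : (a : G) ^ Monoid.exponent A = 1 := congrArg (Subtype.val : A → G) h2
      exact h3
  · have h1 := card_omega_le hconf hBsq hpp hp
    have h2 : Nat.card ((omegaOne p A').map S.subtype) = Nat.card (omegaOne p A') := card_map_of_injective hinj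
    have h3 : Nat.card ((omegaOne p (Star A' b)).map S.subtype) = Nat.card (omegaOne p (Star A' b)) :=
      card_map_of_injective hinj
    rw [← h2, ← h3, H13.Omega.map_omegaOne_of_injective hinj, H13.Omega.map_omegaOne_of_injective hinj, hmA] at h1
    exact h1

end H56.Repl78
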