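import Mathlib
import Cfsg.Agent.Lib.H56.Rk2d

set_option autoImplicit false

/-! `p`-groups of rank 2, `p` odd: a power homomorphism. -/

namespace H56.Rk2

open Cfsg
open scoped commutatorElement

universe u

section cfg

variable {G : Type u} [Group G] [Finite G] {p : ℕ} [hp : Fact p.Prime] {E C : Subgroup G}

namespace Cfg

theorem abel (h : Cfg p E C) {x : G} (hx : x ∉ C) (hxp : x ^ p = 1)
    (hz : p = 3 → ∃ z ∈ C, Commute x z ∧ z ^ p ≠ 1 ∧ z ^ p ∈ E ∧ z ^ p ∈ Subgroup.center G)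
    {n : ℕ} (hn : Nat.card G = p ^ n) (hn4 : 4 ≤ n) :
    ∃ c ∈ C, (∀ b ∈ C, ∃ i : ℕ, ∃ a ∈ E, b = c ^ i * a) ∧ c ^ p ^ (n - 3) ∈ E ∧
      c ^ p ^ (n - 3) ∈ Subgroup.center G ∧ c ^ p ^ (n - 3) ≠ 1 ∧ (∀ a ∈ C, ∀ b ∈ C, Commute a b) ∧
      c⁻¹ * (x⁻¹ * c * x) ∈ E := by
  have hC : C ≠ ⊤ := fun hC => hx (hC ▸ Subgroup.mem_top x)
  obtain ⟨hn3, c, hcC, hcgen, hcE, hc4⟩ := h.cyc hx hxp hz hn
  have hfix : ∀ a ∈ Subgroup.center G, ∀ g : G, g⁻¹ * a * g = a := by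
    intro a ha g
    rw [mul_assoc, ← Subgroup.mem_center_iff.1 ha g, inv_mul_cancel_left]
  obtain ⟨hc1c, hc11⟩ := hc4 hn4
  have hCab : ∀ a ∈ C, ∀ b ∈ C, Commute a b := by
    intro a ha b hb
    obtain ⟨i, a', ha', rfl⟩ := hcgen a ha
    obtain ⟨j, b', hb', rfl⟩ := hcgen b hb
    have h1 : Commute c b' := h.commC hcC hb'
    have h2 : Commute c a' := h.commC hcC ha'
    have h3 : Commute a' b' := h.cE a' ha' b' hb'
    exact ((((Commute.refl c).pow_pow i j)).mul_left (h2.symm.pow_right j)).mul_right ((h1.pow_left i).mul_left h3)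
  set b := c⁻¹ * (x⁻¹ * c * x) with hb
  have hbC : b ∈ C := mul_mem (inv_mem hcC) (h.conj_memC hcC x)
  have hbpow : ∀ k : ℕ, b ^ k = (c ^ k)⁻¹ * (x⁻¹ * c ^ k * x) := by
    intro k
    rw [hb, (hCab _ (inv_mem hcC) _ (h.conj_memC hcC x)).mul_pow, inv_pow, pow_conj]
  have hbE : ∀ j, b ^ p ^ j ∈ E → b ∈ E := by
    intro j
    induction j with
    | zero => intro h1; rwa [pow_zero, pow_one] at h1
    | succ j ih =>
      intro h1
      apply ih
      apply h.om _ (pow_mem hbC _)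
      have h2 : b ^ p ^ j = (c ^ p ^ j)⁻¹ * (x⁻¹ * c ^ p ^ j * x) := hbpow _
      have h3 : (b ^ p ^ j) ^ p ∈ E := by rwa [← pow_mul, ← pow_succ]
      have h4 := h.noW hx hxp hz (pow_mem hbC (p ^ j)) h3
      rw [h2] at h3 h4 ⊢
      exact h.step hx hxp hz (pow_mem hcC _) h3 h4
  have hbE' : b ∈ E := by
    apply hbE (n - 3)
    rw [hbpow, hfix _ hc1c, inv_mul_cancel]
    exact one_mem _
  exact ⟨c, hcC, hcgen, hcE, hc1c, hc11, hCab, hbE'⟩

/-- The power homomorphism. -/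
theorem powhom (h : Cfg p E C) {x : G} (hx : x ∉ C) (hxp : x ^ p = 1)
    (hz : p = 3 → ∃ z ∈ C, Commute x z ∧ z ^ p ≠ 1 ∧ z ^ p ∈ E ∧ z ^ p ∈ Subgroup.center G)
    {n : ℕ} (hn : Nat.card G = p ^ n) (hn4 : 4 ≤ n) :
    (∀ y : G, y ^ p ^ (n - 3) ∈ E ∧ y ^ p ^ (n - 3) ∈ Subgroup.center G) ∧
      (∀ y y' : G, (y * y') ^ p ^ (n - 3) = y ^ p ^ (n - 3) * y' ^ p ^ (n - 3)) ∧
      ∃ y : G, y ^ p ^ (n - 3) ≠ 1 := by
  have hC : C ≠ ⊤ := fun hC => hx (hC ▸ Subgroup.mem_top x)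
  obtain ⟨c, hcC, hcgen, hcE, hcc, hc1, hCab, hbE⟩ := h.abel hx hxp hz hn hn4
  have hfix : ∀ a ∈ Subgroup.center G, ∀ g : G, g⁻¹ * a * g = a := by
    intro a ha g
    rw [mul_assoc, ← Subgroup.mem_center_iff.1 ha g, inv_mul_cancel_left]
  have hEn := h.nE
  -- `x` centralizes `C / E`
  have hxE : ∀ u ∈ C, u⁻¹ * (x⁻¹ * u * x) ∈ E := by
    intro u hu
    obtain ⟨i, a, ha, rfl⟩ := hcgen u hu
    have h1 : x⁻¹ * (c ^ i * a) * x = (c * (c⁻¹ * (x⁻¹ * c * x))) ^ i * (x⁻¹ * a * x) := by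
      rw [mul_inv_cancel_left, pow_conj]; group
    rw [h1, (h.commC hcC hbE).mul_pow]
    have h2 : (c ^ i * a)⁻¹ * (c ^ i * (c⁻¹ * (x⁻¹ * c * x)) ^ i * (x⁻¹ * a * x)) =
        a⁻¹ * (c⁻¹ * (x⁻¹ * c * x)) ^ i * (x⁻¹ * a * x) := by group
    rw [h2]
    exact mul_mem (mul_mem (inv_mem ha) (pow_mem hbE i)) (h.conj_mem ha x)
  have hgE : ∀ j : ℕ, ∀ u ∈ C, u⁻¹ * ((x ^ j)⁻¹ * u * x ^ j) ∈ E := by
    intro j
    induction j with
    | zero => intro u _; simp
    | succ j ih =>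
      intro u hu
      have h1 := h.conj_mem (ih u hu) x
      have h2 := hxE u hu
      have h3 : u⁻¹ * ((x ^ (j + 1))⁻¹ * u * x ^ (j + 1)) =
          (u⁻¹ * (x⁻¹ * u * x)) * (x⁻¹ * (u⁻¹ * ((x ^ j)⁻¹ * u * x ^ j)) * x) := by
        rw [pow_succ]; group
      rw [h3]
      exact mul_mem h2 h1
  have hq : p ^ (n - 3) = p * p ^ (n - 4) := by rw [← pow_succ']; congr 1; omega
  have hwq : ∀ w ∈ C, w ^ p ^ (n - 3) ∈ E ∧ w ^ p ^ (n - 3) ∈ Subgroup.center G := by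
    intro w hw
    obtain ⟨i, a, ha, rfl⟩ := hcgen w hw
    have h1 : (c ^ i * a) ^ p ^ (n - 3) = (c ^ p ^ (n - 3)) ^ i := by
      rw [((h.commC hcC ha).pow_left i).mul_pow, ← pow_mul, mul_comm i, pow_mul, hq, pow_mul a, h.pE a ha, one_pow,
        mul_one]
    rw [h1]
    exact ⟨pow_mem hcE i, pow_mem hcc i⟩
  -- the power of `g * w`
  have hgw : ∀ j : ℕ, ∀ w ∈ C, (x ^ j * w) ^ p ^ (n - 3) = w ^ p ^ (n - 3) := by
    intro j w hw
    set g := x ^ j with hg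
    have hgp : g ^ p = 1 := by rw [hg, ← pow_mul, mul_comm, pow_mul, hxp, one_pow]
    set u := w⁻¹ with hu
    have huC : u ∈ C := inv_mem hw
    set e := u⁻¹ * (g⁻¹ * u * g) with he
    have heE : e ∈ E := hgE j u huC
    set f := e⁻¹ * (g⁻¹ * e * g) with hf
    have hfE : f ∈ E := mul_mem (inv_mem heE) (h.conj_mem heE g)
    have hfc : f ∈ Subgroup.center G := h.comm_mem_center heE g
    have h1 := pow_formula (g := g) (u := u) (e := e) (f := f) (by rw [he]; group) (by rw [hf]; group)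
      (hfix f hfc g) (h.commC huC heE) (h.commC (h.E_le_C heE) hfE) p
    have h2 : e ^ p.choose 2 = 1 := by
      obtain ⟨k, hk⟩ := dvd_choose_two hp.out h.hp2
      rw [hk, pow_mul, h.pE _ heE, one_pow]
    have h3 : g * u⁻¹ = g * w := by rw [hu, inv_inv]
    have hfw : Commute w (f ^ p.choose 3) := (show Commute w f from (Subgroup.mem_center_iff.1 hfc w)).pow_right _
    have h4 : (g * w) ^ p = w ^ p * (f ^ p.choose 3)⁻¹ := by
      rw [← h3, h1, hgp, h2, one_mul, one_mul, mul_inv_rev, hu, inv_pow, inv_inv]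
      exact ((hfw.pow_left p).inv_right).eq.symm
    have h5 : (f ^ p.choose 3) ^ p ^ (n - 4) = 1 := by
      by_cases hp3 : p = 3
      · by_cases hn5 : n = 4
        · have h6 : f = 1 := by
            obtain ⟨z, hzC, hxz, hz1, hzE, hzc⟩ := hz hp3
            have h7 := hwq u huC
            rw [hn5] at h7
            norm_num at h7
            have h8 := h.lemN hC (x := g) hzC (hg ▸ hxz.pow_left j) hz1 hzE hzc huC h7.1 h7.2
            rw [hf, he, hfix _ h8, inv_mul_cancel]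
          rw [h6, one_pow, one_pow]
        · have h6 : p ^ (n - 4) = p * p ^ (n - 5) := by rw [← pow_succ']; congr 1; omega
          rw [h6, pow_mul, ← pow_mul f, mul_comm, pow_mul f, h.pE f hfE, one_pow, one_pow]
      · have h4 : 3 < p := by
          have := hp.out.two_le
          have := h.hp2
          omega
        obtain ⟨k, hk⟩ := dvd_choose_three hp.out h4
        rw [hk, pow_mul, h.pE f hfE, one_pow, one_pow]
    rw [hq, pow_mul, h4, ((hfw.pow_left p).inv_right).mul_pow, inv_pow, h5, inv_one, mul_one, ← pow_mul]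
  -- decomposition
  have hdec : ∀ y : G, ∃ j : ℕ, ∃ w ∈ C, y = x ^ j * w := by
    intro y
    have hnC := h.normalC
    have hT : C ⊔ Subgroup.zpowers x = ⊤ :=
      h.G_eq hx le_sup_left (Subgroup.mem_sup_right (Subgroup.mem_zpowers x))
    have hgT : y ∈ Subgroup.zpowers x ⊔ C := by rw [sup_comm, hT]; trivial
    obtain ⟨w, hw', c, hc, rfl⟩ := H39.SFMin.mem_sup_of_norm (P := Subgroup.zpowers x) (E := C) (by
      rw [Subgroup.normalizer_eq_top]; exact le_top) hgT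
    obtain ⟨j, hj⟩ := mem_powers_iff_mem_zpowers.2 hw'
    exact ⟨j, c, hc, by rw [← hj]⟩
  refine ⟨?_, ?_, c, hc1⟩
  · intro y
    obtain ⟨j, w, hw, rfl⟩ := hdec y
    rw [hgw j w hw]
    exact hwq w hw
  · intro y y'
    obtain ⟨j, w, hw, rfl⟩ := hdec y
    obtain ⟨j', w', hw', rfl⟩ := hdec y'
    have h1 : x ^ j * w * (x ^ j' * w') = x ^ (j + j') * (((x ^ j')⁻¹ * w * x ^ j') * w') := by
      rw [pow_add]; group
    rw [h1, hgw _ _ (mul_mem (h.conj_memC hw _) hw'), hgw _ _ hw, hgw _ _ hw', (hCab _ (h.conj_memC hw _) _ hw').mul_pow,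
      pow_conj, hfix _ (hwq w hw).2]

end Cfg

end cfg

/-- A power homomorphism with values in a fusion-invariant subgroup contradicts `P ≤ L'`. -/
theorem contra_hom {L : Type u} [Group L] [Finite L] {p : ℕ} [hp : Fact p.Prime] (P : Sylow p L) {x : L}
    (hxo : orderOf x = p)
    (hiso : ∀ g : L, g * x * g⁻¹ ∈ P → g * x * g⁻¹ = x) (hfoc : (P : Subgroup L) ≤ commutator L) (q : ℕ)
    (hq : ∀ y ∈ P, y ^ q ∈ Subgroup.zpowers x) (hmul : ∀ y ∈ P, ∀ y' ∈ P, (y * y') ^ q = y ^ q * y' ^ q)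
    (hne : ∃ y ∈ P, y ^ q ≠ 1) : False := by
  obtain ⟨y₀, hy₀, hy₀1⟩ := hne
  let K : Subgroup L :=
    { carrier := {y | y ∈ P ∧ y ^ q = 1}
      mul_mem' := by
        rintro a b ⟨ha, ha1⟩ ⟨hb, hb1⟩
        exact ⟨mul_mem ha hb, by rw [hmul a ha b hb, ha1, hb1, mul_one]⟩
      one_mem' := ⟨one_mem _, one_pow _⟩
      inv_mem' := by
        rintro a ⟨ha, ha1⟩
        exact ⟨inv_mem ha, by rw [inv_pow, ha1, inv_one]⟩ }
  have h1 : commutator L ⊓ (P : Subgroup L) = (P : Subgroup L).focalSubgroup :=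
    Subgroup.commutator_inf_eq_focalSubgroup P
  have h2 : (P : Subgroup L).focalSubgroup ≤ K := by
    rw [Subgroup.focalSubgroup_def, Subgroup.closure_le]
    rintro z ⟨hz, y, hy, u, rfl⟩
    refine ⟨hz, ?_⟩
    have hy' : u * y⁻¹ * u⁻¹ ∈ P := by
      have h3 : ⁅y, u⁆ = y * (u * y⁻¹ * u⁻¹) := by rw [commutatorElement_def]; group
      have h4 := mul_mem (inv_mem hy) hz
      rw [h3, inv_mul_cancel_left] at h4
      exact h4
    have h3 : ⁅y, u⁆ = y * (u * y⁻¹ * u⁻¹) := by rw [commutatorElement_def]; group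
    rw [h3, hmul y hy _ hy']
    have h4 : (u * y⁻¹ * u⁻¹) ^ q = u * (y ^ q)⁻¹ * u⁻¹ := by rw [conj_pow, inv_pow]
    rw [h4]
    obtain ⟨j, hj⟩ := hq y hy
    have hj' : x ^ j = y ^ q := hj
    by_cases h5 : y ^ q = 1
    · rw [h5]; simp
    have h6 : u * x * u⁻¹ = x := by
      apply hiso
      have h7 : u * (y ^ q) * u⁻¹ ∈ P := by
        have h8 := inv_mem (pow_mem hy' q)
        rw [h4] at h8
        have : (u * (y ^ q)⁻¹ * u⁻¹)⁻¹ = u * (y ^ q) * u⁻¹ := by group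
        rwa [this] at h8
      rw [← hj'] at h5 h7
      have hpj : ¬ (p : ℤ) ∣ j := by
        rintro ⟨k, rfl⟩
        apply h5
        rw [zpow_mul, zpow_natCast, ← hxo, pow_orderOf_eq_one, one_zpow]
      have hcop : IsCoprime j (p : ℤ) := by
        rw [isCoprime_comm]
        exact (Nat.prime_iff_prime_int.1 hp.out).coprime_iff_not_dvd.2 hpj
      obtain ⟨α, β, hαβ⟩ := hcop
      have h9 : u * x * u⁻¹ = (u * x ^ j * u⁻¹) ^ α := by
        rw [conj_zpow, ← zpow_mul]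
        congr 2
        have h10 : x = x ^ (α * j + β * (p : ℤ)) := by rw [hαβ, zpow_one]
        nth_rw 1 [h10]
        rw [zpow_add, mul_comm β, zpow_mul x (p : ℤ) β, zpow_natCast, ← hxo, pow_orderOf_eq_one, one_zpow, mul_one,
          mul_comm]
      rw [h9]
      exact zpow_mem h7 α
    have h7 : Commute u (y ^ q) := by
      rw [← hj']
      have h8 : Commute u x := by
        show u * x = x * u
        nth_rw 2 [← h6]
        group
      exact h8.zpow_right j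
    rw [h7.inv_right.eq, mul_inv_cancel_right, mul_inv_cancel]
  have h3 : y₀ ∈ K := by
    apply h2
    rw [← h1]
    exact ⟨hfoc hy₀, hy₀⟩
  exact hy₀1 h3.2

end H56.Rk2
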