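import Mathlib
import Cfsg.Agent.Lib.H3.MaxClassP
import Cfsg.Agent.Lib.H3.PBasic
import Cfsg.Agent.Lib.H56.Rk2e

set_option autoImplicit false

/-! Generic lemmas for the fusion analysis of `p`-groups of rank 2. -/

namespace H56.Rk2

open Cfsg
open scoped commutatorElement

universe u

/-- In a `p`-group of odd order whose elements of order `p` are central: powers. -/
theorem pcp (p : ℕ) [hp : Fact p.Prime] (hp2 : p ≠ 2) : ∀ (j : ℕ) (L : Type u) [Group L] [Finite L], IsPGroup p L →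
    (∀ x : L, x ^ p = 1 → x ∈ Subgroup.center L) → ∀ a b : L, a ^ p ^ j = b ^ p ^ j ↔ (a⁻¹ * b) ^ p ^ j = 1 := by
  intro j
  induction j with
  | zero =>
    intro L _ _ _ _ a b
    rw [pow_zero, pow_one, pow_one, pow_one, inv_mul_eq_one]
  | succ j ih =>
    intro L _ _ hL hc a b
    let Ω : Subgroup L :=
      { carrier := {z | z ^ p = 1}
        mul_mem' := by
          intro x y hx hy
          show (x * y) ^ p = 1
          have h1 : Commute x y := (Subgroup.mem_center_iff.1 (hc x hx) y).symm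
          rw [h1.mul_pow, show x ^ p = 1 from hx, show y ^ p = 1 from hy, mul_one]
        one_mem' := one_pow _
        inv_mem' := by
          intro x hx
          show (x⁻¹) ^ p = 1
          rw [inv_pow, show x ^ p = 1 from hx, inv_one] }
    have hΩ : ∀ z, z ∈ Ω ↔ z ^ p = 1 := fun z => Iff.rfl
    have hΩn : Ω.Normal := by
      refine ⟨fun z hz g => ?_⟩
      have h1 := Subgroup.mem_center_iff.1 (hc z hz) g
      rw [h1, mul_inv_cancel_right]
      exact hz
    have hL' : IsPGroup p (L ⧸ Ω) := hL.to_quotient Ω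
    have hc' : ∀ x : L ⧸ Ω, x ^ p = 1 → x ∈ Subgroup.center (L ⧸ Ω) := by
      intro x
      obtain ⟨x, rfl⟩ := QuotientGroup.mk_surjective x
      intro hx
      rw [← QuotientGroup.mk_pow, QuotientGroup.eq_one_iff, hΩ] at hx
      rw [Subgroup.mem_center_iff]
      intro y
      obtain ⟨y, rfl⟩ := QuotientGroup.mk_surjective y
      rw [← QuotientGroup.mk_mul, ← QuotientGroup.mk_mul, QuotientGroup.eq, hΩ]
      have h1 : (y⁻¹ * x * y) ^ p = y⁻¹ * x ^ p * y := by
        have : y⁻¹ * x * y = MulAut.conj y⁻¹ x := by simp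
        rw [this, ← map_pow]; simp
      have h2 : (y⁻¹ * x * y) ^ p = x ^ p := by
        rw [h1, mul_assoc, ← Subgroup.mem_center_iff.1 (hc _ hx) y, inv_mul_cancel_left]
      have h3 := pcentral p hp2 _ L hL le_rfl hc _ _ h2
      have h4 : (y * x)⁻¹ * (x * y) = ((y⁻¹ * x * y)⁻¹ * x)⁻¹ := by group
      rw [h4, inv_pow, h3, inv_one]
    have key := ih (L ⧸ Ω) hL' hc' (a : L ⧸ Ω) (b : L ⧸ Ω)
    have e1 : ((a : L ⧸ Ω)) ^ p ^ j = (b : L ⧸ Ω) ^ p ^ j ↔ a ^ p ^ (j + 1) = b ^ p ^ (j + 1) := by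
      rw [← QuotientGroup.mk_pow, ← QuotientGroup.mk_pow, QuotientGroup.eq, hΩ, pow_succ, pow_mul, pow_mul]
      constructor
      · intro h1
        have h2 : Commute (a ^ p ^ j) ((a ^ p ^ j)⁻¹ * b ^ p ^ j) := Subgroup.mem_center_iff.1 (hc _ h1) _
        have h3 := h2.mul_pow p
        rw [mul_inv_cancel_left, h1, mul_one] at h3
        exact h3.symm
      · intro h1
        exact pcentral p hp2 _ L hL le_rfl hc _ _ h1
    have e2 : ((a : L ⧸ Ω)⁻¹ * (b : L ⧸ Ω)) ^ p ^ j = 1 ↔ (a⁻¹ * b) ^ p ^ (j + 1) = 1 := by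
      rw [← QuotientGroup.mk_inv, ← QuotientGroup.mk_mul, ← QuotientGroup.mk_pow, QuotientGroup.eq_one_iff, hΩ, pow_succ,
        pow_mul]
    rw [← e1, ← e2]
    exact key

/-- Transfer into an abelian Sylow subgroup. -/
theorem center_inf {p : ℕ} [hp : Fact p.Prime] {N : Type u} [Group N] [Finite N] (P : Sylow p N)
    (hab : ∀ a ∈ P, ∀ b ∈ P, a * b = b * a) {c : N} (hcP : c ∈ P) (hcc : c ∈ Subgroup.center N)
    (hcN : c ∈ commutator N) : c = 1 := by
  have hcc' := Subgroup.mem_center_iff.1 hcc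
  let φ : (P : Subgroup N) →* Abelianization (P : Subgroup N) := Abelianization.of
  have key : ∀ (k : ℕ) (g₀ : N), g₀⁻¹ * c ^ k * g₀ ∈ (P : Subgroup N) → g₀⁻¹ * c ^ k * g₀ = c ^ k := by
    intro k g₀ _
    have : Commute g₀ (c ^ k) := (show Commute g₀ c from hcc' g₀).pow_right k
    rw [mul_assoc, ← this.eq, inv_mul_cancel_left]
  have h1 := MonoidHom.transfer_eq_pow φ c key
  have h2 : MonoidHom.transfer φ c = 1 := by
    have h3 := Abelianization.commutator_subset_ker (MonoidHom.transfer φ)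
    exact h3 hcN
  rw [h2] at h1
  have h3 : (⟨c ^ (P : Subgroup N).index, MonoidHom.transfer_eq_pow_aux c key⟩ : (P : Subgroup N)) ∈
      commutator (P : Subgroup N) := by
    rw [← Abelianization.ker_of]
    exact h1.symm
  have h4 : commutator (P : Subgroup N) = ⊥ := by
    rw [eq_bot_iff, commutator_def, Subgroup.commutator_le]
    rintro ⟨a, ha⟩ _ ⟨b, hb⟩ _
    rw [Subgroup.mem_bot, commutatorElement_eq_one_iff_mul_comm]
    exact Subtype.ext (hab a ha b hb)
  rw [h4, Subgroup.mem_bot] at h3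
  have h5 : c ^ (P : Subgroup N).index = 1 := congrArg Subtype.val h3
  obtain ⟨k, hk⟩ := P.isPGroup' ⟨c, hcP⟩
  have h6 : c ^ p ^ k = 1 := congrArg Subtype.val hk
  have h7 : Nat.Coprime (p ^ k) (P : Subgroup N).index :=
    Nat.Coprime.pow_left k ((Nat.Prime.coprime_iff_not_dvd hp.out).2 P.not_dvd_index)
  have h8 : orderOf c ∣ Nat.gcd (p ^ k) (P : Subgroup N).index :=
    Nat.dvd_gcd (orderOf_dvd_of_pow_eq_one h6) (orderOf_dvd_of_pow_eq_one h5)
  rw [h7, Nat.dvd_one, orderOf_eq_one_iff] at h8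
  exact h8

/-- A section of a Sylow subgroup on which everything is trivial. -/
theorem lemA' {p : ℕ} [hp : Fact p.Prime] {N : Type u} [Group N] [Finite N] (P : Sylow p N) (D C : Subgroup N) [D.Normal]
    (hCP : C ≤ P) (hab : ∀ a ∈ P, ∀ b ∈ P, a⁻¹ * b⁻¹ * a * b ∈ D)
    (hcen : ∀ c ∈ C, ∀ n : N, c⁻¹ * n⁻¹ * c * n ∈ D) (hfoc : (P : Subgroup N) ≤ commutator N) : C ≤ D := by
  intro c hc
  rw [← QuotientGroup.eq_one_iff]
  have hsurj := QuotientGroup.mk'_surjective D
  have hP' : ((P.mapSurjective hsurj : Sylow p (N ⧸ D)) : Subgroup (N ⧸ D)) = (P : Subgroup N).map (QuotientGroup.mk' D) := rfl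
  refine center_inf (P.mapSurjective hsurj) ?_ (c := (c : N ⧸ D)) ?_ ?_ ?_
  · intro a ha b hb
    have ha' : a ∈ (P : Subgroup N).map (QuotientGroup.mk' D) := ha
    have hb' : b ∈ (P : Subgroup N).map (QuotientGroup.mk' D) := hb
    obtain ⟨a, ha1, rfl⟩ := ha'
    obtain ⟨b, hb1, rfl⟩ := hb'
    rw [← map_mul, ← map_mul]
    symm
    apply (QuotientGroup.eq (s := D)).2
    have := hab a ha1 b hb1
    simpa [mul_assoc] using this
  · exact ⟨c, hCP hc, rfl⟩
  · rw [Subgroup.mem_center_iff]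
    intro n
    obtain ⟨n, rfl⟩ := QuotientGroup.mk_surjective n
    rw [← QuotientGroup.mk_mul, ← QuotientGroup.mk_mul, QuotientGroup.eq]
    have := hcen c hc n
    simpa [mul_assoc] using this
  · have h1 : (commutator N).map (QuotientGroup.mk' D) = commutator (N ⧸ D) := by
      rw [commutator_def, Subgroup.map_commutator, ← MonoidHom.range_eq_map, MonoidHom.range_eq_top.2 hsurj,
        ← commutator_def]
    rw [← h1]
    exact ⟨c, hfoc (hCP hc), rfl⟩

/-- The same inside a big group. -/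
theorem lemA {p : ℕ} [hp : Fact p.Prime] {L : Type u} [Group L] [Finite L] (P : Sylow p L) (N D C : Subgroup L)
    (hPN : (P : Subgroup L) ≤ N) (hDn : ∀ n ∈ N, ∀ d ∈ D, n * d * n⁻¹ ∈ D)
    (hCP : C ≤ P) (hab : ∀ a ∈ P, ∀ b ∈ P, a⁻¹ * b⁻¹ * a * b ∈ D)
    (hcen : ∀ c ∈ C, ∀ n ∈ N, c⁻¹ * n⁻¹ * c * n ∈ D) (hfoc : (P : Subgroup L) ≤ ⁅N, N⁆) : C ≤ D := by
  have hP' : ((P.subtype hPN : Sylow p N) : Subgroup N) = (P : Subgroup L).subgroupOf N := rfl
  have hDnn : (D.subgroupOf N).Normal := by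
    refine ⟨fun d hd n => ?_⟩
    rw [Subgroup.mem_subgroupOf] at hd ⊢
    exact hDn n n.2 d hd
  have h1 := lemA' (P.subtype hPN) (D.subgroupOf N) (C.subgroupOf N) (by
    intro c hc
    exact hCP hc) (by
    intro a ha b hb
    exact hab a ha b hb) (by
    intro c hc n
    exact hcen c hc n n.2) (by
    intro a ha
    have h2 : (a : L) ∈ ⁅N, N⁆ := hfoc ha
    have h3 : (commutator N).map N.subtype = ⁅N, N⁆ := by
      rw [commutator_def, Subgroup.map_commutator, ← MonoidHom.range_eq_map, Subgroup.range_subtype]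
    rw [← h3] at h2
    obtain ⟨b, hb, hb'⟩ := h2
    have : b = a := Subtype.ext hb'
    rwa [← this])
  intro c hc
  exact h1 (x := ⟨c, hPN (hCP hc)⟩) hc

/-- normal subgroups of index at most `p ^ 3` contain the third term of the lower central series -/
theorem lcs_le {S : Type u} [Group S] [Finite S] {p : ℕ} [hp : Fact p.Prime] (hS : IsPGroup p S) (M : Subgroup S)
    [M.Normal] (hM : M.index ≤ p ^ 3) : (⊤ : Subgroup S).lowerCentralSeries 2 ≤ M := by
  obtain ⟨j, hj⟩ := IsPGroup.iff_card.1 (hS.to_quotient M)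
  have hj3 : j ≤ 3 := by
    rw [Subgroup.index_eq_card, hj] at hM
    exact (Nat.pow_le_pow_iff_right hp.out.one_lt).1 hM
  have hnil : Group.IsNilpotent (S ⧸ M) := (hS.to_quotient M).isNilpotent
  have h1 : (⊤ : Subgroup (S ⧸ M)).lowerCentralSeries 2 = ⊥ := by
    by_cases hj2 : 2 ≤ j
    · rw [Subgroup.lowerCentralSeries_eq_bot_iff_nilpotencyClass_le]
      have := H3.MaxClassP.nilpotencyClass_le hj2 hj
      omega
    · have hcyc : IsCyclic (S ⧸ M) := by
        have hj' : j = 0 ∨ j = 1 := by omega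
        rcases hj' with rfl | rfl
        · have : Subsingleton (S ⧸ M) := by
            rw [← Finite.card_le_one_iff_subsingleton, hj, pow_zero]
          infer_instance
        · exact isCyclic_of_prime_card (p := p) (by rw [hj, pow_one])
      have hcomm : (⊤ : Subgroup (S ⧸ M)).lowerCentralSeries 1 = ⊥ := by
        let _ : CommGroup (S ⧸ M) := IsCyclic.commGroup
        rw [Subgroup.lowerCentralSeries_eq_bot_iff_nilpotencyClass_le]
        exact CommGroup.nilpotencyClass_le_one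
      exact le_bot_iff.1 (hcomm ▸ Subgroup.lowerCentralSeries_antitone _ (by norm_num))
  have h2 : ((⊤ : Subgroup S).lowerCentralSeries 2).map (QuotientGroup.mk' M) = ⊥ := by
    rw [Subgroup.map_lowerCentralSeries, ← MonoidHom.range_eq_map,
      MonoidHom.range_eq_top.2 (QuotientGroup.mk'_surjective M), h1]
  rw [Subgroup.map_eq_bot_iff, QuotientGroup.ker_mk'] at h2
  exact h2

theorem index_of_maxcl {S : Type u} [Group S] [Finite S] {p : ℕ} [hp : Fact p.Prime] {n : ℕ} (hn : Nat.card S = p ^ n)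
    (h : MaxCl S n) : (commutator S).index = p ^ 2 ∧ Group.nilpotencyClass S = n - 1 := by
  have hnil : Group.IsNilpotent S := (IsPGroup.of_card hn).isNilpotent
  have h1 := H3.MaxClassP.nilpotencyClass_le h.1 hn
  have h2 : ¬ Group.nilpotencyClass S ≤ n - 2 := fun h3 =>
    h.2 (Subgroup.lowerCentralSeries_eq_bot_iff_nilpotencyClass_le.2 h3)
  have h3 : Group.nilpotencyClass S = n - 1 := by have := h.1; omega
  exact ⟨H3.MaxClassP.index_commutator_eq h.1 hn h3, h3⟩

end H56.Rk2
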