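import Mathlib
import Cfsg.Agent.Lib.H56.Rk2f

set_option autoImplicit false

/-! The chain of subgroups `Ω_j(C)` of a `p`-group of rank 2. -/

namespace H56.Rk2

open Cfsg
open scoped commutatorElement

universe u

/-- A `p`-group, `p` odd, with a cyclic subgroup of index `p` has a small commutator subgroup. -/
theorem cyc_comm {Q : Type u} [Group Q] [Finite Q] {p : ℕ} [hp : Fact p.Prime] (hp2 : p ≠ 2)
    {C : Subgroup Q} [hCn : C.Normal] (hCc : IsCyclic C) (hCi : C.index = p) {s : ℕ} (hs : Nat.card C = p ^ s) :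
    p ^ s ≤ (commutator Q).index := by
  rcases Nat.eq_zero_or_pos s with rfl | hs0
  · rw [pow_zero]
    exact Nat.one_le_iff_ne_zero.2 Subgroup.index_ne_zero_of_finite
  obtain ⟨⟨c, hcC⟩, hc⟩ := hCc.exists_generator
  have hcz : ∀ x ∈ C, x ∈ Subgroup.zpowers c := by
    intro x hx
    obtain ⟨i, hi⟩ := hc ⟨x, hx⟩
    exact ⟨i, congrArg Subtype.val hi⟩
  have hco : orderOf c = p ^ s := by
    rw [← hs, ← orderOf_eq_card_of_forall_mem_zpowers hc]
    exact (Subgroup.orderOf_coe (⟨c, hcC⟩ : C))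
  have hconj : ∀ g : Q, ∃ a : ℤ, g⁻¹ * c * g = c ^ a ∧ ((p : ℤ) ^ (s - 1)) ∣ a - 1 := by
    intro g
    have h1 : g⁻¹ * c * g ∈ C := by
      have := hCn.conj_mem c hcC g⁻¹
      rwa [inv_inv] at this
    obtain ⟨a, ha⟩ := hcz _ h1
    have ha' : c ^ a = g⁻¹ * c * g := ha
    refine ⟨a, ha'.symm, ?_⟩
    have hit : ∀ k : ℕ, (g ^ k)⁻¹ * c * g ^ k = c ^ (a ^ k) := by
      intro k
      induction k with
      | zero => simp
      | succ k ih =>
        have h2 : (g ^ (k + 1))⁻¹ * c * g ^ (k + 1) = g⁻¹ * ((g ^ k)⁻¹ * c * g ^ k) * g := by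
          rw [pow_succ]; group
        have h3 : g⁻¹ * c ^ (a ^ k) * g = (g⁻¹ * c * g) ^ (a ^ k) := by
          have := (conj_zpow (i := a ^ k) (a := g⁻¹) (b := c)).symm
          rwa [inv_inv] at this
        rw [h2, ih, h3, ← ha', ← zpow_mul, pow_succ, mul_comm]
    have hgp : g ^ p ∈ C := by rw [← hCi]; exact Subgroup.pow_index_mem C g
    have h4 : (g ^ p)⁻¹ * c * g ^ p = c := by
      obtain ⟨i, hi⟩ := hcz _ hgp
      have hi' : c ^ i = g ^ p := hi
      rw [← hi']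
      have : Commute c (c ^ i) := (Commute.refl c).zpow_right i
      rw [mul_assoc, this.eq, inv_mul_cancel_left]
    rw [hit p] at h4
    have h5 : c ^ (a ^ p - 1) = 1 := by rw [zpow_sub, h4, zpow_one, mul_inv_cancel]
    have h6 : ((p ^ s : ℕ) : ℤ) ∣ a ^ p - 1 := by
      rw [← hco]; exact orderOf_dvd_iff_zpow_eq_one.2 h5
    have h7 : (p : ℤ) ∣ a ^ p - 1 := by
      refine dvd_trans ?_ h6
      push_cast
      exact dvd_pow_self _ hs0.ne'
    have h8 : (p : ℤ) ∣ a - 1 := by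
      have h9 : ((a ^ p - 1 : ℤ) : ZMod p) = 0 := (ZMod.intCast_zmod_eq_zero_iff_dvd _ p).2 h7
      push_cast at h9
      rw [ZMod.pow_card] at h9
      apply (ZMod.intCast_zmod_eq_zero_iff_dvd _ p).1
      push_cast
      exact h9
    have h10 : ¬ (p : ℤ) ∣ a := by
      intro h11
      have h12 : (p : ℤ) ∣ 1 := by
        have := dvd_sub h11 h8
        simpa using this
      have := Int.eq_one_of_dvd_one (by positivity) h12
      have := hp.out.one_lt
      omega
    have hodd : Odd p := hp.out.odd_of_ne_two hp2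
    have h13 := Int.emultiplicity_pow_sub_pow hp.out hodd (x := a) (y := 1) h8 h10 p
    rw [one_pow] at h13
    have h14 : emultiplicity p p = 1 := by
      have hfm : FiniteMultiplicity p p := Nat.finiteMultiplicity_iff.2 ⟨hp.out.ne_one, hp.out.pos⟩
      exact hfm.emultiplicity_self
    rw [h14] at h13
    have h15 : (s : ℕ∞) ≤ emultiplicity (p : ℤ) (a ^ p - 1) := by
      apply le_emultiplicity_of_pow_dvd
      have : ((p ^ s : ℕ) : ℤ) = (p : ℤ) ^ s := by push_cast; rfl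
      rwa [← this]
    rw [h13] at h15
    apply pow_dvd_of_le_emultiplicity
    have h16 : ((s - 1 : ℕ) : ℕ∞) + 1 ≤ emultiplicity (p : ℤ) (a - 1) + 1 := by
      refine le_trans (le_of_eq ?_) h15
      norm_cast
      omega
    exact (ENat.add_le_add_iff_right ENat.one_ne_top).1 h16
  set z := c ^ p ^ (s - 1) with hz
  have hZn : (Subgroup.zpowers z).Normal := by
    refine ⟨fun w hw g => ?_⟩
    obtain ⟨i, rfl⟩ := hw
    obtain ⟨a, ha, -⟩ := hconj g⁻¹
    rw [inv_inv] at ha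
    refine ⟨a * i, ?_⟩
    show z ^ (a * i) = g * z ^ i * g⁻¹
    have h1 : g * z ^ i * g⁻¹ = (g * c * g⁻¹) ^ ((p ^ (s - 1) : ℕ) * i : ℤ) := by
      rw [conj_zpow, zpow_mul, zpow_natCast, ← hz]
    rw [h1, ha, hz, ← zpow_natCast, ← zpow_mul, ← zpow_mul]
    congr 1
    ring
  have hzo : Nat.card (Subgroup.zpowers z) = p := by
    rw [Nat.card_zpowers, hz, orderOf_pow' _ (pow_pos hp.out.pos _).ne', hco,
      Nat.gcd_eq_right (pow_dvd_pow p (Nat.sub_le s 1))]
    have : p ^ s = p ^ (s - 1) * p := by rw [← pow_succ]; congr 1; omega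
    rw [this, Nat.mul_div_cancel_left _ (pow_pos hp.out.pos _)]
  have hzC : Subgroup.zpowers z ≤ C := (Subgroup.zpowers_le).2 (pow_mem hcC _)
  have hcomm : commutator Q ≤ Subgroup.zpowers z := by
    let f : (Q ⧸ Subgroup.zpowers z) →* (Q ⧸ C) := QuotientGroup.map _ _ (MonoidHom.id Q) hzC
    have hcyc : IsCyclic (Q ⧸ C) := isCyclic_of_prime_card (p := p) (by rw [← Subgroup.index_eq_card, hCi])
    have hf : f.ker ≤ Subgroup.center (Q ⧸ Subgroup.zpowers z) := by
      intro y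
      obtain ⟨y, rfl⟩ := QuotientGroup.mk_surjective y
      intro hy
      have hy' : ((y : Q) : Q ⧸ C) = 1 := hy
      rw [QuotientGroup.eq_one_iff] at hy'
      obtain ⟨i, rfl⟩ := hcz _ hy'
      rw [Subgroup.mem_center_iff]
      intro g
      obtain ⟨g, rfl⟩ := QuotientGroup.mk_surjective g
      have h1 : Commute (g : Q ⧸ Subgroup.zpowers z) (c : Q ⧸ Subgroup.zpowers z) := by
        show (g : Q ⧸ Subgroup.zpowers z) * (c : Q ⧸ Subgroup.zpowers z) = _
        symm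
        rw [← QuotientGroup.mk_mul, ← QuotientGroup.mk_mul, QuotientGroup.eq]
        obtain ⟨a, ha, k, hk⟩ := hconj g
        have h3 : c⁻¹ * (g⁻¹ * c * g) ∈ Subgroup.zpowers z := by
          rw [ha]
          refine ⟨k, ?_⟩
          show z ^ k = c⁻¹ * c ^ a
          rw [hz, ← zpow_natCast, ← zpow_mul]
          push_cast
          rw [← hk, zpow_sub, zpow_one, ((Commute.refl c).zpow_left a).inv_right.eq]
        have h5 : (c * g)⁻¹ * (g * c) = g⁻¹ * c⁻¹ * g * c := by group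
        have h6 : g⁻¹ * c⁻¹ * g * c = c⁻¹ * (c * (g⁻¹ * c⁻¹ * g)) * c := by group
        have h7 : c * (g⁻¹ * c⁻¹ * g) = c * (c⁻¹ * (g⁻¹ * c * g))⁻¹ * c⁻¹ := by group
        rw [h5, h6, h7]
        have h8 : c⁻¹ * (c * (c⁻¹ * (g⁻¹ * c * g))⁻¹ * c⁻¹) * c = (c⁻¹ * (g⁻¹ * c * g))⁻¹ := by group
        rw [h8]
        exact inv_mem h3
      exact (h1.zpow_right i).eq
    have hab' := MonoidHom.isMulCommutative_of_isCyclic_of_ker_le_center f hf
    have hab : ∀ a b : Q ⧸ Subgroup.zpowers z, a * b = b * a := fun a b => mul_comm' a b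
    rw [commutator_def, Subgroup.commutator_le]
    intro a _ b _
    rw [← QuotientGroup.eq_one_iff, commutatorElement_def, QuotientGroup.mk_mul, QuotientGroup.mk_mul, QuotientGroup.mk_mul,
      hab (a : Q ⧸ Subgroup.zpowers z) b, QuotientGroup.mk_inv, QuotientGroup.mk_inv, mul_inv_cancel_right, mul_inv_cancel]
  have h1 : (Subgroup.zpowers z).index ≤ (commutator Q).index :=
    Nat.le_of_dvd (Nat.pos_of_ne_zero Subgroup.index_ne_zero_of_finite) (Subgroup.index_dvd_of_le hcomm)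
  have h2 : Nat.card (Subgroup.zpowers z) * (Subgroup.zpowers z).index = Nat.card C * C.index := by
    rw [Subgroup.card_mul_index, Subgroup.card_mul_index]
  rw [hzo, hs, hCi, mul_comm] at h2
  have h3 : (Subgroup.zpowers z).index = p ^ s := Nat.eq_of_mul_eq_mul_right hp.out.pos h2
  rwa [h3] at h1

section cfg

variable {G : Type u} [Group G] [Finite G] {p : ℕ} [hp : Fact p.Prime] {E C : Subgroup G}

namespace Cfg

theorem pcC (h : Cfg p E C) (j : ℕ) {a b : G} (ha : a ∈ C) (hb : b ∈ C) :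
    a ^ p ^ j = b ^ p ^ j ↔ (a⁻¹ * b) ^ p ^ j = 1 := by
  have h1 := pcp p h.hp2 j C (h.hG.to_subgroup C) (by
    rintro ⟨x, hx⟩ hxp
    have hxp' : x ^ p = 1 := by simpa using congrArg Subtype.val hxp
    rw [Subgroup.mem_center_iff]
    rintro ⟨y, hy⟩
    exact Subtype.ext (h.commC hy (h.om x hx hxp')).eq) ⟨a, ha⟩ ⟨b, hb⟩
  have e1 : (⟨a, ha⟩ : C) ^ p ^ j = (⟨b, hb⟩ : C) ^ p ^ j ↔ a ^ p ^ j = b ^ p ^ j := by
    rw [← Subtype.coe_inj]; rfl
  have e2 : ((⟨a, ha⟩ : C)⁻¹ * ⟨b, hb⟩) ^ p ^ j = 1 ↔ (a⁻¹ * b) ^ p ^ j = 1 := by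
    rw [← Subtype.coe_inj]; rfl
  rw [← e1, ← e2]; exact h1

/-- The subgroup of the elements of `C` of order dividing `p ^ j`. -/
def Om (h : Cfg p E C) (j : ℕ) : Subgroup G where
  carrier := {c | c ∈ C ∧ c ^ p ^ j = 1}
  mul_mem' := by
    rintro a b ⟨ha, ha1⟩ ⟨hb, hb1⟩
    refine ⟨mul_mem ha hb, ?_⟩
    have h1 := (h.pcC j (inv_mem ha) hb).1 (by rw [inv_pow, ha1, hb1, inv_one])
    rwa [inv_inv] at h1
  one_mem' := ⟨one_mem _, one_pow _⟩
  inv_mem' := by
    rintro a ⟨ha, ha1⟩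
    exact ⟨inv_mem ha, by rw [inv_pow, ha1, inv_one]⟩

theorem mem_Om (h : Cfg p E C) {j : ℕ} {c : G} : c ∈ h.Om j ↔ c ∈ C ∧ c ^ p ^ j = 1 := Iff.rfl

theorem Om_le (h : Cfg p E C) (j : ℕ) : h.Om j ≤ C := fun _ hc => hc.1

theorem Om_mono (h : Cfg p E C) {i j : ℕ} (hij : i ≤ j) : h.Om i ≤ h.Om j := by
  intro c hc
  refine ⟨hc.1, ?_⟩
  obtain ⟨k, rfl⟩ := Nat.exists_eq_add_of_le hij
  rw [pow_add, pow_mul, hc.2, one_pow]

theorem Om_one (h : Cfg p E C) : h.Om 1 = E := by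
  ext c
  rw [mem_Om, pow_one]
  exact ⟨fun hc => h.om c hc.1 hc.2, fun hc => ⟨h.E_le_C hc, h.pE c hc⟩⟩

theorem Om_normal (h : Cfg p E C) (j : ℕ) : (h.Om j).Normal := by
  refine ⟨fun c hc g => ?_⟩
  have hn := h.normalC
  exact ⟨hn.conj_mem c hc.1 g, by rw [conj_pow, hc.2]; group⟩

theorem card_pow_le (h : Cfg p E C) {H : Subgroup G} (hH : H ≤ C) :
    Nat.card H ≤ p ^ 2 * {y : G | ∃ u ∈ H, y = u ^ p}.ncard := by
  classical
  set T := {y : G | ∃ u ∈ H, y = u ^ p} with hT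
  have hr : ∀ t : T, ∃ u ∈ H, (t : G) = u ^ p := fun t => t.2
  choose r hrC hr using hr
  have h1 : Nat.card H ≤ Nat.card (E × T) := by
    refine Nat.card_le_card_of_injective (fun c : H => (⟨(r ⟨(c : G) ^ p, c, c.2, rfl⟩)⁻¹ * c, ?_⟩,
      ⟨(c : G) ^ p, c, c.2, rfl⟩)) ?_
    · exact h.key (hH (hrC _)) (hH c.2) (hr ⟨(c : G) ^ p, c, c.2, rfl⟩).symm
    · intro a b hab
      simp only [Prod.mk.injEq, Subtype.mk.injEq] at hab
      obtain ⟨h1, h2⟩ := hab
      apply Subtype.ext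
      have h3 : (⟨(a : G) ^ p, a, a.2, rfl⟩ : T) = ⟨(b : G) ^ p, b, b.2, rfl⟩ := Subtype.ext h2
      rw [h3] at h1
      exact mul_left_cancel h1
  rw [Nat.card_prod, h.cardE] at h1
  exact h1

theorem pow_mem_Om (h : Cfg p E C) {j : ℕ} {u : G} (hu : u ∈ h.Om (j + 1)) : u ^ p ∈ h.Om j :=
  ⟨pow_mem hu.1 p, by rw [← pow_mul, ← pow_succ']; exact hu.2⟩

theorem card_Om_succ_le (h : Cfg p E C) (j : ℕ) : Nat.card (h.Om (j + 1)) ≤ p ^ 2 * Nat.card (h.Om j) := by
  refine (h.card_pow_le (h.Om_le (j + 1))).trans (Nat.mul_le_mul_left _ ?_)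
  apply Set.ncard_le_ncard (t := (h.Om j : Set G)) _ (Set.toFinite _)
  rintro y ⟨u, hu, rfl⟩
  exact h.pow_mem_Om hu

omit [Finite G] in
theorem card_map_mk (T H : Subgroup G) [T.Normal] (hTH : T ≤ H) :
    Nat.card (H.map (QuotientGroup.mk' T)) * Nat.card T = Nat.card H := by
  have h3 := Subgroup.relIndex_ker (QuotientGroup.mk' T) (K := H)
  rw [QuotientGroup.ker_mk'] at h3
  have h4 := Subgroup.relIndex_mul_relIndex ⊥ T H bot_le hTH
  rw [Subgroup.relIndex_bot_left, Subgroup.relIndex_bot_left, h3] at h4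
  rw [← h4, mul_comm]

theorem cycq (h : Cfg p E C) (hC : C ≠ ⊤) (j : ℕ) (hj : Nat.card (h.Om (j + 1)) ≤ p * Nat.card (h.Om j)) :
    Nat.card C ≤ (commutator G).index * Nat.card (h.Om j) := by
  have hTn := h.Om_normal j
  set T := h.Om j with hT
  have hCn := h.normalC
  set Q := C.map (QuotientGroup.mk' T) with hQ
  have hsurj := QuotientGroup.mk'_surjective T
  have hQn : Q.Normal := hCn.map _ hsurj
  have hcardQ := card_map_mk T C (h.Om_le j)
  have hpos : 0 < Nat.card T := Nat.card_pos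
  have hcyc : IsCyclic Q := by
    apply H1.OddRank.isCyclic_of_pRankLE_one h.hp2 ((h.hG.to_quotient T).to_subgroup Q)
    intro A hA hAp
    have h1 : A.map Q.subtype ≤ (h.Om (j + 1)).map (QuotientGroup.mk' T) := by
      rintro _ ⟨a, ha, rfl⟩
      obtain ⟨c, hcC, hc⟩ := a.2
      refine ⟨c, ⟨hcC, ?_⟩, hc⟩
      have h2 : (QuotientGroup.mk' T) (c ^ p) = 1 := by
        rw [map_pow, hc]; exact congrArg Subtype.val (hAp a ha)
      have h3 : c ^ p ∈ T := (QuotientGroup.eq_one_iff _).1 h2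
      rw [pow_succ', pow_mul]
      exact h3.2
    have h2 := Subgroup.card_le_of_le h1
    have h3 : Nat.card (A.map Q.subtype) = Nat.card A :=
      Nat.card_congr (Subgroup.equivMapOfInjective A Q.subtype (Subgroup.subtype_injective Q)).toEquiv.symm
    have h4 := card_map_mk T (h.Om (j + 1)) (h.Om_mono (Nat.le_succ j))
    rw [h3] at h2
    rw [pow_one]
    have h5 : Nat.card ((h.Om (j + 1)).map (QuotientGroup.mk' T)) * Nat.card T ≤ p * Nat.card T := by
      rw [h4]; exact hj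
    exact h2.trans (Nat.le_of_mul_le_mul_right h5 hpos)
  have hQi : Q.index = p := by
    have h1 : Q.index = C.index := by
      rw [hQ]
      exact Subgroup.index_map_eq _ hsurj (by rw [QuotientGroup.ker_mk']; exact h.Om_le j)
    rw [h1, h.index_C hC]
  obtain ⟨s, hs⟩ := IsPGroup.iff_card.1 ((h.hG.to_quotient T).to_subgroup Q)
  have h1 := cyc_comm h.hp2 hcyc hQi hs
  have h2 : (commutator (G ⧸ T)).index ∣ (commutator G).index := by
    have h3 : (commutator G).map (QuotientGroup.mk' T) = commutator (G ⧸ T) := by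
      rw [commutator_def, Subgroup.map_commutator, ← MonoidHom.range_eq_map, MonoidHom.range_eq_top.2 hsurj,
        ← commutator_def]
    rw [← h3]
    exact Subgroup.index_map_dvd _ hsurj
  have h3 : (commutator (G ⧸ T)).index ≤ (commutator G).index :=
    Nat.le_of_dvd (Nat.pos_of_ne_zero Subgroup.index_ne_zero_of_finite) h2
  rw [← hcardQ, hs]
  exact Nat.mul_le_mul_right _ (h1.trans h3)

theorem card_Om (h : Cfg p E C) (hC : C ≠ ⊤) {m : ℕ} (hn : Nat.card G = p ^ (2 * m))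
    (hidx : (commutator G).index ≤ p ^ 2) : ∀ j, j + 1 ≤ m → Nat.card (h.Om j) = p ^ (2 * j) := by
  have hcC : Nat.card C * p = p ^ (2 * m) := by rw [← hn, ← h.index_C hC]; exact Subgroup.card_mul_index C
  intro j
  induction j with
  | zero =>
    intro _
    have : h.Om 0 = ⊥ := by
      rw [eq_bot_iff]
      intro c hc
      have := hc.2
      rw [pow_zero, pow_one] at this
      rw [this]; exact one_mem _
    rw [this, Subgroup.card_bot, mul_zero, pow_zero]
  | succ j ih =>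
    intro hj
    have h1 := ih (by omega)
    have h2 := h.card_Om_succ_le j
    obtain ⟨i, hi⟩ := IsPGroup.iff_card.1 (h.hG.to_subgroup (h.Om (j + 1)))
    rw [h1, ← pow_add, hi] at h2
    have h3 := (Nat.pow_le_pow_iff_right hp.out.one_lt).1 h2
    rcases eq_or_lt_of_le h3 with h4 | h4
    · rw [hi, h4]; congr 1; ring
    · exfalso
      have h5 := h.cycq hC j (by
        rw [hi, h1, ← pow_succ']
        exact Nat.pow_le_pow_right hp.out.pos (by omega))
      have h6 : Nat.card C ≤ p ^ (2 + 2 * j) := by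
        rw [pow_add, ← h1]
        exact h5.trans (Nat.mul_le_mul_right _ hidx)
      have h7 : p ^ (2 * m) ≤ p ^ (2 + 2 * j + 1) := by
        rw [← hcC, pow_succ]
        exact Nat.mul_le_mul_right _ h6
      have := (Nat.pow_le_pow_iff_right hp.out.one_lt).1 h7
      omega

end Cfg

end cfg

end H56.Rk2
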