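import Mathlib
import Cfsg.Agent.S2792
import Cfsg.Agent.Lib.H56.Rk2g

set_option autoImplicit false

/-! Control of transfer (Yoshida) for `p`-groups of rank 2. -/

namespace H56.Rk2

open Cfsg
open scoped commutatorElement

universe u

/-- Yoshida's theorem in the form used here. -/
theorem yosh {L : Type u} [Group L] [Finite L] {p : ℕ} [hp : Fact p.Prime] (hp2 : p ≠ 2) (P : Sylow p L)
    (hfoc : (P : Subgroup L) ≤ commutator L)
    (hW : ∀ W₀ : Subgroup (P : Subgroup L), IsCoatom W₀ →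
      (⊤ : Subgroup (P : Subgroup L)).lowerCentralSeries 2 ≤ (frattini ↥W₀).map W₀.subtype) :
    (P : Subgroup L) ≤ ⁅Subgroup.normalizer ((P : Subgroup L) : Set L), Subgroup.normalizer ((P : Subgroup L) : Set L)⁆ := by
  by_contra hcon
  have hne : (P : Subgroup L) ⊓ commutator L ≠ (P : Subgroup L) ⊓
      ⁅Subgroup.normalizer ((P : Subgroup L) : Set L), Subgroup.normalizer ((P : Subgroup L) : Set L)⁆ := by
    intro h
    rw [inf_eq_left.2 hfoc] at h
    exact hcon (inf_eq_left.1 h.symm)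
  have hwc : IsWeaklyClosed (P : Subgroup L) (P : Subgroup L) := by
    refine ⟨le_rfl, fun g hg => ?_⟩
    apply Subgroup.eq_of_le_of_card_ge hg
    exact (Nat.card_congr (Subgroup.equivMapOfInjective (P : Subgroup L) (MulAut.conj g).toMonoidHom
      (MulAut.conj g).injective).toEquiv).le
  obtain ⟨x, hx, z, hz, W₀, hW₀, -, h2⟩ := Cfsg.Agent.S2792.result P (P : Subgroup L) hwc hne
  apply h2
  have hit : ∀ k : ℕ, ∃ y ∈ (⊤ : Subgroup (P : Subgroup L)).lowerCentralSeries k,
      (y : L) = (fun y : L => y⁻¹ * z⁻¹ * y * z)^[k] x := by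
    intro k
    induction k with
    | zero => exact ⟨⟨x, hx⟩, trivial, rfl⟩
    | succ k ih =>
      obtain ⟨y, hy, hyx⟩ := ih
      refine ⟨⁅y⁻¹, (⟨z, hz⟩ : (P : Subgroup L))⁻¹⁆, ?_, ?_⟩
      · rw [Subgroup.lowerCentralSeries_succ]
        exact Subgroup.commutator_mem_commutator (inv_mem hy) (Subgroup.mem_top _)
      · rw [Function.iterate_succ_apply', ← hyx, commutatorElement_def, inv_inv, inv_inv]
        rfl
  obtain ⟨y, hy, hyx⟩ := hit (p - 1)
  have hp3 : 2 ≤ p - 1 := by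
    have := hp.out.two_le
    omega
  have h3 : y ∈ (frattini ↥W₀).map W₀.subtype := hW W₀ hW₀ (Subgroup.lowerCentralSeries_antitone _ hp3 hy)
  exact ⟨y, h3, hyx⟩

section cfg

variable {G : Type u} [Group G] [Finite G] {p : ℕ} [hp : Fact p.Prime] {E C : Subgroup G}

theorem frat_index {W : Subgroup G} (hG : IsPGroup p G) [W.Normal] (hWi : W.index ≤ p)
    (hW : Nat.card W ≤ p ^ 2 * Nat.card ((frattini ↥W).map W.subtype)) :
    (⊤ : Subgroup G).lowerCentralSeries 2 ≤ (frattini ↥W).map W.subtype := by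
  apply lcs_le hG
  set F := (frattini ↥W).map W.subtype with hF
  have h1 : Nat.card F * F.index = Nat.card W * W.index := by
    rw [Subgroup.card_mul_index, Subgroup.card_mul_index]
  have hpos : 0 < Nat.card F := Nat.card_pos
  have h2 : Nat.card F * F.index ≤ Nat.card F * p ^ 3 := by
    rw [h1]
    calc Nat.card W * W.index ≤ (p ^ 2 * Nat.card F) * p := Nat.mul_le_mul hW hWi
      _ = Nat.card F * p ^ 3 := by ring
  exact Nat.le_of_mul_le_mul_left h2 hpos

namespace Cfg

theorem frat_C (h : Cfg p E C) {W : Subgroup G} (hWC : W ≤ C) :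
    Nat.card W ≤ p ^ 2 * Nat.card ((frattini ↥W).map W.subtype) := by
  refine (h.card_pow_le hWC).trans (Nat.mul_le_mul_left _ ?_)
  apply Set.ncard_le_ncard (t := ((frattini ↥W).map W.subtype : Set G)) _ (Set.toFinite _)
  rintro y ⟨u, hu, rfl⟩
  refine ⟨⟨u, hu⟩ ^ p, H3.PBasic.pow_mem_frattini (h.hG.to_subgroup W) _, rfl⟩

theorem comm_eq (h : Cfg p E C) (hC : C ≠ ⊤) {m : ℕ} (hm : 1 ≤ m) (hn : Nat.card G = p ^ (2 * m))
    (hidx : (commutator G).index ≤ p ^ 2) : commutator G = h.Om (m - 1) := by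
  have h1 := h.card_Om hC hn hidx (m - 1) (by omega)
  have hRn := h.Om_normal (m - 1)
  have h2 : (h.Om (m - 1)).index = p ^ 2 := by
    have h3 := Subgroup.card_mul_index (h.Om (m - 1))
    rw [h1, hn] at h3
    have h4 : p ^ (2 * m) = p ^ (2 * (m - 1)) * p ^ 2 := by rw [← pow_add]; congr 1; omega
    rw [h4] at h3
    exact Nat.eq_of_mul_eq_mul_left (pow_pos hp.out.pos _) h3
  have h3 : commutator G ≤ h.Om (m - 1) := by
    have h4 : IsMulCommutative (G ⧸ h.Om (m - 1)) :=
      IsPGroup.isMulCommutative_of_card_eq_prime_sq (p := p) (by rw [← Subgroup.index_eq_card, h2])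
    rw [commutator_def, Subgroup.commutator_le]
    intro a _ b _
    rw [← QuotientGroup.eq_one_iff, commutatorElement_def, QuotientGroup.mk_mul, QuotientGroup.mk_mul,
      QuotientGroup.mk_mul, mul_comm' (a : G ⧸ h.Om (m - 1)) b, QuotientGroup.mk_inv, QuotientGroup.mk_inv,
      mul_inv_cancel_right, mul_inv_cancel]
  apply Subgroup.eq_of_le_of_card_ge h3
  have h5 : Nat.card (commutator G) * (commutator G).index = Nat.card (h.Om (m - 1)) * (h.Om (m - 1)).index := by
    rw [Subgroup.card_mul_index, Subgroup.card_mul_index]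
  rw [h2] at h5
  have h6 : Nat.card (h.Om (m - 1)) * p ^ 2 ≤ Nat.card (commutator G) * p ^ 2 := by
    rw [← h5]; exact Nat.mul_le_mul_left _ hidx
  exact Nat.le_of_mul_le_mul_right h6 (pow_pos hp.out.pos 2)

/-- The hypothesis of Yoshida's theorem. -/
theorem hypY (h : Cfg p E C) (hC : C ≠ ⊤) {m : ℕ} (hm : 2 ≤ m) (hn : Nat.card G = p ^ (2 * m))
    (hidx : (commutator G).index ≤ p ^ 2) (B : Subgroup G) (hB : IsCoatom B) :
    (⊤ : Subgroup G).lowerCentralSeries 2 ≤ (frattini ↥B).map B.subtype := by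
  have hBn := H3.PBasic.normal_of_coatom h.hG hB
  have hBi := H3.PBasic.index_of_coatom h.hG hB
  by_cases hBC : B = C
  · exact frat_index h.hG hBi.le (h.frat_C hBC.le)
  have hCn := h.normalC
  have hBCt : B ⊔ C = ⊤ := by
    apply hB.2
    refine lt_of_le_of_ne le_sup_left fun h1 => hBC ?_
    have h2 : C ≤ B := by rw [h1]; exact le_sup_right
    symm
    apply Subgroup.eq_of_le_of_card_ge h2
    have h3 : Nat.card B * B.index = Nat.card C * C.index := by
      rw [Subgroup.card_mul_index, Subgroup.card_mul_index]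
    rw [hBi, h.index_C hC] at h3
    exact (Nat.eq_of_mul_eq_mul_right hp.out.pos h3).le
  have hR := h.comm_eq hC (by omega) hn hidx
  set R := h.Om (m - 1) with hRdef
  set F := (frattini ↥B).map B.subtype with hF
  have hFn : F.Normal := inferInstance
  have hRB : R ≤ B := by rw [← hR]; exact H3.PBasic.commutator_le_of_index hBi
  -- `D ≤ F`
  have hDF : h.Om (m - 2) ≤ F := by
    have h1 := h.card_pow_le (h.Om_le (m - 1))
    rw [h.card_Om hC hn hidx (m - 1) (by omega)] at h1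
    have h2 : {y : G | ∃ u ∈ h.Om (m - 1), y = u ^ p} ⊆ (h.Om (m - 2) : Set G) := by
      rintro y ⟨u, hu, rfl⟩
      have h3 : m - 1 = (m - 2) + 1 := by omega
      rw [h3] at hu
      exact h.pow_mem_Om hu
    have h3 : (h.Om (m - 2) : Set G).ncard ≤ {y : G | ∃ u ∈ h.Om (m - 1), y = u ^ p}.ncard := by
      have h4 : (h.Om (m - 2) : Set G).ncard = p ^ (2 * (m - 2)) := h.card_Om hC hn hidx (m - 2) (by omega)
      rw [h4]
      have h5 : p ^ (2 * (m - 1)) = p ^ 2 * p ^ (2 * (m - 2)) := by rw [← pow_add]; congr 1; omega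
      rw [h5] at h1
      exact Nat.le_of_mul_le_mul_left h1 (pow_pos hp.out.pos 2)
    have h4 := Set.eq_of_subset_of_ncard_le h2 h3 (Set.toFinite _)
    intro d hd
    have h5 : d ∈ {y : G | ∃ u ∈ h.Om (m - 1), y = u ^ p} := by rw [h4]; exact hd
    obtain ⟨u, hu, rfl⟩ := h5
    exact ⟨⟨u, hRB hu⟩ ^ p, H3.PBasic.pow_mem_frattini (h.hG.to_subgroup B) _, rfl⟩
  -- the centralizer of `R` modulo `F`
  set T := (Subgroup.centralizer ((R.map (QuotientGroup.mk' F) : Subgroup (G ⧸ F)) : Set (G ⧸ F))).comap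
    (QuotientGroup.mk' F) with hT
  have hmemT : ∀ s : G, (∀ r ∈ R, r⁻¹ * s⁻¹ * r * s ∈ F) → s ∈ T := by
    intro s hs
    rw [hT, Subgroup.mem_comap, Subgroup.mem_centralizer_iff]
    rintro _ ⟨r, hr, rfl⟩
    rw [← map_mul, ← map_mul]
    symm
    apply (QuotientGroup.eq (s := F)).2
    have := hs r hr
    simpa [mul_assoc] using this
  have hBT : B ≤ T := by
    intro b hb
    apply hmemT
    intro r hr
    refine ⟨⁅(⟨r, hRB hr⟩ : B)⁻¹, (⟨b, hb⟩ : B)⁻¹⁆, ?_, ?_⟩
    · exact H3.PBasic.commutator_le_frattini (h.hG.to_subgroup B)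
        (Subgroup.commutator_mem_commutator (Subgroup.mem_top _) (Subgroup.mem_top _))
    · rw [commutatorElement_def, inv_inv, inv_inv]; rfl
  have hCT : C ≤ T := by
    intro c hc
    apply hmemT
    intro r hr
    apply hDF
    have hrC : r ∈ C := hr.1
    refine ⟨mul_mem (mul_mem (mul_mem (inv_mem hrC) (inv_mem hc)) hrC) hc, ?_⟩
    have h1 : r⁻¹ * c⁻¹ * r * c = r⁻¹ * (c⁻¹ * r * c) := by group
    rw [h1, ← h.pcC (m - 2) hrC (h.conj_memC hrC c), pow_conj]
    have h2 : r ^ p ^ (m - 2) ∈ E := by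
      rw [← h.Om_one]
      refine ⟨pow_mem hrC _, ?_⟩
      rw [← pow_mul, ← pow_add]
      have h3 : m - 2 + 1 = m - 1 := by omega
      rw [h3]; exact hr.2
    rw [mul_assoc, ← (h.commC hc h2).eq, inv_mul_cancel_left]
  have hTt : T = ⊤ := by rw [eq_top_iff, ← hBCt]; exact sup_le hBT hCT
  have h1 : (⊤ : Subgroup G).lowerCentralSeries 2 = ⁅commutator G, (⊤ : Subgroup G)⁆ := by
    rw [show (2 : ℕ) = 1 + 1 from rfl, Subgroup.lowerCentralSeries_succ, Subgroup.top_lowerCentralSeries_one]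
  rw [h1, hR, Subgroup.commutator_le]
  intro r hr s _
  have hsT : s ∈ T := by rw [hTt]; trivial
  rw [hT, Subgroup.mem_comap, Subgroup.mem_centralizer_iff] at hsT
  have h2 := hsT _ ⟨r, hr, rfl⟩
  rw [← QuotientGroup.eq_one_iff]
  have h3 : (QuotientGroup.mk' F) ⁅r, s⁆ = 1 := by
    rw [map_commutatorElement, commutatorElement_eq_one_iff_mul_comm]
    exact h2
  exact h3

end Cfg

end cfg

end H56.Rk2
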