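import Mathlib
import Cfsg.Agent.S1447
import Cfsg.Agent.Lib.H29.BlackburnII
import Cfsg.Agent.Lib.H76.TwoGen
import Cfsg.Agent.Lib.H56.Rk2h

set_option autoImplicit false

/-! Sylow subgroups of rank 2 with a fusion-invariant central element: the main theorem. -/

namespace H56.Rk2

open Cfsg
open scoped commutatorElement

universe u

section main

variable {L : Type u} [Group L] [Finite L] {p : ℕ} [hp : Fact p.Prime] (P : Sylow p L) {x : L}

omit [Finite L] hp in
theorem norm_conj {g : L} (hg : g ∈ Subgroup.normalizer ((P : Subgroup L) : Set L)) {y : L} (hy : y ∈ P) :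
    g * y * g⁻¹ ∈ P := (Subgroup.mem_normalizer_iff.1 hg y).1 hy

omit [Finite L] hp in
theorem norm_conj' {g : L} (hg : g ∈ Subgroup.normalizer ((P : Subgroup L) : Set L)) {y : L} (hy : y ∈ P) :
    g⁻¹ * y * g ∈ P := by
  have := norm_conj P (inv_mem hg) hy
  rwa [inv_inv] at this

omit [Finite L] hp in
theorem norm_comm {g : L} (hg : g ∈ Subgroup.normalizer ((P : Subgroup L) : Set L)) {y : L}
    (hy : y ∈ ⁅(P : Subgroup L), (P : Subgroup L)⁆) : g * y * g⁻¹ ∈ ⁅(P : Subgroup L), (P : Subgroup L)⁆ := by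
  have h1 : (P : Subgroup L).map (MulAut.conj g).toMonoidHom = P := by
    ext z
    constructor
    · rintro ⟨w, hw, rfl⟩
      exact norm_conj P hg hw
    · intro hz
      exact ⟨g⁻¹ * z * g, norm_conj' P hg hz, by simp [mul_assoc]⟩
  have h2 : (⁅(P : Subgroup L), (P : Subgroup L)⁆).map (MulAut.conj g).toMonoidHom = ⁅(P : Subgroup L), (P : Subgroup L)⁆ := by
    rw [Subgroup.map_commutator, h1]
  rw [← h2]
  exact ⟨y, hy, rfl⟩

omit [Finite L] hp in
theorem map_comm : (commutator (P : Subgroup L)).map (P : Subgroup L).subtype = ⁅(P : Subgroup L), (P : Subgroup L)⁆ := by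
  rw [commutator_def, Subgroup.map_commutator, ← MonoidHom.range_eq_map, Subgroup.range_subtype]

/-- The case of even exponent. -/
theorem even_contra (hxP : x ∈ P) (hxo : orderOf x = p)
    (hiso : ∀ g : L, g * x * g⁻¹ ∈ P → g * x * g⁻¹ = x) (hfoc : (P : Subgroup L) ≤ commutator L)
    {E C : Subgroup (P : Subgroup L)} (h : Cfg p E C) (hC : C ≠ ⊤) {m : ℕ} (hm : 2 ≤ m)
    (hn : Nat.card (P : Subgroup L) = p ^ (2 * m)) (hidx : (commutator (P : Subgroup L)).index ≤ p ^ 2) : False := by
  have hPN := yosh h.hp2 P hfoc (fun W₀ hW₀ => h.hypY hC hm hn hidx W₀ hW₀)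
  set N := Subgroup.normalizer ((P : Subgroup L) : Set L) with hN
  have hR := h.comm_eq hC (by omega) hn hidx
  have hRmap : (h.Om (m - 1)).map (P : Subgroup L).subtype = ⁅(P : Subgroup L), (P : Subgroup L)⁆ := by
    rw [← hR, map_comm]
  set q := p ^ (m - 1) with hq
  -- the element `x` in `P`
  set x' : (P : Subgroup L) := ⟨x, hxP⟩ with hx'
  have hx'c : x' ∈ Subgroup.center (P : Subgroup L) := by
    rw [Subgroup.mem_center_iff]
    intro g
    have h1 := hiso g (mul_mem (mul_mem g.2 hxP) (inv_mem g.2))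
    apply Subtype.ext
    show (g : L) * x = x * g
    nth_rw 2 [← h1]
    group
  have hx'p : x' ^ p = 1 := Subtype.ext (by show x ^ p = 1; rw [← hxo, pow_orderOf_eq_one])
  have hx'1 : x' ≠ 1 := by
    intro h1
    have h2 : x = 1 := congrArg Subtype.val h1
    rw [h2, orderOf_one] at hxo
    exact hp.out.one_lt.ne hxo
  have hx'C : x' ∈ C := by
    rw [h.hC, Subgroup.mem_centralizer_iff]
    exact fun e _ => Subgroup.mem_center_iff.1 hx'c e
  have hx'E : x' ∈ E := h.om _ hx'C hx'p
  -- conjugation by elements of `N`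
  have hNx : ∀ n ∈ N, n⁻¹ * x * n = x := by
    intro n hn
    have := hiso n⁻¹ (by rw [inv_inv]; exact norm_conj' P hn hxP)
    rwa [inv_inv] at this
  have hNE : ∀ n (hn : n ∈ N) (e : (P : Subgroup L)), e ∈ E → (⟨n⁻¹ * e * n, norm_conj' P hn e.2⟩ : (P : Subgroup L)) ∈ E := by
    intro n hn e he
    have h1 : e ∈ h.Om (m - 1) := by
      have h0 := h.Om_mono (show 1 ≤ m - 1 by omega)
      rw [h.Om_one] at h0
      exact h0 he
    have h2 : n⁻¹ * (e : L) * n ∈ ⁅(P : Subgroup L), (P : Subgroup L)⁆ := by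
      have := norm_comm P (inv_mem hn) (y := e) (by rw [← hRmap]; exact ⟨e, h1, rfl⟩)
      rwa [inv_inv] at this
    rw [← hRmap] at h2
    obtain ⟨r, hr, hr'⟩ := h2
    have h3 : r = ⟨n⁻¹ * e * n, norm_conj' P hn e.2⟩ := Subtype.ext hr'
    rw [← h3]
    apply h.om _ hr.1
    rw [h3]
    apply Subtype.ext
    show (n⁻¹ * (e : L) * n) ^ p = 1
    have h4 : (e : L) ^ p = 1 := congrArg Subtype.val (h.pE e he)
    have h5 : (n⁻¹ * (e : L) * n) ^ p = n⁻¹ * (e : L) ^ p * n := by
      have : n⁻¹ * (e : L) * n = MulAut.conj n⁻¹ (e : L) := by simp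
      rw [this, ← map_pow]; simp
    rw [h5, h4]; group
  have hNC : ∀ n (hn : n ∈ N) (c : (P : Subgroup L)), c ∈ C → (⟨n⁻¹ * c * n, norm_conj' P hn c.2⟩ : (P : Subgroup L)) ∈ C := by
    intro n hn c hc
    rw [h.hC, Subgroup.mem_centralizer_iff]
    intro e he
    have h1 := hNE n⁻¹ (inv_mem hn) e he
    have h2 := (h.commC hc h1).eq
    have h3 : (c : L) * (n⁻¹⁻¹ * e * n⁻¹) = (n⁻¹⁻¹ * e * n⁻¹) * c := congrArg Subtype.val h2
    apply Subtype.ext
    show (e : L) * (n⁻¹ * c * n) = n⁻¹ * c * n * e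
    rw [inv_inv] at h3
    calc (e : L) * (n⁻¹ * c * n) = n⁻¹ * ((n * e * n⁻¹) * c) * n := by group
      _ = n⁻¹ * (c * (n * e * n⁻¹)) * n := by rw [h3]
      _ = n⁻¹ * c * n * e := by group
  -- the power map
  have hRn := h.Om_normal (m - 1)
  have hcardR := h.card_Om hC hn hidx (m - 1) (by omega)
  have hcardC : Nat.card C = p ^ (2 * m - 1) := by
    have h1 := Subgroup.card_mul_index C
    rw [h.index_C hC, hn] at h1
    have h2 : p ^ (2 * m) = p ^ (2 * m - 1) * p := by rw [← pow_succ]; congr 1; omega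
    rw [h2] at h1
    exact Nat.eq_of_mul_eq_mul_right hp.out.pos h1
  have hrel : (h.Om (m - 1)).relIndex C = p := by
    have h1 := H3.PBasic.card_mul_relIndex (h.Om_le (m - 1))
    rw [hcardR, hcardC] at h1
    have h2 : p ^ (2 * m - 1) = p ^ (2 * (m - 1)) * p := by rw [← pow_succ]; congr 1; omega
    rw [h2] at h1
    exact Nat.eq_of_mul_eq_mul_left (pow_pos hp.out.pos _) h1
  have hcp : ∀ c ∈ C, c ^ p ∈ h.Om (m - 1) := by
    intro c hc
    have hRn' : ((h.Om (m - 1)).subgroupOf C).Normal := inferInstance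
    have h1 := Subgroup.pow_index_mem ((h.Om (m - 1)).subgroupOf C) ⟨c, hc⟩
    have h2 : ((h.Om (m - 1)).subgroupOf C).index = p := hrel
    rw [h2] at h1
    exact h1
  have hcq : ∀ c ∈ C, c ^ q ∈ E ∧ c ^ q ∈ Subgroup.center (P : Subgroup L) := by
    intro c hc
    constructor
    · apply h.om _ (pow_mem hc _)
      rw [← pow_mul, mul_comm, pow_mul]
      exact (hcp c hc).2
    · rw [Subgroup.mem_center_iff]
      intro g
      have h1 : c⁻¹ * (g⁻¹ * c * g) ∈ h.Om (m - 1) := by
        rw [← hR, commutator_def]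
        have := Subgroup.commutator_mem_commutator (Subgroup.mem_top c⁻¹) (Subgroup.mem_top g⁻¹)
        rw [commutatorElement_def, inv_inv, inv_inv] at this
        simpa [mul_assoc] using this
      have h2 := (h.pcC (m - 1) hc (h.conj_memC hc g)).2 h1.2
      rw [Cfg.pow_conj] at h2
      calc g * c ^ q = g * (g⁻¹ * c ^ p ^ (m - 1) * g) := by rw [← h2]
        _ = c ^ q * g := by rw [hq]; group
  have hcon : C.map (P : Subgroup L).subtype ≤ (h.Om (m - 1)).map (P : Subgroup L).subtype := by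
    refine lemA P N _ _ Subgroup.le_normalizer ?_ ?_ ?_ ?_ hPN
    · intro n hn d hd
      rw [hRmap] at hd ⊢
      exact norm_comm P hn hd
    · rintro _ ⟨c, -, rfl⟩
      exact c.2
    · intro a ha b hb
      rw [hRmap]
      have := Subgroup.commutator_mem_commutator (inv_mem ha) (inv_mem hb)
      rw [commutatorElement_def, inv_inv, inv_inv] at this
      exact this
    · rintro _ ⟨c, hc, rfl⟩ n hn
      refine ⟨c⁻¹ * ⟨n⁻¹ * c * n, norm_conj' P hn c.2⟩, ?_, ?_⟩
      · refine ⟨mul_mem (inv_mem hc) (hNC n hn c hc), ?_⟩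
        rw [← h.pcC (m - 1) hc (hNC n hn c hc)]
        obtain ⟨h1, h2⟩ := hcq c hc
        obtain ⟨i, hi⟩ := h.exists_pow hC hx'E hx'c hx'1 h1 h2
        rw [← hq]
        apply Subtype.ext
        show (c : L) ^ q = (n⁻¹ * c * n) ^ q
        have h3 : (c : L) ^ q = x ^ i := congrArg Subtype.val hi
        have h4 : (n⁻¹ * (c : L) * n) ^ q = n⁻¹ * (c : L) ^ q * n := by
          have : n⁻¹ * (c : L) * n = MulAut.conj n⁻¹ (c : L) := by simp
          rw [this, ← map_pow]; simp
        have h5 : n⁻¹ * x ^ i * n = (n⁻¹ * x * n) ^ i := by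
          have : n⁻¹ * x * n = MulAut.conj n⁻¹ x := by simp
          rw [this, ← map_pow]; simp
        rw [h4, h3, h5, hNx n hn]
      · show (c : L)⁻¹ * (n⁻¹ * c * n) = (c : L)⁻¹ * n⁻¹ * c * n
        group
  have h1 : C ≤ h.Om (m - 1) := (Subgroup.map_le_map_iff_of_injective (Subgroup.subtype_injective _)).1 hcon
  have h2 := Subgroup.card_le_of_le h1
  rw [hcardR, hcardC] at h2
  have := (Nat.pow_le_pow_iff_right hp.out.one_lt).1 h2
  omega

/-- The metacyclic case. -/
theorem meta_contra (hp2 : p ≠ 2) (hxP : x ∈ P) (hxo : orderOf x = p)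
    (hiso : ∀ g : L, g * x * g⁻¹ ∈ P → g * x * g⁻¹ = x) (hfoc : (P : Subgroup L) ≤ commutator L)
    (hm : IsMetacyclic (P : Subgroup L)) : False := by
  have hPp : IsPGroup p (P : Subgroup L) := P.isPGroup'
  have hPN := yosh hp2 P hfoc (fun W₀ hW₀ => by
    have hWn := H3.PBasic.normal_of_coatom hPp hW₀
    apply frat_index hPp (H3.PBasic.index_of_coatom hPp hW₀).le
    have h1 : IsMetacyclic W₀ := H76.TwoGen.metacyclic_of_injective W₀.subtype W₀.subtype_injective hm
    obtain ⟨a, b, hab⟩ := H76.TwoGen.metacyclic_closure h1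
    have h2 := H76.TwoGen.index_frattini_dvd (hPp.to_subgroup W₀) hab
    have h3 : Nat.card ((frattini ↥W₀).map W₀.subtype) = Nat.card (frattini ↥W₀) :=
      Nat.card_congr (Subgroup.equivMapOfInjective _ _ (Subgroup.subtype_injective W₀)).toEquiv.symm
    rw [h3, ← Subgroup.card_mul_index (frattini ↥W₀), mul_comm]
    exact Nat.mul_le_mul_right _ (Nat.le_of_dvd (pow_pos hp.out.pos 2) h2))
  set N := Subgroup.normalizer ((P : Subgroup L) : Set L) with hN
  have hPleN : (P : Subgroup L) ≤ N := Subgroup.le_normalizer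
  -- `P = [P, N]`
  have hPN2 : (P : Subgroup L) ≤ ⁅(P : Subgroup L), N⁆ := by
    refine lemA P N _ _ hPleN ?_ le_rfl ?_ ?_ hPN
    · intro n hn d hd
      have h1 : N ≤ Subgroup.normalizer ((⁅(P : Subgroup L), N⁆ : Subgroup L) : Set L) :=
        Subgroup.normalizer_commutator_ge_right _ _
      exact (Subgroup.mem_normalizer_iff.1 (h1 hn) d).1 hd
    · intro a ha b hb
      have := Subgroup.commutator_mem_commutator (inv_mem ha) (inv_mem (hPleN hb))
      rw [commutatorElement_def, inv_inv, inv_inv] at this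
      exact this
    · intro a ha b hb
      have := Subgroup.commutator_mem_commutator (inv_mem ha) (inv_mem hb)
      rw [commutatorElement_def, inv_inv, inv_inv] at this
      exact this
  -- a complement
  have hcop : Nat.Coprime (Nat.card ((P : Subgroup L).subgroupOf N)) ((P : Subgroup L).subgroupOf N).index := by
    have h1 : ((P.subtype hPleN : Sylow p N) : Subgroup N) = (P : Subgroup L).subgroupOf N := rfl
    rw [← h1]
    exact (P.subtype hPleN).card_coprime_index
  have hPn : ((P : Subgroup L).subgroupOf N).Normal := Subgroup.normal_in_normalizer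
  obtain ⟨A', hA'⟩ := Subgroup.exists_right_complement'_of_coprime hcop
  set A := A'.map N.subtype with hA
  have hAN : A ≤ N := by
    rintro _ ⟨a, -, rfl⟩
    exact a.2
  have hNdec : N = (P : Subgroup L) ⊔ A := by
    apply le_antisymm
    · intro n hn
      have h1 : (⟨n, hn⟩ : N) ∈ ((P : Subgroup L).subgroupOf N) ⊔ A' := by rw [hA'.sup_eq_top]; trivial
      have h2 : n ∈ (((P : Subgroup L).subgroupOf N) ⊔ A').map N.subtype := ⟨⟨n, hn⟩, h1, rfl⟩
      rw [Subgroup.map_sup, Subgroup.subgroupOf_map_subtype, inf_eq_left.2 hPleN] at h2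
      exact h2
    · exact sup_le hPleN hAN
  have hcopA : (Nat.card A).Coprime p := by
    have h1 : Nat.card A = Nat.card A' :=
      Nat.card_congr (Subgroup.equivMapOfInjective A' N.subtype (Subgroup.subtype_injective N)).toEquiv.symm
    rw [h1, ← hA'.symm.index_eq_card]
    have h2 : ((P.subtype hPleN : Sylow p N) : Subgroup N) = (P : Subgroup L).subgroupOf N := rfl
    rw [← h2]
    exact (Nat.Prime.coprime_iff_not_dvd hp.out).2 (P.subtype hPleN).not_dvd_index |>.symm
  obtain ⟨-, -, h3, -⟩ := Cfsg.Agent.S1447.result p hp2 (P : Subgroup L) A hPp hm (by rw [← hN]; exact hAN) hcopA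
  -- `P ≤ [P, A]`
  set K := ⁅(P : Subgroup L), A⁆ with hK
  have hKP : K ≤ P := by
    rw [hK, Subgroup.commutator_le]
    intro a ha b hb
    have h1 := norm_conj P (hAN hb) (inv_mem ha)
    have h2 : ⁅a, b⁆ = a * (b * a⁻¹ * b⁻¹) := by rw [commutatorElement_def]; group
    rw [h2]; exact mul_mem ha h1
  have hKn1 : (P : Subgroup L) ≤ Subgroup.normalizer (K : Set L) := Subgroup.normalizer_commutator_ge_left _ _
  have hKn2 : A ≤ Subgroup.normalizer (K : Set L) := Subgroup.normalizer_commutator_ge_right _ _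
  have hPK : (P : Subgroup L) ≤ ⁅(P : Subgroup L), (P : Subgroup L)⁆ ⊔ K := by
    refine hPN2.trans ?_
    rw [Subgroup.commutator_le]
    intro a ha n hn
    rw [hNdec] at hn
    obtain ⟨b, hb, c, hc, rfl⟩ := H39.SFMin.mem_sup_of_norm (P := A) (E := (P : Subgroup L)) hAN (by rwa [sup_comm] at hn)
    have h4 : ⁅a, b * c⁆ = ⁅a, b⁆ * (b * ⁅a, c⁆ * b⁻¹) := by
      rw [commutatorElement_def, commutatorElement_def, commutatorElement_def]; group
    rw [h4]
    refine mul_mem (Subgroup.mem_sup_right (Subgroup.commutator_mem_commutator ha hb)) (Subgroup.mem_sup_left ?_)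
    exact norm_comm P (hAN hb) (Subgroup.commutator_mem_commutator ha hc)
  have hPK2 : (P : Subgroup L) ≤ K := by
    have h4 : (K.subgroupOf (P : Subgroup L)) ⊔ frattini (P : Subgroup L) = ⊤ := by
      rw [eq_top_iff]
      intro y _
      have h5 : (y : L) ∈ ⁅(P : Subgroup L), (P : Subgroup L)⁆ ⊔ K := hPK y.2
      rw [← map_comm] at h5
      have h6 : K = (K.subgroupOf (P : Subgroup L)).map (P : Subgroup L).subtype := by
        rw [Subgroup.subgroupOf_map_subtype, inf_eq_left.2 hKP]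
      rw [h6, ← Subgroup.map_sup] at h5
      obtain ⟨z, hz, hz'⟩ := h5
      have h7 : z = y := Subtype.ext hz'
      rw [← h7]
      have h8 : commutator (P : Subgroup L) ⊔ K.subgroupOf (P : Subgroup L) ≤
          K.subgroupOf (P : Subgroup L) ⊔ frattini (P : Subgroup L) :=
        sup_le ((H3.PBasic.commutator_le_frattini hPp).trans le_sup_right) le_sup_left
      exact h8 hz
    have h5 := frattini_nongenerating h4
    rw [Subgroup.subgroupOf_eq_top] at h5
    exact h5
  -- conclusion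
  have hxA : x ∈ (P : Subgroup L) ⊓ Subgroup.centralizer (A : Set L) := by
    refine ⟨hxP, ?_⟩
    show x ∈ Subgroup.centralizer (A : Set L)
    rw [Subgroup.mem_centralizer_iff]
    intro a ha
    have h4 := hiso a (norm_conj P (hAN ha) hxP)
    nth_rw 2 [← h4]
    group
  have h4 : x ∈ K ⊓ ((P : Subgroup L) ⊓ Subgroup.centralizer (A : Set L)) := ⟨hPK2 hxP, hxA⟩
  rw [h3, Subgroup.mem_bot] at h4
  rw [h4, orderOf_one] at hxo
  exact hp.out.one_lt.ne hxo

/-- The main theorem. -/
theorem main (hp2 : p ≠ 2) (hxP : x ∈ P) (hxo : orderOf x = p)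
    (hiso : ∀ g : L, g * x * g⁻¹ ∈ P → g * x * g⁻¹ = x) (hfoc : (P : Subgroup L) ≤ commutator L)
    (hrk : PRankLE p 2 (P : Subgroup L)) :
    (IsExtraspecial p (P : Subgroup L) ∧ Nat.card (P : Subgroup L) = p ^ 3 ∧ ∀ y : (P : Subgroup L), y ^ p = 1) ∨
      (p = 3 ∧ ∃ k : ℕ, 2 ≤ k ∧ Nat.card (P : Subgroup L) = 3 ^ (2 * k + 1) ∧
        Group.nilpotencyClass (P : Subgroup L) = 2 * k) := by
  have hPp : IsPGroup p (P : Subgroup L) := P.isPGroup'
  obtain ⟨n, hn⟩ := IsPGroup.iff_card.1 hPp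
  by_cases hm : IsMetacyclic (P : Subgroup L)
  · exact (meta_contra P hp2 hxP hxo hiso hfoc hm).elim
  have hnc : ¬ IsCyclic (P : Subgroup L) := by
    intro hnc
    apply hm
    refine ⟨⊤, inferInstance, ?_, ?_⟩
    · exact Subgroup.topEquiv.isCyclic.2 hnc
    · have : Subsingleton ((P : Subgroup L) ⧸ (⊤ : Subgroup (P : Subgroup L))) := QuotientGroup.subsingleton_quotient_top
      infer_instance
  obtain ⟨E, C, h⟩ := exists_cfg hp2 hPp hrk hnc
  have hC : C ≠ ⊤ := (h.exists_pow_eq hm 1).1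
  have hn3 : 3 ≤ n := by
    have h1 : Nat.card E < Nat.card (P : Subgroup L) := by
      have h2 : Nat.card E ≤ Nat.card C := Subgroup.card_le_of_le h.E_le_C
      have h3 : Nat.card C < Nat.card (P : Subgroup L) := by
        rw [← Subgroup.card_top (G := (P : Subgroup L))]
        exact Set.ncard_lt_ncard (s := (C : Set (P : Subgroup L))) (t := ((⊤ : Subgroup (P : Subgroup L)) : Set _))
          (lt_top_iff_ne_top.2 hC) (Set.toFinite _)
      omega
    rw [h.cardE, hn] at h1
    exact (Nat.pow_lt_pow_iff_right hp.out.one_lt).1 h1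
  rcases hn3.eq_or_lt with hn3' | hn4
  · -- order `p ^ 3`
    left
    subst hn3'
    have hexp : ∀ y : (P : Subgroup L), y ^ p = 1 := by
      intro y
      by_contra hy
      apply hm
      have h1 : p ^ 2 ∣ orderOf y := by
        obtain ⟨k, hk⟩ := IsPGroup.iff_orderOf.1 hPp y
        have h2 : 2 ≤ k := by
          by_contra h3
          apply hy
          have h4 : k ≤ 1 := by omega
          apply orderOf_dvd_iff_pow_eq_one.1
          rw [hk]
          nth_rw 2 [← pow_one p]
          exact pow_dvd_pow p h4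
        rw [hk]; exact pow_dvd_pow p h2
      have h2 : (Subgroup.zpowers y).index ∣ p := by
        have h3 := Subgroup.card_mul_index (Subgroup.zpowers y)
        rw [Nat.card_zpowers, hn] at h3
        obtain ⟨k, hk⟩ := h1
        rw [hk] at h3
        have h4 : k * (Subgroup.zpowers y).index = p := by
          have h5 : p ^ 2 * (k * (Subgroup.zpowers y).index) = p ^ 2 * p := by rw [← mul_assoc, h3]; ring
          exact Nat.eq_of_mul_eq_mul_left (pow_pos hp.out.pos 2) h5
        exact ⟨k, by rw [mul_comm]; exact h4.symm⟩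
      rcases (Nat.dvd_prime hp.out).1 h2 with h3 | h3
      · rw [Subgroup.index_eq_one] at h3
        refine ⟨⊤, inferInstance, ?_, ?_⟩
        · rw [← h3]; infer_instance
        · have : Subsingleton ((P : Subgroup L) ⧸ (⊤ : Subgroup (P : Subgroup L))) :=
            QuotientGroup.subsingleton_quotient_top
          infer_instance
      · have h4 := H3.PBasic.normal_of_index hPp h3
        exact ⟨Subgroup.zpowers y, h4, inferInstance, isCyclic_of_prime_card (p := p) (by
          rw [← Subgroup.index_eq_card, h3])⟩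
    have hne : ¬ IsMulCommutative (P : Subgroup L) := by
      intro hab
      apply hC
      rw [h.hC, eq_top_iff]
      intro g _
      rw [Subgroup.mem_centralizer_iff]
      intro e _
      exact mul_comm' e g
    exact ⟨H29.BlackburnII.extraspecial_of_card hexp hn hne, hn, hexp⟩
  -- `n ≥ 4`
  have key : ∀ x₀ : (P : Subgroup L), x₀ ∉ C → x₀ ^ p = 1 →
      (p = 3 → ∃ z ∈ C, Commute x₀ z ∧ z ^ p ≠ 1 ∧ z ^ p ∈ E ∧ z ^ p ∈ Subgroup.center (P : Subgroup L)) → False := by
    intro x₀ hx₀ hx₀p hz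
    obtain ⟨h1, h2, y, hy⟩ := h.powhom hx₀ hx₀p hz hn hn4
    set x' : (P : Subgroup L) := ⟨x, hxP⟩ with hx'
    have hx'c : x' ∈ Subgroup.center (P : Subgroup L) := by
      rw [Subgroup.mem_center_iff]
      intro g
      have h1 := hiso g (mul_mem (mul_mem g.2 hxP) (inv_mem g.2))
      apply Subtype.ext
      show (g : L) * x = x * g
      nth_rw 2 [← h1]
      group
    have hx'p : x' ^ p = 1 := Subtype.ext (by show x ^ p = 1; rw [← hxo, pow_orderOf_eq_one])
    have hx'1 : x' ≠ 1 := by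
      intro h1
      have h2 : x = 1 := congrArg Subtype.val h1
      rw [h2, orderOf_one] at hxo
      exact hp.out.one_lt.ne hxo
    have hx'C : x' ∈ C := by
      rw [h.hC, Subgroup.mem_centralizer_iff]
      exact fun e _ => Subgroup.mem_center_iff.1 hx'c e
    have hx'E : x' ∈ E := h.om _ hx'C hx'p
    refine contra_hom P hxo hiso hfoc (p ^ (n - 3)) ?_ ?_ ⟨y, y.2, fun h3 => hy (Subtype.ext h3)⟩
    · intro w hw
      obtain ⟨h3, h4⟩ := h1 ⟨w, hw⟩
      obtain ⟨i, hi⟩ := h.exists_pow hC hx'E hx'c hx'1 h3 h4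
      refine ⟨i, ?_⟩
      have := congrArg Subtype.val hi
      show x ^ (i : ℤ) = w ^ p ^ (n - 3)
      rw [zpow_natCast]
      exact this.symm
    · intro a ha b hb
      exact congrArg Subtype.val (h2 ⟨a, ha⟩ ⟨b, hb⟩)
  -- maximal class
  have hmax : p = 3 ∧ MaxCl (P : Subgroup L) n := by
    rcases h.exists_order_p hm hn with ⟨x₀, hx₀, hx₀p⟩ | h3
    · by_cases hp3 : p = 3
      · rcases h.maxcl_or hx₀ hx₀p hn with h4 | h4
        · exact ⟨hp3, h4⟩
        · exact (key x₀ hx₀ hx₀p (fun _ => h4)).elim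
      · exact (key x₀ hx₀ hx₀p (fun h5 => absurd h5 hp3)).elim
    · exact h3
  obtain ⟨hp3, hmax⟩ := hmax
  obtain ⟨hidx, hcl⟩ := index_of_maxcl hn hmax
  right
  refine ⟨hp3, ?_⟩
  rcases Nat.even_or_odd' n with ⟨m, hm' | hm'⟩
  · exact (even_contra P hxP hxo hiso hfoc h hC (m := m) (by omega) (by rw [hn, hm']) hidx.le).elim
  · refine ⟨m, by omega, ?_, ?_⟩
    · rw [hn, hm', hp3]
    · rw [hcl, hm']; rfl

end main

end H56.Rk2
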