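import Mathlib
import Cfsg.Agent.Lib.H55.Isolated
import Cfsg.Agent.Lib.H12.IsoRank
import Cfsg.Agent.Lib.H56.Rk2i

set_option autoImplicit false

/-! Isolated elements of order `p` in groups of `p`-rank at most two. -/

namespace H56.Rk2

open Cfsg
open scoped commutatorElement

universe u

section

variable {G : Type u} [Group G] [Finite G] {p : ℕ} [hp : Fact p.Prime]

/-- Adding a commuting element of order `p`. -/
theorem card_le_of_rank (hrk : PRankLE p 2 G) {A : Subgroup G} (hA : ∀ a ∈ A, ∀ b ∈ A, a * b = b * a)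
    (hAp : ∀ a ∈ A, a ^ p = 1) {y : G} (hy : y ^ p = 1) (hyA : ∀ a ∈ A, a * y = y * a) (hyn : y ∉ A) :
    Nat.card A ≤ p := by
  set B := Subgroup.closure ((A : Set G) ∪ {y}) with hB
  have hcomm : ∀ a ∈ (A : Set G) ∪ {y}, ∀ b ∈ (A : Set G) ∪ {y}, a * b = b * a := by
    rintro a (ha | rfl) b (hb | rfl)
    · exact hA a ha b hb
    · exact hyA a ha
    · exact (hyA b hb).symm
    · rfl
  have hBc : IsMulCommutative B := Subgroup.isMulCommutative_closure hcomm
  have hBc' : ∀ a ∈ B, ∀ b ∈ B, a * b = b * a := fun a ha b hb => setLike_mul_comm (s := B) ha hb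
  have hBp : ∀ a ∈ B, a ^ p = 1 := by
    intro a ha
    induction ha using Subgroup.closure_induction with
    | mem a ha =>
      rcases ha with ha | rfl
      · exact hAp a ha
      · exact hy
    | one => exact one_pow _
    | mul a b ha hb h1 h2 =>
      rw [(show Commute a b from hBc' a ha b hb).mul_pow, h1, h2, mul_one]
    | inv a ha h1 => rw [inv_pow, h1, inv_one]
  have h1 := hrk B hBc hBp
  have hAB : A < B := by
    refine lt_of_le_of_ne (fun a ha => Subgroup.subset_closure (Or.inl ha)) fun h => hyn ?_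
    rw [h]; exact Subgroup.subset_closure (Or.inr rfl)
  have h2 : Nat.card A < Nat.card B :=
    Set.ncard_lt_ncard (s := (A : Set G)) (t := (B : Set G)) hAB (Set.toFinite _)
  have hAP : IsPGroup p A := fun a => ⟨1, by rw [pow_one]; exact Subtype.ext (hAp a a.2)⟩
  obtain ⟨i, hi⟩ := IsPGroup.iff_card.1 hAP
  rw [hi] at h2 ⊢
  have h3 : i < 2 := (Nat.pow_lt_pow_iff_right hp.out.one_lt).1 (h2.trans_le h1)
  calc p ^ i ≤ p ^ 1 := Nat.pow_le_pow_right hp.out.pos (by omega)
    _ = p := pow_one p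

omit [Finite G] hp in
theorem isIsolated_conj {x : G} (hiso : IsIsolated x) (g : G) : IsIsolated (g * x * g⁻¹) := by
  intro k hk
  have h1 : (g⁻¹ * k * g) * x * (g⁻¹ * k * g)⁻¹ = x := by
    apply hiso
    have h2 : x = g⁻¹ * (g * x * g⁻¹) * g := by group
    have h3 : (g⁻¹ * k * g) * x * (g⁻¹ * k * g)⁻¹ = g⁻¹ * (k * (g * x * g⁻¹) * k⁻¹) * g := by group
    rw [h3]
    show x * (g⁻¹ * (k * (g * x * g⁻¹) * k⁻¹) * g) = g⁻¹ * (k * (g * x * g⁻¹) * k⁻¹) * g * x
    calc x * (g⁻¹ * (k * (g * x * g⁻¹) * k⁻¹) * g) = g⁻¹ * ((g * x * g⁻¹) * (k * (g * x * g⁻¹) * k⁻¹)) * g := by group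
      _ = g⁻¹ * ((k * (g * x * g⁻¹) * k⁻¹) * (g * x * g⁻¹)) * g := by rw [hk.eq]
      _ = _ := by group
  calc k * (g * x * g⁻¹) * k⁻¹ = g * ((g⁻¹ * k * g) * x * (g⁻¹ * k * g)⁻¹) * g⁻¹ := by group
    _ = g * x * g⁻¹ := by rw [h1]

theorem isolated_main (hp2 : p ≠ 2)
    (hrank : PRankLE p 2 G) (x : G) (hx : orderOf x = p) (hiso : IsIsolated x)
    (F : Subgroup G) (hsimple : IsSimpleGroup F) (hnab : ¬ IsMulCommutative F)
    (P : Sylow p F) :
      ((∀ g : G, g * x * g⁻¹ ∉ ((P : Subgroup F).map F.subtype)) ∧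
          IsCyclic (P : Subgroup F)) ∨
      ((∃ g : G, g * x * g⁻¹ ∈ ((P : Subgroup F).map F.subtype)) ∧
        ((IsExtraspecial p (P : Subgroup F) ∧
            Nat.card (P : Subgroup F) = p ^ 3 ∧
            ∀ y ∈ (P : Subgroup F), y ^ p = 1) ∨
         (p = 3 ∧ ∃ k : ℕ, 2 ≤ k ∧ Nat.card (P : Subgroup F) = 3 ^ (2 * k + 1) ∧
            ∃ _ : Group.IsNilpotent (P : Subgroup F),
              Group.nilpotencyClass (P : Subgroup F) = 2 * k))) := by
  set Pm := (P : Subgroup F).map F.subtype with hPm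
  have hPp : IsPGroup p (P : Subgroup F) := P.isPGroup'
  have hPmp : IsPGroup p Pm := hPp.map F.subtype
  obtain ⟨Q, hQ⟩ := hPmp.exists_le_sylow
  by_cases hcase : ∃ g : G, g * x * g⁻¹ ∈ Pm
  · right
    refine ⟨hcase, ?_⟩
    obtain ⟨g, hg⟩ := hcase
    have hiso' := isIsolated_conj hiso g
    have hyo : orderOf (g * x * g⁻¹) = p := by
      rw [← hx]
      have : g * x * g⁻¹ = MulAut.conj g x := by simp
      rw [this]
      exact orderOf_injective (MulAut.conj g).toMonoidHom (MulAut.conj g).injective x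
    set y := g * x * g⁻¹ with hy
    obtain ⟨y', hy'P, hy'⟩ := hg
    have hy'y : (y' : G) = y := hy'
    have hQy := H55.Isolated.le_centralizer y hiso' Q Q.2 (hQ ⟨y', hy'P, hy'⟩)
    have hres := main (L := F) P (x := y') hp2 hy'P (by
      rw [← Subgroup.orderOf_coe, hy'y]; exact hyo) (by
      intro f hf
      apply Subtype.ext
      show (f : G) * y' * (f : G)⁻¹ = y'
      rw [hy'y]
      apply hiso'
      have h1 : (f : G) * y * (f : G)⁻¹ ∈ Q := by
        apply hQ
        exact ⟨_, hf, by show (f : G) * y' * (f : G)⁻¹ = _; rw [hy'y]⟩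
      exact (Subgroup.mem_centralizer_singleton_iff.1 (hQy h1)).symm) (by
      have h1 : commutator F = ⊤ := by
        rcases IsSimpleGroup.eq_bot_or_eq_top_of_normal (commutator F) inferInstance with h2 | h2
        · exfalso
          apply hnab
          refine ⟨⟨fun a b => ?_⟩⟩
          have h3 : ⁅a, b⁆ ∈ commutator F :=
            Subgroup.commutator_mem_commutator (Subgroup.mem_top a) (Subgroup.mem_top b)
          rw [h2, Subgroup.mem_bot, commutatorElement_eq_one_iff_mul_comm] at h3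
          exact h3
        · exact h2
      rw [h1]; exact le_top) (by
      intro A hA hAp
      have h1 := hrank ((A.map (P : Subgroup F).subtype).map F.subtype) (by
        refine ⟨⟨?_⟩⟩
        rintro ⟨_, _, ⟨a, ha, rfl⟩, rfl⟩ ⟨_, _, ⟨b, hb, rfl⟩, rfl⟩
        apply Subtype.ext
        have h2 : a * b = b * a := setLike_mul_comm (s := A) ha hb
        exact congrArg (fun z : (P : Subgroup F) => ((z : F) : G)) h2) (by
        rintro _ ⟨_, ⟨a, ha, rfl⟩, rfl⟩
        exact congrArg (fun z : (P : Subgroup F) => ((z : F) : G)) (hAp a ha))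
      have h2 : Nat.card ((A.map (P : Subgroup F).subtype).map F.subtype) = Nat.card A := by
        rw [Subgroup.map_map]
        exact Nat.card_congr (Subgroup.equivMapOfInjective A _
          (F.subtype_injective.comp (P : Subgroup F).subtype_injective)).toEquiv.symm
      rwa [h2] at h1)
    rcases hres with ⟨h1, h2, h3⟩ | ⟨h1, k, h2, h3, h4⟩
    · left
      exact ⟨h1, h2, fun z hz => congrArg Subtype.val (h3 ⟨z, hz⟩)⟩
    · right
      exact ⟨h1, k, h2, h3, hPp.isNilpotent, h4⟩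
  · left
    push Not at hcase
    refine ⟨hcase, ?_⟩
    apply H1.OddRank.isCyclic_of_pRankLE_one hp2 hPp
    -- a conjugate of `x` in `Q`
    have hxp : x ^ p = 1 := by rw [← hx]; exact pow_orderOf_eq_one x
    have hxg : IsPGroup p (Subgroup.zpowers x) := by
      rw [IsPGroup.iff_card]
      exact ⟨1, by rw [Nat.card_zpowers, hx, pow_one]⟩
    obtain ⟨Q₀, hQ₀⟩ := hxg.exists_le_sylow
    obtain ⟨g, hg⟩ := MulAction.exists_smul_eq G Q₀ Q
    have hyQ : g * x * g⁻¹ ∈ (Q : Subgroup G) := by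
      rw [← hg]
      exact ⟨x, hQ₀ (Subgroup.mem_zpowers x), rfl⟩
    have hQy := H55.Isolated.le_centralizer _ (isIsolated_conj hiso g) Q Q.2 hyQ
    intro A hA hAp
    have h1 := card_le_of_rank hrank (A := (A.map (P : Subgroup F).subtype).map F.subtype) (by
      rintro _ ⟨_, ⟨a, ha, rfl⟩, rfl⟩ _ ⟨_, ⟨b, hb, rfl⟩, rfl⟩
      have h2 : a * b = b * a := setLike_mul_comm (s := A) ha hb
      exact congrArg (fun z : (P : Subgroup F) => ((z : F) : G)) h2) (by
      rintro _ ⟨_, ⟨a, ha, rfl⟩, rfl⟩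
      exact congrArg (fun z : (P : Subgroup F) => ((z : F) : G)) (hAp a ha)) (y := g * x * g⁻¹) (by
      rw [conj_pow, hxp]; group) (by
      rintro _ ⟨_, ⟨a, ha, rfl⟩, rfl⟩
      have h2 : ((a : F) : G) ∈ Q := hQ ⟨(a : F), a.2, rfl⟩
      exact Subgroup.mem_centralizer_singleton_iff.1 (hQy h2)) (by
      rintro ⟨_, ⟨a, ha, rfl⟩, h3⟩
      apply hcase g
      rw [← h3]
      exact ⟨(a : F), a.2, rfl⟩)
    have h2 : Nat.card ((A.map (P : Subgroup F).subtype).map F.subtype) = Nat.card A := by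
      rw [Subgroup.map_map]
      exact Nat.card_congr (Subgroup.equivMapOfInjective A _
        (F.subtype_injective.comp (P : Subgroup F).subtype_injective)).toEquiv.symm
    rw [h2] at h1
    rwa [pow_one]

end

end H56.Rk2
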