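import Mathlib
import Cfsg.Agent.Lib.H28.Cj
import Cfsg.Agent.Lib.H28.RelSyl
import Cfsg.Agent.Lib.H5.Dihedral

set_option autoImplicit false

/-! Strongly closed central elementary abelian 2-subgroups: if a proper subgroup `M` contains the normalizer of `A`
and the centralizers of its nontrivial elements then the nontrivial elements of `A` are all conjugate. -/

namespace H56.SF

open Subgroup H28.Cj H28.RelSyl

universe u

/-- The configuration. -/
structure SC {G : Type u} [Group G] (S A M : Subgroup G) : Prop where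
  syl : IsSyl 2 S ⊤
  le : A ≤ S
  cen : ∀ a ∈ A, ∀ s ∈ S, s * a = a * s
  el : ∀ a ∈ A, a * a = 1
  scl : ∀ a ∈ A, ∀ g : G, g * a * g⁻¹ ∈ S → g * a * g⁻¹ ∈ A
  nM : ∀ g : G, (∀ a ∈ A, g * a * g⁻¹ ∈ A) → g ∈ M
  cM : ∀ a ∈ A, a ≠ 1 → ∀ g : G, g * a = a * g → g ∈ M

namespace SC

variable {G : Type u} [Group G] [Finite G] {S A M : Subgroup G} (h : SC S A M)
include h

/-- If `A` lies in a conjugate of `S` then the conjugating element normalizes `A`. -/
theorem norm_of_le {x : G} (hx : A ≤ cj x S) : (∀ a ∈ A, x⁻¹ * a * x ∈ A) ∧ (∀ a ∈ A, x * a * x⁻¹ ∈ A) := by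
  have h1 : ∀ a ∈ A, x⁻¹ * a * x ∈ A := by
    intro a ha
    have h2 := mem_cj.1 (hx ha)
    have h3 := h.scl a ha x⁻¹
    rw [inv_inv] at h3
    exact h3 h2
  refine ⟨h1, ?_⟩
  have h2 : cj x⁻¹ A ≤ A := by
    intro y hy
    rw [mem_cj, inv_inv] at hy
    have := h1 _ hy
    have e : x⁻¹ * (x * y * x⁻¹) * x = y := by group
    rwa [e] at this
  have h3 : x⁻¹ ∈ normalizer (A : Set G) := mem_normalizer_of_cj_le h2
  have h4 : x ∈ normalizer (A : Set G) := by
    have := inv_mem h3
    rwa [inv_inv] at this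
  intro a ha
  exact (mem_normalizer_iff.1 h4 a).1 ha

/-- Fusion in `A` happens in `M`. -/
theorem fus {a b y : G} (ha : a ∈ A) (hb : b ∈ A) (hb1 : b ≠ 1) (hy : y * a * y⁻¹ = b) : y ∈ M := by
  have hAp : IsPGroup 2 A := h.syl.isPGroup.to_le h.le
  have hAC : A ≤ centralizer ({b} : Set G) := by
    intro c hc
    rw [mem_centralizer_singleton_iff]
    exact h.cen b hb c (h.le hc)
  obtain ⟨T, hT, hAT⟩ := exists_isSyl_ge (p := 2) hAp hAC
  have hyA : cj y A ≤ centralizer ({b} : Set G) := by
    intro c hc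
    rw [mem_cj] at hc
    rw [mem_centralizer_singleton_iff, ← hy]
    have h1 := h.cen a ha _ (h.le hc)
    calc c * (y * a * y⁻¹) = y * ((y⁻¹ * c * y) * a) * y⁻¹ := by group
      _ = y * (a * (y⁻¹ * c * y)) * y⁻¹ := by rw [h1]
      _ = y * a * y⁻¹ * c := by group
  obtain ⟨c, hc, hcT⟩ := hT.exists_conj_le (isPGroup_cj.2 hAp) hyA
  obtain ⟨x, -, hx⟩ := h.syl.exists_conj_ge hT.isPGroup le_top
  obtain ⟨n1, n2⟩ := h.norm_of_le (hAT.trans hx)
  have h2 : c * y ∈ M := by
    apply h.nM
    intro d hd
    have h3 : (c * y) * d * (c * y)⁻¹ ∈ cj x S := by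
      apply hx
      apply hcT
      rw [cj_cj]
      exact conj_mem_cj.2 hd
    rw [mem_cj] at h3
    have e : x⁻¹ * ((c * y) * d * (c * y)⁻¹) * x = (x⁻¹ * (c * y)) * d * (x⁻¹ * (c * y))⁻¹ := by group
    rw [e] at h3
    have h4 := h.scl d hd _ h3
    have h5 := n2 _ h4
    have e2 : x * ((x⁻¹ * (c * y)) * d * (x⁻¹ * (c * y))⁻¹) * x⁻¹ = (c * y) * d * (c * y)⁻¹ := by group
    rwa [e2] at h5
  have h3 : c ∈ M := h.cM b hb hb1 c (mem_centralizer_singleton_iff.1 hc)
  have h4 : y = c⁻¹ * (c * y) := by group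
  rw [h4]
  exact mul_mem (inv_mem h3) h2

theorem S_le {a : G} (ha : a ∈ A) (ha1 : a ≠ 1) : S ≤ M := fun s hs => h.cM a ha ha1 s (h.cen a ha s hs)

/-- Conjugates inside `M`. -/
theorem mem_of_conj {a y : G} (ha : a ∈ A) (ha1 : a ≠ 1) (hy : y * a * y⁻¹ ∈ M) : y ∈ M := by
  have hSM := h.S_le ha ha1
  have hsylM : IsSyl 2 S M := h.syl.of_le_of_le hSM le_top
  have h2 : IsPGroup 2 (zpowers (y * a * y⁻¹)) := by
    have h3 : orderOf (y * a * y⁻¹) = 2 :=
      H5.Dihedral.orderOf_eq_two (by
        have := h.el a ha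
        calc (y * a * y⁻¹) * (y * a * y⁻¹) = y * (a * a) * y⁻¹ := by group
          _ = 1 := by rw [this]; group) (by
        intro h4
        apply ha1
        have : a = y⁻¹ * (y * a * y⁻¹) * y := by group
        rw [this, h4]; group)
    exact IsPGroup.of_card (n := 1) (by rw [Nat.card_zpowers, h3, pow_one])
  obtain ⟨m, hm, hmS⟩ := hsylM.exists_conj_le h2 (zpowers_le.2 hy)
  have h3 : (m * y) * a * (m * y)⁻¹ ∈ S := by
    have := hmS (conj_mem_cj.2 (mem_zpowers (y * a * y⁻¹)))
    have e : m * (y * a * y⁻¹) * m⁻¹ = (m * y) * a * (m * y)⁻¹ := by group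
    rwa [e] at this
  have h4 := h.scl a ha _ h3
  have h5 : (m * y) * a * (m * y)⁻¹ ≠ 1 := by
    intro h6
    apply ha1
    have : a = (m * y)⁻¹ * ((m * y) * a * (m * y)⁻¹) * (m * y) := by group
    rw [this, h6]; group
  have h6 := h.fus ha h4 h5 rfl
  have : y = m⁻¹ * (m * y) := by group
  rw [this]
  exact mul_mem (inv_mem hm) h6

end SC

/-- All nontrivial elements of `A` are conjugate. -/
theorem allConj (n : ℕ) : ∀ (G : Type u) [Group G] [Finite G], Nat.card G ≤ n → ∀ (S A M : Subgroup G),
    SC S A M → M ≠ ⊤ → ∀ a ∈ A, ∀ b ∈ A, a ≠ 1 → b ≠ 1 → ∃ g : G, g * a * g⁻¹ = b := by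
  induction n with
  | zero =>
    intro G _ _ hn
    exact absurd (Nat.le_zero.1 hn) (Nat.card_pos (α := G)).ne'
  | succ n ih =>
    intro G _ _ hn S A M h hM a ha b hb ha1 hb1
    by_contra hcon
    push Not at hcon
    obtain ⟨g, hg⟩ : ∃ g, g ∉ M := by
      by_contra h1
      push Not at h1
      exact hM (eq_top_iff.2 fun x _ => h1 x)
    set t₂ := g * b * g⁻¹ with ht₂
    have haa := h.el a ha
    have hbb := h.el b hb
    have ht₂2 : t₂ * t₂ = 1 := by
      rw [ht₂]
      calc (g * b * g⁻¹) * (g * b * g⁻¹) = g * (b * b) * g⁻¹ := by group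
        _ = 1 := by rw [hbb]; group
    have ht₂M : t₂ ∉ M := fun h1 => hg (h.mem_of_conj hb hb1 h1)
    have heven : Even (orderOf (a * t₂)) := by
      by_contra h1
      rw [Nat.not_even_iff_odd] at h1
      obtain ⟨d, -, hd⟩ := H5.Dihedral.conj_of_odd haa ht₂2 h1
      apply hcon (g⁻¹ * d)
      calc (g⁻¹ * d) * a * (g⁻¹ * d)⁻¹ = g⁻¹ * (d * a * d⁻¹) * g := by group
        _ = b := by rw [hd, ht₂]; group
    obtain ⟨hz2, hza, hzt⟩ := H5.Dihedral.central_pow haa ht₂2 (orderOf_pos _).ne' heven
    set z := (a * t₂) ^ (orderOf (a * t₂) / 2) with hz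
    have hzM : z ∈ M := h.cM a ha ha1 z hza
    have hSM := h.S_le ha ha1
    have hsylM : IsSyl 2 S M := h.syl.of_le_of_le hSM le_top
    have hzp : IsPGroup 2 (zpowers z) := IsPGroup.of_card (n := 1) (by rw [Nat.card_zpowers, hz2, pow_one])
    obtain ⟨m, hm, hmS⟩ := hsylM.exists_conj_le hzp (zpowers_le.2 hzM)
    set z' := m * z * m⁻¹ with hz'
    have hz'S : z' ∈ S := hmS (conj_mem_cj.2 (mem_zpowers z))
    have hz'2 : orderOf z' = 2 := by rw [hz', H5.Dihedral.orderOf_conj]; exact hz2
    have hz'1 : z' ≠ 1 := H5.Dihedral.ne_one hz'2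
    set L := centralizer ({z'} : Set G) with hL
    have hAL : A ≤ L := by
      intro c hc
      rw [hL, mem_centralizer_singleton_iff]
      exact (h.cen c hc z' hz'S).symm
    have htL : m * t₂ * m⁻¹ ∈ L := by
      rw [hL, mem_centralizer_singleton_iff, hz']
      have h1 : z * t₂ = t₂ * z := hzt
      calc (m * t₂ * m⁻¹) * (m * z * m⁻¹) = m * (t₂ * z) * m⁻¹ := by group
        _ = m * (z * t₂) * m⁻¹ := by rw [h1]
        _ = (m * z * m⁻¹) * (m * t₂ * m⁻¹) := by group
    have htM : m * t₂ * m⁻¹ ∉ M := by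
      intro h1
      apply ht₂M
      have : t₂ = m⁻¹ * (m * t₂ * m⁻¹) * m := by group
      rw [this]
      exact mul_mem (mul_mem (inv_mem hm) h1) hm
    by_cases hLt : L = ⊤
    · -- `z'` is central
      have hzc : ∀ y : G, y * z' = z' * y := by
        intro y
        have : y ∈ L := by rw [hLt]; trivial
        exact mem_centralizer_singleton_iff.1 this
      have hzA : z' ∉ A := by
        intro h1
        apply hM
        rw [eq_top_iff]
        intro y _
        exact h.cM z' h1 hz'1 y (hzc y)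
      set Z := zpowers z' with hZ
      have hZn : Z.Normal := by
        constructor
        intro c hc y
        obtain ⟨k, rfl⟩ := mem_zpowers_iff.1 hc
        have h1 : Commute y z' := hzc y
        have h2 := (h1.zpow_right k).eq
        rw [h2, mul_inv_cancel_right]
        exact hc
      have hZmem : ∀ y, y ∈ Z ↔ y = 1 ∨ y = z' := by
        intro y
        constructor
        · intro hy
          obtain ⟨k, hk⟩ := mem_zpowers_iff.1 hy
          rcases Int.even_or_odd' k with ⟨j, hj | hj⟩
          · left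
            have hzz : z' * z' = 1 := H5.Dihedral.mul_self hz'2
            rw [← hk, hj, zpow_mul, zpow_two, hzz, one_zpow]
          · right
            have hzz : z' * z' = 1 := H5.Dihedral.mul_self hz'2
            rw [← hk, hj, zpow_add, zpow_mul, zpow_two, hzz, one_zpow, one_mul, zpow_one]
        · rintro (rfl | rfl)
          · exact one_mem _
          · exact mem_zpowers _
      set π := QuotientGroup.mk' Z with hπ
      have hπs : Function.Surjective π := QuotientGroup.mk'_surjective Z
      have hπeq : ∀ x y : G, π x = π y → x = y ∨ x = y * z' := by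
        intro x y hxy
        have h1 := QuotientGroup.eq.1 hxy
        rcases (hZmem _).1 h1 with h2 | h2
        · left; exact (inv_mul_eq_one.1 h2)
        · right
          have h3 : y = x * z' := by rw [← h2]; group
          have hzz : z' * z' = 1 := H5.Dihedral.mul_self hz'2
          rw [h3, mul_assoc, hzz, mul_one]
      have hcard : Nat.card (G ⧸ Z) ≤ n := by
        have h1 : Nat.card G = Nat.card (G ⧸ Z) * Nat.card Z := Subgroup.card_eq_card_quotient_mul_card_subgroup Z
        have h2 : Nat.card Z = 2 := by rw [hZ, Nat.card_zpowers, hz'2]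
        rw [h2] at h1
        have h3 : 0 < Nat.card (G ⧸ Z) := Nat.card_pos
        omega
      have hzS : Z ≤ S := zpowers_le.2 hz'S
      have hSmem : ∀ y, π y ∈ S.map π → y ∈ S := by
        rintro y ⟨s, hs, hsy⟩
        rcases hπeq _ _ hsy with h1 | h1
        · rw [← h1]; exact hs
        · have : y = s * z'⁻¹ := by rw [h1]; group
          rw [this]
          exact mul_mem hs (inv_mem hz'S)
      have hfin : Finite (G ⧸ Z) := inferInstance
      have hSC : SC (S.map π) (A.map π) (M.map π) := by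
        refine ⟨?_, map_mono h.le, ?_, ?_, ?_, ?_, ?_⟩
        · refine ⟨le_top, h.syl.isPGroup.map π, ?_⟩
          intro h1
          apply h.syl.not_dvd
          rw [relIndex_top_right] at h1 ⊢
          exact h1.trans (Subgroup.index_map_dvd S hπs)
        · rintro _ ⟨c, hc, rfl⟩ _ ⟨s, hs, rfl⟩
          rw [← map_mul, ← map_mul, h.cen c hc s hs]
        · rintro _ ⟨c, hc, rfl⟩
          rw [← map_mul, h.el c hc, map_one]
        · rintro _ ⟨c, hc, rfl⟩ y hy
          obtain ⟨y, rfl⟩ := hπs y
          rw [← map_inv, ← map_mul, ← map_mul] at hy ⊢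
          exact ⟨_, h.scl c hc y (hSmem _ hy), rfl⟩
        · intro y hy
          obtain ⟨y, rfl⟩ := hπs y
          refine ⟨y, h.nM y ?_, rfl⟩
          intro c hc
          have h1 := hy (π c) ⟨c, hc, rfl⟩
          rw [← map_inv, ← map_mul, ← map_mul] at h1
          exact h.scl c hc y (hSmem _ (map_mono h.le h1))
        · rintro _ ⟨c, hc, rfl⟩ hc1 y hy
          obtain ⟨y, rfl⟩ := hπs y
          refine ⟨y, ?_, rfl⟩
          have hc1' : c ≠ 1 := by
            rintro rfl
            exact hc1 (map_one π)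
          rw [← map_mul, ← map_mul] at hy
          rcases hπeq _ _ hy with h1 | h1
          · exact h.cM c hc hc1' y h1
          · exfalso
            apply hzA
            have h2 : y * c * y⁻¹ = c * z' := by
              rw [h1, mul_assoc c y z', hzc y]; group
            have h3 : y * c * y⁻¹ ∈ S := by rw [h2]; exact mul_mem (h.le hc) hz'S
            have h4 := h.scl c hc y h3
            rw [h2] at h4
            have h5 : z' = c⁻¹ * (c * z') := by group
            rw [h5]
            exact mul_mem (inv_mem hc) h4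
      have hMπ : M.map π ≠ ⊤ := by
        intro h1
        apply hM
        have h2 := Subgroup.comap_map_eq π M
        rw [h1, Subgroup.comap_top, QuotientGroup.ker_mk', sup_eq_left.2 (hzS.trans hSM)] at h2
        exact h2.symm
      have hne : ∀ c ∈ A, c ≠ 1 → π c ≠ 1 := by
        intro c hc hc1 h1
        have h2 : c ∈ Z := (QuotientGroup.eq_one_iff c).1 h1
        rcases (hZmem c).1 h2 with h3 | h3
        · exact hc1 h3
        · exact hzA (h3 ▸ hc)
      obtain ⟨y, hy⟩ := ih (G ⧸ Z) hcard (S.map π) (A.map π) (M.map π) hSC hMπ (π a) ⟨a, ha, rfl⟩ (π b) ⟨b, hb, rfl⟩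
        (hne a ha ha1) (hne b hb hb1)
      obtain ⟨y, rfl⟩ := hπs y
      rw [← map_inv, ← map_mul, ← map_mul] at hy
      rcases hπeq _ _ hy with h1 | h1
      · exact hcon y h1
      · have h3 : y * a * y⁻¹ ∈ S := by rw [h1]; exact mul_mem (h.le hb) hz'S
        have h4 := h.scl a ha y h3
        rw [h1] at h4
        apply hzA
        have h5 : z' = b⁻¹ * (b * z') := by group
        rw [h5]
        exact mul_mem (inv_mem hb) h4
    · -- the centralizer is proper
      have hcardL : Nat.card L ≤ n := by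
        have h1 : Nat.card L < Nat.card G := by
          apply lt_of_le_of_ne (Nat.le_of_dvd Nat.card_pos (Subgroup.card_subgroup_dvd_card L))
          intro h2
          exact hLt (Subgroup.eq_top_of_card_eq L h2)
        omega
      have hAp : IsPGroup 2 A := h.syl.isPGroup.to_le h.le
      obtain ⟨T, hT, hAT⟩ := exists_isSyl_ge (p := 2) hAp hAL
      obtain ⟨x, -, hx⟩ := h.syl.exists_conj_ge hT.isPGroup le_top
      obtain ⟨n1, n2⟩ := h.norm_of_le (hAT.trans hx)
      have hSC : SC (T.subgroupOf L) (A.subgroupOf L) (M.subgroupOf L) := by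
        refine ⟨?_, ?_, ?_, ?_, ?_, ?_, ?_⟩
        · refine ⟨le_top, (isPGroup_subgroupOf hT.le).2 hT.isPGroup, ?_⟩
          rw [relIndex_top_right]
          exact hT.not_dvd
        · intro c hc
          exact hAT hc
        · intro c hc s hs
          apply Subtype.ext
          have hs' : (s : G) ∈ T := hs
          have hc' : (c : G) ∈ A := hc
          have h1 := mem_cj.1 (hx hs')
          have h2 := n1 _ hc'
          have h3 := h.cen _ h2 _ h1
          show (s : G) * (c : G) = (c : G) * (s : G)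
          calc (s : G) * (c : G) = x * ((x⁻¹ * (s : G) * x) * (x⁻¹ * (c : G) * x)) * x⁻¹ := by group
            _ = x * ((x⁻¹ * (c : G) * x) * (x⁻¹ * (s : G) * x)) * x⁻¹ := by rw [h3]
            _ = (c : G) * (s : G) := by group
        · intro c hc
          exact Subtype.ext (h.el _ hc)
        · intro c hc l hl
          have h1 : (l : G) * (c : G) * (l : G)⁻¹ ∈ T := hl
          have h2 := mem_cj.1 (hx h1)
          have e : x⁻¹ * ((l : G) * (c : G) * (l : G)⁻¹) * x = (x⁻¹ * l) * (c : G) * (x⁻¹ * l)⁻¹ := by group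
          rw [e] at h2
          have hc' : (c : G) ∈ A := hc
          have h3 := h.scl _ hc' _ h2
          have h4 := n2 _ h3
          have e2 : x * ((x⁻¹ * l) * (c : G) * (x⁻¹ * l)⁻¹) * x⁻¹ = (l : G) * (c : G) * (l : G)⁻¹ := by group
          rw [e2] at h4
          exact h4
        · intro l hl
          apply h.nM
          intro c hc
          exact hl ⟨c, hAL hc⟩ hc
        · intro c hc hc1 l hl
          apply h.cM _ hc (fun h1 => hc1 (Subtype.ext h1))
          exact congrArg Subtype.val hl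
      have hML : M.subgroupOf L ≠ ⊤ := by
        intro h1
        apply htM
        have h2 : (⟨m * t₂ * m⁻¹, htL⟩ : L) ∈ M.subgroupOf L := by rw [h1]; trivial
        exact h2
      obtain ⟨y, hy⟩ := ih L hcardL _ _ _ hSC hML ⟨a, hAL ha⟩ ha ⟨b, hAL hb⟩ hb
        (fun h1 => ha1 (congrArg Subtype.val h1)) (fun h1 => hb1 (congrArg Subtype.val h1))
      exact hcon y (congrArg Subtype.val hy)

end H56.SF
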