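import Mathlib
import Cfsg.Agent.Lib.H1.Cores

set_option autoImplicit false

/-! Automorphisms of order three without fixed involutions on 3'-groups. -/

namespace H56.SF

open Subgroup Cfsg
open scoped Pointwise

universe u

/-- A map with trivial cube on a set of size prime to three has a fixed point. -/
theorem exists_fix {α : Type*} [Finite α] (f : α → α) (h3 : ∀ x, f (f (f x)) = x) (hc : ¬ 3 ∣ Nat.card α) :
    ∃ x, f x = x := by
  classical
  have := Fintype.ofFinite α
  let F : Function.End α := f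
  have hF : F ^ 3 ^ 1 = 1 := by
    funext x
    exact h3 x
  have h1 := Equiv.Perm.card_fixedPoints_modEq (p := 3) (n := 1) hF
  by_contra hcon
  push Not at hcon
  have h2 : Fintype.card (Function.fixedPoints F) = 0 := by
    rw [Fintype.card_eq_zero_iff]
    exact ⟨fun x => hcon x x.2⟩
  apply hc
  rw [Nat.card_eq_fintype_card]
  have h3 : Fintype.card α ≡ 0 [MOD 3] := by
    have e : Fintype.card (F.fixedPoints) = 0 := h2
    rw [e] at h1
    exact h1
  exact (Nat.modEq_zero_iff_dvd).1 h3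

/-- The class. -/
structure Cl {G : Type u} [Group G] (σ : MulAut G) : Prop where
  h3 : ∀ g, σ (σ (σ g)) = g
  hc : ¬ 3 ∣ Nat.card G
  hf : ∀ g, σ g = g → g * g = 1 → g = 1

namespace Cl

variable {G : Type u} [Group G] [Finite G] {σ : MulAut G} (h : Cl σ)
include h

theorem not_dvd (K : Subgroup G) : ¬ 3 ∣ Nat.card K := fun h1 => h.hc (h1.trans (Subgroup.card_subgroup_dvd_card K))

/-- Fixed elements have odd order. -/
theorem odd_of_fix {g : G} (hg : σ g = g) : Odd (orderOf g) := by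
  by_contra h1
  rw [Nat.not_odd_iff_even] at h1
  obtain ⟨k, hk⟩ := h1
  have h2 : g ^ k = 1 := by
    apply h.hf
    · rw [map_pow, hg]
    · rw [← pow_add, ← hk, pow_orderOf_eq_one]
  have h3 := orderOf_dvd_of_pow_eq_one h2
  have hpos := orderOf_pos g
  have h4 := Nat.le_of_dvd (by omega) h3
  omega

theorem eq_one_of_fix {g : G} (hg : σ g = g) {S : Subgroup G} (hS : IsPGroup 2 S) (hgS : g ∈ S) : g = 1 := by
  obtain ⟨k, hk⟩ := hS ⟨g, hgS⟩
  have hk' : g ^ 2 ^ k = 1 := congrArg Subtype.val hk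
  have h1 := orderOf_dvd_of_pow_eq_one hk'
  have h2 := h.odd_of_fix hg
  have h3 : Nat.Coprime (orderOf g) (2 ^ k) := Nat.Coprime.pow_right k (Nat.coprime_two_right.2 h2)
  exact orderOf_eq_one_iff.1 (Nat.Coprime.eq_one_of_dvd h3 h1)

/-- Fixed points in cosets. -/
theorem exists_fix_coset (N : Subgroup G) (hN : ∀ x ∈ N, σ x ∈ N) {g : G} (hg : g⁻¹ * σ g ∈ N) :
    ∃ n ∈ N, σ (g * n) = g * n := by
  let f : N → N := fun n => ⟨(g⁻¹ * σ g) * σ n, mul_mem hg (hN n n.2)⟩
  have hf : ∀ n : N, g * (f n : G) = σ (g * n) := by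
    intro n
    show g * ((g⁻¹ * σ g) * σ n) = σ (g * n)
    rw [map_mul]; group
  obtain ⟨n, hn⟩ := exists_fix f (by
    intro n
    apply Subtype.ext
    apply mul_left_cancel (a := g)
    rw [hf, hf, hf, h.h3]) (h.not_dvd N)
  refine ⟨n, n.2, ?_⟩
  rw [← hf, hn]

/-- Invariant Sylow subgroups. -/
theorem exists_sylow (p : ℕ) [Fact p.Prime] : ∃ P : Sylow p G, ∀ x ∈ (P : Subgroup G), σ x ∈ (P : Subgroup G) := by
  have h1 : ¬ 3 ∣ Nat.card (Sylow p G) := by
    intro h2
    have P : Sylow p G := default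
    exact h.hc (h2.trans ((Sylow.card_dvd_index P).trans (Subgroup.index_dvd_card _)))
  obtain ⟨P, hP⟩ := exists_fix (fun P : Sylow p G => σ • P) (by
    intro P
    rw [← mul_smul, ← mul_smul]
    have : σ * σ * σ = 1 := by
      ext g
      exact h.h3 g
    rw [mul_assoc] at this
    rw [mul_assoc, this, one_smul]) h1
  refine ⟨P, fun x hx => ?_⟩
  have h2 : σ • (P : Subgroup G) = (P : Subgroup G) := by
    rw [← Sylow.pointwise_smul_def, hP]
  rw [← h2]
  exact Subgroup.smul_mem_pointwise_smul x σ _ hx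

omit [Finite G] in
theorem symm_mem {K : Subgroup G} (hK : ∀ x ∈ K, σ x ∈ K) : ∀ x ∈ K, σ.symm x ∈ K := by
  intro x hx
  have h1 : σ.symm x = σ (σ x) := by
    rw [MulEquiv.symm_apply_eq, h.h3]
  rw [h1]
  exact hK _ (hK x hx)

/-- Restriction to an invariant subgroup. -/
theorem res (K : Subgroup G) (hK : ∀ x ∈ K, σ x ∈ K) : ∃ τ : MulAut K, (∀ k : K, ((τ k : K) : G) = σ k) ∧ Cl τ := by
  let τ : MulAut K :=
    { toFun := fun k => ⟨σ k, hK k k.2⟩
      invFun := fun k => ⟨σ.symm k, h.symm_mem hK k k.2⟩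
      left_inv := fun k => Subtype.ext (σ.symm_apply_apply _)
      right_inv := fun k => Subtype.ext (σ.apply_symm_apply _)
      map_mul' := fun a b => Subtype.ext (map_mul σ _ _) }
  refine ⟨τ, fun k => rfl, ⟨fun k => Subtype.ext (h.h3 k), h.not_dvd K, ?_⟩⟩
  intro k hk hkk
  apply Subtype.ext
  exact h.hf k (congrArg Subtype.val hk) (congrArg Subtype.val hkk)

/-- The quotient by an invariant normal subgroup. -/
theorem quot (N : Subgroup G) [N.Normal] (hN : ∀ x ∈ N, σ x ∈ N) : ∃ τ : MulAut (G ⧸ N),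
    (∀ g : G, τ (QuotientGroup.mk' N g) = QuotientGroup.mk' N (σ g)) ∧ Cl τ := by
  have hmap : N.map (σ : G →* G) = N := by
    apply le_antisymm
    · rintro _ ⟨x, hx, rfl⟩
      exact hN x hx
    · intro x hx
      exact ⟨σ.symm x, h.symm_mem hN x hx, σ.apply_symm_apply x⟩
  let τ : MulAut (G ⧸ N) := QuotientGroup.congr N N σ hmap
  have hτ : ∀ g : G, τ (QuotientGroup.mk' N g) = QuotientGroup.mk' N (σ g) := fun g => rfl
  refine ⟨τ, hτ, ⟨?_, ?_, ?_⟩⟩
  · intro g
    obtain ⟨g, rfl⟩ := QuotientGroup.mk'_surjective N g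
    rw [hτ, hτ, hτ, h.h3]
  · intro h1
    exact h.hc (h1.trans (Subgroup.card_quotient_dvd_card N))
  · intro g hg hgg
    obtain ⟨g, rfl⟩ := QuotientGroup.mk'_surjective N g
    rw [hτ] at hg
    have h1 : g⁻¹ * σ g ∈ N := QuotientGroup.eq.1 hg.symm
    obtain ⟨n, hn, hgn⟩ := h.exists_fix_coset N hN h1
    have h2 := h.odd_of_fix hgn
    have h3 : QuotientGroup.mk' N (g * n) = QuotientGroup.mk' N g := by
      rw [map_mul, (QuotientGroup.eq_one_iff (N := N) n).2 hn |> fun e => (show QuotientGroup.mk' N n = 1 from e), mul_one]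
    rw [← h3] at hgg ⊢
    obtain ⟨k, hk⟩ := h2
    have h4 : QuotientGroup.mk' N (g * n) ^ (2 * k + 1) = 1 := by
      rw [← map_pow, ← hk, pow_orderOf_eq_one, map_one]
    rw [pow_succ, pow_mul, pow_two, hgg, one_pow, one_mul] at h4
    exact h4

end Cl

end H56.SF
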