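import Mathlib
import Cfsg.Agent.Lib.H56.SF2
import Cfsg.Agent.Lib.H65.CopRep3
import Cfsg.Agent.Lib.H65.HH123
import Cfsg.Agent.Lib.H37.PSolv
import Cfsg.Agent.Lib.H37.QuadCore
import Cfsg.Agent.Lib.H3.PBasic
import Cfsg.Agent.Lib.H1.Coprime2

set_option autoImplicit false

/-! Solvable 3'-groups with an automorphism of order three without fixed involutions. -/

namespace H56.SF

open Subgroup Cfsg
open scoped commutatorElement

universe u

/-- The ambient group. -/
theorem exists_ambient {G : Type u} [Group G] [Finite G] (σ : MulAut G) : ∃ (X : Type u) (_ : Group X) (_ : Finite X)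
    (ι : G →* X) (s : X), Function.Injective ι ∧ (∀ g, s * ι g * s⁻¹ = ι (σ g)) ∧ (∀ n : ℕ, σ ^ n = 1 → s ^ n = 1) ∧
      (σ ≠ 1 → s ∉ ι.range) ∧ ∀ A : Subgroup G, A.Characteristic → (A.map ι).Normal := by
  refine ⟨SemidirectProduct G (MulAut G) (MonoidHom.id (MulAut G)), inferInstance,
    Finite.of_equiv _ (SemidirectProduct.equivProd (φ := MonoidHom.id (MulAut G))).symm, SemidirectProduct.inl,
    SemidirectProduct.inr σ, SemidirectProduct.inl_injective, ?_, ?_, ?_, ?_⟩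
  · intro g
    have := SemidirectProduct.inl_aut (φ := MonoidHom.id (MulAut G)) σ g
    rw [← map_inv]
    exact this.symm
  · intro n hn
    rw [← map_pow, hn, map_one]
  · rintro hσ ⟨a, ha⟩
    apply hσ
    have h4 : (SemidirectProduct.inr σ : SemidirectProduct G (MulAut G) (MonoidHom.id (MulAut G))).right =
      (SemidirectProduct.inl a : SemidirectProduct G (MulAut G) (MonoidHom.id (MulAut G))).right := by rw [ha]
    rwa [SemidirectProduct.right_inl, SemidirectProduct.right_inr] at h4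
  · intro A hA
    constructor
    rintro _ ⟨a, ha, rfl⟩ x
    have h1 : (SemidirectProduct.inr x.right : SemidirectProduct G (MulAut G) (MonoidHom.id (MulAut G))) *
        SemidirectProduct.inl a * (SemidirectProduct.inr x.right)⁻¹ = SemidirectProduct.inl (x.right a) := by
      have := SemidirectProduct.inl_aut (φ := MonoidHom.id (MulAut G)) x.right a
      rw [← map_inv]
      exact this.symm
    have h2 : x.right a ∈ A := by
      have h3 := (Subgroup.characteristic_iff_map_eq.1 hA) x.right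
      rw [← h3]
      exact ⟨a, ha, rfl⟩
    have h4 : x * SemidirectProduct.inl a * x⁻¹ = SemidirectProduct.inl (x.left * x.right a * x.left⁻¹) := by
      conv_lhs => rw [← SemidirectProduct.inl_left_mul_inr_right x]
      rw [mul_inv_rev, map_mul, map_mul, map_inv, ← h1]
      simp only [mul_assoc]
    rw [h4]
    have hAn : A.Normal := inferInstance
    exact ⟨_, hAn.conj_mem _ h2 _, rfl⟩

namespace Cl

variable {G : Type u} [Group G] [Finite G] {σ : MulAut G} (h : Cl σ)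
include h

/-- An invariant subgroup of odd order: the commutators with `σ` act trivially on a characteristic 2-subgroup. -/
theorem comm_act (U : Subgroup G) [hUc : U.Characteristic] (hU : IsPGroup 2 U) (T : Subgroup G)
    (hT : Odd (Nat.card T)) (hTσ : ∀ t ∈ T, σ t ∈ T) : ∀ t ∈ T, ∀ u ∈ U, (σ t * t⁻¹) * u = u * (σ t * t⁻¹) := by
  classical
  by_cases hσ1 : σ = 1
  · intro t _ u _
    rw [hσ1]
    simp
  obtain ⟨X, _, _, ι, s, hιi, hs, hsn, hsr, hconj⟩ := exists_ambient σ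
  set Φ0 := (frattini U).map U.subtype with hΦ0
  have hΦU : Φ0 ≤ U := Subgroup.map_subtype_le _
  have hΦc : Φ0.Characteristic := inferInstance
  set Φ := Φ0.map ι with hΦ
  have hΦn : Φ.Normal := hconj Φ0 hΦc
  have hUn : (U.map ι).Normal := hconj U hUc
  set π := QuotientGroup.mk' Φ with hπ
  have hπs : Function.Surjective π := QuotientGroup.mk'_surjective Φ
  set V := (U.map ι).map π with hV
  have hVn : V.Normal := hUn.map π hπs
  have hVel : IsElementaryAbelian 2 V := by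
    refine ⟨⟨⟨?_⟩⟩, ?_⟩
    · rintro ⟨_, ⟨_, ⟨a, ha, rfl⟩, rfl⟩⟩ ⟨_, ⟨_, ⟨b, hb, rfl⟩, rfl⟩⟩
      apply Subtype.ext
      show π (ι a) * π (ι b) = π (ι b) * π (ι a)
      rw [← map_mul, ← map_mul, ← map_mul, ← map_mul]
      have h1 : ⁅(⟨b, hb⟩ : U)⁻¹, (⟨a, ha⟩ : U)⁻¹⁆ ∈ frattini U :=
        H3.PBasic.commutator_le_frattini hU (commutator_mem_commutator (mem_top _) (mem_top _))
      refine QuotientGroup.eq.2 ⟨_, ⟨_, h1, rfl⟩, ?_⟩
      rw [← map_inv, ← map_mul]
      congr 1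
      change b⁻¹ * a⁻¹ * (b⁻¹)⁻¹ * (a⁻¹)⁻¹ = (a * b)⁻¹ * (b * a)
      group
    · rintro _ ⟨_, ⟨a, ha, rfl⟩, rfl⟩
      rw [← map_pow, ← map_pow]
      exact (QuotientGroup.eq_one_iff _).2 ⟨_, ⟨_, H3.PBasic.pow_mem_frattini hU ⟨a, ha⟩, rfl⟩, rfl⟩
  set K := (T.map ι).map π with hK
  set R := zpowers (π s) with hR
  have hs3 : s ^ 3 = 1 := by
    apply hsn
    ext g
    exact h.h3 g
  have hRcard : Nat.card R = 3 := by
    rw [hR, Nat.card_zpowers]
    have h1 : π s ^ 3 = 1 := by rw [← map_pow, hs3, map_one]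
    have h2 : π s ≠ 1 := by
      intro h2
      have h3 : s ∈ Φ := (QuotientGroup.eq_one_iff _).1 h2
      obtain ⟨a, _, ha⟩ := h3
      exact hsr hσ1 ⟨a, ha⟩
    exact orderOf_eq_prime h1 h2
  have hKdvd : Nat.card K ∣ Nat.card T := (Subgroup.card_map_dvd _ _).trans (Subgroup.card_map_dvd _ _)
  have hKodd : Odd (Nat.card K) := Odd.of_dvd_nat hT hKdvd
  have hK3 : (Nat.card K).Coprime 3 := by
    rw [Nat.coprime_comm]
    apply (Nat.Prime.coprime_iff_not_dvd (by norm_num)).2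
    intro h1
    exact h.not_dvd T (h1.trans hKdvd)
  have hRK : R ≤ normalizer (K : Set (X ⧸ Φ)) := by
    rw [hR, zpowers_le]
    apply H28.Cj.mem_normalizer_of_cj_le
    intro y hy
    rw [H28.Cj.mem_cj] at hy
    obtain ⟨_, ⟨t, ht, rfl⟩, hty⟩ := hy
    refine ⟨_, ⟨σ t, hTσ t ht, rfl⟩, ?_⟩
    have e : y = π s * ((π s)⁻¹ * y * π s) * (π s)⁻¹ := by group
    rw [e, ← hty, ← map_inv, ← map_mul, ← map_mul, hs]
  have hCV : V ⊓ centralizer (R : Set (X ⧸ Φ)) = ⊥ := by
    rw [eq_bot_iff]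
    rintro _ ⟨⟨_, ⟨u, hu, rfl⟩, rfl⟩, h2⟩
    have h3 := mem_centralizer_iff.1 h2 (π s) (mem_zpowers _)
    have h4 : π (ι (σ u)) = π (ι u) := by
      rw [← hs, map_mul, map_mul, map_inv, h3]; group
    have h5 : (ι u)⁻¹ * ι (σ u) ∈ Φ := QuotientGroup.eq.1 h4.symm
    rw [← map_inv, ← map_mul] at h5
    obtain ⟨w, hw, hwe⟩ := h5
    have h6 : w = u⁻¹ * σ u := hιi hwe
    have h7 : u⁻¹ * σ u ∈ Φ0 := h6 ▸ hw
    obtain ⟨m, hm, hum⟩ := h.exists_fix_coset Φ0 (fun x hx => by
      have h3 := (Subgroup.characteristic_iff_map_eq.1 hΦc) σ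
      rw [← h3]
      exact ⟨x, hx, rfl⟩) h7
    have h8 : u * m = 1 := h.eq_one_of_fix hum hU (mul_mem hu (hΦU hm))
    rw [Subgroup.mem_bot]
    apply (QuotientGroup.eq_one_iff _).2
    refine ⟨u, ?_, rfl⟩
    have : u = m⁻¹ := eq_inv_of_mul_eq_one_left h8
    rw [this]
    exact inv_mem hm
  have : Fact (Nat.Prime 2) := ⟨Nat.prime_two⟩
  have : Fact (Nat.Prime 3) := ⟨Nat.prime_three⟩
  have hmain := H65.CopRep.main69 (ℓ := 2) (r := 3) K R V hVel (by
    intro h1
    exact (Nat.not_even_iff_odd.2 hKodd) (even_iff_two_dvd.2 h1)) hKodd hRcard (by norm_num) hK3 hRK hCV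
  -- the subgroup acting trivially on the Frattini quotient
  set A := T ⊓ (centralizer (V : Set (X ⧸ Φ))).comap (π.comp ι) with hA
  have hAU : A ≤ centralizer (U : Set G) := by
    apply H1.Coprime2.le_centralizer_of_frattini A U
    · obtain ⟨k, hk⟩ := IsPGroup.iff_card.1 hU
      have h1 : Nat.card A ∣ Nat.card T := Subgroup.card_dvd_of_le inf_le_left
      have h2 : Odd (Nat.card A) := Odd.of_dvd_nat hT h1
      have h3 : Nat.card (frattini U) ∣ 2 ^ k := by rw [← hk]; exact Subgroup.card_subgroup_dvd_card _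
      exact Nat.Coprime.coprime_dvd_right h3 (Nat.Coprime.pow_right k (Nat.coprime_two_right.2 h2))
    · rintro a ⟨haT, haC⟩ u hu
      have h1 : π (ι a) ∈ centralizer (V : Set (X ⧸ Φ)) := haC
      have h2 := mem_centralizer_iff.1 h1 (π (ι u)) ⟨_, ⟨u, hu, rfl⟩, rfl⟩
      have h3 : π (ι (a * u * a⁻¹ * u⁻¹)) = 1 := by
        simp only [map_mul, map_inv]
        rw [← h2]; group
      have h4 : ι (a * u * a⁻¹ * u⁻¹) ∈ Φ := (QuotientGroup.eq_one_iff _).1 h3
      obtain ⟨w, hw, hwe⟩ := h4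
      rw [← hιi hwe]
      exact hw
  intro t ht u hu
  have h1 : σ t * t⁻¹ ∈ A := by
    refine ⟨T.mul_mem (hTσ t ht) (T.inv_mem ht), ?_⟩
    show π (ι (σ t * t⁻¹)) ∈ centralizer (V : Set (X ⧸ Φ))
    have h2 : π (ι (σ t * t⁻¹)) = ⁅π s, π (ι t)⁆ := by
      rw [commutatorElement_def, map_mul, map_inv, ← hs]
      simp only [map_mul, map_inv]
    rw [h2]
    exact hmain (commutator_mem_commutator (mem_zpowers _) ⟨_, ⟨t, ht, rfl⟩, rfl⟩)
  exact (mem_centralizer_iff.1 (hAU h1) u hu).symm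

end Cl

end H56.SF
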