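import Mathlib
import Cfsg.Agent.Lib.H56.SF3
import Cfsg.Agent.Lib.H28.RelSyl

set_option autoImplicit false

/-! Structure of the solvable groups in the class. -/

namespace H56.SF

open Subgroup Cfsg H28.RelSyl

universe u

namespace Cl

variable {G : Type u} [Group G] [Finite G] {σ : MulAut G} (h : Cl σ)
include h

omit h in
theorem char_inv {K : Subgroup G} (hK : K.Characteristic) : ∀ x ∈ K, σ x ∈ K := by
  intro x hx
  have h3 := (Subgroup.characteristic_iff_map_eq.1 hK) σ
  rw [← h3]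
  exact ⟨x, hx, rfl⟩

theorem core_quot (hs : Group.IsSolvable G) (hO : pPrimeCore 2 G = ⊥) : ∀ g : G, g⁻¹ * σ g ∈ pCore 2 G := by
  classical
  have : Fact (Nat.Prime 2) := ⟨Nat.prime_two⟩
  set U := pCore 2 G with hU
  have hUc : U.Characteristic := H1.Cores.pCore_characteristic 2
  have hUp : IsPGroup 2 U := H1.Cores.isPGroup_pCore 2
  have hCU : centralizer (U : Set G) ≤ U :=
    H37.PSolv.centralizer_pCore_le (H37.QuadCore.isPSolvable_of_isSolvable 2 _ G hs rfl) hO
  obtain ⟨τ, hτ, hτC⟩ := h.quot U (char_inv hUc)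
  set π := QuotientGroup.mk' U with hπ
  have hπs : Function.Surjective π := QuotientGroup.mk'_surjective U
  set Kb := pPrimeCore 2 (G ⧸ U) with hKb
  have hKbodd : Odd (Nat.card Kb) := by
    have := H1.Cores.coprime_card_pPrimeCore (G := G ⧸ U) 2
    exact Nat.coprime_two_right.1 this
  have hsQ : Group.IsSolvable (G ⧸ U) := inferInstance
  -- fixed points
  let F : Subgroup (G ⧸ U) :=
    { carrier := {x | τ x = x}
      one_mem' := map_one τ
      mul_mem' := fun {a b} ha hb => by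
        show τ (a * b) = a * b
        rw [map_mul, show τ a = a from ha, show τ b = b from hb]
      inv_mem' := fun {a} ha => by
        show τ a⁻¹ = a⁻¹
        rw [map_inv, show τ a = a from ha] }
  have hF : ∀ x, x ∈ F ↔ τ x = x := fun x => Iff.rfl
  have hKF : Kb ≤ F := by
    rw [← relIndex_eq_one]
    by_contra hne
    obtain ⟨q, hq, hqd⟩ := Nat.exists_prime_and_dvd hne
    have : Fact q.Prime := ⟨hq⟩
    set K := Kb.comap π with hK
    have hKσ : ∀ x ∈ K, σ x ∈ K := by
      intro x hx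
      show π (σ x) ∈ Kb
      rw [← hτ]
      exact char_inv (H1.Cores.pPrimeCore_characteristic 2) _ hx
    obtain ⟨τK, hτK, hτKC⟩ := h.res K hKσ
    obtain ⟨P, hP⟩ := hτKC.exists_sylow q
    set P' := (P : Subgroup K).map K.subtype with hP'
    have hP's : IsSyl q P' K := isSyl_map P
    have hP'σ : ∀ t ∈ P', σ t ∈ P' := by
      rintro _ ⟨t, ht, rfl⟩
      exact ⟨τK t, hP t ht, hτK t⟩
    have hKπ : K.map π = Kb := Subgroup.map_comap_eq_self_of_surjective hπs _
    have h1 : ¬ q ∣ (P'.map π).relIndex Kb := by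
      intro h2
      apply hP's.not_dvd
      rw [← hKπ] at h2
      rw [Subgroup.relIndex_map_map] at h2
      have h3 : (P' ⊔ π.ker).relIndex (K ⊔ π.ker) ∣ P'.relIndex K := by
        have hkK : π.ker ≤ K := by
          intro y hy
          show π y ∈ Kb
          rw [MonoidHom.mem_ker.1 hy]; exact one_mem _
        rw [sup_eq_left.2 hkK]
        exact Subgroup.relIndex_dvd_of_le_left K le_sup_left
      exact h2.trans h3
    have h2 : P'.map π ≤ F := by
      have hPK : P'.map π ≤ Kb := by rw [← hKπ]; exact map_mono hP's.le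
      by_cases hq2 : q = 2
      · subst hq2
        have h3 : P'.map π = ⊥ := by
          have h4 : IsPGroup 2 (P'.map π) := hP's.isPGroup.map π
          obtain ⟨k, hk⟩ := IsPGroup.iff_card.1 h4
          have h5 : Nat.card (P'.map π) ∣ Nat.card Kb := Subgroup.card_dvd_of_le hPK
          have h6 : Odd (Nat.card (P'.map π)) := Odd.of_dvd_nat hKbodd h5
          rw [hk] at h6
          have h7 : k = 0 := by
            by_contra h8
            exact (Nat.not_even_iff_odd.2 h6) ((Nat.even_pow.2 ⟨even_two, h8⟩))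
          rw [h7, pow_zero] at hk
          exact Subgroup.card_eq_one.1 hk
        rw [h3]; exact bot_le
      · rintro _ ⟨t, ht, rfl⟩
        rw [hF, hτ]
        congr 1
        have hodd : Odd (Nat.card P') := by
          obtain ⟨k, hk⟩ := IsPGroup.iff_card.1 hP's.isPGroup
          rw [hk]
          exact Odd.pow (hq.odd_of_ne_two hq2)
        have h3 := h.comm_act U hUp P' hodd hP'σ t ht
        have h4 : σ t * t⁻¹ ∈ U := by
          apply hCU
          rw [mem_centralizer_iff]
          intro u hu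
          exact (h3 u hu).symm
        have h5 : σ t * t⁻¹ ∈ P' := mul_mem (hP'σ t ht) (inv_mem ht)
        have h6 : σ t * t⁻¹ ∈ U ⊓ P' := ⟨h4, h5⟩
        have h7 : U ⊓ P' = ⊥ := by
          have := H1.Cores.disjoint_of_isPGroup (G := G) (p := 2) (P := U) (Q := P') hUp (by
            exact Nat.coprime_two_right.2 hodd)
          exact this
        rw [h7, Subgroup.mem_bot] at h6
        exact mul_inv_eq_one.1 h6
    apply h1
    have h3 : (F.relIndex Kb) ∣ (P'.map π).relIndex Kb := Subgroup.relIndex_dvd_of_le_left Kb h2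
    exact hqd.trans h3
  -- everything is fixed
  have hCK : centralizer (Kb : Set (G ⧸ U)) ≤ Kb :=
    H65.HH123.centralizer_pPrimeCore_le (H37.QuadCore.isPSolvable_of_isSolvable 2 _ (G ⧸ U) hsQ rfl)
      (H1.Cores.pCore_quotient_pCore 2)
  have hall : ∀ x : G ⧸ U, τ x = x := by
    intro x
    have hKn : Kb.Normal := H1.Cores.pPrimeCore_normal 2
    have h1 : x⁻¹ * τ x ∈ centralizer (Kb : Set (G ⧸ U)) := by
      rw [mem_centralizer_iff]
      intro k hk
      have h2 : τ (x * k * x⁻¹) = x * k * x⁻¹ := hKF (hKn.conj_mem k hk x)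
      rw [map_mul, map_mul, map_inv, show τ k = k from hKF hk] at h2
      have h3 : k = (τ x)⁻¹ * (x * k * x⁻¹) * τ x := by rw [← h2]; group
      calc k * (x⁻¹ * τ x) = x⁻¹ * (x * k * x⁻¹) * τ x := by group
        _ = (x⁻¹ * τ x) * ((τ x)⁻¹ * (x * k * x⁻¹) * τ x) := by group
        _ = x⁻¹ * τ x * k := by rw [← h3]
    have h2 := hCK h1
    have h3 : τ (x⁻¹ * τ x) = x⁻¹ * τ x := hKF h2
    set z := x⁻¹ * τ x with hz
    have h4 : τ x = x * z := by rw [hz]; group
    have h5 : τ (τ (τ x)) = x * z ^ 3 := by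
      rw [h4, map_mul, h4, h3, map_mul, map_mul, h4, h3, pow_succ, pow_two]
      simp only [mul_assoc]
    rw [hτC.h3] at h5
    have h6 : z ^ 3 = 1 := left_eq_mul.1 h5
    have h7 : z = 1 := by
      by_contra h8
      have h9 : orderOf z = 3 := orderOf_eq_prime h6 h8
      exact hτC.hc (h9 ▸ orderOf_dvd_natCard z)
    rw [h4, h7, mul_one]
  intro g
  have h1 := hall (π g)
  rw [hτ] at h1
  exact QuotientGroup.eq.1 h1.symm

/-- The index of `O₂`. -/
theorem index_core (hs : Group.IsSolvable G) (hO : pPrimeCore 2 G = ⊥) : ¬ 2 ∣ (pCore 2 G).index := by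
  have : Fact (Nat.Prime 2) := ⟨Nat.prime_two⟩
  intro h2
  set U := pCore 2 G with hU
  have hUc : U.Characteristic := H1.Cores.pCore_characteristic 2
  obtain ⟨τ, hτ, hτC⟩ := h.quot U (char_inv hUc)
  have h3 : 2 ∣ Nat.card (G ⧸ U) := h2
  obtain ⟨x, hx⟩ := exists_prime_orderOf_dvd_card' 2 h3
  have h4 : τ x = x := by
    obtain ⟨g, rfl⟩ := QuotientGroup.mk'_surjective U x
    rw [hτ]
    exact (QuotientGroup.eq.2 (h.core_quot hs hO g)).symm
  have h5 : x = 1 := by
    apply hτC.hf x h4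
    have h6 := pow_orderOf_eq_one x
    rwa [hx, pow_two] at h6
  rw [h5, orderOf_one] at hx
  norm_num at hx

/-- The general statement, first part. -/
theorem index_pPrimePCore (hs : Group.IsSolvable G) : ¬ 2 ∣ (pPrimePCore 2 G).index := by
  set N := pPrimeCore 2 G with hN
  have hNc : N.Characteristic := H1.Cores.pPrimeCore_characteristic 2
  obtain ⟨τ, hτ, hτC⟩ := h.quot N (char_inv hNc)
  have hsQ : Group.IsSolvable (G ⧸ N) := inferInstance
  have h1 := hτC.index_core hsQ (H1.Cores.pPrimeCore_quotient_pPrimeCore 2)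
  have h2 : (pPrimePCore 2 G).index = (pCore 2 (G ⧸ N)).index :=
    Subgroup.index_comap_of_surjective _ (QuotientGroup.mk'_surjective N)
  rw [h2]
  exact h1

/-- The general statement, second part. -/
theorem exists_fix_pPrimePCore (hs : Group.IsSolvable G) (g : G) : ∃ w ∈ pPrimePCore 2 G, σ (g * w) = g * w := by
  set N := pPrimeCore 2 G with hN
  have hNc : N.Characteristic := H1.Cores.pPrimeCore_characteristic 2
  obtain ⟨τ, hτ, hτC⟩ := h.quot N (char_inv hNc)
  have hsQ : Group.IsSolvable (G ⧸ N) := inferInstance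
  have hWσ : ∀ x ∈ pPrimePCore 2 G, σ x ∈ pPrimePCore 2 G := by
    intro x hx
    show QuotientGroup.mk' N (σ x) ∈ pCore 2 (G ⧸ N)
    rw [← hτ]
    exact char_inv (H1.Cores.pCore_characteristic 2) _ hx
  apply h.exists_fix_coset _ hWσ
  have h1 := hτC.core_quot hsQ (H1.Cores.pPrimeCore_quotient_pPrimeCore 2) (QuotientGroup.mk' N g)
  rw [hτ, ← map_inv, ← map_mul] at h1
  exact h1

/-- A Sylow 2-subgroup with `O(G)` is `O_{2',2}(G)`. -/
theorem mem_pPrimePCore (hs : Group.IsSolvable G) {S : Subgroup G} (hS : IsSyl 2 S ⊤) {w : G}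
    (hw : w ∈ pPrimePCore 2 G) : ∃ s ∈ S, ∃ o ∈ pPrimeCore 2 G, w = s * o := by
  have : Fact (Nat.Prime 2) := ⟨Nat.prime_two⟩
  set N := pPrimeCore 2 G with hN
  have hNc : N.Characteristic := H1.Cores.pPrimeCore_characteristic 2
  obtain ⟨τ, hτ, hτC⟩ := h.quot N (char_inv hNc)
  have hsQ : Group.IsSolvable (G ⧸ N) := inferInstance
  set π := QuotientGroup.mk' N with hπ
  have hπs : Function.Surjective π := QuotientGroup.mk'_surjective N
  have h1 := hτC.index_core hsQ (H1.Cores.pPrimeCore_quotient_pPrimeCore 2)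
  have h2 : IsSyl 2 (pCore 2 (G ⧸ N)) ⊤ := ⟨le_top, H1.Cores.isPGroup_pCore 2, by rwa [relIndex_top_right]⟩
  have h3 : IsSyl 2 (S.map π) ⊤ := by
    refine ⟨le_top, hS.isPGroup.map π, ?_⟩
    intro h4
    apply hS.not_dvd
    rw [relIndex_top_right] at h4 ⊢
    exact h4.trans (Subgroup.index_map_dvd S hπs)
  have h4 : pCore 2 (G ⧸ N) = S.map π := (h3.eq_of_normal (by
    have hn : (S.map π).Normal := by
      have h5 : S.map π = pCore 2 (G ⧸ N) := h2.eq_of_normal (by
        rw [Subgroup.normalizer_eq_top_iff.2 (H1.Cores.pCore_normal 2)]) h3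
      rw [h5]; exact H1.Cores.pCore_normal 2
    rw [Subgroup.normalizer_eq_top_iff.2 hn]) h2)
  have h5 : π w ∈ pCore 2 (G ⧸ N) := hw
  rw [h4] at h5
  obtain ⟨s, hs', hsw⟩ := h5
  exact ⟨s, hs', s⁻¹ * w, QuotientGroup.eq.1 hsw, by group⟩

/-- `G = O(G) N_G(S)`. -/
theorem exists_core_normalizer (hs : Group.IsSolvable G) {S : Subgroup G} (hS : IsSyl 2 S ⊤) (g : G) :
    ∃ o ∈ pPrimeCore 2 G, ∃ n ∈ normalizer (S : Set G), g = o * n := by
  have : Fact (Nat.Prime 2) := ⟨Nat.prime_two⟩
  set W := pPrimePCore 2 G with hW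
  have hWn : W.Normal := by
    show ((pCore 2 (G ⧸ pPrimeCore 2 G)).comap (QuotientGroup.mk' (pPrimeCore 2 G))).Normal
    infer_instance
  have hWi := h.index_pPrimePCore hs
  have hSW : IsSyl 2 S W := by
    -- `S ≤ W`
    obtain ⟨T, hT⟩ := exists_isSyl 2 W
    have hT' : IsSyl 2 T ⊤ := hT.trans le_top (by rwa [relIndex_top_right])
    obtain ⟨x, _, hx⟩ := hT'.exists_conj_eq hS
    have hSW : S ≤ W := by
      rw [hx]
      intro y hy
      rw [H28.Cj.mem_cj] at hy
      have := hWn.conj_mem _ (hT.le hy) x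
      have e : x * (x⁻¹ * y * x) * x⁻¹ = y := by group
      rwa [e] at this
    exact hS.of_le_of_le hSW le_top
  obtain ⟨w, hw, m, hm, hg⟩ := hSW.frattini (H := ⊤) (by
    rw [Subgroup.normalizer_eq_top_iff.2 hWn]) (x := g) trivial
  obtain ⟨s, hs', o, ho, hwe⟩ := h.mem_pPrimePCore hs hS hw
  have hOn : (pPrimeCore 2 G).Normal := H1.Cores.pPrimeCore_normal 2
  refine ⟨s * o * s⁻¹, hOn.conj_mem o ho s, s * m, mul_mem (le_normalizer hs') hm, ?_⟩
  rw [hg, hwe]; group

/-- elements as products with a fixed element -/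
theorem exists_decomp (hs : Group.IsSolvable G) {S : Subgroup G} (hS : IsSyl 2 S ⊤) (g : G) :
    ∃ c, σ c = c ∧ ∃ s ∈ S, ∃ o ∈ pPrimeCore 2 G, g = c * (s * o) := by
  obtain ⟨w, hw, hgw⟩ := h.exists_fix_pPrimePCore hs g
  have hw' : w⁻¹ ∈ pPrimePCore 2 G := inv_mem hw
  obtain ⟨s, hs', o, ho, hwe⟩ := h.mem_pPrimePCore hs hS hw'
  refine ⟨g * w, hgw, s, hs', o, ho, ?_⟩
  rw [← hwe]; group

end Cl

end H56.SF
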