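import Mathlib
import Cfsg.Prelude.Def_SylowChains
import Cfsg.Agent.Lib.H28.Cj
import Cfsg.Agent.Lib.H28.RelSyl
import Cfsg.Agent.Lib.H55.SylowBasic

/-! strongly `p`-embedded subgroups in the classical sense -/

set_option autoImplicit false

namespace H56.SPE

open Subgroup H28.Cj H28.RelSyl

variable {G : Type*} [Group G]

/-- classical strongly `p`-embedded subgroup -/
def CSPE (p : ℕ) (H : Subgroup G) : Prop :=
  H ≠ ⊤ ∧ p ∣ Nat.card H ∧ ∀ g : G, g ∉ H → ¬ p ∣ Nat.card ↥(H ⊓ cj g H)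

theorem dvd_card_of_ne_bot [Finite G] {p : ℕ} [hp : Fact p.Prime] {Q : Subgroup G} (hQ : IsPGroup p Q)
    (h : Q ≠ ⊥) : p ∣ Nat.card Q := by
  haveI : Nontrivial Q := (Subgroup.nontrivial_iff_ne_bot Q).mpr h
  obtain ⟨n, hn, h⟩ := hQ.nontrivial_iff_card.mp inferInstance
  rw [h]
  exact dvd_pow_self p hn.ne'

theorem CSPE.mem_of_le {p : ℕ} [hp : Fact p.Prime] [Finite G] {H : Subgroup G} (h : CSPE p H)
    {Q : Subgroup G} (hQ : IsPGroup p Q) (hQ1 : Q ≠ ⊥) (hQH : Q ≤ H) {g : G} (hg : Q ≤ cj g H) :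
    g ∈ H := by
  by_contra hgH
  exact h.2.2 g hgH ((dvd_card_of_ne_bot hQ hQ1).trans (card_dvd_of_le (le_inf hQH hg)))

theorem CSPE.normalizer_le {p : ℕ} [hp : Fact p.Prime] [Finite G] {H : Subgroup G} (h : CSPE p H)
    {Q : Subgroup G} (hQ : IsPGroup p Q) (hQ1 : Q ≠ ⊥) (hQH : Q ≤ H) :
    normalizer (Q : Set G) ≤ H := by
  intro g hg
  apply h.mem_of_le hQ hQ1 hQH
  have := mem_normalizer_iff_cj.mp hg
  rw [← this]
  exact cj_le_cj.mpr hQH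

theorem CSPE.le_of_inf_ne_bot {p : ℕ} [hp : Fact p.Prime] [Finite G] {H : Subgroup G} (h : CSPE p H)
    {R : Subgroup G} (hR : IsPGroup p R) (hRH : R ⊓ H ≠ ⊥) : R ≤ H := by
  by_contra hle
  have hlt : R ⊓ H < R := lt_of_le_of_ne inf_le_left (fun he => hle (by rw [← he]; exact inf_le_right))
  obtain ⟨x, hxR, hx, hxn⟩ := H55.SylowBasic.exists_mem_normalizer_notMem _ _ hR hlt
  apply hx
  refine ⟨hxR, ?_⟩
  exact h.normalizer_le (hR.to_le inf_le_left) hRH inf_le_right hxn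

theorem CSPE.exists_sylow {p : ℕ} [hp : Fact p.Prime] [Finite G] {H : Subgroup G} (h : CSPE p H) :
    ∃ P : Sylow p G, (P : Subgroup G) ≤ H ∧ (P : Subgroup G) ≠ ⊥ := by
  obtain ⟨Q, hQ⟩ := exists_isSyl p H
  have hQ1 : Q ≠ ⊥ := by
    rintro rfl
    apply hQ.not_dvd
    rw [relIndex_bot_left]
    exact h.2.1
  obtain ⟨P, hP⟩ := hQ.isPGroup.exists_le_sylow
  have h1 : (P : Subgroup G) ⊓ H ≠ ⊥ := by
    intro h2
    apply hQ1
    rw [eq_bot_iff, ← h2]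
    exact le_inf hP hQ.le
  refine ⟨P, h.le_of_inf_ne_bot P.2 h1, ?_⟩
  intro h2
  rw [h2, bot_inf_eq] at h1
  exact h1 rfl

theorem CSPE.cj {p : ℕ} {H : Subgroup G} (h : CSPE p H) (g : G) : CSPE p (cj g H) := by
  refine ⟨?_, ?_, ?_⟩
  · rw [Ne, cj_eq_top]; exact h.1
  · rw [card_cj]; exact h.2.1
  · intro x hx
    have h1 : H28.Cj.cj x (H28.Cj.cj g H) = H28.Cj.cj g (H28.Cj.cj (g⁻¹ * x * g) H) := by
      rw [cj_cj, cj_cj]; congr 1; group
    rw [h1, ← cj_inf, card_cj]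
    exact h.2.2 _ (fun h2 => hx (mem_cj.mpr h2))

/-- not all Sylow subgroups are contained in `H` -/
theorem CSPE.exists_not_le {p : ℕ} [hp : Fact p.Prime] [Finite G] {H : Subgroup G} (h : CSPE p H) :
    ∃ T : Sylow p G, ¬ (T : Subgroup G) ≤ H := by
  by_contra hcon
  push Not at hcon
  obtain ⟨P, hP, hP1⟩ := h.exists_sylow
  apply h.1
  rw [eq_top_iff]
  intro g _
  apply h.mem_of_le P.2 hP1 hP
  rw [le_cj_iff]
  exact hcon (g⁻¹ • P)

end H56.SPE
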