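import Mathlib
import Cfsg.Prelude.Def_SubgroupEmbedding
import Cfsg.Agent.S3012
import Cfsg.Agent.S3013
import Cfsg.Agent.Lib.H52.PRes
import Cfsg.Agent.Lib.H26.LocalFitting
import Cfsg.Agent.Lib.H26.Components
import Cfsg.Agent.Lib.H1.Coprime2
import Cfsg.Agent.Lib.H27.ElAb

set_option autoImplicit false

/-! Minimal counterexamples to the Sidki pair statement. -/

namespace H56.Sid

open Subgroup Cfsg H26.LocalFitting H52.PRes
open scoped commutatorElement

universe u

/-- The minimal counterexample. -/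
structure MC {G : Type u} [Group G] [Finite G] (V : Subgroup G) : Prop where
  hV : IsElementaryAbelian 2 V
  hV1 : V ≠ ⊥
  hS : IsSidkiPair V
  hVO : V ⊓ pCore 2 G = ⊥
  hminG : ∀ (H : Type u) [Group H] [Finite H] (W : Subgroup H), Nat.card H < Nat.card G → IsElementaryAbelian 2 W →
    W ≠ ⊥ → IsSidkiPair W → W ⊓ pCore 2 H ≠ ⊥

variable {G : Type u} [Group G] [Finite G]

theorem eq_one_of_odd_sq {h : G} (ho : Odd (orderOf h)) (h2 : h * h = 1) : h = 1 := by
  have h3 := orderOf_dvd_of_pow_eq_one (show h ^ 2 = 1 by rw [pow_two]; exact h2)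
  exact orderOf_eq_one_iff.1 (Nat.Coprime.eq_one_of_dvd (Nat.coprime_two_right.2 ho) h3)

theorem mem_norm_of_conj {B : Subgroup G} {g : G} (h : ∀ a ∈ B, g * a * g⁻¹ ∈ B) :
    g ∈ normalizer (B : Set G) := by
  have h1 : B.map (MulAut.conj g).toMonoidHom ≤ B := by
    rintro _ ⟨a, ha, rfl⟩
    exact h a ha
  have h2 : B.map (MulAut.conj g).toMonoidHom = B := by
    apply Subgroup.eq_of_le_of_card_ge h1
    rw [Nat.card_congr (B.equivMapOfInjective _ (MulAut.conj g).injective).symm.toEquiv]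
  rw [mem_normalizer_iff]
  intro y
  constructor
  · exact h y
  · intro hy
    have h3 : g * y * g⁻¹ ∈ B.map (MulAut.conj g).toMonoidHom := by rw [h2]; exact hy
    obtain ⟨z, hz, hzy⟩ := h3
    have h4 : g * z * g⁻¹ = g * y * g⁻¹ := hzy
    have h5 : z = y := mul_left_cancel (mul_right_cancel h4)
    rw [← h5]; exact hz

theorem card_lt {H : Subgroup G} (hH : H ≠ ⊤) : Nat.card H < Nat.card G :=
  lt_of_le_of_ne (Subgroup.card_le_card_group H) (fun h => hH (Subgroup.eq_top_of_card_eq H h))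

/-- Elements of `O_2(H)` centralize normalized subgroups with trivial 2-core. -/
theorem comm_of_core {K H : Subgroup G} (hKH : K ≤ H) (hHK : H ≤ normalizer (K : Set G)) (hK : pc 2 K = ⊥) {b : G}
    (hb : b ∈ pc 2 H) : b ∈ centralizer (K : Set G) := by
  rw [mem_centralizer_iff]
  intro k hk
  have h1 : K ⊓ pc 2 H ≤ pc 2 K := by
    refine le_pc inf_le_left ?_ ((isPGroup_pc 2 H).to_le inf_le_right)
    exact H1.Coprime2.le_normalizer_inf le_normalizer (hKH.trans (le_normalizer_pc 2 H))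
  have h2 : k * b * k⁻¹ * b⁻¹ ∈ K ⊓ pc 2 H := by
    refine mem_inf.2 ⟨?_, ?_⟩
    · have e : k * b * k⁻¹ * b⁻¹ = k * (b * k⁻¹ * b⁻¹) := by group
      rw [e]
      exact mul_mem hk ((mem_normalizer_iff.1 (hHK (pc_le 2 H hb)) _).1 (inv_mem hk))
    · exact mul_mem ((mem_normalizer_iff.1 (le_normalizer_pc 2 H (hKH hk)) b).1 hb) (inv_mem hb)
  have h3 := h1 h2
  rw [hK, mem_bot] at h3
  calc k * b = (k * b * k⁻¹ * b⁻¹) * (b * k) := by group
    _ = b * k := by rw [h3, one_mul]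

theorem isPGroup_of_elem {V : Subgroup G} (hV : IsElementaryAbelian 2 V) : IsPGroup 2 V := H27.ElAb.isPGroup hV

namespace MC

variable {V : Subgroup G} (c : MC V)
include c

theorem comm {a b : G} (ha : a ∈ V) (hb : b ∈ V) : a * b = b * a := H27.ElAb.comm c.hV a ha b hb

theorem sq {a : G} (ha : a ∈ V) : a * a = 1 := by rw [← pow_two]; exact c.hV.2 a ha

theorem inv_eq {a : G} (ha : a ∈ V) : a⁻¹ = a := inv_eq_of_mul_eq_one_left (c.sq ha)

theorem sidki {h v : G} (hv : v ∈ V) (ho : Odd (orderOf h)) (hi : v * h * v⁻¹ = h⁻¹) :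
    ∃ w ∈ V, w ≠ 1 ∧ w * h = h * w := c.hS h v hv ho hi

/-- Non-Sidki subgroups. -/
theorem exists_inv {H : Subgroup G} (hH : H ≠ ⊤) {W : Subgroup G} (hWH : W ≤ H) (hWV : W ≤ V) (hW1 : W ≠ ⊥)
    (hcore : ∀ w ∈ W, w ∈ pc 2 H → w = 1) :
    ∃ w ∈ W, ∃ h ∈ H, Odd (orderOf h) ∧ w * h * w⁻¹ = h⁻¹ ∧ ∀ u ∈ W, u * h = h * u → u = 1 := by
  by_contra hcon
  push Not at hcon
  apply c.hminG H (W.subgroupOf H) (card_lt hH)
  · apply H27.ElAb.of_comm
    · intro a ha b hb
      exact Subtype.ext (c.comm (hWV ha) (hWV hb))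
    · intro a ha
      exact Subtype.ext (c.hV.2 _ (hWV ha))
  · intro h1
    apply hW1
    rw [eq_bot_iff]
    intro w hw
    have h2 : (⟨w, hWH hw⟩ : H) ∈ W.subgroupOf H := hw
    rw [h1, mem_bot] at h2
    exact mem_bot.2 (congrArg Subtype.val h2)
  · intro h v hv ho hi
    have h1 := hcon v hv h h.2 (by rwa [Subgroup.orderOf_coe]) (congrArg Subtype.val hi)
    obtain ⟨u, hu, huh, hu1⟩ := h1
    exact ⟨⟨u, hWH hu⟩, hu, fun h2 => hu1 (congrArg Subtype.val h2), Subtype.ext huh⟩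
  · rw [eq_bot_iff]
    intro w hw
    obtain ⟨h1, h2⟩ := mem_inf.1 hw
    exact mem_bot.2 (Subtype.ext (hcore w h1 ⟨w, h2, rfl⟩))

theorem core_bot : pCore 2 G = ⊥ := by
  by_contra hne
  have h1 : Nat.card (G ⧸ pCore 2 G) < Nat.card G := by
    have h2 := Subgroup.card_mul_index (pCore 2 G)
    have h3 : 1 < Nat.card (pCore 2 G) := by
      rw [← Nat.not_le]
      intro h3
      exact hne (Subgroup.eq_bot_of_card_le _ h3)
    have h4 : 0 < (pCore 2 G).index := Nat.pos_of_ne_zero Subgroup.index_ne_zero_of_finite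
    have h5 : Nat.card (G ⧸ pCore 2 G) = (pCore 2 G).index := rfl
    rw [h5, ← h2]
    nlinarith
  apply c.hminG (G ⧸ pCore 2 G) (V.map (QuotientGroup.mk' (pCore 2 G))) h1
  · apply H27.ElAb.of_comm
    · rintro _ ⟨a, ha, rfl⟩ _ ⟨b, hb, rfl⟩
      rw [← map_mul, ← map_mul, c.comm ha hb]
    · rintro _ ⟨a, ha, rfl⟩
      rw [← map_pow, c.hV.2 a ha, map_one]
  · intro h2
    apply c.hV1
    rw [← c.hVO]
    apply le_antisymm _ inf_le_left
    refine le_inf le_rfl ?_
    intro v hv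
    have h3 : QuotientGroup.mk' (pCore 2 G) v ∈ V.map (QuotientGroup.mk' (pCore 2 G)) := ⟨v, hv, rfl⟩
    rw [h2, mem_bot] at h3
    exact (QuotientGroup.eq_one_iff v).1 h3
  · exact Cfsg.Agent.S3012.result V (pCore 2 G) c.hV c.hV1 c.hS c.hVO
  · rw [H1.Cores.pCore_quotient_pCore, inf_bot_eq]

theorem pc_bot {N : Subgroup G} (hN : N.Normal) : pc 2 N = ⊥ := by
  rw [← le_bot_iff, ← c.core_bot]
  apply H1.Cores.le_pCore _ (isPGroup_pc 2 N)
  rw [← Subgroup.normalizer_eq_top_iff, eq_top_iff]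
  refine le_trans ?_ (normalizer_le_normalizer_pc 2 N)
  rw [Subgroup.normalizer_eq_top_iff.2 hN]

theorem lemmaP {N : Subgroup G} (hN : N.Normal) (h1 : V ⊓ centralizer (N : Set G) ≠ ⊥) : centralizer (N : Set G) = ⊤ := by
  by_contra hC
  have hCn : (centralizer (N : Set G)).Normal := inferInstance
  obtain ⟨w, hw, h, hh, ho, hi, hu⟩ := c.exists_inv hC (W := V ⊓ centralizer (N : Set G)) inf_le_right inf_le_left h1 (by
    intro w hw hwc
    rw [c.pc_bot hCn, mem_bot] at hwc
    exact hwc)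
  obtain ⟨hwV, hwC⟩ := mem_inf.1 hw
  set H := centralizer ({w} : Set G) ⊓ centralizer ({h} : Set G) with hH
  obtain ⟨hB, hBS⟩ := Cfsg.Agent.S3013.result V c.hV c.hV1 c.hS w h hwV ho hi H hH
  have hHne : H ≠ ⊤ := by
    intro hH1
    have h2 : w ∈ H := by rw [hH1]; trivial
    have h3 := mem_centralizer_singleton_iff.1 (mem_inf.1 h2).2
    have h4 : h = 1 := by
      apply eq_one_of_odd_sq ho
      have h5 : h⁻¹ = h := by rw [← hi, h3]; group
      calc h * h = h * h⁻¹ := by rw [h5]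
        _ = 1 := mul_inv_cancel h
    apply h1
    rw [eq_bot_iff]
    intro u huW
    exact mem_bot.2 (hu u huW (by rw [h4]; simp))
  have hNH : N ≤ H := by
    intro n hn
    refine mem_inf.2 ⟨?_, ?_⟩
    · rw [mem_centralizer_singleton_iff]; exact (mem_centralizer_iff.1 hwC n hn)
    · rw [mem_centralizer_singleton_iff]; exact (mem_centralizer_iff.1 hh n hn)
  have h2 := c.hminG H ((H ⊓ V).subgroupOf H) (card_lt hHne) (by
    apply H27.ElAb.of_comm
    · intro a ha b hb
      exact Subtype.ext (c.comm (mem_inf.1 (mem_subgroupOf.1 ha)).2 (mem_inf.1 (mem_subgroupOf.1 hb)).2)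
    · intro a ha
      exact Subtype.ext (c.hV.2 _ (mem_inf.1 (mem_subgroupOf.1 ha)).2)) (by
    intro h3
    apply hB
    rw [eq_bot_iff]
    intro x hx
    have h4 : (⟨x, (mem_inf.1 hx).1⟩ : H) ∈ (H ⊓ V).subgroupOf H := hx
    rw [h3, mem_bot] at h4
    exact mem_bot.2 (congrArg Subtype.val h4)) hBS
  apply h2
  rw [eq_bot_iff]
  intro b hb
  obtain ⟨hb1, hb2⟩ := mem_inf.1 hb
  have hb3 : (b : G) ∈ centralizer (N : Set G) :=
    comm_of_core hNH (by rw [Subgroup.normalizer_eq_top_iff.2 hN]; exact le_top) (c.pc_bot hN) ⟨b, hb2, rfl⟩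
  apply mem_bot.2
  apply Subtype.ext
  refine hu b (mem_inf.2 ⟨(mem_inf.1 (mem_subgroupOf.1 hb1)).2, hb3⟩) ?_
  exact mem_centralizer_singleton_iff.1 (mem_inf.1 b.2).2

theorem lemmaB {N : Subgroup G} (hN : N.Normal) (h1 : N ⊔ V ≠ ⊤) : V ⊓ centralizer (N : Set G) ≠ ⊥ := by
  intro h2
  obtain ⟨w, hw, h, hh, ho, hi, hu⟩ := c.exists_inv h1 (W := V) le_sup_right le_rfl c.hV1 (by
    intro w hw hwc
    have h3 : w ∈ V ⊓ centralizer (N : Set G) := mem_inf.2 ⟨hw,
      comm_of_core le_sup_left (by rw [Subgroup.normalizer_eq_top_iff.2 hN]; exact le_top) (c.pc_bot hN) hwc⟩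
    rw [h2, mem_bot] at h3
    exact h3)
  obtain ⟨u, huV, hu1, huh⟩ := c.sidki hw ho hi
  exact hu1 (hu u huV huh)

theorem center_bot : center G = ⊥ := by
  by_contra hne
  have hVZ : V ⊓ center G = ⊥ := by
    rw [eq_bot_iff, ← c.core_bot]
    intro v hv
    obtain ⟨h1, h2⟩ := mem_inf.1 hv
    have h3 : V ⊓ center G ≤ pCore 2 G := by
      apply H1.Cores.le_pCore _ ((isPGroup_of_elem c.hV).to_le inf_le_left)
      constructor
      intro x hx g
      have h4 := mem_center_iff.1 (mem_inf.1 hx).2 g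
      have : g * x * g⁻¹ = x := by rw [h4]; group
      rw [this]; exact hx
    exact h3 hv
  have h1 : Nat.card (G ⧸ center G) < Nat.card G := by
    have h2 := Subgroup.card_mul_index (center G)
    have h3 : 1 < Nat.card (center G) := by
      rw [← Nat.not_le]
      intro h3
      exact hne (Subgroup.eq_bot_of_card_le _ h3)
    have h4 : 0 < (center G).index := Nat.pos_of_ne_zero Subgroup.index_ne_zero_of_finite
    have h5 : Nat.card (G ⧸ center G) = (center G).index := rfl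
    rw [h5, ← h2]
    nlinarith
  set π := QuotientGroup.mk' (center G) with hπ
  apply c.hminG (G ⧸ center G) (V.map π) h1
  · apply H27.ElAb.of_comm
    · rintro _ ⟨a, ha, rfl⟩ _ ⟨b, hb, rfl⟩
      rw [← map_mul, ← map_mul, c.comm ha hb]
    · rintro _ ⟨a, ha, rfl⟩
      rw [← map_pow, c.hV.2 a ha, map_one]
  · intro h2
    apply c.hV1
    rw [← hVZ]
    apply le_antisymm _ inf_le_left
    refine le_inf le_rfl ?_
    intro v hv
    have h3 : π v ∈ V.map π := ⟨v, hv, rfl⟩
    rw [h2, mem_bot] at h3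
    exact (QuotientGroup.eq_one_iff v).1 h3
  · exact Cfsg.Agent.S3012.result V (center G) c.hV c.hV1 c.hS hVZ
  · rw [eq_bot_iff]
    intro x hx
    obtain ⟨⟨v, hv, rfl⟩, hx2⟩ := mem_inf.1 hx
    -- the preimage is nilpotent
    set D := (pCore 2 (G ⧸ center G)).comap π with hD
    have hDn : D.Normal := Subgroup.Normal.comap inferInstance π
    have hDnil : Group.IsNilpotent D := by
      have hf : IsPGroup 2 (pCore 2 (G ⧸ center G)) := H1.Cores.isPGroup_pCore 2
      have hn : Group.IsNilpotent (pCore 2 (G ⧸ center G)) := hf.isNilpotent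
      let f : D →* pCore 2 (G ⧸ center G) :=
        { toFun := fun d => ⟨π (d : G), d.2⟩
          map_one' := Subtype.ext (map_one π)
          map_mul' := fun a b => Subtype.ext (map_mul π (a : G) (b : G)) }
      refine Subgroup.isNilpotent_of_ker_le_center f ?_
      intro d hd
      have h2 : π (d : G) = 1 := congrArg Subtype.val (MonoidHom.mem_ker.1 hd)
      have h3 : (d : G) ∈ center G := (QuotientGroup.eq_one_iff _).1 h2
      rw [mem_center_iff]
      intro e
      exact Subtype.ext (mem_center_iff.1 h3 e)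
    have hvD : v ∈ D := hx2
    have h2 : v ∈ pc 2 D := by
      have hf2 : Fact (Nat.Prime 2) := ⟨Nat.prime_two⟩
      obtain ⟨T⟩ : Nonempty (Sylow 2 D) := inferInstance
      have hTn : (T : Subgroup D).Normal := by
        have := (Group.isNilpotent_of_finite_tfae (G := D)).out 0 3
        exact this.1 hDnil 2 hf2 T
      have h3 : (⟨v, hvD⟩ : D) ∈ (T : Subgroup D) := by
        have h4 : IsPGroup 2 (zpowers (⟨v, hvD⟩ : D)) := by
          have h5 : (⟨v, hvD⟩ : D) ^ 2 = 1 := Subtype.ext (c.hV.2 v hv)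
          rintro ⟨_, k, rfl⟩
          refine ⟨1, Subtype.ext ?_⟩
          show ((⟨v, hvD⟩ : D) ^ k) ^ (2 ^ 1) = 1
          rw [pow_one, ← zpow_natCast, ← zpow_mul, mul_comm, zpow_mul, zpow_natCast, h5, one_zpow]
        have h5 : IsPGroup 2 ((zpowers (⟨v, hvD⟩ : D)) ⊔ (T : Subgroup D) : Subgroup D) := h4.to_sup_of_normal_right T.2
        have h6 := T.3 h5 le_sup_right
        rw [← h6]
        exact (le_sup_left (b := (T : Subgroup D))) (mem_zpowers _)
      exact ⟨_, H1.Cores.le_pCore hTn T.2 h3, rfl⟩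
    rw [c.pc_bot hDn, mem_bot] at h2
    rw [h2, map_one]
    exact one_mem _

theorem top_of {N : Subgroup G} (hN : N.Normal) (h1 : N ≠ ⊥) : N ⊔ V = ⊤ ∧ V ⊓ centralizer (N : Set G) = ⊥ := by
  have h2 : centralizer (N : Set G) ≠ ⊤ := by
    intro h2
    apply h1
    rw [eq_bot_iff, ← c.center_bot]
    intro n hn
    rw [mem_center_iff]
    intro g
    have h3 : g ∈ centralizer (N : Set G) := by rw [h2]; trivial
    exact (mem_centralizer_iff.1 h3 n hn).symm
  have h3 : V ⊓ centralizer (N : Set G) = ⊥ := by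
    by_contra h4
    exact h2 (c.lemmaP hN h4)
  refine ⟨?_, h3⟩
  by_contra h4
  exact c.lemmaB hN h4 h3

end MC

end H56.Sid
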