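import Cfsg.Agent.Lib.H56.Sid1
import Cfsg.Agent.Lib.H26.GenFitting

set_option autoImplicit false

/-! Minimal counterexamples to the Sidki pair statement: the Fitting subgroup is trivial and the layer is simple. -/

namespace H56.Sid

open Subgroup Cfsg H26.LocalFitting H52.PRes H26.Components
open scoped commutatorElement Pointwise

universe u

variable {G : Type u} [Group G] [Finite G]

theorem inf_centralizer_of_bot_fitting (hF : fittingSubgroup G = ⊥) {K : Subgroup G} (hK : IsComponent K) :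
    K ⊓ centralizer (K : Set G) = ⊥ := by
  rw [← le_bot_iff, ← hF]
  exact (H26.GenFitting.component_centre_le_layer_centre hK).trans H26.GenFitting.centre_layer_le_fitting

theorem exists_ne {H : Subgroup G} (h : H ≠ ⊥) : ∃ x ∈ H, x ≠ 1 := by
  by_contra hcon
  push Not at hcon
  apply h
  rw [eq_bot_iff]
  intro x hx
  exact mem_bot.2 (hcon x hx)

theorem odd_of_pc_bot {N : Subgroup G} (hab : ∀ a ∈ N, ∀ b ∈ N, a * b = b * a) (hN : pc 2 N = ⊥) {h : G}
    (hh : h ∈ N) : Odd (orderOf h) := by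
  rw [← Nat.not_even_iff_odd]
  rintro ⟨k, hk⟩
  have ho : 0 < orderOf h := orderOf_pos h
  have h1 : h ^ k ∈ pc 2 N := by
    have h2 : zpowers (h ^ k) ≤ N := by rw [zpowers_le]; exact pow_mem hh k
    have h3 : N ≤ normalizer ((zpowers (h ^ k) : Subgroup G) : Set G) := by
      intro n hn
      apply mem_norm_of_conj
      intro a ha
      have h4 : n * a * n⁻¹ = a := by rw [hab n hn a (h2 ha)]; group
      rw [h4]; exact ha
    have h5 : IsPGroup 2 (zpowers (h ^ k)) := by
      rintro ⟨_, j, rfl⟩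
      refine ⟨1, Subtype.ext ?_⟩
      show ((h ^ k) ^ j) ^ (2 ^ 1) = 1
      rw [pow_one, ← zpow_natCast, ← zpow_mul, mul_comm, zpow_mul, zpow_natCast, ← pow_mul, mul_two, ← hk,
        pow_orderOf_eq_one, one_zpow]
    exact le_pc h2 h3 h5 (mem_zpowers _)
  rw [hN, mem_bot] at h1
  have h2 := Nat.le_of_dvd (by omega) (orderOf_dvd_of_pow_eq_one h1)
  omega

namespace MC

variable {V : Subgroup G} (c : MC V)
include c

theorem norm_of_le {N M : Subgroup G} (htop : N ⊔ V = ⊤) (h1 : N ≤ normalizer (M : Set G))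
    (h2 : V ≤ normalizer (M : Set G)) : M.Normal := by
  rw [← Subgroup.normalizer_eq_top_iff, eq_top_iff, ← htop]
  exact sup_le h1 h2

theorem fitting_bot : fittingSubgroup G = ⊥ := by
  by_contra hne
  have hFn : Group.IsNilpotent (fittingSubgroup G) := H1.Cores.isNilpotent_fittingSubgroup
  have hFnt : Nontrivial (fittingSubgroup G) := (Subgroup.nontrivial_iff_ne_bot _).2 hne
  set N := (center (fittingSubgroup G)).map (fittingSubgroup G).subtype with hNdef
  have hN : N.Normal := inferInstance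
  have hN1 : N ≠ ⊥ := by
    intro h
    rw [hNdef, Subgroup.map_eq_bot_iff_of_injective _ (Subgroup.subtype_injective _)] at h
    exact Group.IsNilpotent.center_ne_bot _ h
  have hab : ∀ a ∈ N, ∀ b ∈ N, a * b = b * a := by
    rintro _ ⟨a, ha, rfl⟩ _ ⟨b, hb, rfl⟩
    exact congrArg Subtype.val (mem_center_iff.1 hb a)
  obtain ⟨htop, hCN⟩ := c.top_of hN hN1
  have hodd : ∀ h ∈ N, Odd (orderOf h) := fun h hh => odd_of_pc_bot hab (c.pc_bot hN) hh
  have hinv : ∀ v ∈ V, v ≠ 1 → ∀ h ∈ N, v * h * v⁻¹ = h⁻¹ := by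
    intro v hv hv1
    let M : Subgroup G :=
      { carrier := {h | h ∈ N ∧ v * h * v⁻¹ = h⁻¹}
        one_mem' := ⟨one_mem _, by group⟩
        mul_mem' := by
          rintro a b ⟨ha, ha2⟩ ⟨hb, hb2⟩
          refine ⟨mul_mem ha hb, ?_⟩
          calc v * (a * b) * v⁻¹ = (v * a * v⁻¹) * (v * b * v⁻¹) := by group
            _ = a⁻¹ * b⁻¹ := by rw [ha2, hb2]
            _ = b⁻¹ * a⁻¹ := hab _ (inv_mem ha) _ (inv_mem hb)
            _ = (a * b)⁻¹ := by group
        inv_mem' := by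
          rintro a ⟨ha, ha2⟩
          refine ⟨inv_mem ha, ?_⟩
          calc v * a⁻¹ * v⁻¹ = (v * a * v⁻¹)⁻¹ := by group
            _ = (a⁻¹)⁻¹ := by rw [ha2] }
    have hMN : M ≤ N := fun h hh => hh.1
    have hMn : M.Normal := by
      apply c.norm_of_le htop
      · intro n hn
        apply mem_norm_of_conj
        intro a ha
        have h4 : n * a * n⁻¹ = a := by rw [hab n hn a (hMN ha)]; group
        rw [h4]; exact ha
      · intro u hu
        apply mem_norm_of_conj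
        rintro a ⟨ha, ha2⟩
        refine ⟨hN.conj_mem a ha u, ?_⟩
        calc v * (u * a * u⁻¹) * v⁻¹ = (v * u) * a * (v * u)⁻¹ := by group
          _ = (u * v) * a * (u * v)⁻¹ := by rw [c.comm hv hu]
          _ = u * (v * a * v⁻¹) * u⁻¹ := by group
          _ = (u * a * u⁻¹)⁻¹ := by rw [ha2]; group
    have hM1 : M ≠ ⊥ := by
      intro hM
      apply hv1
      have h2 : v ∈ V ⊓ centralizer (N : Set G) := by
        refine mem_inf.2 ⟨hv, ?_⟩
        rw [mem_centralizer_iff]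
        intro n hn
        have h3 : n * (v * n⁻¹ * v⁻¹) ∈ M := by
          refine ⟨mul_mem hn (hN.conj_mem _ (inv_mem hn) v), ?_⟩
          have h4 := c.inv_eq hv
          have h5 := c.sq hv
          calc v * (n * (v * n⁻¹ * v⁻¹)) * v⁻¹ = (v * n * v⁻¹) * ((v * v) * n⁻¹ * (v * v)⁻¹) := by group
            _ = (v * n * v⁻¹) * n⁻¹ := by rw [h5]; group
            _ = (n * (v * n⁻¹ * v⁻¹))⁻¹ := by group
        rw [hM, mem_bot] at h3
        calc n * v = (n * (v * n⁻¹ * v⁻¹)) * (v * n) := by group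
          _ = v * n := by rw [h3, one_mul]
      rw [hCN, mem_bot] at h2
      exact h2
    obtain ⟨htop2, -⟩ := c.top_of hMn hM1
    intro h hh
    have h3 : h ∈ M ⊔ V := by rw [htop2]; trivial
    rw [← SetLike.mem_coe, Subgroup.normal_mul] at h3
    obtain ⟨m, hm, u, hu, hmu⟩ := Set.mem_mul.1 h3
    have h4 : u ∈ N := by
      have : u = m⁻¹ * h := by rw [← hmu]; group
      rw [this]; exact mul_mem (inv_mem (hMN hm)) hh
    have h5 : u = 1 := eq_one_of_odd_sq (hodd u h4) (c.sq hu)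
    have h6 : h = m := by rw [← hmu, h5, mul_one]
    rw [h6]
    exact hm.2
  obtain ⟨h, hh, hh1⟩ := exists_ne hN1
  obtain ⟨v, hv, hv1⟩ := exists_ne c.hV1
  obtain ⟨w, hw, hw1, hwh⟩ := c.sidki hv (hodd h hh) (hinv v hv hv1 h hh)
  apply hh1
  apply eq_one_of_odd_sq (hodd h hh)
  have h5 := hinv w hw hw1 h hh
  rw [hwh] at h5
  have h6 : h⁻¹ = h := by rw [← h5]; group
  calc h * h = h * h⁻¹ := by rw [h6]
    _ = 1 := mul_inv_cancel h

/-- Step 3: the components. -/
theorem inf_centralizer_component {K : Subgroup G} (hK : IsComponent K) : V ⊓ centralizer (K : Set G) = ⊥ := by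
  have hE : layer G ≠ ⊥ := fun h => layer_eq_bot_iff.1 h K hK
  obtain ⟨htop, -⟩ := c.top_of (N := layer G) inferInstance hE
  rw [eq_bot_iff]
  intro u hu
  obtain ⟨huV, huC⟩ := mem_inf.1 hu
  have h1 : normalClosure (K : Set G) ≤ centralizer ({u} : Set G) := by
    rw [normalClosure, closure_le]
    intro x hx
    obtain ⟨k, hk, hkx⟩ := Group.mem_conjugatesOfSet_iff.1 hx
    obtain ⟨g, hg⟩ := isConj_iff.1 hkx
    have h3 : g⁻¹ ∈ layer G ⊔ V := by rw [htop]; trivial
    rw [← SetLike.mem_coe, Subgroup.normal_mul] at h3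
    obtain ⟨e, he, v, hv, hev⟩ := Set.mem_mul.1 h3
    have hg2 : g = v⁻¹ * e⁻¹ := by rw [← inv_inv g, ← hev]; group
    have hk2 : e⁻¹ * k * e⁻¹⁻¹ ∈ K :=
      (mem_normalizer_iff.1 (layer_le_normalizer hK (inv_mem he)) k).1 hk
    have hk3 := mem_centralizer_iff.1 huC _ hk2
    have hv2 : v⁻¹ * u = u * v⁻¹ := c.comm (inv_mem hv) huV
    show x ∈ centralizer ({u} : Set G)
    rw [mem_centralizer_singleton_iff, ← hg, hg2]
    calc v⁻¹ * e⁻¹ * k * (v⁻¹ * e⁻¹)⁻¹ * u = v⁻¹ * (e⁻¹ * k * e⁻¹⁻¹) * (v * u) := by group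
      _ = v⁻¹ * (e⁻¹ * k * e⁻¹⁻¹) * (u * v) := by rw [c.comm hv huV]
      _ = v⁻¹ * ((e⁻¹ * k * e⁻¹⁻¹) * u) * v := by group
      _ = v⁻¹ * (u * (e⁻¹ * k * e⁻¹⁻¹)) * v := by rw [hk3]
      _ = (v⁻¹ * u) * (e⁻¹ * k * e⁻¹⁻¹) * v := by group
      _ = (u * v⁻¹) * (e⁻¹ * k * e⁻¹⁻¹) * v := by rw [hv2]
      _ = u * (v⁻¹ * e⁻¹ * k * (v⁻¹ * e⁻¹)⁻¹) := by group
  have h2 : normalClosure (K : Set G) ≠ ⊥ := by
    intro h
    apply ne_bot hK
    rw [eq_bot_iff, ← h]
    exact subset_normalClosure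
  have h3 := (c.top_of (N := normalClosure (K : Set G)) inferInstance h2).2
  rw [← h3]
  refine mem_inf.2 ⟨huV, ?_⟩
  rw [mem_centralizer_iff]
  intro x hx
  exact mem_centralizer_singleton_iff.1 (h1 hx)

theorem pc_component {K : Subgroup G} (hK : IsComponent K) : pc 2 K = ⊥ := by
  have hz := inf_centralizer_of_bot_fitting c.fitting_bot hK
  have h1 : (pc 2 K).IsSubnormal := by
    have h2 : ((pCore 2 K).map K.subtype).IsSubnormal := by
      rw [H26.Subnormal.map_subtype_iff hK.1]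
      exact Subgroup.Normal.isSubnormal inferInstance
    exact h2
  have hf := (isPGroup_pc 2 K)
  have hf2 : Fact (Nat.Prime 2) := ⟨Nat.prime_two⟩
  have h3 : Group.IsNilpotent (pc 2 K) := hf.isNilpotent
  have h4 := commutator_eq_bot_of_isSolvable_subnormal hK (inferInstance : Group.IsSolvable (pc 2 K)) h1
  rw [eq_bot_iff, ← hz]
  refine le_inf (pc_le 2 K) ?_
  rw [← Subgroup.commutator_eq_bot_iff_le_centralizer, Subgroup.commutator_comm]
  exact h4

/-- Conjugates of a component commute. -/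
theorem comm_conj {K : Subgroup G} (hK : IsComponent K) {a b : G} (h : a⁻¹ * b ∉ normalizer (K : Set G)) {x y : G}
    (hx : x ∈ K) (hy : y ∈ K) : (a * x * a⁻¹) * (b * y * b⁻¹) = (b * y * b⁻¹) * (a * x * a⁻¹) := by
  have h1 : IsComponent (K.map (MulAut.conj a).toMonoidHom) := (map_conj_iff a).2 hK
  have h2 : IsComponent (K.map (MulAut.conj b).toMonoidHom) := (map_conj_iff b).2 hK
  have hne : K.map (MulAut.conj a).toMonoidHom ≠ K.map (MulAut.conj b).toMonoidHom := by
    intro he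
    apply h
    apply mem_norm_of_conj
    intro k hk
    have h3 : b * k * b⁻¹ ∈ K.map (MulAut.conj a).toMonoidHom := by rw [he]; exact ⟨k, hk, rfl⟩
    obtain ⟨k', hk', hkk⟩ := h3
    have h4 : a * k' * a⁻¹ = b * k * b⁻¹ := hkk
    have h5 : a⁻¹ * b * k * (a⁻¹ * b)⁻¹ = k' := by
      calc a⁻¹ * b * k * (a⁻¹ * b)⁻¹ = a⁻¹ * (b * k * b⁻¹) * a := by group
        _ = a⁻¹ * (a * k' * a⁻¹) * a := by rw [h4]
        _ = k' := by group
    rw [h5]; exact hk'
  have h3 := commutator_eq_bot_of_ne h1 h2 hne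
  exact H26.Basic.commute_of_commutator_eq_bot h3 ⟨x, hx, rfl⟩ ⟨y, hy, rfl⟩

theorem one_of_comm {K : Subgroup G} (hK : IsComponent K) {x : G} (hx : x ∈ K) (h : ∀ y ∈ K, y * x = x * y) :
    x = 1 := by
  have h1 : x ∈ K ⊓ centralizer (K : Set G) := mem_inf.2 ⟨hx, mem_centralizer_iff.2 h⟩
  rw [inf_centralizer_of_bot_fitting c.fitting_bot hK, mem_bot] at h1
  exact h1

/-- An element of V commuting with a nontrivial element of K normalizes K. -/
theorem mem_norm_of_comm {K : Subgroup G} (hK : IsComponent K) {x u : G} (hx : x ∈ K) (hx1 : x ≠ 1)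
    (hu : u * x = x * u) : u ∈ normalizer (K : Set G) := by
  by_contra hcon
  apply hx1
  apply c.one_of_comm hK hx
  intro y hy
  have h1 := c.comm_conj hK (a := 1) (b := u) (by rwa [inv_one, one_mul]) hy hx
  have h2 : u * x * u⁻¹ = x := by rw [hu]; group
  rw [h2] at h1
  simpa using h1

theorem exists_odd {K : Subgroup G} (hK : IsComponent K) : ∃ x ∈ K, x ≠ 1 ∧ Odd (orderOf x) := by
  by_contra hcon
  push Not at hcon
  have h1 : IsPGroup 2 K := by
    intro ⟨x, hx⟩
    obtain ⟨k, m, hm, hk⟩ := Nat.exists_eq_two_pow_mul_odd (orderOf_pos x).ne'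
    refine ⟨k, Subtype.ext ?_⟩
    show x ^ 2 ^ k = 1
    by_contra hne
    apply hcon (x ^ 2 ^ k) (pow_mem hx _) hne
    rw [orderOf_pow_of_dvd (by positivity) (by rw [hk]; exact dvd_mul_right _ _), hk, Nat.mul_div_cancel_left _ (by positivity)]
    exact hm
  have hf2 : Fact (Nat.Prime 2) := ⟨Nat.prime_two⟩
  have h3 : Group.IsNilpotent K := h1.isNilpotent
  exact not_isSolvable_of_le hK le_rfl inferInstance

theorem le_norm {K : Subgroup G} (hK : IsComponent K) : V ≤ normalizer (K : Set G) := by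
  by_contra hcon
  set V0 := V ⊓ normalizer (K : Set G) with hV0
  have hCK := c.inf_centralizer_component hK
  -- Step 1
  have h0 : V0 = ⊥ := by
    by_contra hV0ne
    have hHle : K ⊔ V0 ≤ normalizer (K : Set G) := sup_le le_normalizer inf_le_right
    have hHne : K ⊔ V0 ≠ ⊤ := by
      intro h
      apply hcon
      rw [h, top_le_iff] at hHle
      rw [hHle]; exact le_top
    obtain ⟨w, hw, h, hh, ho, hi, hu⟩ := c.exists_inv hHne (W := V0) le_sup_right inf_le_left hV0ne (by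
      intro w hw hwc
      have h1 : w ∈ V ⊓ centralizer (K : Set G) := mem_inf.2 ⟨(mem_inf.1 hw).1,
        comm_of_core le_sup_left hHle (c.pc_component hK) hwc⟩
      rw [hCK, mem_bot] at h1
      exact h1)
    have hhK : h ∈ K := by
      have h1 : h ∈ V0 ⊔ K := by rw [sup_comm]; exact hh
      have h2 : ((V0 ⊔ K : Subgroup G) : Set G) = (V0 : Set G) * (K : Set G) :=
        Subgroup.coe_mul_of_left_le_normalizer_right V0 K inf_le_right
      rw [← SetLike.mem_coe, h2] at h1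
      obtain ⟨u, hu0, k, hk, huk⟩ := Set.mem_mul.1 h1
      have hu1 := mem_inf.1 hu0
      have h3 : h ^ 2 ∈ K := by
        have h4 : h ^ 2 = (u * k * u⁻¹) * k := by
          have h5 := c.inv_eq hu1.1
          have h6 := c.sq hu1.1
          rw [pow_two, ← huk]
          calc u * k * (u * k) = u * k * u⁻¹ * ((u * u) * k) := by group
            _ = (u * k * u⁻¹) * k := by rw [h6, one_mul]
        rw [h4]
        exact mul_mem ((mem_normalizer_iff.1 hu1.2 k).1 hk) hk
      obtain ⟨m, hm⟩ := ho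
      have h7 : h = (h ^ 2) ^ (m + 1) := by
        rw [← pow_mul]
        have : 2 * (m + 1) = orderOf h + 1 := by omega
        rw [this, pow_succ, pow_orderOf_eq_one, one_mul]
      rw [h7]; exact pow_mem h3 _
    by_cases h1 : h = 1
    · obtain ⟨u, huV, hu1⟩ := exists_ne hV0ne
      exact hu1 (hu u huV (by rw [h1]; simp))
    obtain ⟨u, huV, hu1, huh⟩ := c.sidki (mem_inf.1 hw).1 ho hi
    have h2 := c.mem_norm_of_comm hK hhK h1 huh
    exact hu1 (hu u (mem_inf.2 ⟨huV, h2⟩) huh)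
  -- Step 2
  have hV0' : ∀ v ∈ V, v ≠ 1 → v ∉ normalizer (K : Set G) := by
    intro v hv hv1 hvn
    apply hv1
    have : v ∈ V0 := mem_inf.2 ⟨hv, hvn⟩
    rwa [h0, mem_bot] at this
  obtain ⟨v, hv, hv1⟩ := exists_ne c.hV1
  obtain ⟨x, hx, hx1, hxo⟩ := c.exists_odd hK
  have hvi := c.inv_eq hv
  have hvs := c.sq hv
  have hcom : x * (v * x⁻¹ * v⁻¹) = (v * x⁻¹ * v⁻¹) * x := by
    have := c.comm_conj hK (a := 1) (b := v) (by rw [inv_one, one_mul]; exact hV0' v hv hv1) hx (inv_mem hx)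
    simpa using this
  have hcom2 : Commute x (v * x⁻¹ * v⁻¹) := hcom
  set h := x * (v * x⁻¹ * v⁻¹) with hdef
  have hodd : Odd (orderOf h) := by
    have h1 : orderOf (v * x⁻¹ * v⁻¹) = orderOf x := by
      have h2 : v * x⁻¹ * v⁻¹ = MulAut.conj v x⁻¹ := rfl
      rw [h2, MulEquiv.orderOf_eq, orderOf_inv]
    have h2 := hcom2.orderOf_mul_dvd_lcm
    rw [h1, Nat.lcm_self] at h2
    exact hxo.of_dvd_nat h2
  have hinv : v * h * v⁻¹ = h⁻¹ := by
    calc v * h * v⁻¹ = (v * x * v⁻¹) * ((v * v) * x⁻¹ * (v * v)⁻¹) := by rw [hdef]; group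
      _ = (v * x * v⁻¹) * x⁻¹ := by rw [hvs]; group
      _ = h⁻¹ := by rw [hdef]; group
  obtain ⟨u, hu, hu1, huh⟩ := c.sidki hv hodd hinv
  have hxv : ∀ y ∈ K, y * (v * x⁻¹ * v⁻¹) = (v * x⁻¹ * v⁻¹) * y := by
    intro y hy
    have := c.comm_conj hK (a := 1) (b := v) (by rw [inv_one, one_mul]; exact hV0' v hv hv1) hy (inv_mem hx)
    simpa using this
  by_cases huv : u = v
  · rw [huv] at huh
    have h1 : h = 1 := by
      apply eq_one_of_odd_sq hodd
      have h5 : h⁻¹ = h := by rw [← hinv, huh]; group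
      calc h * h = h * h⁻¹ := by rw [h5]
        _ = 1 := mul_inv_cancel h
    apply hx1
    apply c.one_of_comm hK hx
    intro y hy
    have h2 : v * x⁻¹ * v⁻¹ = x⁻¹ := by
      calc v * x⁻¹ * v⁻¹ = x⁻¹ * h := by rw [hdef]; group
        _ = x⁻¹ := by rw [h1, mul_one]
    have h3 := hxv y hy
    rw [h2] at h3
    calc y * x = x * (x⁻¹ * y) * x := by group
      _ = x * (y * x⁻¹) * x := by rw [h3]
      _ = x * y := by group
  · apply hx1
    apply c.one_of_comm hK hx
    intro y hy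
    -- y commutes with u h u⁻¹ = h
    have h1 : y * (u * x * u⁻¹) = (u * x * u⁻¹) * y := by
      have := c.comm_conj hK (a := 1) (b := u) (by rw [inv_one, one_mul]; exact hV0' u hu hu1) hy hx
      simpa using this
    have h2 : y * (u * v * x⁻¹ * (u * v)⁻¹) = (u * v * x⁻¹ * (u * v)⁻¹) * y := by
      have huv1 : u * v ≠ 1 := by
        intro h3
        apply huv
        rw [← hvi]
        exact eq_inv_of_mul_eq_one_left h3
      have := c.comm_conj hK (a := 1) (b := u * v)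
        (by rw [inv_one, one_mul]; exact hV0' (u * v) (mul_mem hu hv) huv1) hy (inv_mem hx)
      simpa using this
    have h3 : h = (u * x * u⁻¹) * (u * v * x⁻¹ * (u * v)⁻¹) := by
      calc h = u * h * u⁻¹ := by rw [huh]; group
        _ = (u * x * u⁻¹) * (u * v * x⁻¹ * (u * v)⁻¹) := by rw [hdef]; group
    have h4 : y * h = h * y := by
      rw [h3]
      calc y * ((u * x * u⁻¹) * (u * v * x⁻¹ * (u * v)⁻¹)) = (y * (u * x * u⁻¹)) * (u * v * x⁻¹ * (u * v)⁻¹) := by group
        _ = (u * x * u⁻¹) * (y * (u * v * x⁻¹ * (u * v)⁻¹)) := by rw [h1]; group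
        _ = (u * x * u⁻¹) * (u * v * x⁻¹ * (u * v)⁻¹) * y := by rw [h2]; group
    have h5 := hxv y hy
    have h6 : x = h * (v * x⁻¹ * v⁻¹)⁻¹ := by rw [hdef]; group
    calc y * x = y * (h * (v * x⁻¹ * v⁻¹)⁻¹) := by rw [← h6]
      _ = (y * h) * (v * x⁻¹ * v⁻¹)⁻¹ := by group
      _ = h * (y * (v * x⁻¹ * v⁻¹)⁻¹) := by rw [h4]; group
      _ = h * ((v * x⁻¹ * v⁻¹)⁻¹ * ((v * x⁻¹ * v⁻¹) * y) * (v * x⁻¹ * v⁻¹)⁻¹) := by group
      _ = h * ((v * x⁻¹ * v⁻¹)⁻¹ * (y * (v * x⁻¹ * v⁻¹)) * (v * x⁻¹ * v⁻¹)⁻¹) := by rw [h5]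
      _ = (h * (v * x⁻¹ * v⁻¹)⁻¹) * y := by group
      _ = x * y := by rw [← h6]

theorem main : IsSimpleGroup ↥(generalizedFittingSubgroup G) ∧ ¬ IsMulCommutative ↥(generalizedFittingSubgroup G) ∧
    V ⊔ generalizedFittingSubgroup G = ⊤ := by
  have hF := c.fitting_bot
  have hne : layer G ≠ ⊥ := by
    intro hE
    have h1 : generalizedFittingSubgroup G = ⊥ := by
      rw [generalizedFittingSubgroup, hE, hF, sup_bot_eq]
    have h2 := centralizer_gFitting_le (G := G)
    rw [h1] at h2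
    apply c.hV1
    rw [eq_bot_iff]
    refine le_trans ?_ h2
    intro v hv
    rw [mem_centralizer_iff]
    intro x hx
    have : x = 1 := hx
    rw [this]; simp
  have hex : ∃ K : Subgroup G, IsComponent K := by
    by_contra hcon
    push Not at hcon
    exact hne (layer_eq_bot_iff.2 hcon)
  obtain ⟨K, hK⟩ := hex
  have hEtop := (c.top_of (N := layer G) inferInstance hne).1
  have hKn : K.Normal := c.norm_of_le hEtop (layer_le_normalizer hK) (c.le_norm hK)
  have hKtop := (c.top_of hKn (ne_bot hK)).1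
  have hEK : layer G = K := by
    apply le_antisymm _ (le_layer hK)
    rw [← commutator_layer_self]
    refine le_trans (Subgroup.commutator_mono le_top le_top) ?_
    rw [Subgroup.commutator_le]
    intro a _ b _
    have hab : ∀ g : G, ∃ k ∈ K, ∃ v ∈ V, g = k * v := by
      intro g
      have h3 : g ∈ K ⊔ V := by rw [hKtop]; trivial
      rw [← SetLike.mem_coe, Subgroup.normal_mul] at h3
      obtain ⟨k, hk, v, hv, hkv⟩ := Set.mem_mul.1 h3
      exact ⟨k, hk, v, hv, hkv.symm⟩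
    obtain ⟨k, hk, v, hv, rfl⟩ := hab a
    obtain ⟨l, hl, w, hw, rfl⟩ := hab b
    rw [← QuotientGroup.eq_one_iff]
    have hk1 : (k : G ⧸ K) = 1 := (QuotientGroup.eq_one_iff k).2 hk
    have hl1 : (l : G ⧸ K) = 1 := (QuotientGroup.eq_one_iff l).2 hl
    rw [commutatorElement_def]
    simp only [QuotientGroup.mk_mul, QuotientGroup.mk_inv]
    rw [hk1, hl1]
    have h4 : (v : G ⧸ K) * w = w * v := by
      rw [← QuotientGroup.mk_mul, ← QuotientGroup.mk_mul, c.comm hv hw]
    calc 1 * (v : G ⧸ K) * (1 * (w : G ⧸ K)) * (1 * (v : G ⧸ K))⁻¹ * (1 * (w : G ⧸ K))⁻¹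
        = ((v : G ⧸ K) * w) * (v : G ⧸ K)⁻¹ * (w : G ⧸ K)⁻¹ := by group
      _ = 1 := by rw [h4]; group
  have hgF : generalizedFittingSubgroup G = K := by
    rw [generalizedFittingSubgroup, hF, sup_bot_eq, hEK]
  rw [hgF]
  refine ⟨?_, ?_, by rw [sup_comm]; exact hKtop⟩
  · have h1 : center K = ⊥ := by
      rw [eq_bot_iff]
      intro x hx
      apply mem_bot.2
      apply Subtype.ext
      apply c.one_of_comm hK x.2
      intro y hy
      exact congrArg Subtype.val (mem_center_iff.1 hx ⟨y, hy⟩)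
    have h2 : IsSimpleGroup (K ⧸ center K) := hK.2.2
    have e : (K ⧸ center K) ≃* K := (QuotientGroup.quotientMulEquivOfEq h1).trans QuotientGroup.quotientBot
    exact (MulEquiv.isSimpleGroup_congr e).1 h2
  · intro h
    apply not_commutative hK
    exact Subgroup.commutator_self_eq_bot_iff.mpr h

end MC

end H56.Sid
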