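import Mathlib
import Cfsg.Prelude.Def_SylowChains
import Cfsg.Agent.Lib.H28.Cj
import Cfsg.Agent.Lib.H28.RelSyl
import Cfsg.Agent.Lib.H56.SPE

/-! the Sylow graph is disconnected iff there is a (classically) strongly `p`-embedded subgroup -/

set_option autoImplicit false

namespace H56.SylGraph

open Subgroup H28.Cj H28.RelSyl H56.SPE
open scoped Pointwise

variable {G : Type*} [Group G]

/-- adjacency in the Sylow graph -/
def Adj (p : ℕ) (S T : Sylow p G) : Prop := S ≠ T ∧ (S : Subgroup G) ⊓ (T : Subgroup G) ≠ ⊥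

theorem exists_chain {α : Type*} {r : α → α → Prop} {a b : α} (h : Relation.ReflTransGen r a b) :
    ∃ (n : ℕ) (c : Fin (n + 1) → α), c 0 = a ∧ c (Fin.last n) = b ∧
      ∀ i : Fin n, r (c i.castSucc) (c i.succ) := by
  induction h with
  | refl => exact ⟨0, fun _ => a, rfl, rfl, fun i => i.elim0⟩
  | tail hab hbc ih =>
    rename_i b c
    obtain ⟨n, f, h0, h1, h2⟩ := ih
    refine ⟨n + 1, Fin.snoc (α := fun _ => α) f c, ?_, ?_, ?_⟩
    · have : (0 : Fin (n + 2)) = Fin.castSucc 0 := rfl
      rw [this, Fin.snoc_castSucc, h0]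
    · rw [Fin.snoc_last]
    · intro i
      refine Fin.lastCases ?_ (fun j => ?_) i
      · rw [Fin.snoc_castSucc, Fin.succ_last, Fin.snoc_last, h1]
        exact hbc
      · rw [Fin.snoc_castSucc, Fin.succ_castSucc, Fin.snoc_castSucc]
        exact h2 j

theorem coe_smul_sylow {p : ℕ} (g : G) (S : Sylow p G) :
    ((g • S : Sylow p G) : Subgroup G) = cj g (S : Subgroup G) := rfl

theorem adj_smul {p : ℕ} {S T : Sylow p G} (g : G) (h : Adj p S T) : Adj p (g • S) (g • T) := by
  refine ⟨fun h1 => h.1 ((smul_left_cancel_iff g).mp h1), ?_⟩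
  rw [coe_smul_sylow, coe_smul_sylow, ← cj_inf, Ne, cj_eq_bot]
  exact h.2

theorem rtg_smul {p : ℕ} {S T : Sylow p G} (g : G) (h : Relation.ReflTransGen (Adj p) S T) :
    Relation.ReflTransGen (Adj p) (g • S) (g • T) := by
  induction h with
  | refl => exact Relation.ReflTransGen.refl
  | tail _ hbc ih => exact ih.tail (adj_smul g hbc)

theorem rtg_symm {p : ℕ} {S T : Sylow p G} (h : Relation.ReflTransGen (Adj p) S T) :
    Relation.ReflTransGen (Adj p) T S := by
  induction h with
  | refl => exact Relation.ReflTransGen.refl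
  | tail _ hbc ih =>
    exact Relation.ReflTransGen.head ⟨hbc.1.symm, by rw [inf_comm]; exact hbc.2⟩ ih

theorem rtg_of_inf {p : ℕ} {S T : Sylow p G} (h : (S : Subgroup G) ⊓ (T : Subgroup G) ≠ ⊥) :
    Relation.ReflTransGen (Adj p) S T := by
  by_cases hST : S = T
  · rw [hST]
  · exact Relation.ReflTransGen.single ⟨hST, h⟩

/-- the stabilizer of the connected component of `S` -/
def comp (p : ℕ) (S : Sylow p G) : Subgroup G where
  carrier := {g | Relation.ReflTransGen (Adj p) S (g • S)}
  one_mem' := by simp only [Set.mem_setOf_eq, one_smul]; exact Relation.ReflTransGen.refl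
  mul_mem' := by
    intro g h hg hh
    simp only [Set.mem_setOf_eq] at *
    rw [mul_smul]
    exact hg.trans (rtg_smul g hh)
  inv_mem' := by
    intro g hg
    simp only [Set.mem_setOf_eq] at *
    have := rtg_smul g⁻¹ hg
    rw [inv_smul_smul] at this
    exact rtg_symm this

theorem mem_comp {p : ℕ} {S : Sylow p G} {g : G} :
    g ∈ comp p S ↔ Relation.ReflTransGen (Adj p) S (g • S) := Iff.rfl

theorem exists_cspe_of_not_connected [Finite G] (p : ℕ) [hp : Fact p.Prime]
    (h : ¬ Cfsg.IsSylowChainConnected p G) : ∃ H : Subgroup G, CSPE p H := by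
  unfold Cfsg.IsSylowChainConnected at h
  push Not at h
  obtain ⟨S, T, hST⟩ := h
  have hne : S ≠ T := by
    rintro rfl
    exact absurd (hST 0 (fun _ => S) rfl rfl (fun _ => inf_le_left)) (by
      rintro ⟨i, -⟩; exact i.elim0)
  have hinf : (S : Subgroup G) ⊓ (T : Subgroup G) = ⊥ := by
    by_contra hcon
    obtain ⟨i, hi⟩ := hST 1 ![S, T] rfl rfl (by
      intro i
      fin_cases i
      · exact inf_le_left
      · exact inf_le_right)
    have hi0 : i = 0 := Subsingleton.elim _ _
    subst hi0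
    exact hcon (hi hne)
  have hrt : ¬ Relation.ReflTransGen (Adj p) S T := by
    intro hr
    obtain ⟨n, c, h0, h1, h2⟩ := exists_chain hr
    obtain ⟨i, hi⟩ := hST n c h0 h1 (fun i => by rw [hinf]; exact bot_le)
    exact (h2 i).2 (hi (h2 i).1)
  have hS1 : (S : Subgroup G) ≠ ⊥ := by
    intro hS
    apply hne
    have hc : Nat.card (S : Subgroup G) = Nat.card (T : Subgroup G) :=
      (isSyl_top S).card_eq_card (isSyl_top T)
    rw [hS, card_bot] at hc
    have hT : (T : Subgroup G) = ⊥ := card_eq_one.mp hc.symm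
    exact Sylow.ext (by rw [hS, hT])
  have hSH : (S : Subgroup G) ≤ comp p S := by
    intro g hg
    rw [mem_comp]
    have : g • S = S := Sylow.smul_eq_iff_mem_normalizer.mpr (le_normalizer hg)
    rw [this]
  refine ⟨comp p S, ?_, ?_, ?_⟩
  · intro htop
    obtain ⟨g, hg⟩ := MulAction.exists_smul_eq G S T
    have : g ∈ comp p S := by rw [htop]; exact mem_top g
    rw [mem_comp, hg] at this
    exact hrt this
  · exact (dvd_card_of_ne_bot S.2 hS1).trans (card_dvd_of_le hSH)
  · intro g hg hdvd
    apply hg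
    have hSyl : IsSyl p (S : Subgroup G) (comp p S) := (isSyl_top S).of_le_of_le hSH le_top
    obtain ⟨x, hx⟩ := exists_prime_orderOf_dvd_card' p hdvd
    have hxp : orderOf (x : G) = p := by rw [orderOf_submonoid]; exact hx
    have hQ : IsPGroup p (zpowers (x : G)) := by
      apply IsPGroup.of_card (n := 1)
      rw [Nat.card_zpowers, hxp, pow_one]
    have hQ1 : zpowers (x : G) ≠ ⊥ := by
      rw [Ne, zpowers_eq_bot]
      intro h1
      rw [h1, orderOf_one] at hxp
      exact hp.out.one_lt.ne hxp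
    have hx1 : zpowers (x : G) ≤ comp p S := by
      rw [zpowers_le]; exact x.2.1
    have hx2 : zpowers (x : G) ≤ cj g (comp p S) := by
      rw [zpowers_le]; exact x.2.2
    obtain ⟨a, ha, hQa⟩ := hSyl.exists_conj_ge hQ hx1
    obtain ⟨b, hb, hQb⟩ := (hSyl.cj g).exists_conj_ge hQ hx2
    obtain ⟨c, hc, rfl⟩ : ∃ c ∈ comp p S, b = g * c * g⁻¹ := by
      refine ⟨g⁻¹ * b * g, mem_cj.mp hb, by group⟩
    have hb2 : cj (g * c * g⁻¹) (cj g (S : Subgroup G)) = ((g * c) • S : Sylow p G) := by
      rw [coe_smul_sylow, cj_cj]; congr 1; group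
    rw [hb2] at hQb
    have h1 : Relation.ReflTransGen (Adj p) (a • S) ((g * c) • S) := by
      apply rtg_of_inf
      intro h0
      apply hQ1
      rw [eq_bot_iff, ← h0]
      exact le_inf hQa hQb
    rw [mem_comp]
    refine (mem_comp.mp ha).trans (h1.trans ?_)
    rw [mul_smul]
    exact rtg_smul g (rtg_symm (mem_comp.mp hc))

theorem not_connected_of_cspe [Finite G] (p : ℕ) [hp : Fact p.Prime] {H : Subgroup G}
    (h : CSPE p H) : ¬ Cfsg.IsSylowChainConnected p G := by
  intro hcon
  obtain ⟨P, hP, hP1⟩ := h.exists_sylow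
  obtain ⟨T, hT⟩ := h.exists_not_le
  obtain ⟨n, c, h0, h1, -, h3⟩ := hcon P T
  apply hT
  rw [← h1]
  have key : ∀ i : Fin (n + 1), ((c i : Sylow p G) : Subgroup G) ≤ H := by
    intro i
    induction i using Fin.induction with
    | zero => rw [h0]; exact hP
    | succ i ih =>
      apply h.le_of_inf_ne_bot (c i.succ).2
      intro h4
      apply (h3 i).2
      rw [eq_bot_iff, ← h4]
      exact le_inf inf_le_right (inf_le_left.trans ih)
  exact key _

end H56.SylGraph
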