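import Mathlib
import Cfsg.Prelude.Def_SylowChains
import Cfsg.Agent.Lib.H28.Cj
import Cfsg.Agent.Lib.H28.RelSyl
import Cfsg.Agent.Lib.H36.AlpGold
import Cfsg.Agent.Lib.H52.PRes
import Cfsg.Agent.Lib.H39.SFMin
import Cfsg.Agent.S3058

set_option autoImplicit false

/-! A strong form of the Alperin–Goldschmidt fusion theorem. -/

namespace H56.StrAlp

open Subgroup H28.Cj H28.RelSyl Cfsg

variable {G : Type*} [Group G]

/-- The conditions on one step. -/
def Good (p : ℕ) (P H X : Subgroup G) (x : G) : Prop :=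
  H ≤ P ∧ ¬ p ∣ (P ⊓ normalizer (H : Set G)).relIndex (normalizer (H : Set G)) ∧
  P ⊓ centralizer (H : Set G) ≤ H ∧
  (pPrimePCore p ↥(normalizer (H : Set G))).map (normalizer (H : Set G)).subtype = H ⊔ centralizer (H : Set G) ∧
  ¬ IsSylowChainConnected p (↥(normalizer (H : Set G)) ⧸ H.subgroupOf (normalizer (H : Set G))) ∧
  (H ≤ X ∧ X ≤ normalizer (H : Set G) ∧ (X.subgroupOf (normalizer (H : Set G))).Normal ∧ p ∣ H.relIndex X ∧
    ∀ Y : Subgroup G, H ≤ Y → Y ≤ normalizer (H : Set G) →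
      (Y.subgroupOf (normalizer (H : Set G))).Normal → p ∣ H.relIndex Y → X ≤ Y) ∧
  x ∈ (pResidual p ↥X).map X.subtype

/-- chains -/
def Chain (p : ℕ) (P : Subgroup G) : Subgroup G → List (Subgroup G × Subgroup G × G) → Prop
  | _, [] => True
  | A, h :: L => Good p P h.1 h.2.1 h.2.2 ∧ A ≤ h.1 ∧ Chain p P (cj h.2.2⁻¹ A) L

/-- the product of a list -/
def pr (L : List (Subgroup G × Subgroup G × G)) : G := (L.map fun h => h.2.2).prod

theorem pr_cons (h : Subgroup G × Subgroup G × G) (L : List (Subgroup G × Subgroup G × G)) :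
    pr (h :: L) = h.2.2 * pr L := by simp [pr]

theorem pr_append (L L' : List (Subgroup G × Subgroup G × G)) : pr (L ++ L') = pr L * pr L' := by simp [pr]

variable {p : ℕ} {P : Subgroup G}

theorem Chain.mono {A B : Subgroup G} (hBA : B ≤ A) {L : List (Subgroup G × Subgroup G × G)} (h : Chain p P A L) :
    Chain p P B L := by
  induction L generalizing A B with
  | nil => trivial
  | cons a L ih => exact ⟨h.1, hBA.trans h.2.1, ih (cj_le_cj.2 hBA) h.2.2⟩

theorem Chain.append {A : Subgroup G} {L L' : List (Subgroup G × Subgroup G × G)} (h : Chain p P A L)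
    (h' : Chain p P (cj (pr L)⁻¹ A) L') : Chain p P A (L ++ L') := by
  induction L generalizing A with
  | nil => simpa [pr] using h'
  | cons a L ih =>
    refine ⟨h.1, h.2.1, ih h.2.2 ?_⟩
    rwa [cj_cj, ← mul_inv_rev, ← pr_cons]

theorem Chain.get {A : Subgroup G} {L : List (Subgroup G × Subgroup G × G)} (h : Chain p P A L) :
    ∀ (i : ℕ) (hi : i < L.length), Good p P (L[i]).1 (L[i]).2.1 (L[i]).2.2 ∧
      cj (((L.map fun h => h.2.2).take i).prod)⁻¹ A ≤ (L[i]).1 := by
  induction L generalizing A with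
  | nil => intro i hi; simp at hi
  | cons a L ih =>
    intro i hi
    cases i with
    | zero => exact ⟨h.1, by simpa using h.2.1⟩
    | succ i =>
      have := ih h.2.2 i (by simpa using hi)
      refine ⟨by simpa using this.1, ?_⟩
      have h2 := this.2
      rw [cj_cj, ← mul_inv_rev] at h2
      simpa using h2

/-- `Q` is reached from `P` -/
def Reach (p : ℕ) (P A Q : Subgroup G) : Prop :=
  ∃ c ∈ centralizer (A : Set G), ∃ L, Chain p P A L ∧ Q = cj (c * pr L) P

theorem Reach.mono {A B Q : Subgroup G} (hBA : B ≤ A) (h : Reach p P A Q) : Reach p P B Q := by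
  obtain ⟨c, hc, L, hL, hQ⟩ := h
  exact ⟨c, centralizer_le hBA hc, L, hL.mono hBA, hQ⟩

theorem Reach.refl (A : Subgroup G) : Reach p P A P := ⟨1, one_mem _, [], trivial, by simp [pr]⟩

theorem reach_comp {A Q : Subgroup G} {c : G} (hc : c ∈ centralizer (A : Set G)) {L : List (Subgroup G × Subgroup G × G)}
    (hL : Chain p P A L) (h : Reach p P (cj (c * pr L)⁻¹ A) Q) : Reach p P A (cj (c * pr L) Q) := by
  have hcA : cj c⁻¹ A = A := cj_eq_self_of_mem_centralizer (inv_mem hc)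
  obtain ⟨c', hc', L', hL', rfl⟩ := h
  set w := c * pr L with hw
  have h1 : w * c' * w⁻¹ ∈ centralizer (A : Set G) := by
    have h2 : w * c' * w⁻¹ ∈ cj w (centralizer ((cj w⁻¹ A : Subgroup G) : Set G)) := conj_mem_cj.2 hc'
    rwa [cj_centralizer, cj_cj_inv] at h2
  refine ⟨w * c' * w⁻¹ * c, mul_mem h1 hc, L ++ L', hL.append ?_, ?_⟩
  · rw [hw, mul_inv_rev, ← cj_cj, hcA] at hL'
    exact hL'
  · rw [cj_cj, pr_append]
    congr 1
    rw [hw]; group

theorem centralizer_reach {A Q : Subgroup G} {c : G} (hc : c ∈ centralizer (A : Set G)) (h : Reach p P A Q) :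
    Reach p P A (cj c Q) := by
  obtain ⟨c', hc', L, hL, rfl⟩ := h
  exact ⟨c * c', mul_mem hc hc', L, hL, by rw [cj_cj, mul_assoc]⟩

theorem syl_cj {Q : Subgroup G} (hQ : IsSyl p Q ⊤) (g : G) : IsSyl p (cj g Q) ⊤ := by
  have := hQ.cj g
  rwa [cj_top] at this

variable [Finite G] [hp : Fact p.Prime]

/-- the induction hypothesis -/
def IH (p : ℕ) (P : Subgroup G) (n : ℕ) : Prop :=
  ∀ B : Subgroup G, B ≤ P → n < Nat.card B → ∀ Q, IsSyl p Q ⊤ → B ≤ Q → Reach p P B Q

omit [Finite G] hp in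
theorem bigger {A : Subgroup G} [Finite G] (ih : IH p P (Nat.card A)) {Q₁ Q : Subgroup G} (h1 : Reach p P A Q₁) (hQ : IsSyl p Q ⊤)
    (hA : A < Q₁ ⊓ Q) : Reach p P A Q := by
  obtain ⟨c, hc, L, hL, rfl⟩ := h1
  set w := c * pr L with hw
  have h2 : Reach p P (cj w⁻¹ (cj w P ⊓ Q)) (cj w⁻¹ Q) := by
    apply ih _ _ _ _ (syl_cj hQ _)
    · exact cj_le_cj.2 inf_le_right
    · rw [cj_le_iff, inv_inv]; exact inf_le_left
    · rw [card_cj]
      exact Set.ncard_lt_ncard (s := (A : Set G)) (t := ((cj w P ⊓ Q : Subgroup G) : Set G)) hA (Set.toFinite _)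
  have h3 := reach_comp hc hL (h2.mono (cj_le_cj.2 hA.le))
  rwa [cj_cj_inv] at h3

theorem reach_of_normal (hP : IsSyl p P ⊤) {U K D : Subgroup G} (ih : IH p P (Nat.card U))
    (hS : IsSyl p (P ⊓ normalizer (U : Set G)) (normalizer (U : Set G))) (hK : K ≤ normalizer (U : Set G))
    (hn : normalizer (U : Set G) ≤ normalizer (K : Set G)) (hdec : ∀ k ∈ K, ∃ c ∈ D, ∃ s ∈ P ⊓ K, k = c * s)
    (hlt : U < P ⊓ K) {n : G} (hnU : n ∈ normalizer (U : Set G)) :
    ∃ c ∈ D, ∃ m, n = c * m ∧ Reach p P U (cj m P) := by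
  have h1 : IsSyl p (P ⊓ K) K := by
    have := hS.inf_normal hn hK
    rwa [inf_assoc, inf_eq_right.2 hK] at this
  obtain ⟨k, hk, m, hm, rfl⟩ := h1.frattini hn hnU
  obtain ⟨c, hc, s, hs, rfl⟩ := hdec k hk
  refine ⟨c, hc, s * m, by group, ?_⟩
  have hsm : s * m ∈ normalizer ((P ⊓ K : Subgroup G) : Set G) := mul_mem (le_normalizer hs) hm
  have h2 : Reach p P (P ⊓ K) (cj (s * m) P) := by
    apply ih _ inf_le_left _ _ (syl_cj hP _)
    · rw [← mem_normalizer_iff_cj.1 hsm]
      exact cj_le_cj.2 inf_le_left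
    · exact Set.ncard_lt_ncard (s := (U : Set G)) (t := ((P ⊓ K : Subgroup G) : Set G)) hlt (Set.toFinite _)
  exact h2.mono hlt.le

/-- the set of normal overgroups of index divisible by `p` -/
def YY (p : ℕ) (U : Subgroup G) : Set (Subgroup G) :=
  {Y | U ≤ Y ∧ Y ≤ normalizer (U : Set G) ∧ (Y.subgroupOf (normalizer (U : Set G))).Normal ∧ p ∣ U.relIndex Y}

theorem YY_inf {U : Subgroup G} (hnc : ¬ IsSylowChainConnected p (↥(normalizer (U : Set G)) ⧸ U.subgroupOf (normalizer (U : Set G))))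
    {Y₁ Y₂ : Subgroup G} (h₁ : Y₁ ∈ YY p U) (h₂ : Y₂ ∈ YY p U) : Y₁ ⊓ Y₂ ∈ YY p U := by
  obtain ⟨a1, a2, a3, a4⟩ := h₁
  obtain ⟨b1, b2, b3, b4⟩ := h₂
  set N := normalizer (U : Set G) with hN
  have hcard : ∀ Y : Subgroup G, Y ≤ N →
      Nat.card ((Y.subgroupOf N).map (QuotientGroup.mk' (U.subgroupOf N))) = U.relIndex Y := by
    intro Y hY
    rw [← relIndex_ker, QuotientGroup.ker_mk', relIndex_subgroupOf hY]
  refine ⟨le_inf a1 b1, inf_le_left.trans a2, ?_, ?_⟩
  · have : (Y₁ ⊓ Y₂).subgroupOf N = Y₁.subgroupOf N ⊓ Y₂.subgroupOf N := rfl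
    rw [this]; infer_instance
  · rw [← hcard _ (inf_le_left.trans a2)]
    have e : ((Y₁ ⊓ Y₂).subgroupOf N).map (QuotientGroup.mk' (U.subgroupOf N)) =
        (Y₁.subgroupOf N).map (QuotientGroup.mk' (U.subgroupOf N)) ⊓ (Y₂.subgroupOf N).map (QuotientGroup.mk' (U.subgroupOf N)) := by
      apply le_antisymm
      · exact le_inf (map_mono (comap_mono inf_le_left)) (map_mono (comap_mono inf_le_right))
      · rintro _ ⟨⟨x, hx, rfl⟩, ⟨y, hy, hxy⟩⟩
        have h1 : x⁻¹ * y ∈ U.subgroupOf N := QuotientGroup.eq.1 hxy.symm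
        have h2 : y ∈ Y₁.subgroupOf N := by
          have : y = x * (x⁻¹ * y) := by group
          rw [this]
          exact mul_mem hx (comap_mono a1 h1)
        exact ⟨y, ⟨h2, hy⟩, hxy⟩
    rw [e]
    have i1 : ((Y₁.subgroupOf N).map (QuotientGroup.mk' (U.subgroupOf N))).Normal :=
      a3.map _ (QuotientGroup.mk'_surjective _)
    have i2 : ((Y₂.subgroupOf N).map (QuotientGroup.mk' (U.subgroupOf N))).Normal :=
      b3.map _ (QuotientGroup.mk'_surjective _)
    apply Cfsg.Agent.S3058.result p hnc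
    · rw [hcard _ a2]; exact a4
    · rw [hcard _ b2]; exact b4

theorem exists_X {U : Subgroup G} (hnc : ¬ IsSylowChainConnected p (↥(normalizer (U : Set G)) ⧸ U.subgroupOf (normalizer (U : Set G))))
    (hd : p ∣ U.relIndex (normalizer (U : Set G))) :
    ∃ X ∈ YY p U, ∀ Y ∈ YY p U, X ≤ Y := by
  obtain ⟨X, hX, hmin⟩ := wellFounded_lt.has_min (YY p U) ⟨normalizer (U : Set G), le_normalizer, le_rfl,
    by rw [subgroupOf_self]; infer_instance, hd⟩
  refine ⟨X, hX, fun Y hY => ?_⟩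
  have h1 := hmin _ (YY_inf hnc hX hY)
  by_contra hcon
  exact h1 (lt_of_le_of_ne inf_le_left fun h => hcon (inf_eq_left.1 h))

/-- the connected case -/
theorem reach_of_connected (hP : IsSyl p P ⊤) {U : Subgroup G} (hUP : U ≤ P) (ih : IH p P (Nat.card U))
    (hS : IsSyl p (P ⊓ normalizer (U : Set G)) (normalizer (U : Set G))) (hlt : U < P ⊓ normalizer (U : Set G))
    (hc : IsSylowChainConnected p (↥(normalizer (U : Set G)) ⧸ U.subgroupOf (normalizer (U : Set G))))
    {n : G} (hn : n ∈ normalizer (U : Set G)) : Reach p P U (cj n P) := by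
  classical
  set N := normalizer (U : Set G) with hN
  set f := QuotientGroup.mk' (U.subgroupOf N) with hf
  have hfs : Function.Surjective f := QuotientGroup.mk'_surjective _
  have hUp : IsPGroup p U := hP.isPGroup.to_le hUP
  have hUN : U ≤ N := le_normalizer
  -- Sylow subgroups of the quotient
  let S₀ : Sylow p ↥N := hS.toSylow
  have hS₀ : (S₀ : Subgroup ↥N) = (P ⊓ N).subgroupOf N := rfl
  set pre : Sylow p (↥N ⧸ U.subgroupOf N) → Subgroup G := fun T => ((T : Subgroup (↥N ⧸ U.subgroupOf N)).comap f).map N.subtype with hpre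
  have hpreU : ∀ T, U ≤ pre T := by
    intro T u hu
    refine ⟨⟨u, hUN hu⟩, ?_, rfl⟩
    have : f ⟨u, hUN hu⟩ = 1 := (QuotientGroup.eq_one_iff _).2 (mem_subgroupOf.2 hu)
    show f ⟨u, hUN hu⟩ ∈ (T : Subgroup (↥N ⧸ U.subgroupOf N))
    rw [this]; exact one_mem _
  have hprep : ∀ T, IsPGroup p (pre T) := by
    intro T
    apply IsPGroup.map
    apply T.2.comap_of_ker_isPGroup
    rw [hf, QuotientGroup.ker_mk']
    exact hUp.comap_subtype
  have hpreinf : ∀ T T' : Sylow p (↥N ⧸ U.subgroupOf N), (T : Subgroup (↥N ⧸ U.subgroupOf N)) ⊓ T' ≠ ⊥ → U < pre T ⊓ pre T' := by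
    intro T T' h
    refine lt_of_le_of_ne (le_inf (hpreU T) (hpreU T')) fun he => h ?_
    rw [eq_bot_iff]
    intro x hx
    obtain ⟨y, rfl⟩ := hfs x
    have h1 : (y : G) ∈ pre T ⊓ pre T' := ⟨⟨y, hx.1, rfl⟩, ⟨y, hx.2, rfl⟩⟩
    rw [← he] at h1
    rw [mem_bot]
    exact (QuotientGroup.eq_one_iff y).2 (mem_subgroupOf.2 h1)
  -- the Sylow subgroups of `N` in the quotient
  let Sb : Sylow p (↥N ⧸ U.subgroupOf N) := S₀.mapSurjective hfs
  have hSb : ∀ m : ↥N, pre (f m • Sb) = cj (m : G) (P ⊓ N) := by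
    intro m
    have hSbc : (Sb : Subgroup (↥N ⧸ U.subgroupOf N)) = (S₀ : Subgroup ↥N).map f := rfl
    have hmem : ∀ y : ↥N, f y ∈ (Sb : Subgroup (↥N ⧸ U.subgroupOf N)) ↔ (y : G) ∈ P ⊓ N := by
      intro y
      rw [hSbc]
      constructor
      · rintro ⟨z, hz, hzy⟩
        have h1 : z⁻¹ * y ∈ U.subgroupOf N := QuotientGroup.eq.1 hzy
        have h2 : (z : G) ∈ P ⊓ N := mem_subgroupOf.1 hz
        have h3 : ((z : G))⁻¹ * y ∈ U := mem_subgroupOf.1 h1
        have h4 := mul_mem h2 (hlt.le h3)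
        rwa [mul_inv_cancel_left] at h4
      · intro hy
        exact ⟨y, mem_subgroupOf.2 hy, rfl⟩
    have hmem2 : ∀ y : ↥N, f y ∈ ((f m • Sb : Sylow p (↥N ⧸ U.subgroupOf N)) : Subgroup (↥N ⧸ U.subgroupOf N)) ↔
        (y : G) ∈ cj (m : G) (P ⊓ N) := by
      intro y
      rw [H56.SylGraph.coe_smul_sylow, mem_cj, mem_cj, ← map_inv, ← map_mul, ← map_mul, hmem]
      rfl
    ext x
    constructor
    · rintro ⟨y, hy, rfl⟩
      exact (hmem2 y).1 hy
    · intro hx
      have hxN : x ∈ N := by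
        have h1 : cj (m : G) (P ⊓ N) ≤ N := by
          rw [cj_le_iff, cj_eq_self_of_mem (N.inv_mem m.2)]; exact inf_le_right
        exact h1 hx
      exact ⟨⟨x, hxN⟩, (hmem2 ⟨x, hxN⟩).2 hx, rfl⟩
  obtain ⟨k, c, h0, hk, -, hadj⟩ := hc Sb (f ⟨n, hn⟩ • Sb)
  have key : ∀ i : Fin (k + 1), ∀ Q : Subgroup G, IsSyl p Q ⊤ → pre (c i) ≤ Q → Reach p P U Q := by
    intro i
    induction i using Fin.induction with
    | zero =>
      intro Q hQ hle
      rw [h0] at hle
      have h1 := hSb 1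
      rw [map_one, one_smul, OneMemClass.coe_one, cj_one] at h1
      rw [h1] at hle
      exact bigger ih (Reach.refl U) hQ (lt_of_lt_of_le hlt (le_inf inf_le_left hle))
    | succ i ihi =>
      intro Q hQ hle
      obtain ⟨Q', hQ', hle'⟩ := exists_isSyl_ge (p := p) (hprep (c i.castSucc)) le_top
      exact bigger ih (ihi Q' hQ' hle') hQ (lt_of_lt_of_le (hpreinf _ _ (hadj i).2) (inf_le_inf hle' hle))
  apply key (Fin.last k) _ (syl_cj hP n)
  rw [hk, hSb]
  exact cj_le_cj.2 inf_le_left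

/-- the step at an extremal subgroup -/
theorem reach_extremal (P : Sylow p G) {U : Subgroup G} (hUP : U < (P : Subgroup G)) (ih : IH p (P : Subgroup G) (Nat.card U))
    (hS : IsSyl p ((P : Subgroup G) ⊓ normalizer (U : Set G)) (normalizer (U : Set G)))
    {Q : Subgroup G} (hQ : IsSyl p Q ⊤) (hUQ : U ≤ Q) : Reach p (P : Subgroup G) U Q := by
  classical
  have hP : IsSyl p (P : Subgroup G) ⊤ := isSyl_top P
  set N := normalizer (U : Set G) with hN
  have hlt : U < (P : Subgroup G) ⊓ N := lt_inf_normalizer_of_isPGroup P.2 hUP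
  have hUp : IsPGroup p U := P.2.to_le hUP.le
  have hCN : centralizer (U : Set G) ≤ N := centralizer_le_normalizer _
  have hNC : N ≤ normalizer (centralizer (U : Set G) : Set G) := H36.CharTwoLocal.normalizer_le_normalizer_centralizer U
  suffices hmain : ∀ n ∈ N, Reach p (P : Subgroup G) U (cj n P) by
    have hUQ' : U < Q := by
      refine lt_of_le_of_ne hUQ fun h => ?_
      have h1 : Nat.card Q = Nat.card (P : Subgroup G) := hQ.card_eq_card hP
      have h2 : Nat.card U < Nat.card (P : Subgroup G) :=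
        Set.ncard_lt_ncard (s := (U : Set G)) (t := ((P : Subgroup G) : Set G)) hUP (Set.toFinite _)
      rw [← h1, ← h] at h2
      exact lt_irrefl _ h2
    have h3 : U < Q ⊓ N := lt_inf_normalizer_of_isPGroup hQ.isPGroup hUQ'
    obtain ⟨n, hn, hle⟩ := hS.exists_conj_ge (hQ.isPGroup.to_le inf_le_left) (inf_le_right : Q ⊓ N ≤ N)
    refine bigger ih (hmain n hn) hQ (lt_of_lt_of_le h3 (le_inf ?_ inf_le_left))
    exact hle.trans (cj_le_cj.2 inf_le_left)
  intro n hn
  -- a normal subgroup which is covered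
  have hcov : ∀ K : Subgroup G, K ≤ N → N ≤ normalizer (K : Set G) →
      (∀ k ∈ K, ∃ c ∈ centralizer (U : Set G), ∃ s ∈ (P : Subgroup G) ⊓ K, k = c * s) → U < (P : Subgroup G) ⊓ K →
      Reach p (P : Subgroup G) U (cj n P) := by
    intro K hK hKn hdec hltK
    obtain ⟨c, hc, m, rfl, hm⟩ := reach_of_normal hP ih hS hK hKn hdec hltK hn
    rw [← cj_cj]
    exact centralizer_reach hc hm
  -- (a)
  by_cases hcent : (P : Subgroup G) ⊓ centralizer (U : Set G) ≤ U
  swap
  · apply hcov (U ⊔ centralizer (U : Set G)) (sup_le le_normalizer hCN)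
    · rw [le_normalizer_iff_forall_cj]
      intro g hg
      rw [cj_sup, mem_normalizer_iff_cj.1 hg, mem_normalizer_iff_cj.1 (hNC hg)]
    · intro k hk
      rw [sup_comm] at hk
      obtain ⟨c, hc, u, hu, rfl⟩ := H39.SFMin.mem_sup_of_norm hCN hk
      exact ⟨c, hc, u, mem_inf.2 ⟨hUP.le hu, mem_sup_left hu⟩, rfl⟩
    · refine lt_of_le_of_ne (le_inf hUP.le le_sup_left) fun h => hcent ?_
      have h1 : (P : Subgroup G) ⊓ centralizer (U : Set G) ≤ (P : Subgroup G) ⊓ (U ⊔ centralizer (U : Set G)) :=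
        inf_le_inf_left _ le_sup_right
      exact h1.trans h.ge
  -- (b)
  by_cases hrad : ∀ X : Subgroup G, X ≤ N →
        (∀ n ∈ N, X.map (MulAut.conj n).toMonoidHom = X) →
        U ⊔ centralizer (U : Set G) ≤ X →
        (∃ k : ℕ, (U ⊔ centralizer (U : Set G)).relIndex X = p ^ k) →
        X = U ⊔ centralizer (U : Set G)
  swap
  · push Not at hrad
    obtain ⟨X, hXN, hXn, hUX, ⟨k, hk⟩, hXne⟩ := hrad
    have hXN' : N ≤ normalizer (X : Set G) := le_normalizer_iff_forall_cj.2 hXn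
    have hsylX : IsSyl p ((P : Subgroup G) ⊓ X) X := by
      have := hS.inf_normal hXN' hXN
      rwa [inf_assoc, inf_eq_right.2 hXN] at this
    have hXeq : X = (U ⊔ centralizer (U : Set G)) ⊔ ((P : Subgroup G) ⊓ X) :=
      H38.Goldschmidt.eq_sup_of_relIndex_eq_pow hUX hsylX hk
    have hUPX : U ≤ (P : Subgroup G) ⊓ X := le_inf hUP.le (le_sup_left.trans hUX)
    have hXeq' : X = ((P : Subgroup G) ⊓ X) ⊔ centralizer (U : Set G) := by
      refine le_antisymm ?_ (sup_le inf_le_right (le_sup_right.trans hUX))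
      conv_lhs => rw [hXeq]
      exact sup_le (sup_le (hUPX.trans le_sup_left) le_sup_right) le_sup_left
    apply hcov X hXN hXN'
    · intro k hk
      rw [hXeq'] at hk
      obtain ⟨s, hs, c, hc, rfl⟩ := H39.SFMin.mem_sup_of_norm ((inf_le_right.trans hXN).trans hNC) hk
      refine ⟨s * c * s⁻¹, ?_, s, hs, by group⟩
      exact (mem_normalizer_iff.1 (hNC (hXN (mem_inf.1 hs).2)) c).1 hc
    · refine lt_of_le_of_ne hUPX fun h => hXne ?_
      rw [← h] at hXeq'
      exact hXeq'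
  -- the core
  obtain ⟨hCle, hdir⟩ := H36.AlpGold.family_props P hUP.le hS hcent hrad
  have hcore : (pPrimePCore p ↥N).map N.subtype = U ⊔ centralizer (U : Set G) := by
    obtain ⟨h1, h2, h3, -, h4⟩ := hdir
    apply le_antisymm
    · change H36.AlpGold.pppc p N ≤ _
      rw [← h4]
      refine sup_le ?_ le_sup_left
      refine le_trans ?_ le_sup_right
      intro x hx
      rw [mem_centralizer_iff]
      intro u hu
      exact (h3 x hx u hu).symm
    · exact sup_le h2 hCle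
  by_cases hconn : IsSylowChainConnected p (↥N ⧸ U.subgroupOf N)
  · exact reach_of_connected hP hUP.le ih hS hlt hconn hn
  -- the non-connected case
  have hd : p ∣ U.relIndex N := by
    rw [← relIndex_mul_relIndex U ((P : Subgroup G) ⊓ N) N hlt.le inf_le_right]
    apply Dvd.dvd.mul_right
    obtain ⟨j, hj⟩ := (P.2.to_le (inf_le_left : (P : Subgroup G) ⊓ N ≤ P)).index (U.subgroupOf ((P : Subgroup G) ⊓ N))
    rw [relIndex, hj]
    rcases Nat.eq_zero_or_pos j with rfl | hj0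
    · exfalso
      rw [pow_zero, ← relIndex, relIndex_eq_one] at hj
      exact hlt.not_ge hj
    · exact dvd_pow_self p hj0.ne'
  obtain ⟨X, ⟨hX1, hX2, hX3, hX4⟩, hXmin⟩ := exists_X hconn hd
  have hXn : N ≤ normalizer (X : Set G) := (normal_subgroupOf_iff_le_normalizer hX2).1 hX3
  have hsylX : IsSyl p ((P : Subgroup G) ⊓ X) X := by
    have := hS.inf_normal hXn hX2
    rwa [inf_assoc, inf_eq_right.2 hX2] at this
  obtain ⟨k, hk⟩ := H38.PPrime.relIndex_eq_pow (p := p) (K := H52.PRes.resOf p X) (X := X) (H52.PRes.le_normalizer_resOf X)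
    (H52.PRes.pMod_resOf X)
  have hXeq : X = H52.PRes.resOf p X ⊔ ((P : Subgroup G) ⊓ X) :=
    H38.Goldschmidt.eq_sup_of_relIndex_eq_pow (H52.PRes.resOf_le X) hsylX hk
  have hltX : U < (P : Subgroup G) ⊓ X := by
    refine lt_of_le_of_ne (le_inf hUP.le hX1) fun h => ?_
    rw [← h] at hsylX
    exact hsylX.not_dvd hX4
  obtain ⟨x, hx, m, rfl, hm⟩ := reach_of_normal (D := H52.PRes.resOf p X) hP ih hS hX2 hXn (by
    intro k hk
    rw [hXeq, sup_comm] at hk
    obtain ⟨s, hs, c, hc, rfl⟩ := H39.SFMin.mem_sup_of_norm (inf_le_right.trans (H52.PRes.le_normalizer_resOf X)) hk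
    refine ⟨s * c * s⁻¹, ?_, s, hs, by group⟩
    exact (mem_normalizer_iff.1 (H52.PRes.le_normalizer_resOf X (mem_inf.1 hs).2) c).1 hc) hltX hn
  have hxN : x ∈ N := hX2 (H52.PRes.resOf_le X hx)
  obtain ⟨c, hc, L, hL, hmL⟩ := hm
  rw [← cj_cj, hmL]
  refine ⟨x * c * x⁻¹, (mem_normalizer_iff.1 (hNC hxN) c).1 hc, (U, X, x) :: L, ⟨?_, le_rfl, ?_⟩, ?_⟩
  · exact ⟨hUP.le, hS.not_dvd, hcent, hcore, hconn, ⟨hX1, hX2, hX3, hX4, fun Y h1 h2 h3 h4 => hXmin Y ⟨h1, h2, h3, h4⟩⟩, hx⟩
  · rw [mem_normalizer_iff_cj.1 (inv_mem hxN)]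
    exact hL
  · rw [cj_cj, pr_cons]
    congr 1
    group

/-- Main theorem: every Sylow subgroup containing `A` is reached. -/
theorem reach_all (P : Sylow p G) : ∀ (k : ℕ) (A : Subgroup G), A ≤ (P : Subgroup G) →
    Nat.card (P : Subgroup G) ≤ Nat.card A + k → ∀ Q, IsSyl p Q ⊤ → A ≤ Q → Reach p (P : Subgroup G) A Q := by
  classical
  intro k
  induction k with
  | zero =>
    intro A hA hk Q hQ hAQ
    have h1 : A = (P : Subgroup G) := Subgroup.eq_of_le_of_card_ge hA (by simpa using hk)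
    have h2 : Q = (P : Subgroup G) := by
      rw [h1] at hAQ
      exact (Subgroup.eq_of_le_of_card_ge hAQ (hQ.card_eq_card (isSyl_top P)).le).symm
    rw [h2]; exact Reach.refl A
  | succ k ihk =>
    intro A hA hk Q hQ hAQ
    have ih : IH p (P : Subgroup G) (Nat.card A) := fun B hB hAB Q hQ hBQ => ihk B hB (by omega) Q hQ hBQ
    by_cases hAP : A = (P : Subgroup G)
    · exact ihk A hA (by rw [hAP]; omega) Q hQ hAQ
    have hP : IsSyl p (P : Subgroup G) ⊤ := isSyl_top P
    -- a conjugate with largest normalizer in `P`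
    obtain ⟨w, ⟨⟨c, hc, L, hL, hwc⟩, hwP⟩, hmax⟩ := Set.exists_max_image
      {w : G | (∃ c ∈ centralizer (A : Set G), ∃ L, Chain p (P : Subgroup G) A L ∧ w = c * pr L) ∧ cj w⁻¹ A ≤ (P : Subgroup G)}
      (fun w => Nat.card ((P : Subgroup G) ⊓ normalizer ((cj w⁻¹ A : Subgroup G) : Set G) : Subgroup G)) (Set.toFinite _)
      ⟨1, ⟨1, one_mem _, [], trivial, by simp [pr]⟩, by simpa using hA⟩
    set U := cj w⁻¹ A with hU
    have hUc : Nat.card U = Nat.card A := card_cj _ _
    have hUP : U < (P : Subgroup G) := by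
      refine lt_of_le_of_ne hwP fun h => hAP ?_
      apply Subgroup.eq_of_le_of_card_ge hA
      rw [← hUc, h]
    have ihU : IH p (P : Subgroup G) (Nat.card U) := by rw [hUc]; exact ih
    have hS : IsSyl p ((P : Subgroup G) ⊓ normalizer (U : Set G)) (normalizer (U : Set G)) := by
      obtain ⟨T, hT, hTle⟩ := exists_isSyl_ge (p := p) (P.2.to_le (inf_le_left : (P : Subgroup G) ⊓ normalizer (U : Set G) ≤ P))
        (inf_le_right : (P : Subgroup G) ⊓ normalizer (U : Set G) ≤ normalizer (U : Set G))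
      obtain ⟨R, hR, hTR⟩ := exists_isSyl_ge (p := p) hT.isPGroup (le_top : T ≤ ⊤)
      have hUlt : U < (P : Subgroup G) ⊓ normalizer (U : Set G) := lt_inf_normalizer_of_isPGroup P.2 hUP
      have h1 : Reach p (P : Subgroup G) U R :=
        bigger ihU (Reach.refl U) hR (lt_of_lt_of_le hUlt (le_inf inf_le_left (hTle.trans hTR)))
      obtain ⟨c', hc', L', hL', hRw⟩ := h1
      set w' := c' * pr L' with hw'
      -- the element `w w'`
      have h2 : ((∃ c ∈ centralizer (A : Set G), ∃ L, Chain p (P : Subgroup G) A L ∧ w * w' = c * pr L) ∧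
          cj (w * w')⁻¹ A ≤ (P : Subgroup G)) := by
        constructor
        · have hcA : cj c⁻¹ A = A := cj_eq_self_of_mem_centralizer (inv_mem hc)
          have h1 : w * c' * w⁻¹ ∈ centralizer (A : Set G) := by
            have h2 : w * c' * w⁻¹ ∈ cj w (centralizer ((cj w⁻¹ A : Subgroup G) : Set G)) := conj_mem_cj.2 hc'
            rwa [cj_centralizer, cj_cj_inv] at h2
          refine ⟨w * c' * w⁻¹ * c, mul_mem h1 hc, L ++ L', hL.append ?_, ?_⟩
          · rw [hU, hwc, mul_inv_rev, ← cj_cj, hcA] at hL'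
            exact hL'
          · rw [pr_append, hw']
            have : pr L = c⁻¹ * w := by rw [hwc]; group
            rw [this]; group
        · rw [mul_inv_rev, ← cj_cj, ← hU, cj_le_iff, inv_inv, ← hRw]
          exact (hUlt.le.trans hTle).trans hTR
      have h3 : Nat.card ((P : Subgroup G) ⊓ normalizer ((cj (w * w')⁻¹ A : Subgroup G) : Set G) : Subgroup G) ≤
        Nat.card ((P : Subgroup G) ⊓ normalizer (U : Set G) : Subgroup G) := hmax (w * w') h2
      have h4 : Nat.card T ≤ Nat.card ((P : Subgroup G) ⊓ normalizer ((cj (w * w')⁻¹ A : Subgroup G) : Set G) : Subgroup G) := by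
        rw [← card_cj w'⁻¹ T]
        apply Nat.le_of_dvd Nat.card_pos
        apply card_dvd_of_le
        refine le_inf ?_ ?_
        · rw [cj_le_iff, inv_inv, ← hRw]; exact hTR
        · have e : cj (w * w')⁻¹ A = cj w'⁻¹ U := by rw [hU, cj_cj, mul_inv_rev]
          rw [e, ← cj_normalizer]
          exact cj_le_cj.2 hT.le
      have h5 : T = (P : Subgroup G) ⊓ normalizer (U : Set G) :=
        (Subgroup.eq_of_le_of_card_ge hTle (h4.trans h3)).symm
      rw [← h5]; exact hT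
    have h6 := reach_extremal P hUP ihU hS (syl_cj hQ w⁻¹) (cj_le_cj.2 hAQ)
    rw [hU, hwc] at h6
    have h7 := reach_comp hc hL h6
    rwa [cj_cj_inv] at h7

end H56.StrAlp
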